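import Cfsg.Agent.H76.U4Oa

/-! U4 tower: `JobFam`. -/

set_option autoImplicit false

open Subgroup H90.RF H92 Cfsg H28.U4
open H90.U5 (BF)

universe v

namespace H76.U4O

variable {K : Type*} [Field K] [Finite K] {T : BF K} {p : ℕ} {Y : Subgroup (Equiv.Perm (Co T))}

omit [Finite K] in
theorem card_Z : Nat.card (sZ T) = Nat.card T.κ :=
  Nat.card_congr ⟨fun u => ⟨u.1.d, A_d u.2.1⟩, fun l => ⟨xd T l.1 l.2, rfl, rfl, rfl⟩,
    fun u => Subtype.ext (eq_of_Z ⟨rfl, rfl, rfl⟩ u.2 rfl), fun _ => rfl⟩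

omit [Finite K] in
theorem card_D : Nat.card (sD T) = Nat.card T.κ ^ 3 := by
  rw [pow_succ, ← card_K, ← Nat.card_prod]
  exact Nat.card_congr ⟨fun u => (u.1.c, ⟨u.1.d, A_d u.2.1⟩),
    fun l => ⟨va T 0 l.1 l.2.1 (map_zero _) l.2.2, rfl, rfl⟩,
    fun u => Subtype.ext (Co.ext u.2.1.symm u.2.2.symm rfl rfl), fun _ => rfl⟩

omit [Finite K] in
theorem card_A : Nat.card (sA T) = Nat.card T.κ * Nat.card T.κ ^ 3 := by
  rw [pow_succ, ← card_K, ← Nat.card_prod, ← Nat.card_prod]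
  exact Nat.card_congr ⟨fun u => (⟨u.1.b, u.1.hb⟩, u.1.c, ⟨u.1.d, A_d u.2⟩),
    fun l => ⟨va T l.1.1 l.2.1 l.2.2.1 l.1.2 l.2.2.2, rfl⟩,
    fun u => Subtype.ext (Co.ext (Eq.symm u.2) rfl rfl rfl), fun _ => rfl⟩

/-- the image of a subgroup of `A` -/
def im (l : Lg (sA T) Y) {g : Equiv.Perm (Co T)} (hg : g ∈ Y) {H : Subgroup (Co T)} (hH : H ≤ sA T) :
    Subgroup (Co T) where
  carrier := {v | g⁻¹ v ∈ H}
  one_mem' := by
    show g⁻¹ 1 ∈ H
    rw [(l.au _ (inv_mem hg)).one]; exact one_mem _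
  mul_mem' := fun {a b} (ha : g⁻¹ a ∈ H) (hb : g⁻¹ b ∈ H) => by
    show g⁻¹ (a * b) ∈ H
    rw [(l.au _ (inv_mem hg)).mul _ (ai g a ▸ (l.au _ hg).mem _ (hH ha)) _
      (ai g b ▸ (l.au _ hg).mem _ (hH hb))]
    exact mul_mem ha hb
  inv_mem' := fun {a} (ha : g⁻¹ a ∈ H) => by
    show g⁻¹ a⁻¹ ∈ H
    rw [(l.au _ (inv_mem hg)).inv (ai g a ▸ (l.au _ hg).mem _ (hH ha))]
    exact inv_mem ha

section Im
variable (l : Lg (sA T) Y) {g : Equiv.Perm (Co T)} (hg : g ∈ Y) {H : Subgroup (Co T)} (hH : H ≤ sA T)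

omit [Finite K] in
theorem mem_im {v : Co T} : v ∈ im l hg hH ↔ g⁻¹ v ∈ H := Iff.rfl

omit [Finite K] in
theorem card_im : Nat.card (im l hg hH) = Nat.card H :=
  Nat.card_congr (Equiv.subtypeEquiv (g⁻¹ : Equiv.Perm (Co T)) fun _ => Iff.rfl)

omit [Finite K] in
theorem im_le : im l hg hH ≤ sA T := fun v hv => ai g v ▸ (l.au _ hg).mem _ (hH hv)

end Im

theorem rel_card {G : Type*} [Group G] (H L : Subgroup G) :
    H.relIndex L * Nat.card ↥(H ⊓ L) = Nat.card L := by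
  rw [← (H.subgroupOf L).index_mul_card, ← inf_subgroupOf_right,
    Nat.card_congr (subgroupOfEquivOfLe (inf_le_right : H ⊓ L ≤ L)).toEquiv, inf_subgroupOf_right]
  rfl

theorem card_sup {G : Type*} [Group G] (N H : Subgroup G) [N.Normal] :
    Nat.card ↥(H ⊔ N) * Nat.card ↥(N ⊓ H) = Nat.card N * Nat.card H := by
  rw [← rel_card N (H ⊔ N), relIndex_sup_right, inf_of_le_left le_sup_right, ← rel_card N H]
  ring

theorem inf_eq (l : Lg (sA T) Y) (o : Oa T Y) {g : Equiv.Perm (Co T)} (hg : g ∈ Y) :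
    sZ T ⊓ im l hg D_le_A = sZ T ⊓ im l hg Z_le_A :=
  le_antisymm (fun v hv => ⟨hv.1, (o _ (inv_mem hg)).1 v hv.1 hv.2⟩) fun _ hv => ⟨hv.1, Z_le hv.2⟩

omit [Finite K] in
theorem D_le (l : Lg (sA T) Y) (o : Oa T Y) {g : Equiv.Perm (Co T)} (hg : g ∈ Y) :
    sD T ≤ (sD T ⊓ im l hg D_le_A) ⊔ sZ T := fun v hv => by
  obtain ⟨z, hz, w, hw, rfl⟩ := (o g hg).2 v hv
  exact mul_mem (mem_sup_right hz) (mem_sup_left ⟨(mul_mem_cancel_left (Z_le hz)).1 hv, by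
    show g⁻¹ (g w) ∈ sD T
    rwa [ia]⟩)

theorem card_DD (l : Lg (sA T) Y) (o : Oa T Y) {g : Equiv.Perm (Co T)} (hg : g ∈ Y) :
    Nat.card ↥(sD T ⊓ im l hg D_le_A) =
      Nat.card T.κ ^ 2 * Nat.card ↥(sZ T ⊓ im l hg Z_le_A) := by
  have e := card_sup (sZ T) (sD T ⊓ im l hg D_le_A)
  rw [le_antisymm (sup_le inf_le_left Z_le) (D_le l o hg), ← inf_assoc, inf_of_le_left Z_le,
    inf_eq l o hg, card_D, card_Z] at e
  refine Nat.eq_of_mul_eq_mul_left (Nat.card_pos (α := T.κ)) (e.symm.trans ?_)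
  ring

omit [Finite K] in
theorem card_pair (l : Lg (sA T) Y) {g h : Equiv.Perm (Co T)} (hg : g ∈ Y) (hh : h ∈ Y)
    {H : Subgroup (Co T)} (hH : H ≤ sA T) :
    Nat.card ↥(im l hg hH ⊓ im l hh hH) = Nat.card ↥(H ⊓ im l (mul_mem (inv_mem hg) hh) hH) :=
  Nat.card_congr (Equiv.subtypeEquiv (g⁻¹ : Equiv.Perm (Co T)) fun v => by
    simp only [mem_inf, mem_im, mul_inv_rev, inv_inv, Equiv.Perm.mul_apply, ai])

theorem arith {n r i q : ℕ} (hn : 2 ≤ n) (hr : 2 ≤ r) (hi : r * i = q) (hq : 0 < q)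
    (h : ((n * (q - i) : ℕ) : ℤ) * ((n : ℤ) - r) ^ 2 ≤ (r * q ^ 3 : ℕ) * ((n : ℤ) * ((r : ℤ) - 1))) :
    n ≤ r * (q + 1) := by
  obtain ⟨r, rfl⟩ : ∃ m, r = m + 1 := ⟨r - 1, by omega⟩
  rw [show q - i = r * i by rw [← hi, add_mul, one_mul, Nat.add_sub_cancel]] at h
  push_cast at h
  have hi' : ((r : ℤ) + 1) * i = q := by exact_mod_cast hi
  have hn' : (0 : ℤ) < n * r := by exact_mod_cast Nat.mul_pos (by omega) (by omega)
  have hq' : (0 : ℤ) < q := by exact_mod_cast hq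
  have h1 : (i : ℤ) * ((n : ℤ) - (r + 1)) ^ 2 ≤ (r + 1) * q ^ 3 :=
    le_of_mul_le_mul_left (by linarith) hn'
  have h2 : ((n : ℤ) - (r + 1)) ^ 2 ≤ ((r + 1) * q) ^ 2 := by
    refine le_of_mul_le_mul_left ?_ hq'
    have := mul_le_mul_of_nonneg_left h1 (show (0 : ℤ) ≤ r + 1 by positivity)
    rw [← mul_assoc, hi'] at this
    linarith
  have h3 := abs_le_of_sq_le_sq' h2 (by positivity)
  have h4 : (n : ℤ) ≤ (r + 1) * (q + 1) := by linarith [h3.2]
  exact_mod_cast h4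

/-- a subgroup as a finite set -/
noncomputable def fs {G : Type*} [Group G] [Finite G] (H : Subgroup G) : Finset G :=
  (Set.toFinite (H : Set G)).toFinset

theorem mem_fs {G : Type*} [Group G] [Finite G] {H : Subgroup G} {x : G} : x ∈ fs H ↔ x ∈ H := by
  simp [fs]

theorem card_fs {G : Type*} [Group G] [Finite G] (H : Subgroup G) : (fs H).card = Nat.card H := by
  rw [fs, ← Set.ncard_eq_toFinset_card, ← Nat.card_coe_set_eq]; rfl

theorem jobFam : JobFam.{v} := by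
  intro var p _ K _ _ _ T Y s o G I X r hn hY hp hX hr hc
  classical
  have l := s.lg
  have hq : 0 < Nat.card T.κ := Nat.card_pos
  have other : ∀ g ∈ G, ∃ h ∈ G, g ≠ h := fun g _ =>
    let ⟨h, hh, e⟩ := Finset.exists_mem_ne (show 1 < G.card by omega) g; ⟨h, hh, e.symm⟩
  have hI : ∀ g (hg : g ∈ G), I ≤ im l (hY g hg) Z_le_A := fun g hg v hv =>
    let ⟨h, hh, e⟩ := other g hg; (((hp g hg h hh e).2 v).2 hv).1
  have hD : ∀ g (hg : g ∈ G), im l (hY g hg) D_le_A ≤ X := fun g hg v hv => ai g v ▸ hX g hg _ hv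
  have hII : ∀ g (hg : g ∈ G) h (hh : h ∈ G), g ≠ h →
      im l (hY g hg) Z_le_A ⊓ im l (hY h hh) Z_le_A = I := fun g hg h hh e =>
    Subgroup.ext fun v => (hp g hg h hh e).2 v
  have hr2 : 2 ≤ r := by
    by_contra h2
    obtain rfl : r = 1 := by
      rcases r with _ | r
      · omega
      · omega
    obtain ⟨g, hg⟩ := Finset.card_pos.1 (show 0 < G.card by omega)
    obtain ⟨h, hh, e⟩ := other g hg
    have e1 := eq_of_le_of_card_ge (hI h hh) (by rw [card_im, card_Z, ← hr, one_mul])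
    have e2 := eq_of_le_of_card_ge (hD g hg) (by rw [card_im, card_D, hc, one_mul])
    refine (hp g hg h hh e).1 ⟨fun z hz => hI g hg ?_, fun w hw => ?_⟩
    · rw [e1, mem_im, ia]; exact hz
    · have := hX h hh w hw
      rwa [← e2] at this
  let D : Equiv.Perm (Co T) → Finset (Co T) := fun g =>
    if hg : g ∈ Y then fs (im l hg D_le_A) else ∅
  let Z : Equiv.Perm (Co T) → Finset (Co T) := fun g =>
    if hg : g ∈ Y then fs (im l hg Z_le_A) \ fs I else ∅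
  have eD : ∀ g (hg : g ∈ G), D g = fs (im l (hY g hg) D_le_A) := fun g hg => dif_pos _
  have eZ : ∀ g (hg : g ∈ G), Z g = fs (im l (hY g hg) Z_le_A) \ fs I := fun g hg => dif_pos _
  have key := var (Co T) (Equiv.Perm (Co T)) (fs X) (G.biUnion Z) G D r (fun g hg => ?_)
    (fun g hg h hh e => ?_) (fun v hv => ?_) fun v hv => ?_
  · rw [Finset.card_biUnion, Finset.sum_const_nat (m := Nat.card T.κ - Nat.card I), card_fs, hc] at key
    · exact arith hn hr2 hr hq key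
    · intro g hg
      rw [eZ g hg, Finset.card_sdiff_of_subset fun v hv => mem_fs.2 (hI g hg (mem_fs.1 hv)), card_fs,
        card_fs, card_im, card_Z]
    · intro g hg h hh e
      refine Finset.disjoint_left.2 fun v h1 h2 => ?_
      rw [eZ g hg, Finset.mem_sdiff, mem_fs, mem_fs] at h1
      rw [eZ h hh, Finset.mem_sdiff, mem_fs] at h2
      exact h1.2 (((hp g hg h hh e).2 v).1 ⟨h1.1, h2.1⟩)
  · rw [eD g hg, card_fs, card_fs, card_im, card_D, hc]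
    exact ⟨fun v hv => mem_fs.2 (hD g hg (mem_fs.1 hv)), rfl⟩
  · have e1 : D g ∩ D h = fs (im l (hY g hg) D_le_A ⊓ im l (hY h hh) D_le_A) := by
      ext v; rw [eD g hg, eD h hh, Finset.mem_inter, mem_fs, mem_fs, mem_fs, mem_inf]
    rw [e1, card_fs, card_fs, card_pair, card_DD l o, ← card_pair l (hY g hg) (hY h hh),
      hII g hg h hh e, hc, pow_succ _ 2, mul_comm (_ ^ 2) (Nat.card T.κ)]
    nth_rewrite 2 [← hr]
    ring
  · obtain ⟨g, hg, hv⟩ := Finset.mem_biUnion.1 hv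
    rw [eZ g hg, Finset.mem_sdiff, mem_fs] at hv
    exact mem_fs.2 (hD g hg (Z_le hv.1))
  · obtain ⟨g, hg, hv⟩ := Finset.mem_biUnion.1 hv
    rw [eZ g hg, Finset.mem_sdiff, mem_fs, mem_fs] at hv
    refine ⟨g, hg, by rw [eD g hg, mem_fs]; exact Z_le hv.1, fun h hh hv' => by_contra fun e => ?_⟩
    rw [eD h hh, mem_fs, mem_im] at hv'
    have := (o _ (mul_mem (inv_mem (hY h hh)) (hY g hg))).1 _ hv.1
    rw [Equiv.Perm.mul_apply, ai] at this
    exact hv.2 (((hp h hh g hg e).2 v).1 ⟨this hv', hv.1⟩)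

end H76.U4O
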