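import Cfsg.Agent.Base
import Cfsg.Agent.H28.U4Gen
import Mathlib.Analysis.Fourier.FiniteAbelian.PontryaginDuality

/-! U4 tower: `JobOa`. -/

set_option autoImplicit false

open Subgroup H90.RF H92 Cfsg H28.U4
open H90.U5 (BF)

universe v

namespace H76.U4O

variable {K : Type*} [Field K] [Finite K] {T : BF K} {p : ℕ} {Y : Subgroup (Equiv.Perm (Co T))}

omit [Finite K] in
theorem card_K : Nat.card K = Nat.card T.κ ^ 2 := by
  rw [sq, ← Nat.card_prod]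
  exact (Nat.card_congr (Equiv.ofBijective (fun x : T.κ × T.κ => (x.1 : K) + x.2 * T.ω)
    ⟨fun _ _ h => Prod.ext (T.pair_inj h).1 (T.pair_inj h).2, fun t =>
      let ⟨x, y, e⟩ := T.exists_pair t; ⟨(x, y), e.symm⟩⟩)).symm

theorem ia {X : Type*} (α : Equiv.Perm X) (x : X) : α⁻¹ (α x) = x := α.symm_apply_apply x
theorem ai {X : Type*} (α : Equiv.Perm X) (x : X) : α (α⁻¹ x) = x := α.apply_symm_apply x

theorem one_lt_κ : 1 < Nat.card T.κ := Finite.one_lt_card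

theorem stab [Fact p.Prime] [CharP K p] (s : Sa T p Y) (h : TI T Y) {α : Equiv.Perm (Co T)}
    (hα : α ∈ Y) {C : Subgroup (Equiv.Perm (Co T))} (hC : C ≤ Y) {t : K} (ht : t ≠ 0)
    (h1 : ux T t ∈ C) (h2 : ∀ r, α * ux T r * α⁻¹ ∈ C) : ∃ γ ∈ C, PZ T ⇑(γ⁻¹ * α) := by
  have sy := (s.syl.conj hα).mono (C := C) (by
    rintro _ ⟨u, hu, rfl⟩
    obtain ⟨r, rfl⟩ := mem_U.1 hu
    exact h2 r) hC
  obtain ⟨γ, hγ, e⟩ := sy.exists_conj (C := zpowers (ux T t))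
    (H92.isPGroup_iff_forall.2 (by
      rintro _ ⟨n, rfl⟩
      exact ⟨1, by rw [pow_one, ← zpow_natCast, ← zpow_mul, mul_comm, zpow_mul, zpow_natCast, ux_pow,
        one_zpow]⟩)) (zpowers_le.2 h1)
  obtain ⟨u, hu, e⟩ := e _ (mem_zpowers _)
  obtain ⟨r, rfl⟩ := mem_U.1 hu
  refine ⟨γ, hγ, h _ (mul_mem (inv_mem (hC hγ)) hα) t r ht ?_⟩
  have e' : α * ux T r * α⁻¹ = γ * ux T t * γ⁻¹ := e
  calc _ = γ⁻¹ * (α * ux T r * α⁻¹) * γ := by group
    _ = _ := by rw [e']; group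

theorem oa1 [Fact p.Prime] [CharP K p] (s : Sa T p Y) (h : TI T Y) {α : Equiv.Perm (Co T)}
    (hα : α ∈ Y) {z : Co T} (hz : z ∈ sZ T) (hD : α z ∈ sD T) : α z ∈ sZ T := by
  by_contra hn
  have hc : (α z).c ≠ 0 := fun e => hn ⟨hD.1, hD.2, e⟩
  obtain ⟨γ, hγ, k⟩ := stab s h hα (C := Y ⊓ MulAction.stabilizer _ (α z)) inf_le_left
    (t := T.ε * (α z).c) (mul_ne_zero T.ε_ne hc) ⟨s.ux_mem _, by
      obtain ⟨a, b, c, d⟩ := ux_co (T.ε * (α z).c) hD.1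
      refine Co.ext (a.trans hD.1.symm) b (c.trans (by rw [hD.2]; ring)) (d.trans ?_)
      rw [hD.2, map_mul, T.σε]; ring⟩ fun r =>
    mem_inf.2 ⟨mul_mem (mul_mem hα (s.ux_mem r)) (inv_mem hα), by
      show α (ux T r (α⁻¹ (α z))) = α z
      rw [ia, ux_Z r hz]⟩
  have e : γ⁻¹ (α z) = α z := (inv_mem hγ).2
  exact hn (e ▸ k.1 z hz)

/-- the coordinates on `A` -/
def co (u : Co T) : K × K × K := (u.b, u.c, u.d)

omit [Finite K] in
theorem co_mul {u w : Co T} (hu : u ∈ sA T) (hw : w ∈ sA T) : co (u * w) = co u + co w := by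
  obtain ⟨a, b, c⟩ := mul_A hu hw
  simp only [co, a, b, c, Prod.mk_add_mk]

omit [Finite K] in
theorem co_inj {u w : Co T} (hu : u ∈ sA T) (hw : w ∈ sA T) (h : co u = co w) : u = w := by
  simp only [co, Prod.mk.injEq] at h
  exact Co.ext (hu.trans hw.symm) h.1 h.2.1 h.2.2

omit [Finite K] in
theorem co_inv {u : Co T} (hu : u ∈ sA T) : co u⁻¹ = -co u :=
  eq_neg_of_add_eq_zero_left (by rw [← co_mul (inv_mem hu) hu, inv_mul_cancel]; rfl)

/-- `Z · α D` in coordinates -/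
def M0 {α : Co T → Co T} (a : Au (sA T) α) : AddSubgroup (K × K × K) where
  carrier := {x | ∃ z ∈ sZ T, ∃ w ∈ sD T, x = co z + co (α w)}
  zero_mem' := ⟨1, one_mem _, 1, one_mem _, by rw [a.one]; exact (add_zero _).symm⟩
  add_mem' := by
    rintro _ _ ⟨z, hz, w, hw, rfl⟩ ⟨z', hz', w', hw', rfl⟩
    refine ⟨_, mul_mem hz hz', _, mul_mem hw hw', ?_⟩
    rw [a.mul _ hw.1 _ hw'.1, co_mul hz.1 hz'.1, co_mul (a.mem _ hw.1) (a.mem _ hw'.1)]; abel
  neg_mem' := by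
    rintro _ ⟨z, hz, w, hw, rfl⟩
    refine ⟨_, inv_mem hz, _, inv_mem hw, ?_⟩
    rw [a.inv hw.1, co_inv hz.1, co_inv (a.mem _ hw.1)]; abel

/-- the fixed field as an additive group -/
def kA (T : BF K) : AddSubgroup K where
  carrier := {x | T.σ x = x}
  zero_mem' := map_zero _
  add_mem' := fun {a b} (ha : T.σ a = a) (hb : T.σ b = b) => by
    show T.σ (a + b) = a + b
    rw [map_add, ha, hb]
  neg_mem' := fun {a} (ha : T.σ a = a) => by
    show T.σ (-a) = -a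
    rw [map_neg, ha]

theorem exists_line (ψ : AddChar K ℂ) : ∃ t : K, t ≠ 0 ∧ ∀ b, T.σ b = b → ψ (t * b) = 1 := by
  classical
  have := Fintype.ofFinite (kA T)
  have := Fintype.ofFinite K
  obtain ⟨s, t, hst, e⟩ := Fintype.exists_ne_map_eq_of_card_lt
    (fun t : K => ψ.compAddMonoidHom ((AddMonoidHom.mulLeft t).comp (kA T).subtype)) (by
      rw [AddChar.card_eq, ← Nat.card_eq_fintype_card, ← Nat.card_eq_fintype_card, card_K (T := T),
        show Nat.card (kA T) = Nat.card T.κ from rfl]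
      have := one_lt_κ (T := T)
      nlinarith)
  refine ⟨s - t, sub_ne_zero.2 hst, fun b hb => ?_⟩
  have e' : ψ (s * b) = ψ (t * b) := DFunLike.congr_fun e ⟨b, hb⟩
  rw [sub_mul, AddChar.map_sub_eq_div, e', div_self (ψ.val_isUnit _).ne_zero]

theorem oa2 [Fact p.Prime] [CharP K p] (s : Sa T p Y) (h : TI T Y) {α : Equiv.Perm (Co T)}
    (hα : α ∈ Y) {v : Co T} (hv : v ∈ sD T) : ∃ z ∈ sZ T, ∃ w ∈ sD T, v = z * α w := by
  have a := s.lg.au α hα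
  by_contra hn
  have hM : (QuotientAddGroup.mk (co v) : (K × K × K) ⧸ M0 a) ≠ 0 := fun e => by
    obtain ⟨z, hz, w, hw, e⟩ := (QuotientAddGroup.eq_zero_iff _).1 e
    exact hn ⟨z, hz, w, hw, co_inj hv.1 (mul_mem hz.1 (a.mem _ hw.1))
      (e.trans (co_mul hz.1 (a.mem _ hw.1)).symm)⟩
  obtain ⟨ψ0, hψ⟩ := AddChar.exists_apply_ne_zero.2 hM
  let ψ : AddChar (K × K × K) ℂ := ψ0.compAddMonoidHom (QuotientAddGroup.mk' (M0 a))
  have h1 : ∀ x ∈ M0 a, ψ x = 1 := fun x hx => by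
    show ψ0 (QuotientAddGroup.mk x) = 1
    rw [(QuotientAddGroup.eq_zero_iff _).2 hx, AddChar.map_zero_eq_one]
  have hZ : ∀ z ∈ sZ T, ψ (co z) = 1 := fun z hz =>
    h1 _ ⟨z, hz, 1, one_mem _, by rw [a.one]; exact (add_zero _).symm⟩
  have hD : ∀ w ∈ sD T, ψ (co (α w)) = 1 := fun w hw =>
    h1 _ ⟨1, one_mem _, w, hw, (zero_add _).symm⟩
  obtain ⟨t, ht, hl⟩ := exists_line (T := T)
    (ψ.compAddMonoidHom ((AddMonoidHom.inr K (K × K)).comp (AddMonoidHom.inl K K)))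
  let C : Subgroup (Equiv.Perm (Co T)) :=
    { carrier := {γ | γ ∈ Y ∧ ∀ u ∈ sA T, ψ (co (γ u)) = ψ (co u)}
      one_mem' := ⟨one_mem _, fun _ _ => rfl⟩
      mul_mem' := fun {x y} hx hy => ⟨mul_mem hx.1 hy.1, fun u hu =>
        (hx.2 _ ((s.lg.au y hy.1).mem u hu)).trans (hy.2 u hu)⟩
      inv_mem' := fun {x} hx => ⟨inv_mem hx.1, fun u hu => by
        rw [← hx.2 _ ((s.lg.au _ (inv_mem hx.1)).mem u hu), ai]⟩ }
  obtain ⟨γ, hγ, k⟩ := stab s h hα (C := C) (fun _ hx => hx.1) ht ⟨s.ux_mem t, fun u hu => by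
      obtain ⟨-, b, c, d⟩ := ux_co t hu
      have hd : T.σ (t * T.σ u.c + T.σ t * u.c + t * T.σ t * u.b) =
          t * T.σ u.c + T.σ t * u.c + t * T.σ t * u.b := by simp [T.sq]; ring
      have e : co (ux T t u) = co u + (0, t * u.b, 0) + co (xd T _ hd) := by
        simp only [co, b, c, d, xd, Prod.mk_add_mk, add_zero, add_assoc]
      have e2 : ψ (0, t * u.b, 0) = 1 := hl _ u.hb
      rw [e, AddChar.map_add_eq_mul, AddChar.map_add_eq_mul, e2, hZ (xd T _ hd) ⟨rfl, rfl, rfl⟩, mul_one,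
        mul_one]⟩ fun r => ⟨mul_mem (mul_mem hα (s.ux_mem r)) (inv_mem hα), fun u hu => by
      obtain ⟨w, hw, rfl⟩ := a.sur u hu
      show ψ (co (α (ux T r (α⁻¹ (α w))))) = _
      rw [ia, ux_apply r hw, conj_eq_cm, a.mul _ hw _ (cm_D _ _).1,
        co_mul hu (a.mem _ (cm_D _ _).1), AddChar.map_add_eq_mul, hD _ (cm_D _ _), mul_one]⟩
  have e := hγ.2 v hv.1
  have hw := k.inv.2 v hv
  have e2 := hD _ hw
  rw [mul_inv_rev, inv_inv, Equiv.Perm.mul_apply, ai, e] at e2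
  exact hψ e2

theorem jobOa : JobOa.{v} := fun _ _ _ _ _ _ _ _ s h _ hα =>
  ⟨fun _ hz hD => oa1 s h hα hz hD, fun _ hv => oa2 s h hα hv⟩

end H76.U4O
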