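/- Tower O84, slot CL: the conjugacy classes. -/
import Cfsg.Agent.H36.O84Spec

set_option autoImplicit false

namespace H76.O84CL

open H36.O84

universe u

theorem cS_cS {Γ : Type*} [Group Γ] (g h : Γ) (H : Subgroup Γ) : cS g (cS h H) = cS (g * h) H := by
  unfold cS
  rw [Subgroup.map_map, map_mul]
  rfl

theorem btw_dvd {Γ : Type*} [Group Γ] {J H : Subgroup Γ} {n : ℕ} (h : Btw J n H) :
    n ∣ J.relIndex (Subgroup.normalizer (J : Set Γ)) :=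
  ⟨_, h.2.2 ▸ (Subgroup.relIndex_mul_relIndex J H _ h.1 h.2.1).symm⟩

theorem jobCL : JobCL.{u} := by
  intro Γ _ _ Om _ F ⟨p1, p2, p3⟩ syl
  have i0 : (F.J 0).relIndex (Subgroup.normalizer (F.J 0 : Set Γ)) = 12 := F.idx 0
  have i1 : (F.J 1).relIndex (Subgroup.normalizer (F.J 1 : Set Γ)) = 4 := F.idx 1
  refine ⟨⟨F.J, F.iso, F.nc, F.all⟩, ?_, ?_, ?_⟩
  · obtain ⟨⟨H0, h0⟩, hc⟩ := syl (F.J 0) 3 1 4 Nat.prime_three (by norm_num) i0
    refine ⟨fun _ => H0, fun _ => p2 _ _ _ h0, fun i j _ => Subsingleton.elim i j, fun H hH => ?_⟩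
    obtain ⟨g, i, hb⟩ := p1 3 H hH
    fin_cases i
    · obtain ⟨g', e⟩ := hc _ _ hb h0
      exact ⟨0, g' * g, (cS_cS g' g H).symm.trans e⟩
    · exact absurd (i1 ▸ btw_dvd hb) (by norm_num)
  · obtain ⟨⟨H0, h0⟩, hc0⟩ := syl (F.J 0) 2 2 3 Nat.prime_two (by norm_num) i0
    obtain ⟨⟨H1, h1⟩, hc1⟩ := syl (F.J 1) 2 2 1 Nat.prime_two (by norm_num) i1
    have hb : ∀ i : Fin 2, Btw (F.J i) 4 (![H0, H1] i) := fun i => by
      fin_cases i
      exacts [h0, h1]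
    refine ⟨![H0, H1], fun i => p2 _ _ _ (hb i), fun i j e => p3 _ _ i j _ _ (hb i) (hb j) e, fun H hH => ?_⟩
    obtain ⟨g, i, hb⟩ := p1 4 H hH
    fin_cases i
    · obtain ⟨g', e⟩ := hc0 _ _ hb h0
      exact ⟨0, g' * g, (cS_cS g' g H).symm.trans e⟩
    · obtain ⟨g', e⟩ := hc1 _ _ hb h1
      exact ⟨1, g' * g, (cS_cS g' g H).symm.trans e⟩
  · refine ⟨fun _ => Subgroup.normalizer (F.J 0 : Set Γ),
      fun _ => p2 _ 0 _ ⟨Subgroup.le_normalizer, le_rfl, i0⟩, fun i j _ => Subsingleton.elim i j,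
      fun H hH => ?_⟩
    obtain ⟨g, i, hb⟩ := p1 12 H hH
    fin_cases i
    · replace hb : Btw (F.J 0) 12 (cS g H) := hb
      have h1 := Subgroup.relIndex_mul_relIndex _ _ _ hb.1 hb.2.1
      rw [hb.2.2, i0] at h1
      exact ⟨0, g, le_antisymm hb.2.1 (Subgroup.relIndex_eq_one.1
        ((mul_eq_left₀ (by norm_num)).1 h1))⟩
    · exact absurd (i1 ▸ btw_dvd hb) (by norm_num)

end H76.O84CL
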