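/- Tower IV, job Core: the assembly when `O₂ = 1`. -/
import Cfsg.Agent.H42.IVSpec

set_option autoImplicit false

namespace H76.IVCore

open Subgroup Nat H42.IV

universe u

variable {H : Type u} [Group H]

theorem J_conj (g a : H) : J (g * a * g⁻¹) = MulAut.conj g '' J a := by
  ext x
  constructor
  · rintro ⟨h1, h2⟩
    refine ⟨g⁻¹ * x * g, ⟨?_, ?_⟩, by simp [mul_assoc]⟩
    · rwa [show g⁻¹ * x * g = MulAut.conj g⁻¹ x by simp, MulEquiv.orderOf_eq]
    · calc a * (g⁻¹ * x * g) * a⁻¹ = g⁻¹ * (g * a * g⁻¹ * x * (g * a * g⁻¹)⁻¹) * g := by group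
        _ = _ := by rw [h2]; group
  · rintro ⟨y, ⟨h1, h2⟩, rfl⟩
    refine ⟨by rwa [MulEquiv.orderOf_eq], ?_⟩
    calc g * a * g⁻¹ * (g * y * g⁻¹) * (g * a * g⁻¹)⁻¹ = g * (a * y * a⁻¹) * g⁻¹ := by group
      _ = (g * y * g⁻¹)⁻¹ := by rw [h2]; group

theorem st_conj {a : H} (h : St H a) (g : H) : St H (g * a * g⁻¹) := by
  refine ⟨?_, ?_⟩
  · calc g * a * g⁻¹ * (g * a * g⁻¹) = g * (a * a) * g⁻¹ := by group
      _ = 1 := by rw [h.sq]; group
  · have := congrArg (map (MulAut.conj g).toMonoidHom) h.gen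
    rw [MonoidHom.map_closure, map_top_of_surjective _ (MulAut.conj g).surjective,
      Set.image_insert_eq] at this
    rw [J_conj]
    exact this

theorem emb [Finite H] (hE : JobEmb.{u}) {P : Subgroup H} (hP : IsPGroup 2 P) (hO : O2 H) {b : P}
    {h : ℕ} (hs : St H (b : H)) (hJ : (J (b : H)).ncard ≤ 2 * h + 1) : Emb b (2 * h) := by
  obtain ⟨f, hf⟩ := hE H b h hs hJ
  let ψ : centralizer ({b} : Set P) →* centralizer ({(b : H)} : Set H) :=
    (P.subtype.comp (centralizer ({b} : Set P)).subtype).codRestrict _ fun x =>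
      mem_centralizer_singleton_iff.2 (congrArg Subtype.val (mem_centralizer_singleton_iff.1 x.2))
  refine ⟨f.comp ψ, (injective_iff_map_eq_one _).2 fun x hx => ?_⟩
  have h1 : ((x : P) : H) ∈ center H := hf _ hx
  have h2 : zpowers ((x : P) : H) ≤ center H := zpowers_le.2 h1
  have h3 := hO (zpowers ((x : P) : H)) ⟨fun n hn g => by
    rwa [mem_center_iff.1 (h2 hn) g, mul_inv_cancel_right]⟩ (hP.to_le (zpowers_le.2 (x : P).2))
  exact Subtype.ext (Subtype.ext (zpowers_eq_bot.1 h3))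

theorem arith {n p i m c W : ℕ} (n0 : 0 < n) (p0 : 0 < p) (h1 : n * p ^ 2 ≤ m * c ^ 2 * i ^ 2)
    (h2 : i ≤ p) (h3 : i * p ≤ W * (n * p)) : n * p ≤ m ^ 2 * c ^ 4 * W := by
  have h4 : i ≤ W * n := Nat.le_of_mul_le_mul_right (by rwa [mul_assoc]) p0
  have h5 : n ≤ m * c ^ 2 :=
    Nat.le_of_mul_le_mul_right (h1.trans (by gcongr)) (Nat.pow_pos p0 (n := 2))
  have h6 : p ≤ m * c ^ 2 * W := by
    refine Nat.le_of_mul_le_mul_right ?_ (Nat.mul_pos n0 p0)
    calc p * (n * p) = n * p ^ 2 := by ring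
      _ ≤ m * c ^ 2 * (i * i) := by rwa [← sq]
      _ ≤ m * c ^ 2 * (W * n * p) := by gcongr
      _ = _ := by ring
  calc n * p ≤ m * c ^ 2 * (m * c ^ 2 * W) := by gcongr
    _ = _ := by ring

theorem jobCore : JobCore.{u} := by
  intro hE hA hC hZ hPP hI H _ _ a h h1 hs hJ hO hc
  have pa : IsPGroup 2 (zpowers a) := IsPGroup.of_card_dvd_pow (n := 1) (by
    rw [Nat.card_zpowers, pow_one]; exact orderOf_dvd_of_pow_eq_one (by rw [sq, hs.sq]))
  obtain ⟨P, hP⟩ := pa.exists_le_sylow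
  have aP : a ∈ (P : Subgroup H) := hP (mem_zpowers a)
  obtain ⟨X, Y, α, t, e, w, hX, hY, par, hle⟩ := hPP (P : Subgroup H) {b | IsConj a (b : H)} h
    P.isPGroup' h1 ⟨⟨a, aP⟩, IsConj.refl a⟩ fun b hb => by
      obtain ⟨g, hg⟩ := isConj_iff.1 hb
      have sb : St H (b : H) := hg ▸ st_conj hs g
      refine ⟨Subtype.ext sb.sq, emb hE P.isPGroup' hO sb ?_,
        fun x => hb.trans (isConj_iff.2 ⟨x, rfl⟩)⟩
      rwa [← hg, J_conj, Set.ncard_image_of_injective _ (MulAut.conj g).injective]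
  have inj := (P : Subgroup H).subtype_injective
  have hz := hZ H (X.map (P : Subgroup H).subtype) (Y.map (P : Subgroup H).subtype) hO
    inferInstance ((P.isPGroup'.to_subgroup X).map _) ((P.isPGroup'.to_subgroup Y).map _) (by
      rintro _ ⟨y, hy, rfl⟩ _ ⟨x, hx, rfl⟩
      exact congrArg Subtype.val (hY hy x hx))
  rw [card_map_of_injective inj, card_map_of_injective inj,
    ← (P : Subgroup H).index_mul_card] at hz
  have hcnt := hC hA H a P hs.sq
  have e1 : {b | b ∈ P ∧ IsConj a b} =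
      Subtype.val '' {b : (P : Subgroup H) | IsConj a (b : H)} := by
    ext x
    exact ⟨fun hx => ⟨⟨x, hx.1⟩, hx.2, rfl⟩, by rintro ⟨y, hy, rfl⟩; exact ⟨y.2, hy⟩⟩
  rw [e1, Set.ncard_image_of_injective _ Subtype.val_injective] at hcnt
  have key := arith (Nat.pos_of_ne_zero index_ne_zero_of_finite) Nat.card_pos hcnt
    (Set.ncard_le_card _) (hle.trans (Nat.mul_le_mul_left _ hz))
  rw [← (P : Subgroup H).index_mul_card]
  refine (key.trans ?_).trans_lt (hI h h1 α t e w par)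
  gcongr

end H76.IVCore
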