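/- S3694, chapter XS, job Av1: the averaging map. -/
import Cfsg.Agent.H52.SimXSSpec

set_option autoImplicit false

namespace H76.XSAv1

open Subgroup Cfsg H98 Matrix H0.Sim H52.XS

theorem job : JobAv1 := by
  intro n F _ _ E hE
  have : Finite E := Nat.finite_of_card_ne_zero fun e => hE (by rw [e, Nat.cast_zero])
  have := Fintype.ofFinite E
  obtain ⟨P, hP⟩ : ∃ P : Mt n F →ₗ[F] Mt n F, ∀ w, P w = (Nat.card E : F)⁻¹ •
      ∑ e : E, ((e : GL (Fin n) F) : Mt n F) * w *
        (((e : GL (Fin n) F)⁻¹ : GL (Fin n) F) : Mt n F) :=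
    ⟨(Nat.card E : F)⁻¹ • ∑ e : E, LinearMap.mulLeftRight F (((e : GL (Fin n) F) : Mt n F),
      (((e : GL (Fin n) F)⁻¹ : GL (Fin n) F) : Mt n F)), fun w => by
        simp only [LinearMap.smul_apply, LinearMap.sum_apply, LinearMap.mulLeftRight_apply]⟩
  have cm : ∀ c ∈ CE E, ∀ e ∈ E, (e : Mt n F) * c = c * e := fun c hc e he =>
    (Subalgebra.mem_centralizer_iff F).1 hc _ ⟨e, he, rfl⟩
  refine ⟨P, fun w => ?_, fun w => (Subalgebra.mem_centralizer_iff F).2 ?_, fun c hc w => ?_,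
    fun c hc w => ?_, ?_, fun y hy w => ?_, fun W hW w hw => ?_⟩
  · rw [hP, smul_smul, mul_inv_cancel₀ hE, one_smul, finsum_eq_sum_of_fintype]
  · rintro _ ⟨y, hy, rfl⟩
    rw [hP, mul_smul_comm, smul_mul_assoc, Finset.mul_sum, Finset.sum_mul]
    congr 1
    refine Fintype.sum_equiv (Equiv.mulLeft (⟨y, hy⟩ : E)) _ _ fun e => ?_
    simp only [Equiv.coe_mulLeft, Subgroup.coe_mul, _root_.mul_inv_rev, Units.val_mul, mul_assoc,
      Units.inv_mul, mul_one]
  · rw [hP, hP, mul_smul_comm, Finset.mul_sum]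
    congr 1
    refine Finset.sum_congr rfl fun e _ => ?_
    rw [← mul_assoc, cm c hc e e.2]
    simp only [mul_assoc]
  · rw [hP, hP, smul_mul_assoc, Finset.sum_mul]
    congr 1
    refine Finset.sum_congr rfl fun e _ => ?_
    rw [mul_assoc _ _ c, cm c hc _ (inv_mem e.2)]
    simp only [mul_assoc]
  · rw [hP]
    simp only [mul_one, Units.mul_inv, Finset.sum_const, Finset.card_univ]
    rw [← Nat.card_eq_fintype_card, ← Nat.cast_smul_eq_nsmul F, smul_smul, inv_mul_cancel₀ hE,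
      one_smul]
  · rw [hP, hP]
    congr 1
    refine Fintype.sum_equiv (Equiv.mulRight (⟨y, hy⟩ : E)) _ _ fun e => ?_
    simp only [Equiv.coe_mulRight, Subgroup.coe_mul, _root_.mul_inv_rev, Units.val_mul, mul_assoc,
      Units.mul_inv_cancel_left]
  · rw [hP]
    exact W.smul_mem _ (W.sum_mem fun e _ => hW e e.2 w hw)

end H76.XSAv1
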