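/- S3694, chapter XA, job A2U: blocks of type `GU₂(2)` do not occur. -/
import Cfsg.Agent.H53.SimXASpec

set_option autoImplicit false

namespace H76.XAA2U

open Subgroup Cfsg H98 Matrix H0.Sim H53.XA

theorem zz {R : Type*} [Ring R] {a b f f' : R} (h1 : a * f = a) (h2 : f' * b = b) (h : f * f' = 0) :
    a * b = 0 := by
  rw [← h1, ← h2, mul_assoc, ← mul_assoc f, h, zero_mul, mul_zero]

theorem job : JA2U := by
  intro th rp _ bk ns sw u22 n F _ _ p Θ H Q E g x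
  have fq : Fq F true 2 := x.par.card
  obtain ⟨bk1, -, -, 𝒯, hT, hs⟩ := bk n F true 2 E fq (rp n F true 2 p Θ H Q E g x.toXa).1
  have : NeZero n := ⟨by have := x.par.two; omega⟩
  have mT : ∀ f ∈ 𝒯, f ∈ Bl true 2 E := fun f hf => hT ▸ Finset.mem_coe.2 hf
  obtain ⟨f₁, h₁⟩ : 𝒯.Nonempty := Finset.nonempty_iff_ne_empty.2 fun e => by
    rw [e, Finset.sum_empty] at hs
    exact zero_ne_one hs
  obtain ⟨f₂, h₂, ne⟩ : ∃ f₂ ∈ 𝒯, f₂ ≠ f₁ := by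
    by_contra! k
    rw [Finset.eq_singleton_iff_unique_mem.2 ⟨h₁, k⟩, Finset.sum_singleton] at hs
    exact x.n1 (hs ▸ mT f₁ h₁)
  replace h₁ := mT f₁ h₁
  replace h₂ := mT f₂ h₂
  have o12 := bk1 f₁ h₁ f₂ h₂ ne.symm
  have o21 := bk1 f₂ h₂ f₁ h₁ ne
  obtain ⟨⟨y, yG, ω, ω1, hy⟩, ε₁, i1, r1, a1, b1, -, r1', un1⟩ :=
    u22 n F f₁ fq h₁.2.1 (x.rk f₁ h₁)
  obtain ⟨-, ε₂, i2, r2, a2, b2, -, -, un2⟩ := u22 n F f₂ fq h₂.2.1 (x.rk f₂ h₂)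
  have rk0 : ∀ m : Mt n F, m.rank = 1 → m ≠ 0 := fun m h e => by
    rw [e, rank_zero] at h
    omega
  have sc : ∀ (c : F) (m : Mt n F), Matrix.scalar (Fin n) c * m = c • m := fun c m =>
    (Matrix.smul_eq_diagonal_mul m c).symm
  set X : Set (Mt n F) :=
    {d | Ip true 2 d ∧ d.rank = 1 ∧ ∃ f ∈ Bl true 2 E, d * f = d ∧ f * d = d} with hX
  have iv : Iv Θ X := by
    rintro j hj d ⟨d1, d2, f, hf, d3, d4⟩
    obtain ⟨-, -, -, -, t1, t2, t3⟩ := th n F true 2 j fq (x.ok j hj)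
    have ja : ¬ j.a = true := fun e => by simpa using ((x.ok j hj).2 e).1
    simp only [if_neg ja] at t1
    exact ⟨⟨by rw [← t1, d1.sq], fun _ => by rw [← t2 rfl, d1.fx rfl]⟩, (t3 d).trans d2, _,
      x.iv j hj f hf, by rw [← t1, d3], by rw [← t1, d4]⟩
  have e1X : ε₁ ∈ X := ⟨i1, r1, f₁, h₁, a1, b1⟩
  have e2X : ε₂ ∈ X := ⟨i2, r2, f₂, h₂, a2, b2⟩
  have nst := ns n F true 2 X x.par ⟨y, yG, ?_, ?_⟩ ⟨ε₁, e1X, ?_⟩
  rotate_left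
  · rintro ⟨c, hc⟩
    have k1 : ω • f₁ = c • f₁ := by
      rw [← sc c, ← hc, hy, add_mul, sub_mul, smul_mul_assoc, h₁.2.1.sq, one_mul, sub_self, add_zero]
    have k2 : (1 : F) • f₂ = c • f₂ := by
      rw [← sc c, ← hc, hy, add_mul, sub_mul, smul_mul_assoc, o12, one_mul, smul_zero, zero_add,
        sub_zero, one_smul]
    exact ω1 ((smul_left_injective F h₁.2.2.1 k1).trans (smul_left_injective F h₂.2.2.1 k2).symm)
  · rintro d ⟨-, -, f, hf, d3, d4⟩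
    have c : Commute f₁ d := by
      by_cases e : f = f₁
      · subst e
        exact d4.trans d3.symm
      · exact (zz h₁.2.1.sq d4 (bk1 _ h₁ _ hf (Ne.symm e))).trans
          (zz d3 h₁.2.1.sq (bk1 _ hf _ h₁ e)).symm
    rw [hy]
    exact ((c.smul_left ω).add_left ((Commute.one_left d).sub_left c)).eq
  · rintro ⟨c, hc⟩
    have k := zz a1 h₂.2.1.sq o12
    rw [hc, sc] at k
    refine rk0 _ r1 ?_
    rw [hc, (smul_eq_zero.1 k).resolve_right h₂.2.2.1, map_zero]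
  obtain ⟨s, sS, s1, s2, s3⟩ := sw n F true 2 ε₁ ε₂ fq i1 i2 (zz a1 b2 o12) (zz a2 b1 o21)
    (r1.trans r2.symm)
  have orth : ∀ f₀ ∈ Bl true 2 E, ∀ ε : Mt n F, Ip true 2 ε → ε * f₀ = ε → f₀ * ε = ε →
      (∀ δ : Mt n F, Ip true 2 δ → δ.rank = 1 → δ * f₀ = δ → f₀ * δ = δ → δ = ε ∨ δ = f₀ - ε) →
      ∀ d ∈ X, d ≠ ε → d * ε = 0 ∧ ε * d = 0 := by
    rintro f₀ h₀ ε i a b un d ⟨d1, d2, f, hf, d3, d4⟩ dn
    by_cases e : f = f₀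
    · subst e
      rw [(un d d1 d2 d3 d4).resolve_left dn, sub_mul, mul_sub, a, b, i.sq, sub_self]
      exact ⟨rfl, rfl⟩
    · exact ⟨zz d3 b (bk1 _ hf _ h₀ e), zz a d4 (bk1 _ h₀ _ hf (Ne.symm e))⟩
  have st : St s X := fun d hd => by
    by_cases k1 : d = ε₁
    · rwa [k1, s1]
    by_cases k2 : d = ε₂
    · rwa [k2, s2]
    obtain ⟨m1, m2⟩ := orth f₁ h₁ ε₁ i1 a1 b1 un1 d hd k1
    obtain ⟨m3, m4⟩ := orth f₂ h₂ ε₂ i2 a2 b2 un2 d hd k2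
    rwa [s3 d m1 m2 m3 m4]
  have hb := Cf0.st x.toCf0 x.iv (x.mp X iv nst s sS st) f₁ h₁
  have c1 : (f₁ - ε₁) * f₁ = f₁ - ε₁ := by rw [sub_mul, h₁.2.1.sq, a1]
  have c2 : f₁ * (f₁ - ε₁) = f₁ - ε₁ := by rw [mul_sub, h₁.2.1.sq, b1]
  have e : (s : Mt n F) * f₁ * ((s⁻¹ : GL (Fin n) F) : Mt n F) = ε₂ + (f₁ - ε₁) := by
    rw [← s1, ← s3 (f₁ - ε₁) (by rw [sub_mul, b1, i1.sq, sub_self])
      (by rw [mul_sub, a1, i1.sq, sub_self]) (zz c1 b2 o12) (zz a2 c2 o21), ← add_mul, ← mul_add,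
      add_sub_cancel]
  rw [e] at hb
  have e2 : f₁ = ε₂ + (f₁ - ε₁) := by_contra fun k => rk0 _ r1' (by
    have := bk1 _ h₁ _ hb k
    rwa [mul_add, zz h₁.2.1.sq b2 o12, c2, zero_add] at this)
  have e3 : ε₂ = ε₁ := by
    rw [← add_sub_assoc, eq_sub_iff_add_eq, add_comm, add_left_inj] at e2
    exact e2.symm
  exact rk0 _ r1 (by rw [← i1.sq, ← zz a1 b2 o12, e3])

end H76.XAA2U
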