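import Cfsg.Agent.H48.DP1Spec

/-! S3275, chapter (1), slot UC: the group `B = 4⁴`. -/

set_option autoImplicit false
set_option linter.unusedSectionVars false

namespace H76.DP1UC

open Subgroup H98 H48.DP

universe u

variable {G : Type u} [Group G]

/-- `a^i b^j w^k v^l` -/
def bt (a b w v : G) (i j k l : ℤ) : G := a ^ i * b ^ j * w ^ k * v ^ l

/-- `a, b, w, v` is a basis of `4⁴`. -/
structure C4 (a b w v : G) : Prop where
  ab : Commute a b
  aw : Commute a w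
  av : Commute a v
  bw : Commute b w
  bv : Commute b v
  wv : Commute w v
  a4 : a ^ 4 = 1
  b4 : b ^ 4 = 1
  w4 : w ^ 4 = 1
  v4 : v ^ 4 = 1
  ind : ∀ i j k l : ℤ, a ^ i * b ^ j * w ^ k * v ^ l = 1 → 4 ∣ i ∧ 4 ∣ j ∧ 4 ∣ k ∧ 4 ∣ l

variable {a b w v g : G} {i j k l i' j' k' l' : ℤ}

theorem bt_a : a = bt a b w v 1 0 0 0 := by simp [bt]
theorem bt_b : b = bt a b w v 0 1 0 0 := by simp [bt]
theorem bt_w : w = bt a b w v 0 0 1 0 := by simp [bt]
theorem bt_v : v = bt a b w v 0 0 0 1 := by simp [bt]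
theorem bt_0 : bt a b w v 0 0 0 0 = 1 := by simp [bt]

theorem bt_mem : bt a b w v i j k l ∈ Bs a b w v :=
  mul_mem (mul_mem (mul_mem (zpow_mem (subset_closure (by simp)) _)
    (zpow_mem (subset_closure (by simp)) _)) (zpow_mem (subset_closure (by simp)) _))
    (zpow_mem (subset_closure (by simp)) _)

theorem z4 {x : G} (h : x ^ 4 = 1) {n : ℤ} (hn : 4 ∣ n) : x ^ n = 1 := by
  obtain ⟨m, rfl⟩ := hn
  rw [zpow_mul, show x ^ (4 : ℤ) = x ^ (4 : ℕ) from zpow_natCast x 4, h, one_zpow]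

namespace C4

variable (c : C4 a b w v)
include c

theorem mul : bt a b w v i j k l * bt a b w v i' j' k' l' =
    bt a b w v (i + i') (j + j') (k + k') (l + l') := by
  simp only [bt, zpow_add, mul_assoc]
  rw [(c.av.symm.zpow_zpow l i').left_comm, (c.aw.symm.zpow_zpow k i').left_comm,
    (c.ab.symm.zpow_zpow j i').left_comm, (c.bv.symm.zpow_zpow l j').left_comm,
    (c.bw.symm.zpow_zpow k j').left_comm, (c.wv.symm.zpow_zpow l k').left_comm]

theorem inv : (bt a b w v i j k l)⁻¹ = bt a b w v (-i) (-j) (-k) (-l) :=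
  inv_eq_of_mul_eq_one_right (by rw [c.mul]; simp [bt])

theorem zp (n : ℤ) : bt a b w v i j k l ^ n = bt a b w v (i * n) (j * n) (k * n) (l * n) := by
  simp only [bt, zpow_mul]
  rw [Commute.mul_zpow, Commute.mul_zpow, Commute.mul_zpow (c.ab.zpow_zpow i j)]
  · exact (c.aw.zpow_zpow i k).mul_left (c.bw.zpow_zpow j k)
  · exact ((c.av.zpow_zpow i l).mul_left (c.bv.zpow_zpow j l)).mul_left (c.wv.zpow_zpow k l)

theorem eq_one : bt a b w v i j k l = 1 ↔ 4 ∣ i ∧ 4 ∣ j ∧ 4 ∣ k ∧ 4 ∣ l :=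
  ⟨c.ind i j k l, fun ⟨h1, h2, h3, h4⟩ => by
    simp [bt, z4 c.a4 h1, z4 c.b4 h2, z4 c.w4 h3, z4 c.v4 h4]⟩

theorem eq : bt a b w v i j k l = bt a b w v i' j' k' l' ↔
    4 ∣ i - i' ∧ 4 ∣ j - j' ∧ 4 ∣ k - k' ∧ 4 ∣ l - l' := by
  rw [← mul_inv_eq_one, c.inv, c.mul, c.eq_one]
  simp only [sub_eq_add_neg]

theorem mem : g ∈ Bs a b w v ↔ ∃ i j k l, g = bt a b w v i j k l := by
  refine ⟨fun h => ?_, fun ⟨_, _, _, _, e⟩ => e ▸ bt_mem⟩
  induction h using closure_induction with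
  | mem x hx =>
    rcases hx with rfl | rfl | rfl | rfl
    exacts [⟨_, _, _, _, bt_a⟩, ⟨_, _, _, _, bt_b⟩, ⟨_, _, _, _, bt_w⟩, ⟨_, _, _, _, bt_v⟩]
  | one => exact ⟨_, _, _, _, bt_0.symm⟩
  | mul x y _ _ hx hy =>
    obtain ⟨_, _, _, _, rfl⟩ := hx
    obtain ⟨_, _, _, _, rfl⟩ := hy
    exact ⟨_, _, _, _, c.mul⟩
  | inv x _ hx =>
    obtain ⟨_, _, _, _, rfl⟩ := hx
    exact ⟨_, _, _, _, c.inv⟩

theorem comm {x y : G} (hx : x ∈ Bs a b w v) (hy : y ∈ Bs a b w v) : x * y = y * x := by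
  obtain ⟨_, _, _, _, rfl⟩ := c.mem.1 hx
  obtain ⟨_, _, _, _, rfl⟩ := c.mem.1 hy
  simp only [c.mul, add_comm]

theorem nf (h : g ∈ Bs a b w v) : ∃ i j k l : Fin 4, g = bt a b w v i.val j.val k.val l.val := by
  obtain ⟨i, j, k, l, rfl⟩ := c.mem.1 h
  refine ⟨⟨(i % 4).toNat, by omega⟩, ⟨(j % 4).toNat, by omega⟩, ⟨(k % 4).toNat, by omega⟩,
    ⟨(l % 4).toNat, by omega⟩, c.eq.2 ?_⟩
  simp only
  omega

theorem card : Nat.card (Bs a b w v) = 256 := by
  refine (Nat.card_congr (Equiv.ofBijective (fun p : Fin 4 × Fin 4 × Fin 4 × Fin 4 =>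
    (⟨bt a b w v p.1.val p.2.1.val p.2.2.1.val p.2.2.2.val, bt_mem⟩ : Bs a b w v))
    ⟨?_, fun x => ?_⟩)).symm.trans (by simp)
  · rintro ⟨i, j, k, l⟩ ⟨i', j', k', l'⟩ e
    have := c.eq.1 (congrArg Subtype.val e)
    simp only [Prod.mk.injEq, Fin.ext_iff] at this ⊢
    omega
  · obtain ⟨i, j, k, l, e⟩ := c.nf x.2
    exact ⟨(i, j, k, l), Subtype.ext e.symm⟩

omit c in
theorem cj (g : G) : g * bt a b w v i j k l * g⁻¹ =
    (g * a * g⁻¹) ^ i * (g * b * g⁻¹) ^ j * (g * w * g⁻¹) ^ k * (g * v * g⁻¹) ^ l := by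
  simp only [conj_zpow, bt]; group

omit c in
theorem nor [Finite G] (h1 : g * a * g⁻¹ ∈ Bs a b w v) (h2 : g * b * g⁻¹ ∈ Bs a b w v)
    (h3 : g * w * g⁻¹ ∈ Bs a b w v) (h4 : g * v * g⁻¹ ∈ Bs a b w v) : g ∈ No (Bs a b w v) := by
  refine mem_normalizer_of_cj_le ?_
  rw [H98.cj, MonoidHom.map_closure, closure_le]
  rintro _ ⟨x, rfl | rfl | rfl | rfl, rfl⟩ <;> assumption

end C4

variable [Finite G] {L : Subgroup G} {s x y t e u f : G} (h : UB L a b s x y t e u f w v)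
include h

theorem c4 : C4 a b w v :=
  ⟨h.ab, h.aw, h.av, h.bw, h.bv, h.wv, h.a4, h.b4, h.w4, by rw [h.vd, conj_pow, h.w4]; group, h.ind4⟩

theorem tt : t * t = 1 := by rw [← pow_two, ← h.t2, pow_orderOf_eq_one]

theorem ti : t⁻¹ = t := inv_eq_of_mul_eq_one_right (tt h)

theorem si : s⁻¹ = s := inv_eq_of_mul_eq_one_right h.s2

theorem tL {l : G} (hl : l ∈ L) : t * l * t⁻¹ = l := by rw [← h.rc l hl, mul_inv_cancel_right]

theorem tw : t * w * t⁻¹ = bt a b w v 1 1 (-1) 0 := by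
  have c := c4 h
  have e1 : t * w * t⁻¹ = a * b * w ^ 2 * w := by
    rw [h.w2, show a * b * u * w = t⁻¹ * (t * (a * b) * u) * w by group, ← h.wt, ti h]; group
  rw [e1, show a * b * w ^ 2 * w = bt a b w v 1 1 3 0 by simp only [bt]; group, c.eq]
  omega

theorem tv : t * v * t⁻¹ = bt a b w v (-1) 0 0 (-1) := by
  have e1 : t * v * t⁻¹ = (t * x * t⁻¹) * (t * w * t⁻¹) * (t * x * t⁻¹)⁻¹ := by rw [h.vd]; group
  rw [e1, tL h h.xL, tw h, C4.cj, h.xa, h.xb, ← h.vd, h.ab]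
  simp only [bt]; rw [← h.ab]; group

theorem tb : t * bt a b w v i j k l * t⁻¹ = bt a b w v (i + k - l) (j + k) (-k) (-l) := by
  have c := c4 h
  rw [C4.cj, tL h h.aL, tL h h.bL, tw h, tv h, c.zp, c.zp,
    show a ^ i * b ^ j = bt a b w v i j 0 0 by simp [bt], c.mul, c.mul]
  congr 1 <;> ring

theorem sb : s * bt a b w v i j k l * s⁻¹ = bt a b w v j i (k - l) (-l) := by
  have c := c4 h
  have e1 : s * b * s⁻¹ = a := by
    rw [← h.sa, show s * (s * a * s⁻¹) * s⁻¹ = s * s * a * (s * s)⁻¹ by group, h.s2]; group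
  have e2 : s * w * s⁻¹ = w := by rw [← h.ws.eq, mul_inv_cancel_right]
  have e3 : s * v * s⁻¹ = bt a b w v 0 0 (-1) (-1) := by
    have e4 : x⁻¹ = x * x := by
      rw [inv_eq_iff_mul_eq_one, ← h.x3, pow_three]
    have e5 : s * v * s⁻¹ = (s * x * s⁻¹) * (s * w * s⁻¹) * (s * x * s⁻¹)⁻¹ := by rw [h.vd]; group
    rw [e5, h.sx, e2, e4, show x * x * w * (x * x)⁻¹ = x * (x * w * x⁻¹) * x⁻¹ by group, ← h.vd,
      h.xv, h.wv.eq]
    simp only [bt]; group
  rw [C4.cj, h.sa, e1, e2, e3, c.zp, (c.ab.symm.zpow_zpow i j).eq,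
    show a ^ j * b ^ i * w ^ k = bt a b w v j i k 0 by simp [bt], c.mul]
  congr 1 <;> ring

theorem tB : t ∈ No (Bs a b w v) := mem_normalizer_of_cj_le (by
  rintro _ ⟨β, hβ, rfl⟩
  obtain ⟨i, j, k, l, rfl⟩ := (c4 h).mem.1 hβ
  change t * _ * t⁻¹ ∈ _
  rw [tb h]; exact bt_mem)

theorem sB : s ∈ No (Bs a b w v) := mem_normalizer_of_cj_le (by
  rintro _ ⟨β, hβ, rfl⟩
  obtain ⟨i, j, k, l, rfl⟩ := (c4 h).mem.1 hβ
  change s * _ * s⁻¹ ∈ _
  rw [sb h]; exact bt_mem)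

theorem tc {β : G} (hβ : β ∈ Bs a b w v) (h2 : (t * β) * (t * β) = 1) :
    ∃ γ ∈ Bs a b w v, γ * t * γ⁻¹ = t * β := by
  have c := c4 h
  obtain ⟨i, j, k, l, rfl⟩ := c.mem.1 hβ
  rw [show t * bt a b w v i j k l * (t * bt a b w v i j k l) =
    t * bt a b w v i j k l * t⁻¹ * bt a b w v i j k l by rw [ti h]; group, tb h, c.mul,
    c.eq_one] at h2
  refine ⟨bt a b w v 0 0 j (j - i), bt_mem, ?_⟩
  have e1 : ∀ γ : G, γ * t * γ⁻¹ = t * (t * γ * t⁻¹ * γ⁻¹) := fun γ => by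
    rw [← mul_assoc, ← mul_assoc, ← mul_assoc, tt h, one_mul, ti h]
  rw [e1, tb h, c.inv, c.mul, mul_right_inj, c.eq]
  omega

theorem sc {β : G} (hβ : β ∈ Bs a b w v) (h2 : (s * β) * (s * β) = 1) :
    ∃ γ ∈ Bs a b w v, γ * s * γ⁻¹ = s * β := by
  have c := c4 h
  obtain ⟨i, j, k, l, rfl⟩ := c.mem.1 hβ
  rw [show s * bt a b w v i j k l * (s * bt a b w v i j k l) =
    s * bt a b w v i j k l * s⁻¹ * bt a b w v i j k l by rw [si h]; group, sb h, c.mul,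
    c.eq_one] at h2
  refine ⟨bt a b w v 0 i 0 (-k), bt_mem, ?_⟩
  have e1 : ∀ γ : G, γ * s * γ⁻¹ = s * (s * γ * s⁻¹ * γ⁻¹) := fun γ => by
    rw [← mul_assoc, ← mul_assoc, ← mul_assoc, h.s2, one_mul, si h]
  rw [e1, sb h, c.inv, c.mul, mul_right_inj, c.eq]
  omega

theorem cs : Nat.card ↥(Bs a b w v ⊓ C1 s) = 16 := by
  have c := c4 h
  have key : ∀ i j k l : ℤ, bt a b w v i j k l ∈ C1 s ↔ 4 ∣ j - i ∧ 4 ∣ l := fun i j k l => by
    rw [mem_centralizer_singleton_iff, eq_comm, ← mul_inv_eq_iff_eq_mul, sb h, c.eq]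
    omega
  refine (Nat.card_congr (Equiv.ofBijective (fun p : Fin 4 × Fin 4 =>
    (⟨bt a b w v p.1.val p.1.val p.2.val 0, bt_mem, (key _ _ _ _).2 (by simp)⟩ :
      ↥(Bs a b w v ⊓ C1 s))) ⟨?_, fun x => ?_⟩)).symm.trans (by simp)
  · rintro ⟨i, j⟩ ⟨i', j'⟩ e
    have := c.eq.1 (congrArg Subtype.val e)
    simp only [Prod.mk.injEq, Fin.ext_iff] at this ⊢
    omega
  · obtain ⟨i, j, k, l, e⟩ := c.nf x.2.1
    have := (key _ _ _ _).1 (e ▸ x.2.2)
    exact ⟨(i, k), Subtype.ext (e.trans (c.eq.2 (by simp only; omega))).symm⟩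

theorem tw2 : w ^ 2 * t ≠ t * w ^ 2 := fun k => by
  have c := c4 h
  have e1 : w ^ 2 = bt a b w v 0 0 2 0 := by simp only [bt]; group
  rw [eq_comm, ← mul_inv_eq_iff_eq_mul, e1, tb h, c.eq] at k
  omega

theorem zt {k : G} (hk : k ∈ zpowers t) : k = 1 ∨ k = t := by
  obtain ⟨n, rfl⟩ := mem_zpowers_iff.1 hk
  have e2 : t ^ (2 : ℤ) = 1 := by rw [zpow_two, tt h]
  rcases Int.even_or_odd' n with ⟨m, rfl | rfl⟩
  · exact Or.inl (by rw [zpow_mul, e2, one_zpow])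
  · exact Or.inr (by rw [zpow_add, zpow_mul, e2, one_zpow, one_mul, zpow_one])

/-- `C(t) ∩ C(a², b², w²) ≤ B` -/
theorem ctB (h0 : Commute g t) (h1 : Commute g (a ^ 2)) (h2 : Commute g (b ^ 2))
    (h3 : Commute g (w ^ 2)) : g ∈ Bs a b w v := by
  obtain ⟨l, hl, k, hk, rfl⟩ := h.ct g h0
  have hH : ∀ l ∈ L, Commute l (a ^ 2) → Commute l (b ^ 2) → l ∈ Bs a b w v := fun l hl c1 c2 =>
    closure_mono (by rintro _ (rfl | rfl) <;> simp) (h.cV l hl c1 c2)
  rcases zt h hk with rfl | rfl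
  · rw [mul_one] at h1 h2 ⊢
    exact hH l hl h1 h2
  · have ka : Commute k (a ^ 2) := (h.rc _ (pow_mem h.aL 2)).symm
    have kb : Commute k (b ^ 2) := (h.rc _ (pow_mem h.bL 2)).symm
    have l1 := hH l hl (by simpa using h1.mul_left ka.inv_left) (by simpa using h2.mul_left kb.inv_left)
    have l2 : Commute l (w ^ 2) := (c4 h).comm l1 (pow_mem (subset_closure (by simp)) 2)
    exact absurd (by simpa using (l2.inv_left.mul_left h3).symm.eq) (tw2 h)

/-- An element that centralises `a², b², w²` and maps `t` into `t B` lies in `B`. -/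
theorem memB {n β : G} (hβ : β ∈ Bs a b w v) (h0 : n * t * n⁻¹ = t * β) (h1 : Commute n (a ^ 2))
    (h2 : Commute n (b ^ 2)) (h3 : Commute n (w ^ 2)) : n ∈ Bs a b w v := by
  have c := c4 h
  obtain ⟨γ, g1, g2⟩ := tc h hβ (by rw [← h0, conj_mul, tt h]; group)
  have k : ∀ y ∈ Bs a b w v, Commute n (y ^ 2) → Commute (γ⁻¹ * n) (y ^ 2) := fun y hy hn =>
    Commute.mul_left (c.comm (inv_mem g1) (pow_mem hy 2)) hn
  have := ctB h (g := γ⁻¹ * n) (by
      rw [← h0] at g2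
      rw [commute_iff_eq, show γ⁻¹ * n * t = γ⁻¹ * (n * t * n⁻¹) * n by group, ← g2]; group)
    (k a (subset_closure (by simp)) h1) (k b (subset_closure (by simp)) h2)
    (k w (subset_closure (by simp)) h3)
  simpa using mul_mem g1 this

theorem fB : f ∈ No (Bs a b w v) := by
  have c := c4 h
  have ma : a ∈ Bs a b w v := subset_closure (by simp)
  have mb : b ∈ Bs a b w v := subset_closure (by simp)
  have mw : w ∈ Bs a b w v := subset_closure (by simp)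
  have mv : v ∈ Bs a b w v := subset_closure (by simp)
  have fi : f⁻¹ = f := inv_eq_of_mul_eq_one_right h.f2
  have me : e ∈ Bs a b w v := by
    have : V0 a b ≤ Bs a b w v := (closure_le _).2 (by
      rintro _ (rfl | rfl)
      exacts [pow_mem ma 2, pow_mem mb 2])
    simpa using mul_mem (this h.eB) (inv_mem (pow_mem mv 2))
  have f1 : f * a * f⁻¹ ∈ Bs a b w v := h.fa ▸ mul_mem (mul_mem me mw) ma
  have f2 : f * b * f⁻¹ ∈ Bs a b w v := by
    rw [show f * b * f⁻¹ = (f * a * f⁻¹)⁻¹ * (f * (a * b) * f⁻¹) by group, h.fab.eq,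
      mul_inv_cancel_right]
    exact mul_mem (inv_mem f1) (mul_mem ma mb)
  have f3 : f * w * f⁻¹ ∈ Bs a b w v := by rw [h.fw.eq, mul_inv_cancel_right]; exact mw
  have k : ∀ y, f * y * f⁻¹ ∈ Bs a b w v → Commute (f * v * f⁻¹) (y ^ 2) := fun y hy => by
    have := (Commute.pow_right (c.comm mv hy) 2).map (MulAut.conj f)
    simp only [MulAut.conj_apply, conj_pow] at this
    rwa [show f * (f * y ^ 2 * f⁻¹) * f⁻¹ = f * f * y ^ 2 * (f * f)⁻¹ by group, h.f2, one_mul,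
      inv_one, mul_one] at this
  refine C4.nor f1 f2 f3 (memB h (mul_mem (inv_mem f2) f3) ?_ (k a f1) (k b f2) (k w f3))
  have e1 : s * (t * v * t⁻¹) * s⁻¹ * v⁻¹ = b⁻¹ * w := by
    rw [tv h, sb h, show v⁻¹ = bt a b w v 0 0 0 (-1) by simp [bt], c.mul]
    simp [bt]
  have e2 : v * (t * s) * v⁻¹ = t * s * (b⁻¹ * w) := by
    rw [← e1, ti h, si h]
    calc _ = t * t * v * (t * s) * v⁻¹ := by rw [tt h, one_mul]
      _ = t * (s * s) * t * v * (t * s) * v⁻¹ := by rw [h.s2, mul_one]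
      _ = _ := by group
  have e3 : f * (t * s) * f⁻¹ = t := by
    rw [← h.ft, show f * (f * t * f⁻¹) * f⁻¹ = f * f * t * (f * f)⁻¹ by group, h.f2]; group
  calc _ = f * (v * (f⁻¹ * t * f) * v⁻¹) * f⁻¹ := by group
    _ = f * (t * s) * f⁻¹ * (f * (b⁻¹ * w) * f⁻¹) := by
      rw [show f⁻¹ * t * f = f * t * f⁻¹ by rw [fi], h.ft, e2]; group
    _ = _ := by rw [e3]; group

theorem sylB : IsSyl 2 (Bs a b w v) (Ce (Os a b w v)) := by
  have c := c4 h
  have OB : Os a b w v ≤ Bs a b w v := (closure_le _).2 (by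
    rintro _ (rfl | rfl | rfl | rfl) <;> exact pow_mem (subset_closure (by simp)) 2)
  have BC : Bs a b w v ≤ Ce (Os a b w v) := fun x hx y hy => c.comm (OB hy) hx
  have sq : ∀ β ∈ Bs a b w v, β ^ 2 ∈ Os a b w v := fun β hβ => by
    obtain ⟨i, j, k, l, rfl⟩ := c.mem.1 hβ
    have : bt a b w v i j k l ^ 2 = (a ^ 2) ^ i * (b ^ 2) ^ j * (w ^ 2) ^ k * (v ^ 2) ^ l := by
      rw [← zpow_natCast, c.zp]; simp only [bt]; group
    rw [this]
    exact mul_mem (mul_mem (mul_mem (zpow_mem (subset_closure (by simp)) _)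
      (zpow_mem (subset_closure (by simp)) _)) (zpow_mem (subset_closure (by simp)) _))
      (zpow_mem (subset_closure (by simp)) _)
  have tO : t ∈ No (Os a b w v) := mem_normalizer_of_cj_le (by
    rw [H98.cj, MonoidHom.map_closure, closure_le]
    rintro _ ⟨x, rfl | rfl | rfl | rfl, rfl⟩ <;> rw [map_pow] <;>
      exact sq _ (conj_mem_of_mem_normalizer (tB h) (subset_closure (by simp))))
  have tC : zpowers t ≤ No (Ce (Os a b w v)) := zpowers_le.2 (cj_eq_self_iff.1 (by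
    rw [cj_centralizer, cj_eq_self tO]))
  have tn : t ∉ Ce (Os a b w v) := fun k => tw2 h (k _ (subset_closure (by simp)))
  have pB : IsPGroup 2 (Bs a b w v) := IsPGroup.of_card (n := 8) c.card
  have pt : IsPGroup 2 (zpowers t) := IsPGroup.of_card (n := 1) (by rw [Nat.card_zpowers, h.t2]; rfl)
  have tB' : zpowers t ≤ No (Bs a b w v) := zpowers_le.2 (tB h)
  have key : (Ce (Os a b w v) ⊔ zpowers t) ⊓ No (Bs a b w v ⊔ zpowers t) ≤
      Bs a b w v ⊔ zpowers t := by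
    rintro _ ⟨g1, g2⟩
    obtain ⟨n, hn, k, hk, rfl⟩ := (mem_sup_right_norm tC).1 g1
    have n1 : n ∈ No (Bs a b w v ⊔ zpowers t) := by
      exact (mul_mem_cancel_right (le_normalizer (mem_sup_right hk))).1 g2
    refine mul_mem (mem_sup_left ?_) (mem_sup_right hk)
    have n2 := conj_mem_of_mem_normalizer n1 (mem_sup_right (mem_zpowers t))
    rw [sup_comm] at n2
    obtain ⟨k', hk', β, hβ, e1⟩ := (mem_sup_left_norm tB').1 n2
    have cn : ∀ y ∈ ({a ^ 2, b ^ 2, w ^ 2, v ^ 2} : Set G), Commute n y := fun y hy =>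
      (hn y (subset_closure hy)).symm
    rcases zt h hk' with rfl | rfl
    · refine absurd ?_ tn
      have := mul_mem (mul_mem (inv_mem hn) (BC hβ)) hn
      rwa [← one_mul β, ← e1, show n⁻¹ * (n * t * n⁻¹) * n = t by group] at this
    · exact memB h hβ e1 (cn _ (by simp)) (cn _ (by simp)) (cn _ (by simp))
  have s1 : IsSyl 2 (Bs a b w v ⊔ zpowers t) (Ce (Os a b w v) ⊔ zpowers t) :=
    isSyl_of_isSyl_normalizer ⟨le_inf (sup_le_sup_right BC _) le_normalizer,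
      pB.to_sup_of_normal_left' pt tB', fun Q _ q1 q2 => le_antisymm (q2.trans key) q1⟩
  have s2 := s1.inf_of_le_normalizer le_sup_left (sup_le (BC.trans le_normalizer) tC)
  convert s2 using 1
  refine le_antisymm (le_inf le_sup_left BC) ?_
  rintro _ ⟨g1, g2⟩
  obtain ⟨β, hβ, k, hk, rfl⟩ := (mem_sup_right_norm tB').1 g1
  rcases zt h hk with rfl | rfl
  · rwa [mul_one]
  · exact absurd (by simpa using mul_mem (inv_mem (BC hβ)) g2) tn

omit h [Finite G] in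
theorem jobUC : JobUC.{u} := fun _ _ _ _ _ _ _ _ _ _ _ _ _ _ _ h =>
  { h with
    cB := (c4 h).card
    nf := fun β hβ => by
      obtain ⟨i, j, k, l, e⟩ := (c4 h).nf hβ
      exact ⟨i, j, k, l, by simpa only [bt, zpow_natCast] using e⟩
    tB := tB h
    sB := sB h
    fB := fB h
    tc := fun _ => tc h
    sc := fun _ => sc h
    cs := cs h
    sylB := sylB h }

end H76.DP1UC
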