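import Cfsg.Agent.Base
import Cfsg.Agent.H48.DP3Spec

/-! A Boolean model of `SL(3, 2)`. -/

set_option autoImplicit false
set_option maxRecDepth 100000

namespace H76.DPL
open Subgroup Cfsg H98 H97 H48.DP

/-- `3 × 3` matrices over the field with two elements. -/
structure B9 where
  (a b c d e f g h i : Bool)
  deriving DecidableEq

namespace B9

/-- Product. -/
def mul (x y : B9) : B9 :=
  ⟨(x.a && y.a) ^^ (x.b && y.d) ^^ (x.c && y.g), (x.a && y.b) ^^ (x.b && y.e) ^^ (x.c && y.h),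
   (x.a && y.c) ^^ (x.b && y.f) ^^ (x.c && y.i), (x.d && y.a) ^^ (x.e && y.d) ^^ (x.f && y.g),
   (x.d && y.b) ^^ (x.e && y.e) ^^ (x.f && y.h), (x.d && y.c) ^^ (x.e && y.f) ^^ (x.f && y.i),
   (x.g && y.a) ^^ (x.h && y.d) ^^ (x.i && y.g), (x.g && y.b) ^^ (x.h && y.e) ^^ (x.i && y.h),
   (x.g && y.c) ^^ (x.h && y.f) ^^ (x.i && y.i)⟩

/-- Determinant. -/
def det (x : B9) : Bool :=
  (x.a && ((x.e && x.i) ^^ (x.f && x.h))) ^^ (x.b && ((x.d && x.i) ^^ (x.f && x.g))) ^^
    (x.c && ((x.d && x.h) ^^ (x.e && x.g)))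

/-- Adjugate. -/
def adj (x : B9) : B9 :=
  ⟨(x.e && x.i) ^^ (x.f && x.h), (x.c && x.h) ^^ (x.b && x.i), (x.b && x.f) ^^ (x.c && x.e),
   (x.f && x.g) ^^ (x.d && x.i), (x.a && x.i) ^^ (x.c && x.g), (x.c && x.d) ^^ (x.a && x.f),
   (x.d && x.h) ^^ (x.e && x.g), (x.b && x.g) ^^ (x.a && x.h), (x.a && x.e) ^^ (x.b && x.d)⟩

/-- Identity. -/
def one : B9 := ⟨true, false, false, false, true, false, false, false, true⟩

/-- Booleans as residues. -/
def z (b : Bool) : ZMod 2 := bif b then 1 else 0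

theorem z_xor : ∀ a b, z (a ^^ b) = z a + z b := by decide
theorem z_and : ∀ a b, z (a && b) = z a * z b := by decide
theorem z_inj : ∀ a b, z a = z b ↔ a = b := by decide
theorem z_surj : ∀ r : ZMod 2, ∃ a, z a = r := by decide
theorem z_one : ∀ a, z a = 1 ↔ a = true := by decide

/-- The matrix. -/
def mat (x : B9) : Matrix (Fin 3) (Fin 3) (ZMod 2) :=
  !![z x.a, z x.b, z x.c; z x.d, z x.e, z x.f; z x.g, z x.h, z x.i]

theorem mat_mul (x y : B9) : (x.mul y).mat = x.mat * y.mat := by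
  simp only [mat, mul, z_xor, z_and, Matrix.mul_fin_three]

theorem mat_inj {x y : B9} (h : x.mat = y.mat) : x = y := by
  have h' := fun i j => congrFun (congrFun h i) j
  have h1 := h' 0 0; have h2 := h' 0 1; have h3 := h' 0 2
  have h4 := h' 1 0; have h5 := h' 1 1; have h6 := h' 1 2
  have h7 := h' 2 0; have h8 := h' 2 1; have h9 := h' 2 2
  cases x; cases y
  simp [mat, z_inj] at h1 h2 h3 h4 h5 h6 h7 h8 h9
  simp [*]

theorem mat_surj (m : Matrix (Fin 3) (Fin 3) (ZMod 2)) : ∃ x : B9, x.mat = m := by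
  choose s hs using z_surj
  refine ⟨⟨s (m 0 0), s (m 0 1), s (m 0 2), s (m 1 0), s (m 1 1), s (m 1 2), s (m 2 0), s (m 2 1),
    s (m 2 2)⟩, ?_⟩
  simp only [mat, hs]
  exact (Matrix.eta_fin_three m).symm

theorem det_mat (x : B9) : x.mat.det = z x.det := by
  rw [Matrix.det_fin_three]
  simp [mat, det, z_xor, z_and, CharTwo.sub_eq_add]
  ring

theorem all_spec : ∀ a b c d e f g h i : Bool, let x : B9 := ⟨a, b, c, d, e, f, g, h, i⟩
    one.mul x = x ∧ (x.det = true → x.adj.det = true ∧ x.adj.mul x = one) := by decide +kernel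

/-- All matrices. -/
def all : List B9 :=
  let t := [false, true]
  t.flatMap fun a => t.flatMap fun b => t.flatMap fun c => t.flatMap fun d => t.flatMap fun e =>
    t.flatMap fun f => t.flatMap fun g => t.flatMap fun h => t.map fun i => ⟨a, b, c, d, e, f, g, h, i⟩

theorem mem_all (x : B9) : x ∈ all := by
  have : ∀ b : Bool, b ∈ [false, true] := by decide
  obtain ⟨a, b, c, d, e, f, g, h, i⟩ := x
  simp only [all, List.mem_flatMap, List.mem_map]
  exact ⟨a, this a, b, this b, c, this c, d, this d, e, this e, f, this f, g, this g, h, this h,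
    i, this i, rfl⟩

end B9

/-- The model of `SL(3, 2)`. -/
def Gm : Type := {x : B9 // x.det = true}

namespace Gm

instance : DecidableEq Gm := fun x y => decidable_of_iff (x.1 = y.1) Subtype.ext_iff.symm

instance : Mul Gm := ⟨fun x y => ⟨x.1.mul y.1, by
  rw [← B9.z_one, ← B9.det_mat, B9.mat_mul, Matrix.det_mul, B9.det_mat, B9.det_mat, x.2, y.2]; decide⟩⟩

instance : One Gm := ⟨⟨B9.one, rfl⟩⟩

instance : Inv Gm := ⟨fun x => ⟨x.1.adj, ((B9.all_spec _ _ _ _ _ _ _ _ _).2 x.2).1⟩⟩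

instance : Group Gm := Group.ofLeftAxioms
  (fun x y w => Subtype.ext (B9.mat_inj (by
    show ((x.1.mul y.1).mul w.1).mat = (x.1.mul (y.1.mul w.1)).mat
    simp only [B9.mat_mul, Matrix.mul_assoc])))
  (fun x => Subtype.ext (B9.all_spec _ _ _ _ _ _ _ _ _).1)
  (fun x => Subtype.ext ((B9.all_spec _ _ _ _ _ _ _ _ _).2 x.2).2)

/-- The matrix of an element. -/
def toSL (x : Gm) : Matrix.SpecialLinearGroup (Fin 3) (ZMod 2) :=
  ⟨x.1.mat, by rw [B9.det_mat, x.2]; rfl⟩

/-- The isomorphism with `SL(3, 2)`. -/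
noncomputable def iso : Gm ≃* Matrix.SpecialLinearGroup (Fin 3) (ZMod 2) :=
  MulEquiv.ofBijective
    (MonoidHom.mk' toSL fun x y => Subtype.ext (B9.mat_mul x.1 y.1))
    ⟨fun _ _ h => Subtype.ext (B9.mat_inj (congrArg Subtype.val h)), fun m => by
      obtain ⟨x, hx⟩ := B9.mat_surj m.1
      exact ⟨⟨x, by rw [← B9.z_one, ← B9.det_mat, hx, m.2]⟩, Subtype.ext hx⟩⟩

/-- All elements. -/
def els : List Gm := B9.all.filterMap fun x => if h : x.det = true then some ⟨x, h⟩ else none

theorem mem_els (x : Gm) : x ∈ els :=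
  List.mem_filterMap.mpr ⟨x.1, B9.mem_all _, by rw [dif_pos x.2]; rfl⟩

theorem nodup_els : els.Nodup ∧ els.length = 168 := by decide +kernel

instance : Finite Gm := Finite.of_surjective (fun i : Fin els.length => els.get i) fun x =>
  List.get_of_mem (mem_els x)

/-- The elements with a property. -/
def l (p : Gm → Bool) : List Gm := els.filter p

theorem mem_l {p : Gm → Bool} {x : Gm} : x ∈ l p ↔ p x = true := by
  simp [l, mem_els]

/-- Closure under the operations. -/
def Cl (p : Gm → Bool) : Prop :=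
  p 1 = true ∧ ∀ x ∈ l p, p x⁻¹ = true ∧ ∀ y ∈ l p, p (x * y) = true

instance (p : Gm → Bool) : Decidable (Cl p) := by unfold Cl; infer_instance

/-- The subgroup given by a property. -/
def sg (p : Gm → Bool) (h : Cl p) : Subgroup Gm where
  carrier := {x | p x = true}
  one_mem' := h.1
  mul_mem' := fun ha hb => (h.2 _ (mem_l.mpr ha)).2 _ (mem_l.mpr hb)
  inv_mem' := fun ha => (h.2 _ (mem_l.mpr ha)).1

theorem mem_sg {p : Gm → Bool} {h : Cl p} {x : Gm} : x ∈ sg p h ↔ p x = true := Iff.rfl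

theorem card_sg (p : Gm → Bool) (h : Cl p) : Nat.card (sg p h) = (l p).length := by
  have : ((sg p h : Subgroup Gm) : Set Gm) = ((l p).toFinset : Finset Gm) := by
    ext x; simp only [SetLike.mem_coe, mem_sg, List.mem_toFinset, mem_l]
  rw [← SetLike.coe_sort_coe, this, Nat.card_coe_set_eq, Set.ncard_coe_finset,
    List.toFinset_card_of_nodup (show (l p).Nodup from nodup_els.1.filter p)]

theorem card_top : Nat.card (⊤ : Subgroup Gm) = 168 := by
  have : ((⊤ : Subgroup Gm) : Set Gm) = (els.toFinset : Finset Gm) := by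
    ext x; simp [mem_els]
  rw [← SetLike.coe_sort_coe, this, Nat.card_coe_set_eq, Set.ncard_coe_finset,
    List.toFinset_card_of_nodup nodup_els.1, nodup_els.2]

end Gm

end H76.DPL
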