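import Cfsg.Agent.H76.DPLa

/-! The parabolic subgroups of `SL(3, 2)`: `JobLTm`. -/

set_option autoImplicit false
set_option maxRecDepth 100000

namespace H76.DPL
open Subgroup Cfsg H98 H97 H48.DP
open scoped commutatorElement

section Transport
variable {A B : Type*} [Group A] [Group B] (e : A ≃* B)

/-- Image under an isomorphism. -/
abbrev im (H : Subgroup A) : Subgroup B := H.map (e : A →* B)

theorem mem_im {H : Subgroup A} {x : A} : e x ∈ im e H ↔ x ∈ H :=
  mem_map_iff_mem (f := (e : A →* B)) e.injective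

theorem im_im (H : Subgroup B) : im e (im e.symm H) = H := by
  ext y; obtain ⟨x, rfl⟩ := e.surjective y
  rw [mem_im, ← mem_im e.symm, e.symm_apply_apply]

theorem im_im' (H : Subgroup A) : im e.symm (im e H) = H := im_im e.symm H

theorem im_o2 (H : Subgroup A) : O2 (im e H) = im e (O2 H) :=
  (map_pCoreOf_of_injective e.injective H).symm

theorem im_idx (H K : Subgroup A) : (im e H).relIndex (im e K) = H.relIndex K :=
  relIndex_map_map_of_injective _ _ e.injective

theorem im_no {H K : Subgroup A} (h : im e H ≤ No (im e K)) : H ≤ No K := by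
  have := map_le_normalizer_map (e.symm : B →* A) h
  rwa [show (im e H).map _ = H from im_im' e H, show (im e K).map _ = K from im_im' e K] at this

theorem s3_im {T P : Subgroup A} (h : S3 T P) : S3 (im e T) (im e P) :=
  ⟨map_mono h.le, h.two.map _, (im_idx e _ _).trans h.idx, fun h' => h.nn (im_no e h')⟩

theorem lh_im {T P R L : Subgroup A} (h : LH T P R L) :
    LH (im e T) (im e P) (im e R) (im e L) where
  s3 := s3_im e h.s3
  leL := map_mono h.leL
  le := by rw [im_o2, im_o2]; exact map_mono h.le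
  idx := by rw [im_o2, im_o2, im_idx, h.idx]
  el := by
    simp only [im_o2, e.surjective.forall, mem_im, ← map_mul]
    exact h.el
  fpf := by
    simp only [im_o2, e.surjective.forall, mem_im, ← map_commutatorElement, e.orderOf_eq]
    exact h.fpf
  bru := by
    simp only [e.surjective.forall, e.surjective.exists, mem_im, ← map_mul, e.apply_eq_iff_eq]
    exact h.bru
  nrm := by
    simp only [im_o2, e.surjective.forall, e.surjective.exists, mem_im, ← map_mul, ← map_inv,
      ← map_pow]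
    exact h.nrm

theorem lt_im {T P R L : Subgroup A} (h : LT T P R L) :
    LT (im e T) (im e P) (im e R) (im e L) where
  h1 := lh_im e h.h1
  h2 := lh_im e h.h2
  eq := by rw [h.eq]; exact map_sup _ _ _
  ne := fun h' => h.ne (map_injective e.injective h')
  idx := (im_idx e _ _).trans h.idx
  simple := fun N h1 h2 h3 => by
    rw [← im_im e N, im_o2] at *
    exact (h.simple _ ((map_le_map_iff_of_injective e.injective).mp h1)
      ((map_le_map_iff_of_injective e.injective).mp h2) (im_no e h3)).imp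
      (congrArg (im e)) (congrArg (im e))
  ovr := fun X h1 h2 => by
    have h3 := s3_im e.symm h1
    rw [im_im'] at h3
    rw [← im_im e X] at h2 ⊢
    exact (h.ovr _ h3 ((map_le_map_iff_of_injective e.injective).mp h2)).imp
      (congrArg (im e)) (congrArg (im e))
  sq := by
    simp only [im_o2, e.surjective.forall, mem_im, ← map_mul]
    exact h.sq

end Transport

theorem idx_of_card {G : Type*} [Group G] {H K : Subgroup G} (h : H ≤ K) {m n : ℕ}
    (hH : Nat.card H = m) (hm : 0 < m) (hK : Nat.card K = n * m) : H.relIndex K = n := by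
  have e := (H.subgroupOf K).index_mul_card
  rw [Nat.card_congr (subgroupOfEquivOfLe h).toEquiv, hH, hK] at e
  exact Nat.eq_of_mul_eq_mul_right hm e

namespace Gm

theorem o2_eq {p q : Gm → Bool} (hp : Cl p) (hq : Cl q) (h1 : (l q).length = 4)
    (h2 : ∀ a ∈ l q, p a = true ∧ ∀ x ∈ l p, q (x * a * x⁻¹) = true)
    (h3 : ∀ x ∈ l p, q x = true ∨ ∃ y ∈ l p, x * (y * x * y⁻¹) ≠ 1 ∧
      x * (y * x * y⁻¹) * (x * (y * x * y⁻¹)) * (x * (y * x * y⁻¹)) = 1) :
    O2 (sg p hp) = sg q hq := by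
  have : Fact (Nat.Prime 3) := ⟨Nat.prime_three⟩
  refine le_antisymm (fun x hx => ?_) (le_pCoreOf (IsPGroup.of_card (n := 2) (by
    rw [card_sg, h1]; rfl)) (fun a ha => (h2 a (mem_l.mpr ha)).1) fun x hx =>
      mem_normalizer_of_cj_le ?_)
  · rcases h3 x (mem_l.mpr (pCoreOf_le _ hx)) with h | ⟨y, hy, h, h'⟩
    · exact h
    · have hm : x * (y * x * y⁻¹) ∈ O2 (sg p hp) := mul_mem hx
        (conj_mem_of_mem_normalizer (self_le_normalizer_pCoreOf _ (mem_l.mp hy)) hx)
      obtain ⟨k, hk⟩ := isPGroup_iff_forall.1 (isPGroup_pCoreOf (p := 2) (sg p hp)) _ hm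
      have h4 : orderOf (x * (y * x * y⁻¹)) = 3 :=
        orderOf_eq_prime (by rw [pow_succ, pow_two]; exact h') h
      have := orderOf_dvd_of_pow_eq_one hk
      rw [h4] at this
      exact absurd (Nat.prime_three.dvd_of_dvd_pow this) (by decide)
  · rintro _ ⟨a, ha, rfl⟩
    exact (h2 a (mem_l.mpr ha)).2 x (mem_l.mpr hx)

/-- Upper triangular matrices. -/
def pT (x : Gm) : Bool := !x.1.d && !x.1.g && !x.1.h
/-- The stabiliser of a plane. -/
def pP (x : Gm) : Bool := !x.1.g && !x.1.h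
/-- The stabiliser of a line. -/
def pR (x : Gm) : Bool := !x.1.d && !x.1.g
/-- The unipotent radical of `pP`. -/
def qP (x : Gm) : Bool := pT x && !x.1.b
/-- The unipotent radical of `pR`. -/
def qR (x : Gm) : Bool := pT x && !x.1.f

theorem cl : Cl pT ∧ Cl pP ∧ Cl pR ∧ Cl qP ∧ Cl qR := by decide +kernel

/-- The Sylow subgroup. -/
abbrev T : Subgroup Gm := sg pT cl.1

theorem card_T : Nat.card T = 8 := (card_sg _ _).trans (by decide +kernel)

theorem o2P : O2 (sg pP cl.2.1) = sg qP cl.2.2.2.1 :=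
  o2_eq _ _ (by decide +kernel) (by decide +kernel) (by decide +kernel)

theorem o2R : O2 (sg pR cl.2.2.1) = sg qR cl.2.2.2.2 :=
  o2_eq _ _ (by decide +kernel) (by decide +kernel) (by decide +kernel)

theorem o2_top (hs : IsSimpleGroup Gm) : O2 (⊤ : Subgroup Gm) = ⊥ := by
  have : (O2 (⊤ : Subgroup Gm)).Normal := normal_of_top_le_normalizer (self_le_normalizer_pCoreOf _)
  refine (this.eq_bot_or_eq_top).resolve_right fun h => ?_
  obtain ⟨k, hk⟩ := (IsPGroup.iff_card (p := 2)).mp (isPGroup_pCoreOf (p := 2) (⊤ : Subgroup Gm))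
  rw [show pCoreOf 2 (⊤ : Subgroup Gm) = ⊤ from h, card_top] at hk
  exact absurd (Nat.prime_three.dvd_of_dvd_pow (hk ▸ (by decide : 3 ∣ 168))) (by decide)

theorem lh (hs : IsSimpleGroup Gm) {p r q q' : Gm → Bool} {hp : Cl p} {hr : Cl r} {hq : Cl q}
    {hq' : Cl q'} (e : O2 (sg p hp) = sg q hq) (e' : O2 (sg r hr) = sg q' hq') (r₁ r₂ s₁ s₂ : Gm)
    (h1 : (∀ x ∈ l pT, p x = true) ∧ (l p).length = 24 ∧ (l q).length = 4 ∧
      pT (r₁ * s₁ * r₁⁻¹) = false ∧ (∀ a ∈ l q, a * a = 1) ∧
      ∀ x ∈ l p, x * x * x = 1 → x ≠ 1 → ∀ a ∈ l q, a * x * a⁻¹ * x⁻¹ = 1 → a = 1)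
    (h2 : ∀ y ∈ l r, pT y = false → ∀ g ∈ els, p g = true ∨ ∃ x ∈ l p, p ((x * y)⁻¹ * g) = true)
    (h3 : p r₁ = true ∧ r r₂ = true ∧ pT s₁ = true ∧ pT s₂ = true ∧ pT r₁ = false ∧
      pT r₂ = false ∧ q s₁ = false ∧ q' s₂ = false ∧ pT (r₁ * s₂ * r₁⁻¹) = true ∧
      pT ((r₁ * r₂) * s₁ * (r₁ * r₂)⁻¹) = true ∧
      ∀ u ∈ l pT, ∃ a b c : Fin 2, (s₁ ^ a.val * (r₁ * s₂ * r₁⁻¹) ^ b.val *
        ((r₁ * r₂) * s₁ * (r₁ * r₂)⁻¹) ^ c.val)⁻¹ * u = 1) :
    LH T (sg p hp) (sg r hr) ⊤ := by
  obtain ⟨a1, a2, a3, a4, a5, a6⟩ := h1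
  obtain ⟨b1, b2, b3, b4, b5, b6, b7, b8, b9, b10, b11⟩ := h3
  have hT : T ≤ sg p hp := fun x hx => a1 x (mem_l.mpr hx)
  refine ⟨⟨hT, IsPGroup.of_card (n := 3) card_T, idx_of_card hT card_T (by decide)
    ((card_sg _ _).trans a2), fun h => ?_⟩, le_top, ?_, ?_, ?_, ?_, ?_, ?_⟩
  · have : pT _ = true := conj_mem_of_mem_normalizer (h (show r₁ ∈ sg p hp from b1))
      (show s₁ ∈ T from b3)
    rw [a4] at this; exact absurd this (by decide)
  · rw [o2_top hs]; exact bot_le
  · rw [o2_top hs, e, relIndex_bot_left, card_sg, a3]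
  · rw [o2_top hs, e]; exact fun a ha => a5 a (mem_l.mpr ha)
  · rw [o2_top hs, e]
    intro x hx ho a ha h
    refine a6 x (mem_l.mpr hx) ?_ ?_ a (mem_l.mpr ha) h
    · rw [← pow_two, ← pow_succ]; exact (congrArg (x ^ ·) ho).symm.trans (pow_orderOf_eq_one x)
    · rintro rfl; rw [orderOf_one] at ho; exact absurd ho (by decide)
  · intro y hy hy' g _
    refine (h2 y (mem_l.mpr hy) (by simpa [mem_sg] using hy') g (mem_els g)).imp id ?_
    rintro ⟨x, hx, h⟩
    exact ⟨x, mem_l.mp hx, _, h, by group⟩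
  · rw [o2_top hs, e, e']
    refine ⟨r₁, b1, r₂, b2, s₁, b3, s₂, b4, ?_, ?_, ?_, ?_, b9, b10, fun u hu => b11 u (mem_l.mpr hu)⟩
      <;> simp [mem_sg, *]

/-- A permutation matrix. -/
def w1 : Gm := ⟨⟨false, true, false, true, false, false, false, false, true⟩, rfl⟩
/-- A permutation matrix. -/
def w2 : Gm := ⟨⟨true, false, false, false, false, true, false, true, false⟩, rfl⟩
/-- A transvection. -/
def e1 : Gm := ⟨⟨true, true, false, false, true, false, false, false, true⟩, rfl⟩
/-- A transvection. -/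
def e2 : Gm := ⟨⟨true, false, false, false, true, true, false, false, true⟩, rfl⟩

theorem seven : ∀ x ∈ els, pP x = true ∨ pR x = true ∨ ∃ t ∈ l pT, x * t ≠ 1 ∧ (x * t) ^ 7 = 1 := by
  decide +kernel

theorem lt (hs : IsSimpleGroup Gm) : LT T (sg pP cl.2.1) (sg pR cl.2.2.1) ⊤ := by
  have h1 := lh hs o2P o2R w1 w2 e1 e2 (by decide +kernel) (by decide +kernel) (by decide +kernel)
  have h2 := lh hs o2R o2P w2 w1 e2 e1 (by decide +kernel) (by decide +kernel) (by decide +kernel)
  have c1 : Nat.card (sg pP cl.2.1) = 24 := (card_sg _ _).trans (by decide +kernel)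
  have c2 : Nat.card (sg pR cl.2.2.1) = 24 := (card_sg _ _).trans (by decide +kernel)
  refine ⟨h1, h2, (top_le_iff.mp fun g _ => ?_).symm, fun h => ?_,
    idx_of_card le_top card_T (by decide) card_top, fun N _ _ h => ?_, fun X hX _ => ?_, ?_⟩
  · have m : w2 ∈ sg pR cl.2.2.1 := by rw [mem_sg]; rfl
    rcases h1.bru w2 m (by rw [mem_sg]; decide) g (mem_top g) with h | ⟨x, hx, y, hy, rfl⟩
    · exact mem_sup_left h
    · exact mul_mem (mul_mem (mem_sup_left hx) (mem_sup_right m)) (mem_sup_left hy)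
  · have : w2 ∈ sg pP cl.2.1 := by rw [h, mem_sg]; rfl
    exact absurd this (by rw [mem_sg]; decide)
  · rw [o2_top hs]
    exact (normal_of_top_le_normalizer h).eq_bot_or_eq_top
  · have : Fact (Nat.Prime 7) := ⟨by decide⟩
    have cX : Nat.card X = 24 := by
      have e := (T.subgroupOf X).index_mul_card
      rw [Nat.card_congr (subgroupOfEquivOfLe hX.le).toEquiv, card_T,
        show (T.subgroupOf X).index = 3 from hX.idx] at e
      exact e.symm
    have hu : ∀ x ∈ X, x ∈ sg pP cl.2.1 ∨ x ∈ sg pR cl.2.2.1 := fun x hx => by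
      rcases seven x (mem_els x) with h | h | ⟨t, ht, h, h'⟩
      · exact .inl h
      · exact .inr h
      · have := X.orderOf_dvd_natCard (mul_mem hx (hX.le (mem_l.mp ht)))
        rw [orderOf_eq_prime h' h, cX] at this
        exact absurd this (by decide)
    by_cases h : X ≤ sg pP cl.2.1
    · exact .inl (eq_of_le_of_card_ge h (by rw [c1, cX]))
    · obtain ⟨a, ha, ha'⟩ := SetLike.not_le_iff_exists.1 h
      have haR := (hu a ha).resolve_left ha'
      refine .inr (eq_of_le_of_card_ge (fun b hb => ?_) (by rw [c2, cX]))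
      by_contra hb'
      rcases hu _ (mul_mem ha hb) with h' | h'
      · exact ha' ((mul_mem_cancel_right ((hu b hb).resolve_right hb')).mp h')
      · exact hb' ((mul_mem_cancel_left haR).mp h')
  · rw [o2_top hs, o2P, o2R]
    have : ∀ u ∈ l pT, qP u = true ∨ qR u = true ∨ u * u ≠ 1 := by decide +kernel
    intro u hu h h'
    exact ((this u (mem_l.mpr hu)).resolve_left h).resolve_left h'

end Gm

theorem jobLTm : JobLTm := fun hs => by
  have h := lt_im Gm.iso (Gm.lt Gm.iso.isSimpleGroup)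
  rw [show im Gm.iso ⊤ = ⊤ from map_top_of_surjective _ Gm.iso.surjective] at h
  exact ⟨_, _, _, h⟩

end H76.DPL
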