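import Cfsg.Agent.Base
import Cfsg.Agent.H48.DP3Spec
import Cfsg.Agent.H18.Misc2
import Cfsg.Agent.H2.MinNormal

/-! The solvable case: `JobSA`. -/

set_option autoImplicit false

namespace H76.DPS
open Subgroup Cfsg H98 H97 H48.DP

theorem pm_one (n : ℕ) : ∀ (j : ℕ) (k : ℤ), (3 : ℤ) ^ (n + 1) ∣ k ^ 2 ^ j - 1 →
    (3 : ℤ) ^ (n + 1) ∣ k - 1 ∨ (3 : ℤ) ^ (n + 1) ∣ k + 1
  | 0, k, h => .inl (by simpa using h)
  | j + 1, k, h => by
    rw [pow_succ' 2 j, pow_mul] at h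
    rcases pm_one n j _ h with h | h
    · rw [show k ^ 2 - 1 = (k - 1) * (k + 1) by ring] at h
      by_cases h1 : (3 : ℤ) ∣ k - 1
      · exact .inl (Int.prime_three.pow_dvd_of_dvd_mul_right _ (by omega) h)
      · exact .inr (Int.prime_three.pow_dvd_of_dvd_mul_left _ h1 h)
    · have h3 : (3 : ℤ) ∣ k ^ 2 + 1 := (dvd_pow_self 3 n.succ_ne_zero).trans h
      obtain ⟨m, hm⟩ : ∃ m, k = 3 * m ∨ k = 3 * m + 1 ∨ k = 3 * m + 2 := ⟨k / 3, by omega⟩
      rcases hm with rfl | rfl | rfl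
      · rw [show (3 * m) ^ 2 + 1 = 3 * (3 * m ^ 2) + 1 by ring] at h3; omega
      · rw [show (3 * m + 1) ^ 2 + 1 = 3 * (3 * m ^ 2 + 2 * m) + 2 by ring] at h3; omega
      · rw [show (3 * m + 2) ^ 2 + 1 = 3 * (3 * m ^ 2 + 4 * m + 1) + 2 by ring] at h3; omega

variable {X : Type*} [Group X]

theorem conj_iter {u y : X} {k : ℤ} (h : u * y * u⁻¹ = y ^ k) (m : ℕ) :
    u ^ m * y * (u ^ m)⁻¹ = y ^ k ^ m := by
  induction m with
  | zero => simp
  | succ m ih =>
    rw [show u ^ (m + 1) * y * (u ^ (m + 1))⁻¹ = u * (u ^ m * y * (u ^ m)⁻¹) * u⁻¹ by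
      rw [pow_succ']; group, ih, ← conj_zpow, h, ← zpow_mul, pow_succ']

theorem fix_or_inv {u y : X} {j a : ℕ} (hu : u ^ 2 ^ j = 1) (hy : orderOf y = 3 ^ (a + 1))
    (h : u * y * u⁻¹ ∈ zpowers y) : u * y * u⁻¹ = y ∨ u * y * u⁻¹ = y⁻¹ := by
  obtain ⟨k, hk⟩ := mem_zpowers_iff.mp h
  have e := conj_iter hk.symm (2 ^ j)
  rw [hu, one_mul, inv_one, mul_one] at e
  have h1 : (3 : ℤ) ^ (a + 1) = orderOf y := by rw [hy]; simp
  have := pm_one a j k (by
    rw [h1, orderOf_dvd_iff_zpow_eq_one, zpow_sub_one, ← e, mul_inv_cancel])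
  rw [h1, orderOf_dvd_iff_zpow_eq_one, orderOf_dvd_iff_zpow_eq_one, zpow_sub_one, zpow_add_one,
    mul_inv_eq_one, mul_eq_one_iff_eq_inv, hk] at this
  exact this

variable [Finite X]

theorem mem_fit (hO : pCore 2 X = ⊥) (hs : Group.IsSolvable X) {y b : X}
    (hy : zpowers y = pCore 3 X) (h3 : b * y * b⁻¹ = y)
    (h : ∀ p : ℕ, p.Prime → 3 < p → b ∈ Ce (pCore p X)) : b ∈ fittingSubgroup X := by
  refine H2.centralizer_fitting_le X (?_ : b ∈ Ce (fittingSubgroup X))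
  rw [← zpowers_le, le_centralizer_iff, H2.fitting_eq_iSup_pCore, iSup_le_iff]
  rintro ⟨p, hp⟩
  rw [le_centralizer_iff, zpowers_le]
  by_cases h2 : p = 2
  · subst h2; simp only [hO, centralizer_bot', mem_top]
  by_cases h' : p = 3
  · subst h'
    simp only [← hy]
    rintro _ ⟨n, rfl⟩
    exact ((show Commute y b from (mul_inv_eq_iff_eq_mul.mp h3).symm).zpow_left n).eq
  · exact h p hp (by have := hp.two_le; omega)

omit [Finite X] in
theorem cent_core (hI : H48.DP.Inv X) {u : X} {j : ℕ} (hu : u ^ 2 ^ j = 1) (p : ℕ) (hp : p.Prime)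
    (h3 : 3 < p) : u ∈ Ce (pCore p X) :=
  hI p hp h3 _ _ (isPGroup_zpowers hu) (isPGroup_pCore p X) (by
    rw [show No (pCore p X) = ⊤ from normalizer_eq_top _]; exact le_top) (mem_zpowers u)

theorem mem_core {p : ℕ} [Fact p.Prime] {b : X} {k : ℕ} (hb : b ∈ fittingSubgroup X)
    (h : b ^ p ^ k = 1) : b ∈ pCore p X :=
  H2.le_pCore_of_le_fitting (isPGroup_zpowers h) (zpowers_le.mpr hb) (mem_zpowers b)

theorem mem_three (hO : pCore 2 X = ⊥) (hI : H48.DP.Inv X) {t b : X} (ht : t ^ 2 ^ 1 = 1)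
    (hb : b ∈ fittingSubgroup X) (h : t * b * t⁻¹ = b⁻¹) : b ∈ pCore 3 X := by
  have : Fact (Nat.Prime 3) := ⟨Nat.prime_three⟩
  obtain ⟨k, hk⟩ := exists_pow_coprime (p := 3) (isOfFinOrder_of_finite b)
  refine mem_core hb (k := k) ?_
  by_contra hne
  obtain ⟨p, hp, hd⟩ := Nat.exists_prime_and_dvd (mt orderOf_eq_one_iff.mp hne)
  have : Fact p.Prime := ⟨hp⟩
  have ho := orderOf_pow_orderOf_div (orderOf_pos (b ^ 3 ^ k)).ne' hd
  rw [← pow_mul] at ho
  generalize 3 ^ k * (orderOf (b ^ 3 ^ k) / p) = m at ho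
  have hc : b ^ m ∈ pCore p X :=
    mem_core (pow_mem hb m) (k := 1) (by rw [pow_one, ← ho, pow_orderOf_eq_one])
  have h1 : b ^ m ≠ 1 := fun e => hp.one_lt.ne' (by rw [← ho, e, orderOf_one])
  by_cases h2 : p = 2
  · subst h2; exact h1 (by rwa [hO] at hc)
  have h3 : p ≠ 3 := by
    rintro rfl
    exact absurd (Nat.Coprime.eq_one_of_dvd (hk.symm) hd) (by decide)
  have e := cent_core hI ht p hp (by have := hp.two_le; omega) _ hc
  have e2 : b ^ m = (b ^ m)⁻¹ := by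
    rw [← inv_pow, ← h, conj_pow, ← e, mul_inv_cancel_right]
  have e3 : orderOf (b ^ m) ∣ 2 :=
    orderOf_dvd_of_pow_eq_one (by rw [pow_two]; exact mul_eq_one_iff_eq_inv.mpr e2)
  exact h2 ((Nat.prime_dvd_prime_iff_eq hp Nat.prime_two).mp (ho ▸ e3))

theorem jobSA : JobSA := by
  intro X _ _ hO hI h3 hs T hT
  have : Fact (Nat.Prime 3) := ⟨Nat.prime_three⟩
  obtain ⟨y, hy⟩ := (Subgroup.isCyclic_iff_exists_zpowers_eq_top _).1 (h3 _ (isPGroup_pCore 3 X))
  have hn : (zpowers y).Normal := hy ▸ inferInstance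
  have triv : ∀ u ∈ T, u * y * u⁻¹ = y → u = 1 := fun u hu h => by
    obtain ⟨j, hj⟩ := isPGroup_iff_forall.1 hT.isPGroup u hu
    have := mem_core (mem_fit hO hs hy h (cent_core hI hj)) hj
    rwa [hO] at this
  refine or_iff_not_imp_left.mpr fun hne => ?_
  obtain ⟨⟨t, ht⟩, ht1⟩ := ne_bot_iff_exists_ne_one.mp hne
  replace ht1 : t ≠ 1 := fun e => ht1 (Subtype.ext e)
  obtain ⟨n, hn'⟩ := (IsPGroup.iff_card (p := 3)).mp (isPGroup_pCore 3 X)
  rw [← hy, Nat.card_zpowers] at hn'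
  obtain ⟨a, rfl⟩ : ∃ a, n = a + 1 := Nat.exists_eq_succ_of_ne_zero (by
    rintro rfl
    rw [pow_zero, orderOf_eq_one_iff] at hn'
    exact ht1 (triv t ht (by simp [hn'])))
  have inv : ∀ u ∈ T, u ≠ 1 → u * y * u⁻¹ = y⁻¹ := fun u hu h => by
    obtain ⟨j, hj⟩ := isPGroup_iff_forall.1 hT.isPGroup u hu
    exact (fix_or_inv hj hn' (hn.conj_mem _ (mem_zpowers y) u)).resolve_left fun e => h (triv u hu e)
  have two : ∀ u ∈ T, u = 1 ∨ u = t := fun u hu => or_iff_not_imp_left.mpr fun h =>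
    inv_mul_eq_one.mp (triv _ (mul_mem (inv_mem hu) ht) (by
      rw [show u⁻¹ * t * y * (u⁻¹ * t)⁻¹ = u⁻¹ * (t * y * t⁻¹) * u by group, inv t ht ht1,
        ← inv u hu h]
      group))
  have tt : t ^ 2 = 1 := (two _ (pow_mem ht 2)).resolve_right fun e => ht1 (by
    rwa [pow_two, mul_eq_left] at e)
  have hT' : T = zpowers t := le_antisymm (fun u hu => by
    rcases two u hu with rfl | rfl
    exacts [one_mem _, mem_zpowers _]) (zpowers_le.mpr ht)
  have invY : ∀ w ∈ zpowers y, t * w * t⁻¹ = w⁻¹ := by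
    rintro _ ⟨n, rfl⟩
    simp only [← conj_zpow, inv t ht ht1, inv_zpow]
  have key : ∀ g : X, g * t * g⁻¹ ∈ zpowers y ⊔ T := fun g => by
    have hb : g * t * g⁻¹ * t⁻¹ ∈ pCore 3 X := by
      refine mem_three hO hI (t := t) (by simpa using tt) (mem_fit hO hs hy ?_ fun p hp h => ?_) ?_
      · have e1 := invY _ (hn.conj_mem _ (inv_mem (mem_zpowers y)) g⁻¹)
        have e2 : t⁻¹ * y * t = y⁻¹ := by
          have := invY _ (inv_mem (mem_zpowers y))
          rw [inv_inv] at this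
          rw [← congrArg (fun w => t⁻¹ * w * t) this]; group
        calc _ = g * (t * (g⁻¹ * (t⁻¹ * y * t) * g⁻¹⁻¹) * t⁻¹) * g⁻¹ := by group
          _ = y := by rw [e2, e1]; group
      · exact mul_mem (cent_core hI (j := 1) (by simp [conj_pow, tt]) p hp h)
          (inv_mem (cent_core hI (j := 1) (by simpa using tt) p hp h))
      · have e : t⁻¹ = t := inv_eq_of_mul_eq_one_right (by rwa [← pow_two])
        calc _ = t * g * t * g⁻¹ * (t ^ 2)⁻¹ := by group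
          _ = t * g * t⁻¹ * g⁻¹ := by rw [tt, e]; group
          _ = _ := by group
    rw [← hy] at hb
    simpa using mul_mem (mem_sup_left hb) (mem_sup_right ht : t ∈ zpowers y ⊔ T)
  refine ⟨t, y, a, hT', orderOf_eq_prime tt ht1, hn', hn, inv t ht ht1, fun x hx => ?_, ?_⟩
  · have hx3 : IsPGroup 3 (zpowers x) :=
      isPGroup_zpowers (k := 1) (by rw [pow_one, ← hx, pow_orderOf_eq_one])
    refine H18.mem_zpowers_of_orderOf_dvd (h3 _ (hx3.to_sup_of_normal_right (isPGroup_pCore 3 X)))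
      (mem_sup_left (mem_zpowers x)) (mem_sup_right (hy ▸ mem_zpowers y)) ?_
    rw [hx, hn']; exact dvd_pow_self 3 a.succ_ne_zero
  · refine normal_of_top_le_normalizer fun g _ => mem_normalizer_of_cj_le ?_
    rw [cj_sup, cj_eq_self_of_normal]
    refine sup_le le_sup_left ?_
    rintro _ ⟨u, hu, rfl⟩
    rcases two u hu with rfl | rfl
    · simp
    · exact key g

end H76.DPS
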