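import Cfsg.Agent.H36.E7MSpec

/-! E7MAX (S5934), slot A3: for the root types `z ^ Y` is the collinearity component of `z`. -/

set_option autoImplicit false
set_option linter.unusedSectionVars false

namespace H76.E7MA3

open H36.E7M Subgroup
open scoped commutatorElement

variable {Y M : Subgroup G} {a b : G}

theorem cinv {H : Type*} [Group H] {a b : H} (h : Commute a b) : Commute a⁻¹ b := h.inv_left

theorem z_comp : z ∈ Comp M := Relation.ReflTransGen.refl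

theorem tail (ha : a ∈ Comp M) (hb : b ∈ M) (h : Rel 1 a b) : b ∈ Comp M :=
  Relation.ReflTransGen.tail ha ⟨hb, h⟩

theorem comp_mem (p : P1) (hz : z ∈ M) (ha : a ∈ Comp M) : a ∈ M ∧ a ∈ D := by
  induction ha with
  | refl => exact ⟨hz, z_mem_D⟩
  | tail _ h _ => exact ⟨h.1, (p.sym _ _ _ h.2).left⟩

theorem cj_comp {g : G} (hg : g ∈ M) (hz : cj g z ∈ Comp M) (ha : a ∈ Comp M) :
    cj g a ∈ Comp M := by
  induction ha with
  | refl => exact hz
  | tail _ h ih => exact tail ih (cj_mem hg h.1) (h.2.cj g)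

theorem special (p : P1) (hz : z ∈ M) (ha : a ∈ Comp M) (hb : b ∈ M) (h : Rel (-1) a b) :
    b ∈ Comp M := by
  obtain ⟨h1, h2⟩ := p.spe a b h
  have a1 := (comp_mem p hz ha).1
  refine tail (tail ha ?_ h1) hb (p.sym _ _ _ h2)
  exact mul_mem (mul_mem (mul_mem a1 hb) (inv_mem a1)) (inv_mem hb)

theorem opp_nc (p : P1) (h : Rel (-2) a b) : ¬ Commute a b := by
  obtain ⟨g, rfl, rfl⟩ := rel_opp.1 h
  exact fun k => p.zy (commute_cj.1 k)

section

variable (p : P1) (a0 : A0) (hY : Base Y) (hM : Y ≤ M) (hT : M ≠ ⊤)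
include p a0 hY hM hT

theorem comp_orb (ha : a ∈ Comp M) : a ∈ orb Y := by
  induction ha with
  | refl => exact ⟨1, one_mem _, (cj_one z).symm⟩
  | @tail b c _ h ih =>
    obtain ⟨u, hu, rfl⟩ := ih
    obtain ⟨v, hv, e⟩ := a0 M (hY.st hM hT) (cj u⁻¹ c) (cj_mem (inv_mem (hM hu)) h.1)
      (by simpa only [cj_inv_cj] using h.2.cj u⁻¹)
    refine ⟨u * v, mul_mem hu ((closure_le Y).2 ?_ hv), by rw [← cj_cj, ← e, cj_cj_inv]⟩
    rintro w ((rfl | rfl) | hw)
    exacts [hY.z_mem, hY.y_mem, hY.max M hM hT hw]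

theorem tri (hR : Root Y) (ha : a ∈ Comp M) (hb : b ∈ M) (hD : b ∈ D) :
    b ∈ Comp M ∨ Commute a b := by
  have hz := hM hY.z_mem
  obtain ⟨a1, a2⟩ := comp_mem p hz ha
  obtain ⟨k, h⟩ := p.r5 a a2 b hD
  rcases h.cases with rfl | rfl | rfl | rfl | rfl
  · obtain ⟨c0, c1, c2, c3, c4⟩ := hR.root
    obtain ⟨u, hu, e⟩ := comp_orb p a0 hY hM hT ha
    have c5 : Rel 1 a (cj u c0) := by rw [e]; exact ((p.col c0).2 ⟨c3, c2, c4⟩).cj u
    have c6 : cj u c0 ∈ M := cj_mem (hM hu) (hM c1)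
    generalize cj u c0 = c at c5 c6
    obtain ⟨g, rfl, rfl⟩ := rel_opp.1 h
    obtain ⟨l1, l2⟩ := p.line (cj g⁻¹ c) (by simpa only [cj_inv_cj] using c5.cj g⁻¹)
    refine Or.inl (l2.elim (fun l => special p hz (tail ha c6 c5) hb ?_) fun l =>
      special p hz (tail ha (mul_mem c6 a1) ?_) hb ?_)
    · simpa only [cj_cj_inv] using l.1.cj g
    · simpa only [cj_mul, cj_cj_inv] using l1.cj g
    · simpa only [cj_mul, cj_cj_inv] using l.2.cj g
  · exact Or.inl (special p hz ha hb h)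
  · exact Or.inr (p.pol _ _ h)
  · exact Or.inl (tail ha hb h)
  · exact Or.inl (rel_two h ▸ ha)

theorem orb_comp (hR : Root Y) (ha : a ∈ orb Y) : a ∈ Comp M := by
  have hz := hM hY.z_mem
  obtain ⟨u, hu, rfl⟩ := ha
  have key : ∀ g h, g ∈ M → h ∈ M → Rel (-2) z g → Commute h g → cj h z ∈ Comp M :=
    fun g h hg hh r c => by
      have g1 : g ∈ Comp M := (tri p a0 hY hM hT hR z_comp hg (p.sym _ _ _ r).left).resolve_right
        (opp_nc p r)
      refine (tri p a0 hY hM hT hR g1 (cj_mem hh hz) (D_cj h z_mem_D)).resolve_right fun k => ?_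
      rw [← cj_eq_iff.2 c] at k
      exact opp_nc p r (commute_cj.1 k).symm
  have : u ∈ M ∧ cj u z ∈ Comp M := by
    refine closure_induction'' (p := fun u _ => u ∈ M ∧ cj u z ∈ Comp M) ?_ ?_ ?_ ?_ (hY.gens hu)
    · rintro g ⟨h1, h2 | h2⟩
      · exact ⟨hM h1, by rw [cj_eq_iff.2 h2]; exact z_comp⟩
      · exact ⟨hM h1, key g g (hM h1) (hM h1) h2 (Commute.refl g)⟩
    · rintro g ⟨h1, h2 | h2⟩
      · have e : cj g⁻¹ z = z := by
          have := cj_inv_cj g z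
          rwa [cj_eq_iff.2 h2] at this
        exact ⟨inv_mem (hM h1), by rw [e]; exact z_comp⟩
      · exact ⟨inv_mem (hM h1), key g g⁻¹ (hM h1) (inv_mem (hM h1)) h2 (cinv (Commute.refl g))⟩
    · exact ⟨one_mem _, by rw [cj_one]; exact z_comp⟩
    · rintro g h - - ⟨g1, g2⟩ ⟨h1, h2⟩
      exact ⟨mul_mem g1 h1, by rw [← cj_cj]; exact cj_comp g1 g2 h2⟩
  exact this.2

end

theorem jobA3 : JobA3 := by
  intro p a0 Y M hY hR hM hT
  refine ⟨Set.ext fun a => ⟨orb_comp p a0 hY hM hT hR, comp_orb p a0 hY hM hT⟩, fun b hb hD => ?_⟩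
  by_cases k : b ∈ Comp M
  · exact Or.inl (comp_orb p a0 hY hM hT k)
  · exact Or.inr fun a ha =>
      (tri p a0 hY hM hT hR (orb_comp p a0 hY hM hT hR ha) hb hD).resolve_left k

end H76.E7MA3
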