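import Cfsg.Agent.H40.E82Spec

/-! Tower E82 (S5915), slot End: stability under the tori through a semisimple element. -/

set_option autoImplicit false
set_option linter.unusedSectionVars false

namespace H76.E82End

open Cfsg.Lie H63 H64 H65 H46 Matrix Module H40.E8F H40.E82

section Gen

variable {D : ChevalleyDatum} [RS D] [Tab D] {k : Type} [Field k] [CharP k 2]

variable (D k) in
/-- the weights of `h_i` -/
def eta (i : Fin D.rank) : D.Idx → k := Sum.elim (fun _ => 0) fun s => (D.cartan i s : k)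

/-- the weights of `tor c` -/
def tau (c : Fin D.rank → kˣ) : D.Idx → k := Sum.elim (fun _ => 1) fun s => (chi D c s : kˣ)

theorem B_h (i : Fin D.rank) (v : D.Idx → k) :
    B D k (bv D k (D.nroots + i)) v = eta D k i * v := by
  refine LinearMap.congr_fun (lin_ext_bv D (B := LinearMap.mulLeft k (eta D k i)) fun c hc => ?_) v
  rw [B_h_bv i.2 hc, LinearMap.mulLeft_apply]
  funext j
  rcases j with j | u
  · simp only [Pi.smul_apply, Pi.mul_apply, bv_inl, eta, Sum.elim_inl, zero_mul, wtv]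
    split_ifs with h1 h2
    · omega
    all_goals simp
  · simp only [Pi.smul_apply, Pi.mul_apply, bv_inr, eta, Sum.elim_inr, wtv, smul_eq_mul]
    by_cases h : (u : ℕ) = c
    · subst h; simp
    · simp [h]

theorem act_tor (c : Fin D.rank → kˣ) (v : D.Idx → k) : act (tor D k c) v = tau c * v := by
  funext j
  rcases j with i | r
  · rw [tor_inl]; simp [tau]
  · exact tor_inr c v r

/-- the diagonal operators that keep `W` -/
def dg (W : Submodule k (D.Idx → k)) : Subalgebra k (D.Idx → k) where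
  carrier := {δ | ∀ v ∈ W, δ * v ∈ W}
  mul_mem' ha hb v hv := by rw [mul_assoc]; exact ha _ (hb v hv)
  add_mem' ha hb v hv := by rw [add_mul]; exact W.add_mem (ha v hv) (hb v hv)
  algebraMap_mem' a v hv := by rw [← Algebra.smul_def]; exact W.smul_mem a hv

theorem cast_par (a b : ℤ) : (a : k) + (1 + b) = if a % 2 = b % 2 then 1 else 0 := by
  have h2 : (2 : k) = 0 := CharTwo.two_eq_zero
  split_ifs with h
  · obtain ⟨m, rfl⟩ : ∃ m, a = b + 2 * m := ⟨(a - b) / 2, by omega⟩
    push_cast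
    linear_combination ((m : k) + b) * h2
  · obtain ⟨m, rfl⟩ : ∃ m, a = b + 1 + 2 * m := ⟨(a - b - 1) / 2, by omega⟩
    push_cast
    linear_combination ((m : k) + b + 1) * h2

variable (H1 : ∀ r s : Rt D, (∀ i : Fin D.rank, D.cartan i s % 2 = D.cartan i r % 2) →
    s = r ∨ s = negR r)
  (H2 : ∀ r : Rt D, ∃ i : Fin D.rank, D.cartan i r % 2 = 1)
include H1 H2

theorem proj (r : Rt D) : ∏ i, (eta D k i + algebraMap k _ (1 + (D.cartan i r : k))) =
    Sum.elim (fun _ => 0) fun s => if s = r ∨ s = negR r then 1 else 0 := by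
  funext j
  rw [Finset.prod_apply]
  rcases j with j | s
  · obtain ⟨i, hi⟩ := H2 r
    refine Finset.prod_eq_zero (Finset.mem_univ i) ?_
    have := cast_par (k := k) 0 (D.cartan i r)
    rw [if_neg (by omega)] at this
    simpa [eta] using this
  · simp only [eta, Pi.add_apply, Sum.elim_inr, Pi.algebraMap_apply, Algebra.algebraMap_self,
      RingHom.id_apply, cast_par, Finset.prod_boole, Finset.mem_univ, true_imp_iff]
    refine if_congr ⟨H1 r s, ?_⟩ rfl rfl
    rintro (rfl | rfl) i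
    · rfl
    · rw [negR_val, cartan_neg]; omega

theorem core {c : Fin D.rank → kˣ} {n : ℕ} (hn : Odd n) (hc : c ^ n = 1)
    {W : Submodule k (D.Idx → k)} (h1 : tau c ∈ dg W) (h2 : ∀ i, eta D k i ∈ dg W)
    (h3 : (∀ v, tau c * v = v → v ∈ W) ∨ ∀ v ∈ W, tau c * v = v → ∀ i, eta D k i * v = 0)
    (d : Fin D.rank → kˣ) : tau d ∈ dg W := by
  intro v hv
  have key : ∀ r : Rt D, v (Sum.inr r) • bv D k r ∈ W := by
    intro r
    have hp : (Sum.elim (fun _ => 0) fun s => if s = r ∨ s = negR r then 1 else 0 : D.Idx → k) ∈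
        dg W := proj (k := k) H1 H2 r ▸ prod_mem fun i _ => add_mem (h2 i) (Subalgebra.algebraMap_mem _ _)
    have nr := negR_ne r
    by_cases hχ : chi D c r = 1
    · have hχ' : chi D c (negR r) = 1 := by rw [chi_negR, hχ, inv_one]
      rcases h3 with h3 | h3
      · refine W.smul_mem _ (h3 _ (funext fun j => ?_))
        rcases j with j | s
        · simp [tau]
        · by_cases e : s = r
          · simp [tau, e, hχ]
          · simp [bv_inr, Fin.val_inj, e]
      · obtain ⟨i, hi⟩ := H2 r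
        have := congrFun (h3 _ (hp v hv) (funext fun j => by
          rcases j with j | s
          · simp [tau]
          · by_cases e : s = r ∨ s = negR r
            · rcases e with rfl | rfl
              · simp [tau, hχ]
              · simp only [tau, Pi.mul_apply, Sum.elim_inr, hχ', Units.val_one, one_mul]
            · simp [e]) i) (Sum.inr r)
        have e := cast_par (k := k) (D.cartan i r) 1
        rw [if_pos (by omega), Int.cast_one, CharTwo.add_self_eq_zero, add_zero] at e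
        simp only [eta, Pi.mul_apply, Sum.elim_inr, e, true_or, if_true, one_mul,
          Pi.zero_apply] at this
        rw [this, zero_smul]
        exact W.zero_mem
    · have hne : ((chi D c r : kˣ) : k) - ((chi D c r)⁻¹ : kˣ) ≠ 0 := fun e => hχ (by
        have e1 : chi D c r ^ 2 = 1 := by
          rw [pow_two, mul_eq_one_iff_eq_inv, ← Units.val_inj, ← sub_eq_zero, e]
        have e2 : chi D c r ^ n = 1 := by rw [← H67.chi_pow, hc, H67.chi_one]
        obtain ⟨m, rfl⟩ := hn
        rwa [pow_succ, pow_mul, e1, one_pow, one_mul] at e2)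
      have := W.smul_mem (((chi D c r : kˣ) : k) - ((chi D c r)⁻¹ : kˣ))⁻¹
        (mul_mem (sub_mem h1 (Subalgebra.algebraMap_mem _ (((chi D c r)⁻¹ : kˣ) : k))) hp v hv)
      convert this using 1
      funext j
      rcases j with j | s
      · have : ¬ D.nroots + j = r := by have := r.2; omega
        simp [bv_inl, this]
      · simp only [Pi.smul_apply, Pi.mul_apply, Pi.sub_apply, bv_inr, tau, Sum.elim_inr,
          Pi.algebraMap_apply, Algebra.algebraMap_self, RingHom.id_apply, smul_eq_mul, Fin.val_inj]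
        by_cases e : s = r
        · subst e
          rw [if_pos rfl, if_pos (Or.inl rfl), mul_one, mul_one, inv_mul_cancel_left₀ hne]
        · by_cases e' : s = negR r
          · subst e'
            rw [if_neg e, chi_negR, sub_self]; simp
          · simp [e, e']
  have : tau d * v = v + ∑ r : Rt D, (((chi D d r : kˣ) : k) - 1) • v (Sum.inr r) • bv D k r := by
    funext j
    rcases j with j | s
    · have (r : Rt D) : ¬ D.nroots + j = r := by have := r.2; omega
      simp [tau, bv_inl, this]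
    · simp [tau, bv_inr, Fin.val_inj, sub_mul]
  rw [this]
  exact W.add_mem hv (W.sum_mem fun r _ => W.smul_mem _ (key r))

theorem gen {z : GL D.Idx k} (hz : z ∈ D.group k) {c : Fin D.rank → kˣ} {n : ℕ} (hn : Odd n)
    (hc : c ^ n = 1) {f : End k (D.Idx → k)} (hf : ∀ v, f v = act (z * tor D k c * z⁻¹) v)
    {W : Submodule k (D.Idx → k)} (h1 : ∀ v ∈ W, f v ∈ W) (h2 : ∀ a ∈ fx f, ∀ v ∈ W, B D k a v ∈ W)
    (h3 : fx f ≤ W ∨ ∀ v ∈ W, v ∈ fx f → ∀ a ∈ fx f, B D k a v = 0) (d : Fin D.rank → kˣ) :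
    ∀ v ∈ W, act (z * tor D k d * z⁻¹) v ∈ W := by
  have e1 : ∀ c v, act (z * tor D k c * z⁻¹) (act z v) = act z (tau c * v) := fun c v => by
    rw [act_mul, act_mul, act_inv_act, act_tor]
  have e2 : ∀ v, tau c * v = v → act z v ∈ fx f := fun v h => by
    rw [End.mem_eigenspace_iff, one_smul, hf, e1, h]
  have e3 : ∀ i : Fin D.rank, act z (bv D k (D.nroots + i)) ∈ fx f := fun i => e2 _ (funext fun j => by
    rcases j with j | s
    · simp [tau]
    · have : ¬ (s : ℕ) = D.nroots + i := by have := s.2; omega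
      simp [bv_inr, this])
  have e4 : ∀ (i : Fin D.rank) v,
      act z (eta D k i * v) = B D k (act z (bv D k (D.nroots + i))) (act z v) :=
    fun i v => by rw [← B_h]; exact isAut_of_mem hz _ _
  have := core H1 H2 hn hc (W := W.comap (Matrix.mulVecLin z.1))
    (fun v hv => by
      change act z _ ∈ W
      rw [← e1, ← hf]; exact h1 _ hv)
    (fun i v hv => by
      change act z _ ∈ W
      rw [e4]; exact h2 _ (e3 i) _ hv)
    (h3.imp (fun h v hv => h (e2 v hv)) fun h v hv hv' i => by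
      rw [← act_inv_act z (eta D k i * v), e4, h (act z v) hv (e2 v hv') _ (e3 i), act, mulVec_zero]) d
  intro v hv
  rw [← act_act_inv z v, e1]
  refine this _ ?_
  change act z _ ∈ W
  rwa [act_act_inv]

end Gen

/-- the root of a given parity code -/
def tb : List ℕ := [0, 0, 0, 14, 77, 0, 7, 6, 98, 104, 0, 15, 0, 76, 5, 8, 0, 0, 0, 70, 21, 0, 109,
  92, 4, 9, 0, 75, 0, 16, 97, 103, 0, 0, 36, 0, 55, 0, 0, 0, 113, 87, 26, 0, 0, 65, 0, 0, 3, 10, 0,
  74, 0, 17, 96, 102, 0, 0, 0, 69, 22, 0, 108, 91, 119, 78, 35, 0, 0, 56, 0, 0, 0, 0, 45, 0, 46, 0,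
  0, 0, 116, 83, 30, 0, 0, 61, 0, 0, 0, 0, 40, 0, 51, 0, 0, 0, 2, 11, 0, 73, 0, 18, 95, 101, 0, 0,
  0, 68, 23, 0, 107, 90, 0, 0, 37, 0, 54, 0, 0, 0, 112, 86, 27, 0, 0, 64, 0, 0, 0, 13, 0, 71, 0,
  20, 93, 99, 0, 0, 0, 66, 25, 0, 105, 88, 0, 0, 39, 0, 52, 0, 0, 0, 110, 84, 29, 0, 0, 62, 0, 0,
  118, 80, 33, 0, 0, 58, 0, 0, 0, 0, 43, 0, 48, 0, 0, 0, 114, 81, 32, 0, 0, 59, 0, 0, 0, 0, 42, 0,
  49, 0, 0, 0, 1, 12, 0, 72, 0, 19, 94, 100, 0, 0, 0, 67, 24, 0, 106, 89, 0, 0, 38, 0, 53, 0, 0, 0,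
  111, 85, 28, 0, 0, 63, 0, 0, 117, 79, 34, 0, 0, 57, 0, 0, 0, 0, 44, 0, 47, 0, 0, 0, 115, 82, 31,
  0, 0, 60, 0, 0, 0, 0, 41, 0, 50, 0, 0, 0]

/-- the parities of the Cartan integers -/
def cd (r : ℕ) : ℕ := ∑ i : Fin 8, (chevE8.cartan i r % 2).toNat * 2 ^ (i : ℕ)

theorem chk : ∀ r : Fin 240, (tb.getD (cd r) 0 = r ∨ tb.getD (cd r) 0 = chevE8.neg r) ∧
    ∃ i : Fin 8, chevE8.cartan i r % 2 = 1 := by decide +kernel

theorem h0 {D : ChevalleyDatum} [RS D] {r s : Rt D} {m : ℕ} (a : m = r ∨ m = D.neg r)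
    (b : m = s ∨ m = D.neg s) : s = r ∨ s = negR r := by
  rcases a with a | a <;> rcases b with b | b
  · exact Or.inl (Fin.ext (b.symm.trans a))
  · exact Or.inr (by rw [← negR_negR s]; exact congrArg negR (Fin.ext (b.symm.trans a)))
  · exact Or.inr (Fin.ext (b.symm.trans a))
  · exact Or.inl (by
      rw [← negR_negR s, ← negR_negR r]; exact congrArg negR (Fin.ext (b.symm.trans a)))

theorem h1 (r s : Rt chevE8)
    (h : ∀ i : Fin chevE8.rank, chevE8.cartan i s % 2 = chevE8.cartan i r % 2) :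
    s = r ∨ s = negR r := by
  have e : cd s = cd r := Finset.sum_congr rfl fun i _ => by rw [h i]
  have b := (chk s).1
  rw [e] at b
  exact h0 (chk r).1 b

attribute [local instance] H65.tabE8 H65.commE8

theorem jobEnd : JobEnd := by
  intro g z hz c n hg hn hc W k1 k2 k3 s d hs v hv
  have := gen h1 (fun r => (chk r).2) hz hn hc (f := ad2 g) (fun v => hg ▸ rfl) k1 k2 k3 d v hv
  rw [← hs] at this
  exact this

end H76.E82End
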