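/- Tower FB, slot ONb: the projective dimension is two. -/
import Cfsg.Agent.H11.FBSpec

set_option autoImplicit false

namespace H76.FBONb

open MulAction Subgroup H11.FB Matrix

universe u v

theorem ex_ann {F : Type} [Field F] {n : ℕ} (hn : 3 < n) (v1 v2 v3 : Fin n → F) :
    ∃ f w : Fin n → F, f ⬝ᵥ w = 1 ∧ f ⬝ᵥ v1 = 0 ∧ f ⬝ᵥ v2 = 0 ∧ f ⬝ᵥ v3 = 0 := by
  obtain ⟨f, hf, f0⟩ := (Submodule.ne_bot_iff _).1 (LinearMap.ker_ne_bot_of_finrank_lt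
    (f := (Matrix.of ![v1, v2, v3]).mulVecLin) (by simpa using hn))
  obtain ⟨i, hi⟩ := Function.ne_iff.1 f0
  have h : ∀ j, (![v1, v2, v3] j) ⬝ᵥ f = 0 := fun j => congrFun (LinearMap.mem_ker.1 hf) j
  exact ⟨f, Pi.single i (f i)⁻¹, by rw [dotProduct_single, mul_inv_cancel₀ hi],
    dotProduct_comm f v1 ▸ h 0, dotProduct_comm f v2 ▸ h 1, dotProduct_comm f v3 ▸ h 2⟩

theorem pel_mul {G : Type u} [Group G] [Finite G] {K : Subgroup G} (hK : Group.IsNilpotent K) {p : ℕ}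
    (hp : p.Prime) : ∃ S : Subgroup G, IsPGroup p S ∧ ∀ t ∈ K, (∃ k : ℕ, t ^ p ^ k = 1) → t ∈ S := by
  have := Fact.mk hp
  let S : Sylow p K := default
  refine ⟨(S : Subgroup K).map K.subtype, S.isPGroup'.map _, fun t ht ⟨k, e⟩ => ⟨⟨t, ht⟩, ?_, rfl⟩⟩
  have h1 : IsPGroup p (zpowers (⟨t, ht⟩ : K)) := IsPGroup.of_card_dvd_pow (n := k) (by
    rw [Nat.card_zpowers]
    exact orderOf_dvd_of_pow_eq_one (Subtype.ext e))
  exact zpowers_le.1 (le_sup_left.trans (sup_eq_right.2 (le_sup_left.trans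
    (S.is_maximal' (h1.to_sup_of_normal_right S.isPGroup') le_sup_right).le)).le)

section
variable {G : Type u} {Ω : Type v} [Group G] [MulAction G Ω] {F : Type} [Field F] {n : ℕ}

/-- `g` acts as the linear map `M`. -/
def Ac (a b : Ω) (ρ : Ω → Fin n → F) (g : G) (M : Module.End F (Fin n → F)) : Prop :=
  g • a = a ∧ g • b = b ∧ ∀ y, y ≠ a → y ≠ b → ∃ c : F, c • ρ (g • y) = M (ρ y)

variable {a b : Ω} {ρ : Ω → Fin n → F} {p : ℕ}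

theorem Ac.ne {g : G} {M : Module.End F (Fin n → F)} (h : Ac a b ρ g M) {y : Ω} (h1 : y ≠ a) (h2 : y ≠ b) :
    g • y ≠ a ∧ g • y ≠ b :=
  ⟨fun e => h1 (MulAction.injective g (e.trans h.1.symm)), fun e => h2 (MulAction.injective g (e.trans h.2.1.symm))⟩

theorem Ac.mul {g g' : G} {M M' : Module.End F (Fin n → F)} (h : Ac a b ρ g M) (h' : Ac a b ρ g' M') :
    Ac a b ρ (g * g') (M * M') := by
  refine ⟨by rw [mul_smul, h'.1, h.1], by rw [mul_smul, h'.2.1, h.2.1], fun y h1 h2 => ?_⟩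
  obtain ⟨c', e'⟩ := h'.2.2 y h1 h2
  obtain ⟨c, e⟩ := h.2.2 _ (h'.ne h1 h2).1 (h'.ne h1 h2).2
  exact ⟨c' * c, by rw [mul_smul, mul_smul, e, Module.End.mul_apply, ← e', map_smul]⟩

theorem Ac.eq (m : PM G a b p ρ) {g : G} {M : Module.End F (Fin n → F)} (h : Ac a b ρ g M) {y z : Ω}
    (h1 : y ≠ a) (h2 : y ≠ b) (h3 : z ≠ a) (h4 : z ≠ b) {s : F} (hs : s ≠ 0) (e : M (ρ y) = s • ρ z) :
    g • y = z := by
  obtain ⟨c, e'⟩ := h.2.2 y h1 h2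
  exact m.inj _ _ (h.ne h1 h2).1 (h.ne h1 h2).2 h3 h4 (s⁻¹ * c)
    (by rw [mul_smul, e', e, smul_smul, inv_mul_cancel₀ hs, one_smul])

theorem exists_tv (m : PM G a b p ρ) {x : Ω} (h1 : x ≠ a) (h2 : x ≠ b) (f : Fin n → F) (h : f ⬝ᵥ ρ x = 0) :
    ∃ (t : G) (T : Module.End F (Fin n → F)), (∃ k : ℕ, t ^ p ^ k = 1) ∧ Ac a b ρ t T ∧
      ∀ w, T w = w + (f ⬝ᵥ w) • ρ x := by
  obtain ⟨t, ht, hk, e⟩ := m.tv x h1 h2 f h
  exact ⟨t, 1 + (dotProductBilin F F f).smulRight (ρ x), hk, ⟨(mem_Y2.1 ht).1, (mem_Y2.1 ht).2, e⟩,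
    fun w => rfl⟩

theorem exists_pt (m : PM G a b p ρ) {f w : Fin n → F} (h : f ⬝ᵥ w = 1) :
    ∃ x, x ≠ a ∧ x ≠ b ∧ ∃ c : F, c ≠ 0 ∧ w = c • ρ x := by
  have w0 : w ≠ 0 := by rintro rfl; simp at h
  obtain ⟨x, h1, h2, c, e⟩ := m.surj w w0
  exact ⟨x, h1, h2, c, by rintro rfl; exact w0 (by rw [← e, zero_smul]), e.symm⟩

end

theorem mem_of_pows {G : Type u} [Group G] {K : Subgroup G} {x : G} {m n : ℕ} (hc : m.Coprime n)
    (hm : x ^ m ∈ K) (hn : x ^ n ∈ K) : x ∈ K := by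
  obtain ⟨a, b, e⟩ := Nat.isCoprime_iff_coprime.2 hc
  have := mul_mem (zpow_mem hm a) (zpow_mem hn b)
  rwa [← _root_.zpow_natCast, ← _root_.zpow_natCast, ← _root_.zpow_mul, ← _root_.zpow_mul, ← _root_.zpow_add,
    mul_comm _ a, mul_comm _ b, e, _root_.zpow_one] at this

theorem jobONb : JobONb.{u, v} := by
  intro G Ω _ _ _ _ _ _ a b c d K H p F _ _ n ρ hy hp hK m
  by_contra! hn
  obtain ⟨-, ac, ad, bc, bd, -⟩ := hy.ne
  obtain ⟨g3, w3, a1, a2, a3, -⟩ := ex_ann hn (ρ c) (ρ d) 0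
  obtain ⟨g4, w4, b1, b2, b3, b4⟩ := ex_ann hn (ρ c) (ρ d) w3
  obtain ⟨x3, p1, p2, c3, n3, rfl⟩ := exists_pt m a1
  have b5 : g4 ⬝ᵥ (w4 - (g3 ⬝ᵥ w4) • c3 • ρ x3) = 1 := by
    rw [dotProduct_sub, dotProduct_smul, b1, b4, smul_zero, sub_zero]
  have a5 : g3 ⬝ᵥ (w4 - (g3 ⬝ᵥ w4) • c3 • ρ x3) = 0 := by
    rw [dotProduct_sub, dotProduct_smul, a1, smul_eq_mul, mul_one, sub_self]
  obtain ⟨x4, q1, q2, c4, n4, e4⟩ := exists_pt m b5
  rw [e4] at a5 b5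
  rw [dotProduct_smul, smul_eq_mul] at a1 b4 a5 b5
  replace b4 := (mul_eq_zero.1 b4).resolve_left n3
  replace a5 := (mul_eq_zero.1 a5).resolve_left n4
  obtain ⟨t, T, tk, ta, hT⟩ := exists_tv m p1 p2 (c4 • g4) (by rw [smul_dotProduct, b4, smul_zero])
  obtain ⟨t', T', tk', ta', hT'⟩ := exists_tv m q1 q2 (-(c3 • g3))
    (by rw [neg_dotProduct, smul_dotProduct, a5, smul_zero, neg_zero])
  simp only [neg_dotProduct, smul_dotProduct, smul_eq_mul] at hT hT'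
  have hc : p.Coprime (Nat.card H) := hy.fr.cop.coprime_dvd_left hK
  have mK : ∀ (s : G) (S : Module.End F (Fin n → F)), (∃ k : ℕ, s ^ p ^ k = 1) → Ac a b ρ s S →
      S (ρ c) = ρ c → S (ρ d) = ρ d → s ∈ K := fun s S ⟨k, hk⟩ h h1 h2 =>
    hy.fr.mem_K (mem_L4.2 ⟨h.1, h.2.1,
      h.eq m ac.symm bc.symm ac.symm bc.symm one_ne_zero (by rw [h1, one_smul]),
      h.eq m ad.symm bd.symm ad.symm bd.symm one_ne_zero (by rw [h2, one_smul])⟩)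
      ((hc.pow_left k).coprime_dvd_left (orderOf_dvd_of_pow_eq_one hk))
  obtain ⟨S, hS, hS'⟩ := pel_mul hy.fr.nil hp
  have s1 := hS' t (mK t T tk ta (by simp [hT, b2]) (by simp [hT, b3])) tk
  have s2 := hS' t' (mK t' T' tk' ta' (by simp [hT', a2]) (by simp [hT', a3])) tk'
  have T3 : T (ρ x3) = ρ x3 := by simp [hT, b4]
  have T4 : T (ρ x4) = ρ x4 + ρ x3 := by simp [hT, b5]
  have T3' : T' (ρ x3) = ρ x3 - ρ x4 := by simp [hT', a1, sub_eq_add_neg]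
  have T4' : T' (ρ x4) = ρ x4 := by simp [hT', a5]
  have ne : x3 ≠ x4 := by
    rintro rfl
    simp [a5] at a1
  have m1 : (-1 : F) ≠ 0 := neg_ne_zero.2 one_ne_zero
  have fin : ∀ g ∈ S, ∀ r : ℕ, r.Prime → r ≠ p → g • x3 = x4 → g ^ r • x3 = x3 → False :=
    fun g hg r hr hne h1 h2 => by
      obtain ⟨k, hk⟩ := hS ⟨g, hg⟩
      have h3 : g ^ p ^ k = 1 := congrArg Subtype.val hk
      exact ne ((mem_of_pows (K := stabilizer G x3) (((Nat.coprime_primes hr hp).2 hne).pow_right k) h2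
        (h3 ▸ one_mem _) : g • x3 = x3).symm.trans h1)
  by_cases h3 : 3 = p
  · have aw := (ta.mul ta').mul ta
    refine fin _ (mul_mem (mul_mem s1 s2) s1) 2 Nat.prime_two (by omega)
      (aw.eq m p1 p2 q1 q2 m1 (by simp [T3, T4, T3'])) ?_
    rw [sq]
    exact (aw.mul aw).eq m p1 p2 p1 p2 m1 (by simp [T3, T4, T3', T4'])
  · have aw := ta.mul ta'
    refine fin _ (mul_mem s1 s2) 3 Nat.prime_three h3 (aw.eq m p1 p2 q1 q2 m1 (by simp [T3, T4, T3'])) ?_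
    rw [pow_succ, sq]
    exact ((aw.mul aw).mul aw).eq m p1 p2 p1 p2 m1 (by simp [T3, T4, T3', T4'])

end H76.FBONb
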