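import Cfsg.Agent.H97.TriCoset

/-! Goldschmidt amalgams, part A: counting, the non-constrained case, basics of the case with
exactly one central type. -/

set_option autoImplicit false

namespace H76.Gold

open Cfsg Subgroup H98 H97 H97.Tri MulAction
open scoped commutatorElement

variable {X V : Type*} [Group X] [MulAction X V] {Γ : Tri X V}

theorem card_step {a b : V} (hb : Γ.Adj a b) {H : Subgroup X}
    (hH : ∀ x ∈ H, x • a = a ∧ x • b = b) :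
    Nat.card H ≤ 2 * Nat.card (H ⊓ Γ.Q a : Subgroup X) := by
  have := Γ.fin_Ed a b
  have : Finite H := finite_of_le (K := Ed X a b) fun x hx => hH x hx
  exact H97.card_le_two_mul fun x hx y hy h1 h2 =>
    mul_mem_Q hb (hH x hx).1 (hH x hx).2 (hH y hy).1 (hH y hy).2 h1 h2

theorem card_Ed_eq {a b u v : V} (h : Γ.Adj a b) (h' : Γ.Adj u v) :
    Nat.card (Ed X u v) = Nat.card (Ed X a b) := by
  by_cases ht : Γ.ty a = Γ.ty u
  · obtain ⟨g, rfl, rfl⟩ := edge_conj h h' ht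
    rw [← cj_Ed, card_cj]
  · have ht' : Γ.ty a = Γ.ty v := by
      rw [Γ.ty_adj h']; revert ht; cases Γ.ty a <;> cases Γ.ty u <;> simp
    obtain ⟨g, rfl, rfl⟩ := edge_conj h (Γ.symm h') ht'
    rw [Ed_comm, ← cj_Ed, card_cj]

theorem mem_normalizer_of {N : Subgroup X} {K : Subgroup X}
    (h : ∀ g ∈ K, ∀ n ∈ N, g * n * g⁻¹ ∈ N) : K ≤ normalizer (N : Set X) := by
  intro g hg
  rw [mem_normalizer_iff]
  intro n
  refine ⟨h g hg n, fun hn => ?_⟩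
  simpa [mul_assoc] using h g⁻¹ (inv_mem hg) _ hn

/-- The elements fixing the ball of radius two. -/
def D (Γ : Tri X V) (p : V) : Subgroup X where
  carrier := {g | g ∈ Γ.Q p ∧ ∀ l, Γ.Adj p l → g ∈ Γ.Q l}
  mul_mem' := fun h h' => ⟨mul_mem h.1 h'.1, fun l hl => mul_mem (h.2 l hl) (h'.2 l hl)⟩
  one_mem' := ⟨one_mem _, fun _ _ => one_mem _⟩
  inv_mem' := fun h => ⟨inv_mem h.1, fun l hl => inv_mem (h.2 l hl)⟩

theorem mem_D {p : V} {g : X} : g ∈ D Γ p ↔ g ∈ Γ.Q p ∧ ∀ l, Γ.Adj p l → g ∈ Γ.Q l := Iff.rfl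

theorem conj_mem_D {p : V} {x : X} (g : X) (h : x ∈ D Γ p) : g * x * g⁻¹ ∈ D Γ (g • p) := by
  refine ⟨conj_mem_Q g h.1, fun l hl => ?_⟩
  have := conj_mem_Q g (h.2 (g⁻¹ • l) (by simpa using Γ.smul g⁻¹ hl))
  simpa using this

theorem conj_mem_D_of_fix {p : V} {x g : X} (hg : g • p = p) (h : x ∈ D Γ p) :
    g * x * g⁻¹ ∈ D Γ p := by
  have := conj_mem_D g h
  rwa [hg] at this

theorem stab_le_normalizer_D (p : V) : stabilizer X p ≤ normalizer (D Γ p : Set X) :=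
  mem_normalizer_of fun _ hg _ hn => conj_mem_D_of_fix hg hn

theorem mem_D_of_three {p a b c : V} (ha : Γ.Adj p a) (hb : Γ.Adj p b) (hc : Γ.Adj p c)
    (h1 : a ≠ b) (h2 : a ≠ c) (h3 : b ≠ c) {g : X} (g0 : g ∈ Γ.Q p) (g1 : g ∈ Γ.Q a)
    (g2 : g ∈ Γ.Q b) (g3 : g ∈ Γ.Q c) : g ∈ D Γ p := by
  refine ⟨g0, fun l hl => ?_⟩
  rcases eq_of_three ha hb hc h1 h2 h3 hl with rfl | rfl | rfl <;> assumption

theorem case0 (h : ¬ Γ.CharP) {u v : V} (huv : Γ.Adj u v) : Nat.card (Ed X u v) ≤ 16 := by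
  simp only [Tri.CharP, not_forall] at h
  obtain ⟨a, g, ga, hg, hn⟩ := h
  obtain ⟨p, hp⟩ := Γ.exists_adj a
  obtain ⟨a1, h1, n1⟩ := exists_other (Γ.symm hp)
  obtain ⟨a2, h2, n2, n3⟩ := exists_third (Γ.symm hp) h1
  have hD : D Γ p = ⊥ := by
    refine Γ.faith _ hp (fun x hx => ⟨Q_adj hx.1 (Γ.symm hp), hx.1.1⟩) ?_
      (stab_le_normalizer_D p)
    obtain ⟨q, hq, hqp⟩ := exists_other hp
    obtain ⟨n, hn1, na, nb⟩ := normal_trans (N := centralizer (Γ.Q a : Set X))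
      (le_normalizer_centralizer (stab_le_normalizer_Q a)) hg ga hn hp hq
    refine stab_le hp (inf_le_right.trans (stab_le_normalizer_D p)) (g := n) ?_ na (nb ▸ hqp)
    exact centralizer_le_normalizer _
      (H98.centralizer_anti (A := D Γ p) (fun x hx => hx.2 a (Γ.symm hp)) hn1)
  rw [card_Ed_eq (Γ.symm hp) huv]
  have s1 := card_step (Γ.symm hp) (H := Ed X p a) fun x hx => hx
  have s2 := card_step hp (H := Ed X p a ⊓ Γ.Q p) fun x hx => ⟨hx.1.2, hx.1.1⟩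
  have s3 := card_step (Γ.symm h1) (H := Ed X p a ⊓ Γ.Q p ⊓ Γ.Q a)
    fun x hx => ⟨Q_adj hx.1.2 h1, hx.1.1.1⟩
  have s4 := card_step (Γ.symm h2) (H := Ed X p a ⊓ Γ.Q p ⊓ Γ.Q a ⊓ Γ.Q a1)
    fun x hx => ⟨Q_adj hx.1.1.2 h2, hx.1.1.1.1⟩
  have e : (Ed X p a ⊓ Γ.Q p ⊓ Γ.Q a ⊓ Γ.Q a1 ⊓ Γ.Q a2 : Subgroup X) = ⊥ := by
    rw [eq_bot_iff, ← hD]
    exact fun x hx => mem_D_of_three (Γ.symm hp) h1 h2 n1.symm n2.symm n3.symm hx.1.1.1.2
      hx.1.1.2 hx.1.2 hx.2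
  rw [e, card_bot] at s4
  omega

/-- Characteristic 2, vertices of type `τ` (lines) noncentral, the others (points) central. -/
structure OC (Γ : Tri X V) (τ : Bool) : Prop where
  hc : Γ.CharP
  nc : ∀ l, Γ.ty l = τ → Γ.NC l
  cen : ∀ l p, Γ.ty l = τ → Γ.Adj l p → stabilizer X p ≤ centralizer (Om X l p : Set X)

variable {τ : Bool}

theorem ty_pt {l p : V} (hl : Γ.ty l = τ) (h : Γ.Adj l p) : Γ.ty p = !τ := by
  rw [Γ.ty_adj h, hl]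

theorem ty_ln {l p : V} (hp : Γ.ty p = !τ) (h : Γ.Adj p l) : Γ.ty l = τ := by
  rw [Γ.ty_adj h, hp, Bool.not_not]

namespace OC

variable (o : OC Γ τ)
include o

theorem comm {p : V} (hp : Γ.ty p = !τ) {z g : X} (hz : z ∈ Γ.Z p) (gp : g • p = p) :
    g * z = z * g := by
  have : Γ.Z p ≤ centralizer {g} := Z_le_iff.2 fun l hl w hw => by
    rw [Om_comm] at hw
    exact mem_centralizer_singleton_iff.2 (o.cen l p (ty_ln hp hl) (Γ.symm hl) gp w hw)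
  exact (mem_centralizer_singleton_iff.1 (this hz)).symm

theorem conj_eq {p : V} (hp : Γ.ty p = !τ) {z g : X} (hz : z ∈ Γ.Z p) (gp : g • p = p) :
    g * z * g⁻¹ = z := by rw [o.comm hp hz gp, mul_inv_cancel_right]

theorem Z_eq {l p : V} (hl : Γ.ty l = τ) (h : Γ.Adj l p) : Γ.Z p = Om X l p := by
  refine le_antisymm (fun z hz => ?_) (Om_le_Z' h)
  have hq := o.hc.Z_le_Q p hz
  exact H97.mem_Om.2 ⟨⟨Q_adj hq (Γ.symm h), hq.1⟩, fun t _ tp => o.comm (ty_pt hl h) hz tp,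
    o.hc.Z_sq hz⟩

theorem Z_le {l p : V} (hl : Γ.ty l = τ) (h : Γ.Adj l p) : Γ.Z p ≤ Γ.Z l := by
  rw [o.Z_eq hl h]; exact Om_le_Z h

theorem mem_Zp {l p : V} (hl : Γ.ty l = τ) (h : Γ.Adj l p) {y t : X} (hy : y ∈ Γ.Z l)
    (tl : t • l = l) (tp : t • p = p) (ht : t ∉ Γ.Q l) (e : t * y = y * t) : y ∈ Γ.Z p := by
  rw [o.Z_eq hl h]; exact o.hc.mem_Om h hy tl tp ht e

theorem Z2 {l p q : V} (hl : Γ.ty l = τ) (hp : Γ.Adj l p) (hq : Γ.Adj l q) (hne : p ≠ q)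
    {r : X} (h1 : r ∈ Γ.Z p) (h2 : r ∈ Γ.Z q) : r = 1 := by
  have c1 : stabilizer X p ≤ centralizer {r} := fun g hg =>
    mem_centralizer_singleton_iff.2 (o.comm (ty_pt hl hp) h1 hg)
  have c2 : stabilizer X q ≤ centralizer {r} := fun g hg =>
    mem_centralizer_singleton_iff.2 (o.comm (ty_pt hl hq) h2 hg)
  have hq' := o.hc.Z_le_Q p h1
  exact eq_one_of_central hp (Q_adj hq' (Γ.symm hp)) hq'.1
    (stab_le_of_Ed hp hq hne (inf_le_right.trans c1) (inf_le_right.trans c2)) c1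

theorem wd {p : V} (hp : Γ.ty p = !τ) {u g h : X} (hu : u ∈ Γ.Z p) (e : g • p = h • p) :
    g * u * g⁻¹ = h * u * h⁻¹ := by
  have h1 : (h⁻¹ * g) • p = p := by rw [mul_smul, e, inv_smul_smul]
  calc g * u * g⁻¹ = h * (h⁻¹ * g * u * (h⁻¹ * g)⁻¹) * h⁻¹ := by group
    _ = h * u * h⁻¹ := by rw [o.conj_eq hp hu h1]

theorem Z3a {l p q r : V} (hl : Γ.ty l = τ) (hp : Γ.Adj l p) (hq : Γ.Adj l q) (hr : Γ.Adj l r)
    (n1 : p ≠ q) (n2 : p ≠ r) (n3 : q ≠ r) {u g h : X} (hu : u ∈ Γ.Z p) (e1 : g • p = q)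
    (e2 : h • p = r) : u * (g * u * g⁻¹) * (h * u * h⁻¹) ∈ Γ.Z p := by
  have tp := ty_pt hl hp
  have m1 : g * u * g⁻¹ ∈ Γ.Z l := o.Z_le hl hq (e1 ▸ conj_mem_Z g hu)
  have m2 : h * u * h⁻¹ ∈ Γ.Z l := o.Z_le hl hr (e2 ▸ conj_mem_Z h hu)
  obtain ⟨t, tl, tp', ht⟩ := exists_swap hp
  refine o.mem_Zp hl hp (mul_mem (mul_mem (o.Z_le hl hp hu) m1) m2) tl tp' ht ?_
  have f1 : t * (g * u * g⁻¹) * t⁻¹ = h * u * h⁻¹ := by
    rw [← o.wd tp hu (g := t * g) (h := h) (by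
      rw [mul_smul, e1, e2, swap hp hq hr n1.symm n2.symm n3 tl tp' ht])]; group
  have f2 : t * (h * u * h⁻¹) * t⁻¹ = g * u * g⁻¹ := by
    rw [← o.wd tp hu (g := t * h) (h := g) (by
      rw [mul_smul, e1, e2, swap hp hr hq n2.symm n1.symm n3.symm tl tp' ht])]; group
  rw [← mul_inv_eq_iff_eq_mul]
  calc t * (u * (g * u * g⁻¹) * (h * u * h⁻¹)) * t⁻¹
      = (t * u * t⁻¹) * (t * (g * u * g⁻¹) * t⁻¹) * (t * (h * u * h⁻¹) * t⁻¹) := by group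
    _ = _ := by rw [f1, f2, o.conj_eq tp hu tp', mul_assoc u, o.hc.Z_comm m2 m1, ← mul_assoc]

theorem Z3 {l p q r : V} (hl : Γ.ty l = τ) (hp : Γ.Adj l p) (hq : Γ.Adj l q) (hr : Γ.Adj l r)
    (n1 : p ≠ q) (n2 : p ≠ r) (n3 : q ≠ r) {u g h : X} (hu : u ∈ Γ.Z p) (e1 : g • p = q)
    (e2 : h • p = r) : u * (g * u * g⁻¹) * (h * u * h⁻¹) = 1 := by
  have hu' : g * u * g⁻¹ ∈ Γ.Z q := e1 ▸ conj_mem_Z g hu
  have k := o.Z3a hl hq hp hr n1.symm n3 n2 hu' (g := g⁻¹) (h := h * g⁻¹)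
    (by rw [← e1, inv_smul_smul]) (by rw [← e1, mul_smul, inv_smul_smul, e2])
  have e3 : g⁻¹ * (g * u * g⁻¹) * g⁻¹⁻¹ = u := by group
  have e4 : h * g⁻¹ * (g * u * g⁻¹) * (h * g⁻¹)⁻¹ = h * u * h⁻¹ := by group
  rw [e3, e4, o.hc.Z_comm (o.Z_le hl hq hu') (o.Z_le hl hp hu)] at k
  exact o.Z2 hl hp hq n1 (o.Z3a hl hp hq hr n1 n2 n3 hu e1 e2) k

theorem Z4 {l p q : V} (hl : Γ.ty l = τ) (hp : Γ.Adj l p) (hq : Γ.Adj l q) (n1 : p ≠ q)
    {y : X} (hy : y ∈ Γ.Z l) : ∃ u ∈ Γ.Z p, ∃ v ∈ Γ.Z q, y = u * v := by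
  have cm : ∀ {u v : X}, u ∈ Γ.Z p → v ∈ Γ.Z q → u * v = v * u := fun hu hv =>
    o.hc.Z_comm (o.Z_le hl hp hu) (o.Z_le hl hq hv)
  let K : Subgroup X :=
    { carrier := {y | ∃ u ∈ Γ.Z p, ∃ v ∈ Γ.Z q, y = u * v}
      mul_mem' := by
        rintro _ _ ⟨u, hu, v, hv, rfl⟩ ⟨u', hu', v', hv', rfl⟩
        refine ⟨u * u', mul_mem hu hu', v * v', mul_mem hv hv', ?_⟩
        rw [mul_assoc, ← mul_assoc v, ← cm hu' hv]; simp only [mul_assoc]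
      one_mem' := ⟨1, one_mem _, 1, one_mem _, by simp⟩
      inv_mem' := by
        rintro _ ⟨u, hu, v, hv, rfl⟩
        exact ⟨u⁻¹, inv_mem hu, v⁻¹, inv_mem hv, by rw [cm hu hv, mul_inv_rev]⟩ }
  have : Γ.Z l ≤ K := Z_le_iff.2 fun s hs w hw => by
    rw [← o.Z_eq hl hs] at hw
    by_cases e1 : s = p
    · exact ⟨w, e1 ▸ hw, 1, one_mem _, by simp⟩
    by_cases e2 : s = q
    · exact ⟨1, one_mem _, w, e2 ▸ hw, by simp⟩
    obtain ⟨g, -, g2⟩ := trans1 hs hp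
    obtain ⟨h, -, h2⟩ := trans1 hs hq
    have k := o.Z3 hl hs hp hq e1 e2 n1 hw g2 h2
    have m1 : g * w * g⁻¹ ∈ Γ.Z p := g2 ▸ conj_mem_Z g hw
    have m2 : h * w * h⁻¹ ∈ Γ.Z q := h2 ▸ conj_mem_Z h hw
    refine ⟨_, inv_mem m1, _, inv_mem m2, ?_⟩
    rw [← mul_inv_rev, ← cm m1 m2, eq_inv_iff_mul_eq_one, ← mul_assoc, k]
  exact this hy

theorem Z5 {l p : V} (hl : Γ.ty l = τ) (hp : Γ.Adj l p) {y t : X} (hy : y ∈ Γ.Z l)
    (tl : t • l = l) (tp : t • p = p) : ⁅y, t⁆ ∈ Γ.Z p := by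
  by_cases ht : t ∈ Γ.Q l
  · rw [commutatorElement_eq_one_iff_mul_comm.2 (Q_comm_Z ht hy).symm]; exact one_mem _
  obtain ⟨q, hq, n1⟩ := exists_other hp
  obtain ⟨r, hr, n2, n3⟩ := exists_third hp hq
  obtain ⟨u, hu, v, hv, rfl⟩ := o.Z4 hl hp hq n1.symm hy
  obtain ⟨h, -, h2⟩ := trans1 hq hp
  have e1 : t • q = r := swap hp hq hr n1 n2 n3.symm tl tp ht
  have k := o.Z3 hl hq hr hp n3.symm n1 n2 hv e1 h2
  have m2 : h * v * h⁻¹ ∈ Γ.Z p := h2 ▸ conj_mem_Z h hv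
  have k2 : v * (t * v * t⁻¹) = (h * v * h⁻¹)⁻¹ := eq_inv_of_mul_eq_one_left k
  have e : ⁅u * v, t⁆ = u * (v * (t * v⁻¹ * t⁻¹)) * (t * u * t⁻¹)⁻¹ := by
    simp only [commutatorElement_def]; group
  rw [e, o.hc.Z_inv hv, k2, o.conj_eq (ty_pt hl hp) hu tp]
  exact mul_mem (mul_mem hu (inv_mem m2)) (inv_mem hu)

theorem crit_ty {b : ℕ} (h : Γ.Crit b) {c : ℤ → V} (lc : Γ.IsLine c)
    (h1 : ¬ Γ.Z (c 0) ≤ Γ.Q (c b)) : Γ.ty (c 0) = τ := by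
  by_contra hne
  have hp : Γ.ty (c 0) = !τ := by revert hne; cases Γ.ty (c 0) <;> cases τ <;> simp
  have a1 : Γ.Adj (c 0) (c 1) := lc.adj rfl
  have := o.hc.crit_pos h
  exact h1 ((o.Z_le (ty_ln hp a1) (Γ.symm a1)).trans (h.lineQ lc (by omega) (by omega)))

theorem Z_le_Q {l p : V} (hl : Γ.ty l = τ) (hp : Γ.Adj l p) : Γ.Z l ≤ Γ.Q p := by
  intro t ht
  by_contra hn
  have tq := o.hc.Z_le_Q l ht
  obtain ⟨l', hl', n1⟩ := exists_other (Γ.symm hp)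
  obtain ⟨k, kp, kl⟩ := trans1 (Γ.symm hp) hl'
  have tl' := ty_ln (ty_pt hl hp) hl'
  have ht' : k * t * k⁻¹ ∈ Γ.Z l' := kl ▸ conj_mem_Z k ht
  have hn' : k * t * k⁻¹ ∉ Γ.Q p := by rw [← kp, conj_mem_Q_iff]; exact hn
  set s := k * t * k⁻¹
  have sq := o.hc.Z_le_Q l' ht'
  have tp : t • p = p := Q_adj tq hp
  have sp : s • p = p := Q_adj sq (Γ.symm hl')
  refine sq_mul_not_mem_Q (Γ.symm hp) hl' n1.symm tp tq.1 hn sp sq.1 hn'
    (o.hc p _ (mul_smul_of (mul_smul_of tp sp) (mul_smul_of tp sp)) fun q hq => ?_)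
  have z1 := o.Z5 hl hp ht (Q_adj hq (Γ.symm hp)) hq.1
  have z2 := o.Z5 tl' (Γ.symm hl') ht' (Q_adj hq hl') hq.1
  have e1 : t * s * q * (t * s)⁻¹ = ⁅s, q⁆ * ⁅t, q⁆ * q := by
    calc t * s * q * (t * s)⁻¹ = (t * ⁅s, q⁆ * t⁻¹) * ⁅t, q⁆ * q := by
          simp only [commutatorElement_def]; group
      _ = _ := by rw [o.conj_eq (ty_pt hl hp) z2 tp]
  have z3 := mul_mem z2 z1
  set ζ := ⁅s, q⁆ * ⁅t, q⁆
  set x := t * s
  have e2 : x * x * q * (x * x)⁻¹ = q := by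
    calc x * x * q * (x * x)⁻¹ = x * (x * q * x⁻¹) * x⁻¹ := by group
      _ = x * (ζ * q) * x⁻¹ := by rw [e1]
      _ = (x * ζ * x⁻¹) * (x * q * x⁻¹) := by group
      _ = q := by
          rw [e1, o.conj_eq (ty_pt hl hp) z3 (mul_smul_of tp sp), ← mul_assoc, o.hc.Z_sq z3,
            one_mul]
  exact (mul_inv_eq_iff_eq_mul.1 e2).symm

theorem two_le {b : ℕ} (h : Γ.Crit b) : 2 ≤ b := by
  have h0 := o.hc.crit_pos h
  by_contra hb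
  obtain rfl : b = 1 := by omega
  obtain ⟨c, lc, h1⟩ := h.ex
  exact h1 (o.Z_le_Q (o.crit_ty h lc h1) (lc.adj rfl))

theorem O1 {p l l' : V} (hp : Γ.ty p = !τ) (h : Γ.Adj p l) (h' : Γ.Adj p l') (hne : l ≠ l') :
    ∃ g ∈ Γ.Q p, g ∈ Γ.Q l ∧ g ∉ Γ.Q l' := by
  by_contra hcon
  push Not at hcon
  have all : ∀ {m m' : V}, Γ.Adj p m → Γ.Adj p m' → m ≠ m' → ∀ g ∈ Γ.Q p, g ∈ Γ.Q m →
      g ∈ Γ.Q m' := by
    intro m m' hm hm' n g g1 g2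
    obtain ⟨k, kp, k1, k2⟩ := Γ.trans2 hm hm' n h h' hne
    have := hcon _ (conj_mem_Q_of_fix kp g1) (k1 ▸ conj_mem_Q k g2)
    rwa [← k2, conj_mem_Q_iff] at this
  obtain ⟨m, hm, n1, n2⟩ := exists_third h h'
  have tl := ty_ln hp h
  have tl' := ty_ln hp h'
  have tm := ty_ln hp hm
  obtain ⟨t, t1, t2⟩ := o.hc.exists_Q_not_mem (Γ.symm hm)
  have tp : t • p = p := Q_adj t1 (Γ.symm hm)
  have e1 : t • l = l' := swap hm h h' n1.symm n2.symm hne tp t1.1 t2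
  have key : ∀ y ∈ Γ.Z l, t * y * t⁻¹ ∈ Γ.Z l := by
    intro y hy
    have hy' : t * y * t⁻¹ ∈ Γ.Z l' := e1 ▸ conj_mem_Z t hy
    set y' := t * y * t⁻¹ with hy'e
    have yp := o.Z_le_Q tl (Γ.symm h) hy
    have y'p := o.Z_le_Q tl' (Γ.symm h') hy'
    have y'l : y' ∈ Γ.Q l := all h' h hne.symm _ y'p (o.hc.Z_le_Q _ hy')
    have cm : y' * y = y * y' := Q_comm_Z y'l hy
    have hw : y * y' ∈ oZ 2 (Γ.Q p) := by
      refine mem_oZ.2 ⟨mul_mem yp y'p, fun g hg => ?_, ?_⟩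
      · by_cases gl : g ∈ Γ.Q l
        · rw [← mul_assoc, Q_comm_Z gl hy, mul_assoc, Q_comm_Z (all h h' hne g hg gl) hy',
            ← mul_assoc]
        have gl' : g ∉ Γ.Q l' := fun e => gl (all h' h hne.symm g hg e)
        have g'p : t⁻¹ * g * t⁻¹⁻¹ ∈ Γ.Q p := conj_mem_Q_of_fix (inv_smul_of tp) hg
        have g'l : t⁻¹ * g * t⁻¹⁻¹ ∉ Γ.Q l := fun e => gl' (by
          have := conj_mem_Q t e
          rw [e1] at this
          simpa [mul_assoc] using this)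
        set g' := t⁻¹ * g * t⁻¹⁻¹ with hg'
        have gg : g⁻¹ * g' ∈ Γ.Q l := mul_mem_Q (Γ.symm h) (inv_smul_of (Q_adj hg h))
          (inv_smul_of hg.1) (Q_adj g'p h) g'p.1 (fun e => gl (inv_mem_iff.1 e)) g'l
        have f1 : g' * y * g'⁻¹ = g * y * g⁻¹ := by
          calc g' * y * g'⁻¹ = g * (g⁻¹ * g' * y) * g'⁻¹ := by group
            _ = _ := by rw [Q_comm_Z gg hy]; group
        have z1 := o.Z5 tl (Γ.symm h) hy (Q_adj hg h) hg.1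
        set ζ := ⁅y, g⁆ with hζ
        have f2 : g * y * g⁻¹ = y * ζ := by
          rw [hζ, commutatorElement_def, o.hc.Z_inv hy, ← mul_assoc, ← mul_assoc, ← mul_assoc,
            o.hc.Z_sq hy, one_mul]
        have f3 : g * y' * g⁻¹ = y' * ζ := by
          calc g * y' * g⁻¹ = t * (g' * y * g'⁻¹) * t⁻¹ := by rw [hy'e, hg']; group
            _ = y' * (t * ζ * t⁻¹) := by rw [f1, f2, hy'e]; group
            _ = _ := by rw [o.conj_eq hp z1 tp]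
        rw [← mul_inv_eq_iff_eq_mul]
        calc g * (y * y') * g⁻¹ = (g * y * g⁻¹) * (g * y' * g⁻¹) := by group
          _ = y * (ζ * y') * ζ := by rw [f2, f3]; group
          _ = _ := by rw [← o.comm hp z1 y'p.1, mul_assoc, mul_assoc, o.hc.Z_sq z1, mul_one]
      · rw [sq, mul_assoc, ← mul_assoc y', cm, mul_assoc, o.hc.Z_sq hy', mul_one, o.hc.Z_sq hy]
    have tt : t * t ∈ Γ.Q l := all hm h n1 _ (sq_mem_Q hm tp t1.1) (mul_mem t1 t1)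
    have hO := mem_Om_of_comm hm hw tp t1.1 t2 (by
      rw [← mul_inv_eq_iff_eq_mul]
      calc t * (y * y') * t⁻¹ = y' * (t * t * y * (t * t)⁻¹) := by rw [hy'e]; group
        _ = _ := by rw [Q_comm_Z tt hy, mul_inv_cancel_right, cm])
    rw [Om_comm, ← o.Z_eq tm (Γ.symm hm)] at hO
    have := mul_mem (inv_mem hy) (o.Z_le tl (Γ.symm h) hO)
    simpa using this
  have hn : t ∈ normalizer (Γ.Z l : Set X) := by
    have := Γ.fin l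
    have : Finite (Γ.Z l) := finite_of_le (Z_le_stab l)
    exact mem_normalizer_fintype key
  refine Γ.Z_ne_bot l (Γ.faith _ h (fun y hy => ?_) ?_ (stab_le_normalizer_Z l))
  · have yp := o.Z_le_Q tl (Γ.symm h) hy
    exact ⟨yp.1, Q_adj yp h⟩
  · exact stab_le h (inf_le_right.trans (stab_le_normalizer_Z l)) hn tp (e1 ▸ hne.symm)

theorem O2 {p l l' : V} (hp : Γ.ty p = !τ) (h : Γ.Adj p l) (h' : Γ.Adj p l') (hne : l ≠ l')
    {y : X} (h1 : y ∈ Γ.Z l) (h2 : y ∈ Γ.Z l') : y ∈ Γ.Z p := by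
  obtain ⟨g, g1, g2, g3⟩ := o.O1 hp h h' hne
  exact o.mem_Zp (ty_ln hp h') (Γ.symm h') h2 (Q_adj g1 h') g1.1 g3 (Q_comm_Z g2 h1)

/-- An element moving the line `l'` through `p` centralizes nothing of `Z l'` outside `Z p`. -/
theorem O3 {p l' : V} (hp : Γ.ty p = !τ) (h' : Γ.Adj p l') {y w : X} (yp : y • p = p)
    (yl : y • l' ≠ l') (hw : w ∈ Γ.Z l') (e : y * w = w * y) : w ∈ Γ.Z p := by
  refine o.O2 hp h' (adj_of_fix yp h') yl.symm hw ?_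
  have := conj_mem_Z y hw
  rwa [e, mul_inv_cancel_right] at this

end OC

end H76.Gold
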