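import Cfsg.Agent.H76.GoldA

/-! Goldschmidt amalgams, part B: the centre at a point has order two; point involutions. -/

set_option autoImplicit false

namespace H76.Gold

open Cfsg Subgroup H98 H97 H97.Tri MulAction
open scoped commutatorElement

variable {X V : Type*} [Group X] [MulAction X V] {Γ : Tri X V} {τ : Bool}

theorem mov_all {m n : ℕ} (hm : ∀ σ, Γ.Mov σ m) (hn : n ≤ m) {c : ℤ → V} (lc : Γ.IsLine c) :
    ∃ u : X, (∀ i : ℤ, 0 ≤ i → i ≤ n → u • c i = c i) ∧ u ∉ Γ.Q (c n) := by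
  obtain ⟨e, le, te, u, u1, u2⟩ := (hm (Γ.ty (c n))).mono hn
  obtain ⟨g, hg⟩ := arc_trans_of_mov hm le lc (le.ty_congr lc te (by omega))
  refine ⟨g * u * g⁻¹, fun i h1 h2 => ?_, ?_⟩
  · rw [← hg i h1 (by omega)]; exact conj_smul_smul g (u1 i h1 h2)
  · rw [← hg n (by omega) (by omega), conj_mem_Q_iff]; exact u2

theorem mov_both {m : ℕ} (h1 : Γ.Mov τ m) (h2 : Γ.Mov (!τ) m) (σ : Bool) : Γ.Mov σ m := by
  cases σ <;> cases τ <;> assumption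

/-- The centre at a point has at most one nontrivial element. -/
def Two (Γ : Tri X V) (p : V) : Prop := ∀ u ∈ Γ.Z p, ∀ v ∈ Γ.Z p, u ≠ 1 → v ≠ 1 → u = v

theorem Two.of_ty {p q : V} (h : Two Γ p) (ht : Γ.ty p = Γ.ty q) : Two Γ q := by
  obtain ⟨g, rfl⟩ := Γ.ty_conj ht
  intro u hu v hv u1 v1
  rw [← cj_Z, mem_cj] at hu hv
  have := h _ hu _ hv (fun e => u1 (by simpa [mul_assoc, mul_eq_one_iff_eq_inv,
    inv_mul_eq_iff_eq_mul] using e)) (fun e => v1 (by simpa [mul_assoc, mul_eq_one_iff_eq_inv,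
    inv_mul_eq_iff_eq_mul] using e))
  simpa using this

namespace OC

variable (o : OC Γ τ)
include o

theorem all_crit {b : ℕ} (h : Γ.Crit b) (hm : ∀ σ, Γ.Mov σ (b - 1)) {d : ℤ → V}
    (ld : Γ.IsLine d) (td : Γ.ty (d 0) = τ) : ¬ Γ.Z (d 0) ≤ Γ.Q (d b) := by
  obtain ⟨c, lc, h1⟩ := h.ex
  have := o.two_le h
  obtain ⟨g, hg⟩ := arc_trans_of_mov hm lc ld ((o.crit_ty h lc h1).trans td.symm)
  rw [← hg 0 le_rfl (by omega), ← hg b (by omega) (by omega)]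
  exact not_le_Q_smul g h1

theorem two_even {b : ℕ} (h : Γ.Crit b) (hb : b % 2 = 0) {p : V} (hp : Γ.ty p = !τ) :
    Two Γ p := by
  obtain ⟨c, lc, h1⟩ := h.ex
  have t0 := o.crit_ty h lc h1
  have tb : Γ.ty (c b) = τ := (lc.ty_eq (i := 0) (by omega)).trans t0
  have hp2 := h.pair (o.hc.crit_pos h) lc (i := 0) (i' := 1) (j' := b - 1) (j := b) (by ring)
    (by ring) (by ring)
  have i2 := hp2.idx2 o.hc (o.nc _ tb) h1
  have a0 : Γ.Adj (c 0) (c (-1)) := lc.adj' rfl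
  have a1 : Γ.Adj (c 0) (c 1) := lc.adj rfl
  have n1 : c (-1) ≠ c 1 := lc.ne rfl
  refine Two.of_ty (p := c (-1)) (fun u hu v hv u1 v1 => ?_) ((ty_pt t0 a0).trans hp.symm)
  have k := i2 u (o.Z_le t0 a0 hu) v (o.Z_le t0 a0 hv)
    (fun e => u1 (o.Z2 t0 a0 a1 n1 hu (o.Z_eq t0 a1 ▸ e)))
    (fun e => v1 (o.Z2 t0 a0 a1 n1 hv (o.Z_eq t0 a1 ▸ e)))
  rw [← o.Z_eq t0 a1] at k
  have := o.Z2 t0 a0 a1 n1 (mul_mem hu hv) k
  rw [eq_inv_of_mul_eq_one_left this, o.hc.Z_inv hv]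

theorem big (hT : ∀ q, Γ.ty q = !τ → ¬ Two Γ q) {l p : V} (hl : Γ.ty l = τ) (hp : Γ.Adj l p)
    {K : Subgroup X} (hK : ∀ x ∈ Γ.Z l, ∀ y ∈ Γ.Z l, x ∉ K → y ∉ K → x * y ∈ K) :
    ∃ w ∈ Γ.Z l, w ∈ K ∧ w ∉ Γ.Z p := by
  obtain ⟨q, hq, n⟩ := exists_other hp
  have := hT q (ty_pt hl hq)
  simp only [Two, not_forall] at this
  obtain ⟨u, hu, v, hv, u1, v1, uv⟩ := this
  have key : ∀ w ∈ Γ.Z q, w ≠ 1 → w ∉ Γ.Z p := fun w hw w1 e => w1 (o.Z2 hl hq hp n hw e)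
  by_cases e1 : u ∈ K
  · exact ⟨u, o.Z_le hl hq hu, e1, key u hu u1⟩
  by_cases e2 : v ∈ K
  · exact ⟨v, o.Z_le hl hq hv, e2, key v hv v1⟩
  refine ⟨u * v, o.Z_le hl hq (mul_mem hu hv), hK _ (o.Z_le hl hq hu) _ (o.Z_le hl hq hv) e1 e2,
    key _ (mul_mem hu hv) fun e => uv ?_⟩
  rw [eq_inv_of_mul_eq_one_left e, o.hc.Z_inv hv]

theorem two_odd {b : ℕ} (h : Γ.Crit b) (hb : b % 2 = 1) {p : V} (hp : Γ.ty p = !τ) :
    Two Γ p := by
  by_contra hcon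
  have hT : ∀ q, Γ.ty q = !τ → ¬ Two Γ q := fun q hq e => hcon (e.of_ty (hq.trans hp.symm))
  obtain ⟨c, lc, h1⟩ := h.ex
  have b2 := o.two_le h
  have t0 := o.crit_ty h lc h1
  have tb : Γ.ty (c b) = !τ := by rw [lc.ty_ne (i := 0) (by omega), t0]
  have tb1 : Γ.ty (c (b + 1)) = τ := (lc.ty_eq (i := 0) (by omega)).trans t0
  have t2 : Γ.ty (c 2) = τ := (lc.ty_eq (i := 0) (by omega)).trans t0
  have a1 : Γ.Adj (c 0) (c 1) := lc.adj rfl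
  have ab : Γ.Adj (c (b + 1)) (c b) := lc.adj' rfl
  obtain ⟨w, w1, w2, w3⟩ := o.big hT tb1 ab (K := Γ.Q (c 1)) fun x hx y hy =>
    mul_mem_Q (lc.adj (i := 1) (j := 2) rfl) (h.lineS lc (by omega) (by omega) hx)
      (h.lineS lc (by omega) (by omega) hx) (h.lineS lc (by omega) (by omega) hy)
      (h.lineS lc (by omega) (by omega) hy)
  obtain ⟨y, y1, y2, y3⟩ := o.big hT t0 a1 (K := Γ.Q (c b)) fun x hx y hy =>
    mul_mem_Q (lc.adj' (i := b) (j := b - 1) (by ring)) (h.lineS lc (by omega) (by omega) hx)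
      (h.lineS lc (by omega) (by omega) hx) (h.lineS lc (by omega) (by omega) hy)
      (h.lineS lc (by omega) (by omega) hy)
  obtain ⟨y0, hy0, hy0'⟩ := SetLike.not_le_iff_exists.1 h1
  have w0 : w • c 0 = c 0 := Q_adj w2 (Γ.symm a1)
  have w4 : w ∉ Γ.Q (c 0) := fun e => w3 (o.O3 tb (Γ.symm ab)
    (h.lineS lc (by omega) (by omega) hy0)
    (smul_ne_of_not_mem_Q (lc.adj' (i := b) (j := b - 1) (by ring)) (Γ.symm ab)
      (lc.ne' (by ring)) (h.lineS lc (by omega) (by omega) hy0)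
      (h.lineS lc (by omega) (by omega) hy0) hy0') w1 (Q_comm_Z e hy0).symm)
  have m1 : Γ.Mov τ (b + 1) := by
    refine ⟨_, lc.rev (b + 1), by simpa using t0, w, fun i i1 i2 => ?_, by simpa using w4⟩
    by_cases e : i = b + 1
    · simpa [e] using w0
    · exact h.lineS lc (by omega) (by push_cast at i2; omega) w1
  have hm := mov_both (m1.mono (by omega)) (tb ▸ h.mov lc h1)
  obtain ⟨s, s1, s2⟩ := mov_all hm (n := b - 2) (by omega) (lc.rev b)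
  have e2 : (b : ℤ) - ((b - 2 : ℕ) : ℤ) = 2 := by omega
  simp only [e2] at s2
  have sb : s • c b = c b := by simpa using s1 0 le_rfl (by omega)
  have s3 : s • c 2 = c 2 := by simpa using s1 (b - 2) (by omega) (by omega)
  have s4 : s • c 3 = c 3 := by simpa using s1 (b - 3) (by omega) (by omega)
  have r1 := o.Z5 t0 a1 y1 w0 w2.1
  have r2 := o.Z5 tb1 ab w1 (Q_adj y2 (Γ.symm ab)) y2.1
  rw [← commutatorElement_inv, inv_mem_iff] at r2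
  have a2 : Γ.Adj (c 2) (c 1) := lc.adj' rfl
  have r3 := conj_mem_Z s r1
  rw [o.conj_eq tb r2 sb] at r3
  have r4 := o.Z2 t2 a2 (adj_of_fix s3 a2) (smul_ne_of_not_mem_Q (lc.adj (i := 2) (j := 3) rfl) a2
    (lc.ne rfl) s3 s4 s2).symm r1 r3
  exact y3 (o.mem_Zp t0 a1 y1 w0 w2.1 w4 (commutatorElement_eq_one_iff_mul_comm.1 r4).symm)

end OC

open Classical in
/-- The involution attached to a point. -/
noncomputable def zz (Γ : Tri X V) (p : V) : X :=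
  if h : ∃ z ∈ Γ.Z p, z ≠ 1 then h.choose else 1

theorem zz_spec (p : V) : zz Γ p ∈ Γ.Z p ∧ zz Γ p ≠ 1 := by
  have h : ∃ z ∈ Γ.Z p, z ≠ 1 := by
    by_contra hc
    push Not at hc
    exact Γ.Z_ne_bot p (eq_bot_iff.2 hc)
  rw [zz, dif_pos h]
  exact h.choose_spec

theorem zz_mem (p : V) : zz Γ p ∈ Γ.Z p := (zz_spec p).1

theorem zz_ne (p : V) : zz Γ p ≠ 1 := (zz_spec p).2

/-- The point-line situation. -/
structure PT (Γ : Tri X V) (τ : Bool) : Prop extends OC Γ τ where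
  two : ∀ p, Γ.ty p = !τ → Two Γ p

theorem OC.pt (o : OC Γ τ) {b : ℕ} (h : Γ.Crit b) : PT Γ τ :=
  ⟨o, fun _ hp => (Nat.mod_two_eq_zero_or_one b).elim (fun e => o.two_even h e hp)
    fun e => o.two_odd h e hp⟩

namespace PT

variable (o : PT Γ τ)
include o

theorem eq_zz {p : V} (hp : Γ.ty p = !τ) {u : X} (hu : u ∈ Γ.Z p) (u1 : u ≠ 1) : u = zz Γ p :=
  o.two p hp u hu _ (zz_mem p) u1 (zz_ne p)

theorem cases_Z {p : V} (hp : Γ.ty p = !τ) {u : X} (hu : u ∈ Γ.Z p) : u = 1 ∨ u = zz Γ p := by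
  by_cases e : u = 1
  · exact Or.inl e
  · exact Or.inr (o.eq_zz hp hu e)

theorem zz_sq (p : V) : zz Γ p * zz Γ p = 1 := o.hc.Z_sq (zz_mem p)

theorem zz_inv (p : V) : (zz Γ p)⁻¹ = zz Γ p := o.hc.Z_inv (zz_mem p)

theorem conj_zz {p : V} (hp : Γ.ty p = !τ) (g : X) : g * zz Γ p * g⁻¹ = zz Γ (g • p) :=
  o.eq_zz ((Γ.ty_smul g p).trans hp) (conj_mem_Z g (zz_mem p))
    fun e => zz_ne (Γ := Γ) p (by simpa using e)

theorem zz_comm {p : V} (hp : Γ.ty p = !τ) {g : X} (gp : g • p = p) :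
    g * zz Γ p = zz Γ p * g := o.comm hp (zz_mem p) gp

theorem zz_line {l p : V} (hl : Γ.ty l = τ) (hp : Γ.Adj l p) : zz Γ p ∈ Γ.Z l :=
  o.Z_le hl hp (zz_mem p)

theorem zz_inj {l p q : V} (hl : Γ.ty l = τ) (hp : Γ.Adj l p) (hq : Γ.Adj l q)
    (e : zz Γ p = zz Γ q) : p = q := by
  by_contra n
  exact zz_ne p (o.Z2 hl hp hq n (zz_mem p) (e ▸ zz_mem q))

theorem zz_mul {l p q r : V} (hl : Γ.ty l = τ) (hp : Γ.Adj l p) (hq : Γ.Adj l q)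
    (hr : Γ.Adj l r) (n1 : p ≠ q) (n2 : p ≠ r) (n3 : q ≠ r) : zz Γ p * zz Γ q = zz Γ r := by
  obtain ⟨g, -, g1⟩ := trans1 hp hq
  obtain ⟨h, -, h1⟩ := trans1 hp hr
  have k := o.Z3 hl hp hq hr n1 n2 n3 (zz_mem p) g1 h1
  rw [o.conj_zz (ty_pt hl hp), o.conj_zz (ty_pt hl hp), g1, h1] at k
  rw [eq_inv_of_mul_eq_one_left k, o.zz_inv]

theorem cases_line {l : V} (hl : Γ.ty l = τ) {y : X} (hy : y ∈ Γ.Z l) :
    y = 1 ∨ ∃ s, Γ.Adj l s ∧ y = zz Γ s := by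
  obtain ⟨p, hp⟩ := Γ.exists_adj l
  obtain ⟨q, hq, n⟩ := exists_other hp
  obtain ⟨r, hr, n1, n2⟩ := exists_third hp hq
  obtain ⟨u, hu, v, hv, rfl⟩ := o.Z4 hl hp hq n.symm hy
  rcases o.cases_Z (ty_pt hl hp) hu with rfl | rfl <;>
    rcases o.cases_Z (ty_pt hl hq) hv with rfl | rfl
  · simp
  · exact Or.inr ⟨q, hq, by simp⟩
  · exact Or.inr ⟨p, hp, by simp⟩
  · exact Or.inr ⟨r, hr, o.zz_mul hl hp hq hr n.symm n1.symm n2.symm⟩

theorem fix_of_comm {l p : V} (hl : Γ.ty l = τ) (hp : Γ.Adj l p) {g : X} (gl : g • l = l)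
    (e : g * zz Γ p = zz Γ p * g) : g • p = p := by
  refine o.zz_inj hl (adj_of_fix gl hp) hp ?_
  rw [← o.conj_zz (ty_pt hl hp), e, mul_inv_cancel_right]

theorem line_le {l p q : V} (hl : Γ.ty l = τ) (hp : Γ.Adj l p) (hq : Γ.Adj l q) (n : p ≠ q)
    {K : Subgroup X} (h1 : zz Γ p ∈ K) (h2 : zz Γ q ∈ K) : Γ.Z l ≤ K := by
  intro y hy
  obtain ⟨u, hu, v, hv, rfl⟩ := o.Z4 hl hp hq n hy
  refine mul_mem ?_ ?_
  · rcases o.cases_Z (ty_pt hl hp) hu with rfl | rfl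
    exacts [one_mem _, h1]
  · rcases o.cases_Z (ty_pt hl hq) hv with rfl | rfl
    exacts [one_mem _, h2]

/-- An element fixing the point `p` and moving a line through it moves the other involutions. -/
theorem not_comm {p l s : V} (hp : Γ.ty p = !τ) (h : Γ.Adj p l) (hs : Γ.Adj l s) (n : s ≠ p)
    {y : X} (yp : y • p = p) (yl : y • l ≠ l) : y * zz Γ s ≠ zz Γ s * y := fun e =>
  zz_ne s (o.Z2 (ty_ln hp h) hs (Γ.symm h) n (zz_mem s)
    (o.O3 hp h yp yl (o.zz_line (ty_ln hp h) hs) e))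

theorem conj_swap {l p q : V} (hl : Γ.ty l = τ) (hp : Γ.Adj l p) (hq : Γ.Adj l q) (n : q ≠ p)
    {g : X} (gl : g • l = l) (gp : g • p = p) (hg : g ∉ Γ.Q l) :
    g * zz Γ q * g⁻¹ = zz Γ q * zz Γ p := by
  obtain ⟨r, hr, n1, n2⟩ := exists_third hp hq
  rw [o.conj_zz (ty_pt hl hq), swap hp hq hr n n1 n2.symm gl gp hg,
    o.zz_mul hl hq hp hr n n2.symm n1.symm]

/-- Two points different from `p` on a line through `p` have the same involution modulo `Z p`. -/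
theorem zz_mod {l p q r : V} (hl : Γ.ty l = τ) (hp : Γ.Adj l p) (hq : Γ.Adj l q)
    (hr : Γ.Adj l r) (n1 : q ≠ p) (n2 : r ≠ p) : ∃ ζ ∈ Γ.Z p, zz Γ q = zz Γ r * ζ := by
  by_cases e : q = r
  · exact ⟨1, one_mem _, by rw [e, mul_one]⟩
  · exact ⟨_, zz_mem p, (o.zz_mul hl hr hp hq n2 (Ne.symm e) n1.symm).symm⟩

theorem conj_mod {l l' p q r : V} (hp : Γ.ty p = !τ) (hl' : Γ.Adj p l')
    (hq : Γ.Adj l q) (hr : Γ.Adj l' r) (n1 : q ≠ p) (n2 : r ≠ p) (tq : Γ.ty q = !τ) {g : X}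
    (gp : g • p = p) (gl : g • l = l') : ∃ ζ ∈ Γ.Z p, g * zz Γ q * g⁻¹ = zz Γ r * ζ := by
  rw [o.conj_zz tq]
  exact o.zz_mod (ty_ln hp hl') (Γ.symm hl') (gl ▸ Γ.smul g hq) hr
    (fun e => n1 (smul_left_cancel g (e.trans gp.symm))) n2

theorem card_Z_le {l : V} (hl : Γ.ty l = τ) : Nat.card (Γ.Z l) ≤ 4 := by
  obtain ⟨p, q, r, hp, hq, hr, -, -, -, h⟩ := Γ.three l
  have : (Γ.Z l : Set X) ⊆ {1, zz Γ p, zz Γ q, zz Γ r} := fun y hy => by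
    rcases o.cases_line hl hy with rfl | ⟨s, hs, rfl⟩
    · simp
    · rcases h s hs with rfl | rfl | rfl <;> simp
  exact (Set.ncard_le_ncard this (Set.toFinite _)).trans (Set.ncard_insert_le _ _ |>.trans
    (Nat.succ_le_succ (Set.ncard_insert_le _ _ |>.trans (Nat.succ_le_succ
      (Set.ncard_insert_le _ _ |>.trans (by simp))))))

end PT

end H76.Gold
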