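import Cfsg.Agent.H76.GoldB

/-! Goldschmidt amalgams, part C: even critical distance. -/

set_option autoImplicit false

namespace H76.Gold

open Cfsg Subgroup H98 H97 H97.Tri MulAction
open scoped commutatorElement

variable {X V : Type*} [Group X] [MulAction X V] {Γ : Tri X V} {τ : Bool}

theorem mem_normalizer_Vx {p : V} (hV : Γ.Vx p ≤ stabilizer X p) {x : X}
    (h : ∀ v ∈ Γ.Vx p, x * v * x⁻¹ ∈ Γ.Vx p) : x ∈ normalizer (Γ.Vx p : Set X) := by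
  have := Γ.fin p
  have : Finite (Γ.Vx p) := finite_of_le hV
  exact mem_normalizer_fintype h

namespace PT

variable (o : PT Γ τ)
include o

theorem Vx_le_Q {p : V} (hp : Γ.ty p = !τ) : Γ.Vx p ≤ Γ.Q p :=
  Vx_le_iff.2 fun _ hl => o.Z_le_Q (ty_ln hp hl) (Γ.symm hl)

theorem not_mem_of_crit {l p q : V} (hl : Γ.ty l = τ) (hp : Γ.Adj l p) (hq : Γ.Adj l q)
    (n : q ≠ p) {K : Subgroup X} (h1 : ¬ Γ.Z l ≤ K) (h2 : zz Γ p ∈ K) : zz Γ q ∉ K :=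
  fun e => h1 (o.line_le hl hp hq n.symm h2 e)

section even

variable {b : ℕ} (h : Γ.Crit b) (hb : b % 2 = 0)
include h hb

theorem even_data {c : ℤ → V} (lc : Γ.IsLine c) (h1 : ¬ Γ.Z (c 0) ≤ Γ.Q (c b)) :
    zz Γ (c (b + 1)) ∉ Γ.Q (c 0) ∧ zz Γ (c 1) = zz Γ (c (b - 1)) := by
  have b2 := o.two_le h
  have t0 := o.crit_ty h lc h1
  have tb : Γ.ty (c b) = τ := (lc.ty_eq (i := 0) (by omega)).trans t0
  have t2 : Γ.ty (c 2) = τ := (lc.ty_eq (i := 0) (by omega)).trans t0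
  have tb2 : Γ.ty (c (b - 2)) = τ := (lc.ty_eq (i := 0) (by omega)).trans t0
  have a0 : Γ.Adj (c 0) (c (-1)) := lc.adj' rfl
  have a1 : Γ.Adj (c 0) (c 1) := lc.adj rfl
  have a2 : Γ.Adj (c b) (c (b - 1)) := lc.adj' (by ring)
  have a3 : Γ.Adj (c b) (c (b + 1)) := lc.adj rfl
  have hx : zz Γ (c (b + 1)) ∉ Γ.Q (c 0) := o.not_mem_of_crit tb a2 a3 (lc.ne' (by ring))
    (h.rev_line (by omega) lc (o.nc _ tb) h1)
    (h.lineQ lc (by omega) (by omega) (o.zz_line tb2 (lc.adj (by ring))))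
  have hy : zz Γ (c (-1)) ∉ Γ.Q (c b) := o.not_mem_of_crit t0 a1 a0 (lc.ne rfl) h1
    (h.lineQ lc (by omega) (by omega) (o.zz_line t2 (lc.adj' rfl)))
  refine ⟨hx, ?_⟩
  have x1 := o.zz_line tb a3
  have y1 := o.zz_line t0 a0
  have e1 := o.conj_swap t0 a1 a0 (lc.ne rfl) (h.lineS lc (by omega) (by omega) x1)
    (h.lineS lc (by omega) (by omega) x1) hx
  have e2 := o.conj_swap tb a2 a3 (lc.ne' (by ring)) (h.lineS lc (by omega) (by omega) y1)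
    (h.lineS lc (by omega) (by omega) y1) hy
  rw [o.zz_inv] at e1 e2
  have cm := o.hc.Z_comm y1 (o.zz_line t0 a1)
  have sx := o.zz_sq (c (b + 1))
  have sy := o.zz_sq (c (-1))
  set x := zz Γ (c (b + 1))
  set y := zz Γ (c (-1))
  calc zz Γ (c 1) = (y * zz Γ (c 1)) * y := by rw [cm, mul_assoc, sy, mul_one]
    _ = x * (y * x * y) := by rw [← e1]; group
    _ = _ := by rw [e2, ← mul_assoc, sx, one_mul]

theorem even_shift (h4 : 4 ≤ b) {c : ℤ → V} (lc : Γ.IsLine c)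
    (h1 : ¬ Γ.Z (c 0) ≤ Γ.Q (c b)) : Γ.Z (c (-2)) ≤ Γ.Q (c (b - 2)) := by
  by_contra h2
  have t0 := o.crit_ty h lc h1
  have tb : Γ.ty (c b) = τ := (lc.ty_eq (i := 0) (by omega)).trans t0
  have k := (o.even_data h hb (lc.shift (-2)) (by simpa [sub_eq_add_neg] using h2)).2
  have e1 : (1 : ℤ) + -2 = -1 := by ring
  have e2 : (b : ℤ) - 1 + -2 = b - 3 := by ring
  simp only [e1, e2] at k
  have hx := (o.even_data h hb lc h1).1
  have x1 := o.zz_line tb (lc.adj (i := b) (j := b + 1) rfl)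
  have t3 : Γ.ty (c (b - 3)) = !τ := by rw [lc.ty_ne (i := 0) (by omega), t0]
  have cm := o.zz_comm t3 (h.lineS lc (by omega) (by omega) x1)
  rw [← k] at cm
  have x0 := h.lineS lc (j := 0) (by omega) (by omega) x1
  exact hx (mem_Q_of_fix (lc.adj' (i := 0) (j := -1) rfl) (lc.adj (i := 0) (j := 1) rfl)
    (lc.ne rfl) x0 (o.fix_of_comm t0 (lc.adj' rfl) x0 cm) (h.lineS lc (by omega) (by omega) x1))

theorem even_false (h4 : 4 ≤ b) : False := by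
  by_cases hA : ∃ c, Γ.IsLine c ∧ ¬ Γ.Z (c 0) ≤ Γ.Q (c b) ∧ ¬ Γ.Z (c (-2)) ≤ Γ.Q (c (b - 1))
  · obtain ⟨c, lc, h1, h2⟩ := hA
    have t0 := o.crit_ty h lc h1
    have tb : Γ.ty (c b) = τ := (lc.ty_eq (i := 0) (by omega)).trans t0
    have tb1 : Γ.ty (c (b - 1)) = !τ := by rw [lc.ty_ne (i := 0) (by omega), t0]
    obtain ⟨u, u1, u2⟩ := SetLike.not_le_iff_exists.1 h2
    have u3 := o.even_shift h hb h4 lc h1 u1
    have e1 : ((b + 1 : ℕ) : ℤ) + -2 = b - 1 := by push_cast; ring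
    have m1 : Γ.Mov (!τ) (b + 1) := by
      refine ⟨_, lc.shift (-2), by simpa only [e1] using tb1, u, fun i i1 i2 => ?_,
        by simpa only [e1] using u2⟩
      by_cases e : i = b + 1
      · subst e
        exact Q_adj u3 (lc.adj (by ring))
      · exact h.lineS lc (by push_cast at i2; omega) (by omega) u1
    have hm := mov_both ((tb ▸ h.mov lc h1).mono (k := b - 1) (by omega)) (m1.mono (by omega))
    have := o.all_crit h hm (lc.shift (-2)) ((lc.ty_eq (i := 0) (by omega)).trans t0)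
    exact this (by simpa [sub_eq_add_neg] using o.even_shift h hb h4 lc h1)
  push Not at hA
  obtain ⟨c, lc, h1⟩ := h.ex
  have t0 := o.crit_ty h lc h1
  have tb : Γ.ty (c b) = τ := (lc.ty_eq (i := 0) (by omega)).trans t0
  have a0 : Γ.Adj (c 0) (c (-1)) := lc.adj' rfl
  have a1 : Γ.Adj (c (-1)) (c (-2)) := lc.adj' rfl
  have tm := ty_pt t0 a0
  have hV : Γ.Vx (c (-1)) ≤ Γ.Q (c (b - 1)) := Vx_le_iff.2 fun δ hδ => by
    by_cases e : δ = c 0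
    · exact e ▸ h.lineQ lc (by omega) (by omega)
    obtain ⟨d, ld, d1, d2⟩ := lc.back (-1) hδ e
    have := hA d ld (by rwa [d1 _ (by omega), d1 _ (by omega)])
    rwa [show d (-2) = δ from d2, d1 _ (by omega)] at this
  obtain ⟨hx, k⟩ := o.even_data h hb lc h1
  have x1 := o.zz_line tb (lc.adj (i := b) (j := b + 1) rfl)
  have a2 : Γ.Adj (c b) (c (b - 1)) := lc.adj' (by ring)
  have x0 := h.lineS lc (j := 0) (by omega) (by omega) x1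
  have hn : zz Γ (c (b + 1)) ∈ normalizer (Γ.Vx (c (-1)) : Set X) := by
    refine mem_normalizer_Vx ((o.Vx_le_Q tm).trans (Q_le_stab _)) fun v hv => ?_
    have z1 := o.Z5 tb a2 x1 (Q_adj (hV hv) (Γ.symm a2)) (hV hv).1
    have z2 : ⁅zz Γ (c (b + 1)), v⁆ ∈ Γ.Vx (c (-1)) := by
      rcases o.cases_Z (ty_pt tb a2) z1 with e | e
      · rw [e]; exact one_mem _
      · rw [e, ← k]; exact Z_le_Vx (Γ.symm a0) (o.zz_line t0 (lc.adj rfl))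
    have := mul_mem z2 hv
    simpa [commutatorElement_def] using this
  have hV0 : Γ.Vx (c (-1)) = ⊥ := by
    refine Γ.faith _ a0 (fun z hz => ?_) ?_ (stab_le_normalizer_Vx _)
    · have := o.Vx_le_Q tm hz
      exact ⟨Q_adj this (Γ.symm a0), this.1⟩
    · exact stab_le a0 (inf_le_right.trans (stab_le_normalizer_Vx _)) hn x0
        (smul_ne_of_not_mem_Q (lc.adj rfl) a0 (lc.ne rfl) x0
          (h.lineS lc (by omega) (by omega) x1) hx)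
  exact Γ.Z_ne_bot _ (eq_bot_iff.2 (hV0 ▸ Z_le_Vx a1))

end even

section two

variable (h : Γ.Crit 2)
include h

theorem H2 {p l l' s : V} (hp : Γ.ty p = !τ) (h1 : Γ.Adj p l) (h2 : Γ.Adj p l') (n : l ≠ l')
    (hs : Γ.Adj l s) (ns : s ≠ p) : zz Γ s ∉ Γ.Q l' := by
  obtain ⟨c, lc, hc⟩ := h.ex
  have t0 := o.crit_ty h lc hc
  have a1 : Γ.Adj (c 0) (c 1) := lc.adj rfl
  obtain ⟨g, hg⟩ := Γ.ty_conj ((ty_pt t0 a1).trans hp.symm)
  obtain ⟨k, k1, k2, k3⟩ := Γ.trans2 (hg ▸ Γ.smul g (Γ.symm a1))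
    (hg ▸ Γ.smul g (lc.adj (i := 1) (j := 2) rfl))
    (fun e => lc.ne (i := 0) (j := 2) rfl (smul_left_cancel g e)) h1 h2 n
  have := not_le_Q_smul k (not_le_Q_smul g hc)
  rw [k2] at this
  erw [k3] at this
  exact o.not_mem_of_crit (ty_ln hp h1) (Γ.symm h1) hs ns this
    (o.hc.Z_le_Q _ (o.zz_line (ty_ln hp h2) (Γ.symm h2)))

theorem anti {p l l' s s' : V} (hp : Γ.ty p = !τ) (h1 : Γ.Adj p l) (h2 : Γ.Adj p l') (n : l ≠ l')
    (hs : Γ.Adj l s) (ns : s ≠ p) (hs' : Γ.Adj l' s') (ns' : s' ≠ p) :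
    zz Γ s * zz Γ s' = zz Γ s' * zz Γ s * zz Γ p := by
  have m := o.Z_le_Q (ty_ln hp h1) (Γ.symm h1) (o.zz_line (ty_ln hp h1) hs)
  have := o.conj_swap (ty_ln hp h2) (Γ.symm h2) hs' ns' (Q_adj m h2) m.1
    (o.H2 h hp h1 h2 n hs ns)
  rw [mul_inv_eq_iff_eq_mul] at this
  rw [this, mul_assoc, ← o.zz_comm hp m.1, mul_assoc]

theorem two_bound {u v : V} (huv : Γ.Adj u v) : Nat.card (Ed X u v) ≤ 128 := by
  obtain ⟨c, lc, hc⟩ := h.ex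
  have t0 := o.crit_ty h lc hc
  set l := c 0
  obtain ⟨p, q, q', ap, aq, aq', n1, n2, n3, -⟩ := Γ.three l
  have tp := ty_pt t0 ap
  have tq := ty_pt t0 aq
  obtain ⟨m1, am1, nm1⟩ := exists_other (Γ.symm ap)
  obtain ⟨m2, am2, nm2, nm3⟩ := exists_third (Γ.symm ap) am1
  obtain ⟨k1, ak1, nk1⟩ := exists_other (Γ.symm aq)
  obtain ⟨k2, ak2, nk2, nk3⟩ := exists_third (Γ.symm aq) ak1
  obtain ⟨s1, as1, ns1⟩ := exists_other (Γ.symm ak1)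
  obtain ⟨s2, as2, ns2⟩ := exists_other (Γ.symm ak2)
  obtain ⟨s, as, ns⟩ := exists_other (Γ.symm am1)
  have tk1 := ty_ln tq ak1
  have tk2 := ty_ln tq ak2
  have y2q := o.Z_le_Q tk1 (Γ.symm ak1) (o.zz_line tk1 as1)
  have y3q := o.Z_le_Q tk2 (Γ.symm ak2) (o.zz_line tk2 as2)
  have c32 := o.anti h tq ak2 ak1 nk3 as2 ns2 as1 ns1
  have z3 := o.zz_comm tq y3q.1
  have q2 := o.zz_sq s1
  have q3 := o.zz_sq s2
  have w23 : zz Γ s1 * zz Γ s2 ∈ Γ.Q l := mul_mem_Q aq (Q_adj y2q (Γ.symm aq)) y2q.1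
    (Q_adj y3q (Γ.symm aq)) y3q.1 (o.H2 h tq ak1 (Γ.symm aq) nk1 as1 ns1)
    (o.H2 h tq ak2 (Γ.symm aq) nk2 as2 ns2)
  have hzq : zz Γ q ∉ Γ.Q m1 := o.H2 h tp (Γ.symm ap) am1 nm1.symm aq n1.symm
  obtain ⟨w, hw⟩ : ∃ w, w = zz Γ s1 * zz Γ s2 := ⟨_, rfl⟩
  rw [← hw] at w23
  have ww : w * w = zz Γ q := by
    calc w * w = zz Γ s1 * (zz Γ s2 * zz Γ s1) * zz Γ s2 := by rw [hw]; group
      _ = (zz Γ s1 * zz Γ s1) * zz Γ s2 * (zz Γ q * zz Γ s2) := by rw [c32]; group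
      _ = _ := by rw [q2, one_mul, ← z3, ← mul_assoc, q3, one_mul]
  have wp : w • p = p := Q_adj w23 ap
  have wn : w ∉ Γ.Q p := fun e => hzq (ww ▸ sq_mem_Q (Γ.symm am1) (Q_adj e am1) e.1)
  have wq : w • q = q := Q_adj w23 aq
  have wc : w ∈ centralizer (D Γ p : Set X) := by
    intro d hd
    have dl : d ∈ Γ.Q l := hd.2 l (Γ.symm ap)
    have dq : d • q = q := Q_adj dl aq
    have key : ∃ ζ ∈ Γ.Z q, d * w * d⁻¹ = w * ζ := by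
      have e0 : d * w * d⁻¹ = (d * zz Γ s1 * d⁻¹) * (d * zz Γ s2 * d⁻¹) := by rw [hw]; group
      by_cases dQ : d ∈ Γ.Q q
      · obtain ⟨ζ1, f1, g1⟩ := o.conj_mod tq ak1 as1 as1 ns1 ns1 (ty_pt tk1 as1) dq (Q_adj dQ ak1)
        obtain ⟨ζ2, f2, g2⟩ := o.conj_mod tq ak2 as2 as2 ns2 ns2 (ty_pt tk2 as2) dq (Q_adj dQ ak2)
        refine ⟨ζ1 * ζ2, mul_mem f1 f2, ?_⟩
        rw [e0, g1, g2, hw, mul_assoc, ← mul_assoc ζ1, ← o.comm tq f1 y3q.1]; group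
      · obtain ⟨ζ1, f1, g1⟩ := o.conj_mod tq ak2 as1 as2 ns1 ns2 (ty_pt tk1 as1) dq
          (swap (Γ.symm aq) ak1 ak2 nk1 nk2 nk3.symm dq dl.1 dQ)
        obtain ⟨ζ2, f2, g2⟩ := o.conj_mod tq ak1 as2 as1 ns2 ns1 (ty_pt tk2 as2) dq
          (swap (Γ.symm aq) ak2 ak1 nk2 nk1 nk3 dq dl.1 dQ)
        refine ⟨zz Γ q * ζ1 * ζ2, mul_mem (mul_mem (zz_mem q) f1) f2, ?_⟩
        rw [e0, g1, g2, hw, mul_assoc, ← mul_assoc ζ1, ← o.comm tq f1 y2q.1, ← mul_assoc,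
          ← mul_assoc, c32]; group
    obtain ⟨ζ, f1, f2⟩ := key
    have f3 : ζ ∈ D Γ p := by
      have := mul_mem (conj_mem_D_of_fix (inv_smul_of wp) hd) (inv_mem hd)
      have e : w⁻¹ * d * w⁻¹⁻¹ * d⁻¹ = ζ := by
        rw [← inv_mul_eq_iff_eq_mul] at f2; rw [← f2]; group
      rwa [e] at this
    rcases o.cases_Z tq f1 with rfl | rfl
    · rw [mul_one, mul_inv_eq_iff_eq_mul] at f2; exact f2
    · exact absurd (f3.2 m1 am1) hzq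
  let N : Subgroup X := D Γ p ⊓ D Γ q ⊓ D Γ q'
  have nN : stabilizer X l ≤ normalizer (N : Set X) := mem_normalizer_of fun g hg n hn => by
    have all : ∀ r, Γ.Adj l r → n ∈ D Γ r := fun r hr => by
      rcases eq_of_three ap aq aq' n1 n2 n3 hr with rfl | rfl | rfl
      exacts [hn.1.1, hn.1.2, hn.2]
    have all' : ∀ r, Γ.Adj l r → g * n * g⁻¹ ∈ D Γ r := fun r hr => by
      simpa using conj_mem_D g (all (g⁻¹ • r) (adj_of_fix (inv_smul_of hg) hr))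
    exact ⟨⟨all' p ap, all' q aq⟩, all' q' aq'⟩
  have hN : N = ⊥ := by
    refine Γ.faith _ ap (fun x hx => ⟨Q_adj hx.1.1.1 (Γ.symm ap), hx.1.1.1.1⟩) nN ?_
    obtain ⟨n, hn1, na, nb⟩ := normal_trans (N := centralizer (D Γ p : Set X))
      (le_normalizer_centralizer (stab_le_normalizer_D p)) wc wp wn (Γ.symm ap) am1
    refine stab_le (Γ.symm ap) (inf_le_right.trans nN) (g := n) ?_ na (nb ▸ nm1)
    exact centralizer_le_normalizer _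
      (H98.centralizer_anti (A := N) (fun x hx => hx.1.1) hn1)
  rw [card_Ed_eq ap huv]
  have s1 := card_step ap (H := Ed X l p) fun x hx => hx
  have s2 := card_step (Γ.symm ap) (H := Ed X l p ⊓ Γ.Q l) fun x hx => ⟨hx.1.2, hx.1.1⟩
  have s3 := card_step (Γ.symm am1) (H := Ed X l p ⊓ Γ.Q l ⊓ Γ.Q p)
    fun x hx => ⟨Q_adj hx.2 am1, hx.2.1⟩
  have s4 := card_step (Γ.symm am2) (H := Ed X l p ⊓ Γ.Q l ⊓ Γ.Q p ⊓ Γ.Q m1)
    fun x hx => ⟨Q_adj hx.1.2 am2, hx.1.2.1⟩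
  have s5 := card_step (Γ.symm aq) (H := Ed X l p ⊓ Γ.Q l ⊓ Γ.Q p ⊓ Γ.Q m1 ⊓ Γ.Q m2)
    fun x hx => ⟨Q_adj hx.1.1.1.2 aq, hx.1.1.1.2.1⟩
  have s6 := card_step (Γ.symm ak1)
    (H := Ed X l p ⊓ Γ.Q l ⊓ Γ.Q p ⊓ Γ.Q m1 ⊓ Γ.Q m2 ⊓ Γ.Q q)
    fun x hx => ⟨Q_adj hx.2 ak1, hx.2.1⟩
  have s7 := card_step (Γ.symm ak2)
    (H := Ed X l p ⊓ Γ.Q l ⊓ Γ.Q p ⊓ Γ.Q m1 ⊓ Γ.Q m2 ⊓ Γ.Q q ⊓ Γ.Q k1)
    fun x hx => ⟨Q_adj hx.1.2 ak2, hx.1.2.1⟩
  have e : (Ed X l p ⊓ Γ.Q l ⊓ Γ.Q p ⊓ Γ.Q m1 ⊓ Γ.Q m2 ⊓ Γ.Q q ⊓ Γ.Q k1 ⊓ Γ.Q k2 :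
      Subgroup X) = ⊥ := by
    rw [eq_bot_iff, ← hN]
    rintro x ⟨⟨⟨⟨⟨⟨⟨-, x1⟩, x2⟩, x3⟩, x4⟩, x5⟩, x6⟩, x7⟩
    have d1 := mem_D_of_three (Γ.symm ap) am1 am2 nm1.symm nm2.symm nm3.symm x2 x1 x3 x4
    have d2 := mem_D_of_three (Γ.symm aq) ak1 ak2 nk1.symm nk2.symm nk3.symm x5 x1 x6 x7
    refine ⟨⟨d1, d2⟩, ?_⟩
    have tm1 := ty_ln tp am1
    have vp := o.Z_le_Q tm1 (Γ.symm am1) (o.zz_line tm1 as)
    have d3 := conj_mem_D (zz Γ s) d2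
    rwa [swap ap aq aq' n1.symm n2.symm n3 (Q_adj vp (Γ.symm ap)) vp.1
      (o.H2 h tp am1 (Γ.symm ap) nm1 as ns), ← Q_comm_Z x3 (o.zz_line tm1 as),
      mul_inv_cancel_right] at d3
  rw [e, card_bot] at s7
  omega

end two

end PT

end H76.Gold
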