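import Cfsg.Agent.H76.GoldC

/-! Goldschmidt amalgams, part D: odd critical distance, shifting critical pairs, `|V| = 8`. -/

set_option autoImplicit false

namespace H76.Gold

open Cfsg Subgroup H98 H97 H97.Tri MulAction
open scoped commutatorElement

variable {X V : Type*} [Group X] [MulAction X V] {Γ : Tri X V} {τ : Bool}

/-- The group generated by the `V_p` for the points `p` of a line. -/
def W (Γ : Tri X V) (l : V) : Subgroup X := ⨆ (p : V) (_ : Γ.Adj l p), Γ.Vx p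

theorem Vx_le_W {l p : V} (h : Γ.Adj l p) : Γ.Vx p ≤ W Γ l :=
  le_iSup₂_of_le (f := fun p (_ : Γ.Adj l p) => Γ.Vx p) p h le_rfl

theorem W_le_iff {l : V} {K : Subgroup X} :
    W Γ l ≤ K ↔ ∀ p δ, Γ.Adj l p → Γ.Adj p δ → Γ.Z δ ≤ K := by
  simp only [W, iSup_le_iff, Vx_le_iff]
  exact ⟨fun h p δ h1 h2 => h p h1 δ h2, fun h p h1 δ h2 => h p δ h1 h2⟩

theorem stab_le_normalizer_W (l : V) : stabilizer X l ≤ normalizer (W Γ l : Set X) :=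
  mem_normalizer_of fun g hg n hn => by
    have : W Γ l ≤ cj g⁻¹ (W Γ l) := W_le_iff.2 fun p δ h1 h2 z hz => by
      rw [mem_cj, inv_inv]
      exact Vx_le_W (adj_of_fix hg h1) (Z_le_Vx (Γ.smul g h2) (conj_mem_Z g hz))
    have := this hn
    rwa [mem_cj, inv_inv] at this

/-- `x` is a product of three point involutions on the three lines through `p`. -/
def Cp (Γ : Tri X V) (p : V) (x : X) : Prop :=
  ∃ l1 l2 l3 s1 s2 s3, Γ.Adj p l1 ∧ Γ.Adj p l2 ∧ Γ.Adj p l3 ∧ l1 ≠ l2 ∧ l1 ≠ l3 ∧ l2 ≠ l3 ∧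
    Γ.Adj l1 s1 ∧ Γ.Adj l2 s2 ∧ Γ.Adj l3 s3 ∧ s1 ≠ p ∧ s2 ≠ p ∧ s3 ≠ p ∧
    x = zz Γ s1 * zz Γ s2 * zz Γ s3

theorem perm6 {a b c : X} (h1 : a * b = b * a) (h2 : a * c = c * a) (h3 : b * c = c * b) :
    a * b * c = a * c * b ∧ a * b * c = b * a * c ∧ a * b * c = b * c * a ∧
      a * b * c = c * a * b ∧ a * b * c = c * b * a := by
  have e1 : a * b * c = a * c * b := by rw [mul_assoc, h3, mul_assoc]
  have e3 : a * b * c = b * c * a := by rw [h1, mul_assoc, h2, mul_assoc]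
  exact ⟨e1, by rw [h1], e3, by rw [e1, h2], by rw [e3, h3]⟩

namespace PT

variable (o : PT Γ τ)
include o

theorem Cp_conj {p : V} (hp : Γ.ty p = !τ) {x : X} (h : Cp Γ p x) (g : X) :
    Cp Γ (g • p) (g * x * g⁻¹) := by
  obtain ⟨l1, l2, l3, s1, s2, s3, a1, a2, a3, n1, n2, n3, b1, b2, b3, m1, m2, m3, rfl⟩ := h
  have ne : ∀ {u v : V}, u ≠ v → g • u ≠ g • v := fun h e => h (smul_left_cancel g e)
  refine ⟨_, _, _, _, _, _, Γ.smul g a1, Γ.smul g a2, Γ.smul g a3, ne n1, ne n2, ne n3,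
    Γ.smul g b1, Γ.smul g b2, Γ.smul g b3, ne m1, ne m2, ne m3, ?_⟩
  rw [← o.conj_zz (ty_pt (ty_ln hp a1) b1), ← o.conj_zz (ty_pt (ty_ln hp a2) b2),
    ← o.conj_zz (ty_pt (ty_ln hp a3) b3)]
  group

theorem zz_Vx {p l s : V} (hp : Γ.ty p = !τ) (h1 : Γ.Adj p l) (h2 : Γ.Adj l s) :
    zz Γ s ∈ Γ.Vx p := Z_le_Vx h1 (o.zz_line (ty_ln hp h1) h2)

theorem Cp_mem {p : V} (hp : Γ.ty p = !τ) {x : X} (h : Cp Γ p x) : x ∈ Γ.Vx p := by
  obtain ⟨l1, l2, l3, s1, s2, s3, a1, a2, a3, -, -, -, b1, b2, b3, -, -, -, rfl⟩ := h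
  exact mul_mem (mul_mem (o.zz_Vx hp a1 b1) (o.zz_Vx hp a2 b2)) (o.zz_Vx hp a3 b3)

section odd

variable {b : ℕ} (h : Γ.Crit b) (hb : b % 2 = 1)
include h hb

theorem three_le : 3 ≤ b := by have := o.two_le h; omega

theorem Vx_le_Ql {p l : V} (hl : Γ.Adj p l) : Γ.Vx p ≤ Γ.Q l :=
  Vx_le_iff.2 fun _ hδ => h.le_Q (n := 2) (o.three_le h hb) (near_two (Γ.symm hδ) hl)

theorem Vcomm {p : V} {u v : X} (hu : u ∈ Γ.Vx p) (hv : v ∈ Γ.Vx p) : u * v = v * u := by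
  have : Γ.Vx p ≤ centralizer {u} := Vx_le_iff.2 fun δ hδ z hz =>
    mem_centralizer_singleton_iff.2 (Q_comm_Z (o.Vx_le_Ql h hb hδ hu) hz).symm
  exact (mem_centralizer_singleton_iff.1 (this hv)).symm

theorem Vsq {p : V} {u : X} (hu : u ∈ Γ.Vx p) : u * u = 1 := by
  let K : Subgroup X :=
    { carrier := {u | u ∈ Γ.Vx p ∧ u * u = 1}
      mul_mem' := fun {a b} ha hb' => ⟨mul_mem ha.1 hb'.1, by
        rw [mul_assoc, ← mul_assoc b, ← o.Vcomm h hb ha.1 hb'.1, mul_assoc, hb'.2, mul_one, ha.2]⟩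
      one_mem' := ⟨one_mem _, one_mul _⟩
      inv_mem' := fun {a} ha => ⟨inv_mem ha.1, by rw [← mul_inv_rev, ha.2, inv_one]⟩ }
  have : Γ.Vx p ≤ K := Vx_le_iff.2 fun δ hδ z hz => ⟨Z_le_Vx hδ hz, o.hc.Z_sq hz⟩
  exact (this hu).2

theorem Cmod {p : V} (hp : Γ.ty p = !τ) {x x' : X} (h1 : Cp Γ p x) (h2 : Cp Γ p x') :
    ∃ ζ ∈ Γ.Z p, x' = x * ζ := by
  obtain ⟨l1, l2, l3, s1, s2, s3, a1, a2, a3, n1, n2, n3, b1, b2, b3, m1, m2, m3, rfl⟩ := h1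
  have same : ∀ {t1 t2 t3 : V}, Γ.Adj l1 t1 → Γ.Adj l2 t2 → Γ.Adj l3 t3 → t1 ≠ p → t2 ≠ p →
      t3 ≠ p → ∃ ζ ∈ Γ.Z p, zz Γ t1 * zz Γ t2 * zz Γ t3 = zz Γ s1 * zz Γ s2 * zz Γ s3 * ζ := by
    intro t1 t2 t3 c1 c2 c3 k1 k2 k3
    obtain ⟨ζ1, f1, g1⟩ := o.zz_mod (ty_ln hp a1) (Γ.symm a1) c1 b1 k1 m1
    obtain ⟨ζ2, f2, g2⟩ := o.zz_mod (ty_ln hp a2) (Γ.symm a2) c2 b2 k2 m2
    obtain ⟨ζ3, f3, g3⟩ := o.zz_mod (ty_ln hp a3) (Γ.symm a3) c3 b3 k3 m3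
    refine ⟨ζ1 * ζ2 * ζ3, mul_mem (mul_mem f1 f2) f3, ?_⟩
    have p2 := (o.Vx_le_Q hp (o.zz_Vx hp a2 b2)).1
    have p3 := (o.Vx_le_Q hp (o.zz_Vx hp a3 b3)).1
    rw [g1, g2, g3]
    calc zz Γ s1 * ζ1 * (zz Γ s2 * ζ2) * (zz Γ s3 * ζ3)
        = zz Γ s1 * (ζ1 * zz Γ s2) * (ζ2 * zz Γ s3) * ζ3 := by group
      _ = zz Γ s1 * zz Γ s2 * (ζ1 * zz Γ s3) * ζ2 * ζ3 := by
          rw [← o.comm hp f1 p2, ← o.comm hp f2 p3]; group
      _ = _ := by rw [← o.comm hp f1 p3]; group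
  obtain ⟨k1, k2, k3, t1, t2, t3, c1, c2, c3, e1, e2, e3, d1, d2, d3, j1, j2, j3, rfl⟩ := h2
  obtain ⟨q1, q2, q3, q4, q5⟩ := perm6
    (o.Vcomm h hb (o.zz_Vx hp c1 d1) (o.zz_Vx hp c2 d2))
    (o.Vcomm h hb (o.zz_Vx hp c1 d1) (o.zz_Vx hp c3 d3))
    (o.Vcomm h hb (o.zz_Vx hp c2 d2) (o.zz_Vx hp c3 d3))
  rcases eq_of_three a1 a2 a3 n1 n2 n3 c1 with rfl | rfl | rfl <;>
    rcases eq_of_three a1 a2 a3 n1 n2 n3 c2 with rfl | rfl | rfl <;>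
    rcases eq_of_three a1 a2 a3 n1 n2 n3 c3 with rfl | rfl | rfl <;>
    first
      | exact absurd rfl e1 | exact absurd rfl e2 | exact absurd rfl e3
      | exact same d1 d2 d3 j1 j2 j3
      | exact q1 ▸ same d1 d3 d2 j1 j3 j2
      | exact q2 ▸ same d2 d1 d3 j2 j1 j3
      | exact q3 ▸ same d2 d3 d1 j2 j3 j1
      | exact q4 ▸ same d3 d1 d2 j3 j1 j2
      | exact q5 ▸ same d3 d2 d1 j3 j2 j1

theorem Cp_U {p : V} (hp : Γ.ty p = !τ) {x : X} (h1 : Cp Γ p x) {g : X} (gp : g • p = p) :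
    ∃ ζ ∈ Γ.Z p, g * x * g⁻¹ = x * ζ := by
  have := o.Cp_conj hp h1 g
  rw [gp] at this
  exact o.Cmod h hb hp h1 this

theorem Cp_line {p l : V} (hp : Γ.ty p = !τ) (hl : Γ.Adj p l) {x : X} (h1 : Cp Γ p x)
    (h2 : x ∈ Γ.Z l) : x ∈ Γ.Z p := by
  obtain ⟨l', hl', n⟩ := exists_other hl
  obtain ⟨k, kp, kl⟩ := trans1 hl hl'
  obtain ⟨ζ, f1, f2⟩ := o.Cp_U h hb hp h1 kp
  have m := conj_mem_Z k h2
  rw [kl, f2] at m
  refine o.O2 hp hl hl' n.symm h2 ?_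
  simpa using mul_mem m (inv_mem (o.Z_le (ty_ln hp hl') (Γ.symm hl') f1))

theorem claimN {l p q : V} (hl : Γ.ty l = τ) (hp : Γ.Adj l p) (hq : Γ.Adj l q) (n : p ≠ q)
    {x m : X} (h1 : Cp Γ p x) (hm : m ∈ Γ.Z l) (h2 : Cp Γ q (x * m)) : x ∈ Γ.Z p := by
  have tp := ty_pt hl hp
  have c1 : ∀ g ∈ Γ.Q l, g * x = x * g := fun g hg => by
    obtain ⟨ζ, f1, f2⟩ := o.Cp_U h hb tp h1 (Q_adj hg hp)
    obtain ⟨ζ', f3, f4⟩ := o.Cp_U h hb (ty_pt hl hq) h2 (Q_adj hg hq)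
    have e : ζ = ζ' := by
      have e1 : g * (x * m) * g⁻¹ = (g * x * g⁻¹) * (g * m * g⁻¹) := by group
      rw [e1, f2, Q_comm_Z hg hm, mul_inv_cancel_right, mul_assoc, mul_assoc, mul_right_inj,
        o.hc.Z_comm (o.Z_le hl hp f1) hm, mul_right_inj] at f4
      exact f4
    rw [o.Z2 hl hp hq n f1 (e ▸ f3), mul_one, mul_inv_eq_iff_eq_mul] at f2
    exact f2
  obtain ⟨l', hl', n'⟩ := exists_other (Γ.symm hp)
  obtain ⟨k, kp, kl⟩ := trans1 (Γ.symm hp) hl'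
  obtain ⟨t, t1, t2, t3⟩ := o.O1 tp hl' (Γ.symm hp) n'
  obtain ⟨ζ, f1, f2⟩ := o.Cp_U h hb tp h1 kp
  have c2 : t * x = x * t := by
    have m1 : k⁻¹ * t * k⁻¹⁻¹ ∈ Γ.Q l := by
      have := conj_mem_Q k⁻¹ t2
      rwa [← kl, inv_smul_smul] at this
    have m2 := c1 _ m1
    have e : t * (x * ζ) = (x * ζ) * t := by
      rw [← f2]
      calc t * (k * x * k⁻¹) = k * (k⁻¹ * t * k⁻¹⁻¹ * x) * k⁻¹ := by group
        _ = _ := by rw [m2]; group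
    rw [mul_assoc x, ← o.comm tp f1 t1.1, ← mul_assoc, ← mul_assoc, mul_left_inj] at e
    exact e
  have xv := o.Cp_mem tp h1
  rw [o.Z_eq hl hp]
  refine mem_Om_of_comm hp (mem_oZ.2 ⟨o.Vx_le_Ql h hb (Γ.symm hp) xv, fun g hg => c1 g hg, ?_⟩)
    (Q_adj t1 (Γ.symm hp)) t1.1 t3 c2
  rw [sq, o.Vsq h hb xv]

theorem odd_ty {c : ℤ → V} (lc : Γ.IsLine c) (h1 : ¬ Γ.Z (c 0) ≤ Γ.Q (c b)) :
    (∀ i : ℤ, i % 2 = 0 → Γ.ty (c i) = τ) ∧ ∀ i : ℤ, i % 2 = 1 → Γ.ty (c i) = !τ := by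
  have t0 := o.crit_ty h lc h1
  exact ⟨fun i hi => (lc.ty_eq (i := 0) (by omega)).trans t0,
    fun i hi => by rw [lc.ty_ne (i := 0) (by omega), t0]⟩

theorem y_not {c : ℤ → V} (lc : Γ.IsLine c) (h1 : ¬ Γ.Z (c 0) ≤ Γ.Q (c b)) :
    zz Γ (c (-1)) ∉ Γ.Q (c b) := by
  obtain ⟨te, -⟩ := o.odd_ty h hb lc h1
  have := o.three_le h hb
  exact o.not_mem_of_crit (te 0 rfl) (lc.adj (j := 1) rfl) (lc.adj' rfl) (lc.ne rfl) h1
    (h.lineQ lc (i := 2) (by omega) (by omega) (o.zz_line (te 2 rfl) (lc.adj' rfl)))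

theorem all_of_mov (hm : Γ.Mov τ (b - 1)) {d : ℤ → V} (ld : Γ.IsLine d) (td : Γ.ty (d 0) = τ) :
    ¬ Γ.Z (d 0) ≤ Γ.Q (d b) := by
  obtain ⟨c, lc, h1⟩ := h.ex
  have := (o.odd_ty h hb lc h1).2 b (by omega)
  exact o.all_crit h (mov_both hm ((this ▸ h.mov lc h1).mono (by omega))) ld td

theorem O4 {c : ℤ → V} (lc : Γ.IsLine c) (h1 : ¬ Γ.Z (c 0) ≤ Γ.Q (c b)) :
    ¬ Γ.Z (c (b + 1)) ≤ Γ.Q (c 1) := by
  intro h2
  obtain ⟨te, tO⟩ := o.odd_ty h hb lc h1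
  have b3 := o.three_le h hb
  have w1 := o.zz_line (te (b + 1) (by omega)) (lc.adj (j := b + 2) (by ring))
  have y1 := o.zz_line (te 0 rfl) (lc.adj' (j := -1) rfl)
  have w0 : zz Γ (c (b + 2)) • c 0 = c 0 := Q_adj (h2 w1) (lc.adj' rfl)
  have w4 : zz Γ (c (b + 2)) ∉ Γ.Q (c 0) := fun e => o.not_comm (tO b (by omega))
    (lc.adj (j := b + 1) rfl) (lc.adj (j := b + 2) (by ring)) (lc.ne' rfl)
    (h.lineS lc (by omega) (by omega) y1)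
    (smul_ne_of_not_mem_Q (lc.adj' (i := b) (j := b - 1) (by ring)) (lc.adj rfl)
      (lc.ne' (by ring)) (h.lineS lc (by omega) (by omega) y1)
      (h.lineS lc (by omega) (by omega) y1) (o.y_not h hb lc h1)) (Q_comm_Z e y1).symm
  have m1 : Γ.Mov τ (b + 1) := by
    refine ⟨_, lc.rev (b + 1), by simpa using te 0 rfl, _, fun i i1 i2 => ?_, by simpa using w4⟩
    by_cases e : i = b + 1
    · simpa [e] using w0
    · exact h.lineS lc (by omega) (by push_cast at i2; omega) w1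
  have := o.all_of_mov h hb (m1.mono (by omega)) (lc.rev (b + 1))
    (by simpa using te (b + 1) (by omega))
  exact this (by simpa using h2)

theorem w_not {c : ℤ → V} (lc : Γ.IsLine c) (h1 : ¬ Γ.Z (c 0) ≤ Γ.Q (c b)) :
    zz Γ (c (b + 2)) ∉ Γ.Q (c 1) := by
  have := o.y_not h hb (lc.rev (b + 1)) (by simpa using o.O4 h hb lc h1)
  have e : (b : ℤ) + 1 - -1 = b + 2 := by ring
  simpa only [e, add_sub_cancel_left] using this

theorem O6 {c : ℤ → V} (lc : Γ.IsLine c) (h1 : ¬ Γ.Z (c 0) ≤ Γ.Q (c b)) :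
    ∃ d, Γ.IsLine d ∧ (∀ i, 0 ≤ i → d i = c i) ∧ ¬ Γ.Z (d (-2)) ≤ Γ.Q (d (b - 2)) := by
  obtain ⟨te, tO⟩ := o.odd_ty h hb lc h1
  have b3 := o.three_le h hb
  by_cases hm : Γ.Mov τ (b - 1)
  · exact ⟨c, lc, fun _ _ => rfl, by
      simpa [sub_eq_add_neg] using o.all_of_mov h hb hm (lc.shift (-2)) (te _ rfl)⟩
  by_contra hcon
  push Not at hcon
  have step : ∀ d, Γ.IsLine d → (∀ i, 0 ≤ i → d i = c i) → Γ.Z (d (-2)) ≤ Γ.Q (c (b - 1)) := by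
    intro d ld hd u hu
    by_contra hn
    have u3 := hcon d ld hd hu
    rw [← hd _ (by omega)] at hn
    have e1 : ((b - 1 : ℕ) : ℤ) = b - 1 := by omega
    refine hm ⟨d, ld, by rw [e1, hd _ (by omega)]; exact te _ (by omega), u, fun i i1 i2 => ?_,
      by rwa [e1]⟩
    by_cases e : i = b - 1
    · subst e
      exact Q_adj u3 (ld.adj (by ring))
    · exact h.lineS ld (by omega) (by omega) hu
  have a1 : Γ.Adj (c 0) (c 1) := lc.adj rfl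
  have hW : W Γ (c 0) ≤ Γ.Q (c (b - 1)) := W_le_iff.2 fun p δ hp hδ => by
    by_cases e : p = c 1
    · subst e
      exact h.le_Q (n := 1 + (b - 2)) (by omega)
        ((near_one (Γ.symm hδ)).trans (lc.near (by omega) (by omega)))
    by_cases e' : δ = c 0
    · exact e' ▸ h.lineQ lc (by omega) (by omega)
    obtain ⟨d, ld, d1, d2⟩ := lc.back 0 hp e
    have d2' : d (-1) = p := d2
    obtain ⟨d', ld', d3, d4⟩ := ld.back (-1) (d2' ▸ hδ) (by rwa [d1 _ (by omega)])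
    have := step d' ld' fun i hi => (d3 i (by omega)).trans (d1 i hi)
    rwa [show d' (-2) = δ from d4] at this
  have hW2 : ∀ i : ℤ, 0 ≤ i → i ≤ b - 2 → W Γ (c 0) ≤ stabilizer X (c i) := fun i i1 i2 =>
    W_le_iff.2 fun p δ hp hδ => h.le_stab (n := 2 + (b - 2)) (by omega)
      ((near_two (Γ.symm hδ) (Γ.symm hp)).trans (lc.near (by omega) (by omega)))
  have hW3 : W Γ (c 0) ≤ Γ.Q (c 0) := W_le_iff.2 fun p δ hp hδ =>
    h.le_Q (n := 2) b3 (near_two (Γ.symm hδ) (Γ.symm hp))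
  have w1 := o.zz_line (te (b + 1) (by omega)) (lc.adj (j := b + 2) (by ring))
  have w2 := o.w_not h hb lc h1
  have w3 : zz Γ (c (b + 2)) • c 1 = c 1 := h.lineS lc (by omega) (by omega) w1
  have w4 : zz Γ (c (b + 2)) • c 2 = c 2 := h.lineS lc (by omega) (by omega) w1
  obtain ⟨w, hw⟩ : ∃ w, w = zz Γ (c (b + 2)) := ⟨_, rfl⟩
  rw [← hw] at w1 w2 w3 w4
  have ab : Γ.Adj (c b) (c (b - 1)) := lc.adj' (by ring)
  have good : ∀ u ∈ W Γ (c 0), u ∈ Γ.Q (c b) → w * u * w⁻¹ = u := fun u hu hq => by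
    have : u ∈ Γ.Q (c (b + 1)) := by
      by_contra hn
      have e1 : ((b - 1 : ℕ) : ℤ) + 2 = b + 1 := by omega
      refine hm ⟨_, lc.shift 2, by simp only [e1]; exact te _ (by omega), u, fun i i1 i2 => ?_,
        by simpa only [e1] using hn⟩
      show u • c (i + 2) = c (i + 2)
      rcases (by omega : i + 2 ≤ b - 2 ∨ i + 2 = b - 1 ∨ i + 2 = b ∨ i + 2 = b + 1) with
        e | e | e | e
      · exact hW2 _ (by omega) e hu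
      · rw [e]; exact (hW hu).1
      · rw [e]; exact hq.1
      · rw [e]; exact Q_adj hq (lc.adj rfl)
    rw [← Q_comm_Z this w1, mul_inv_cancel_right]
  have y0 := o.zz_line (te 0 rfl) (lc.adj' (j := -1) rfl)
  have y1 : zz Γ (c (-1)) ∈ W Γ (c 0) := Vx_le_W a1 (Z_le_Vx (Γ.symm a1) y0)
  have hn : w ∈ normalizer (W Γ (c 0) : Set X) := by
    have := Γ.fin (c 0)
    have : Finite (W Γ (c 0)) := finite_of_le (hW3.trans (Q_le_stab _))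
    refine mem_normalizer_fintype fun u hu => ?_
    by_cases hq : u ∈ Γ.Q (c b)
    · rw [good u hu hq]; exact hu
    have m1 := mul_mem hu y1
    have m2 := mul_mem_Q ab (Q_adj (hW hu) (Γ.symm ab)) (hW hu).1 (Q_adj (hW y1) (Γ.symm ab))
      (hW y1).1 hq (o.y_not h hb lc h1)
    have m3 : w * zz Γ (c (-1)) * w⁻¹ ∈ W Γ (c 0) :=
      Vx_le_W a1 (Z_le_Vx (adj_of_fix w3 (Γ.symm a1)) (conj_mem_Z w y0))
    have e : w * u * w⁻¹ = (w * (u * zz Γ (c (-1))) * w⁻¹) * (w * zz Γ (c (-1)) * w⁻¹)⁻¹ := by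
      group
    rw [e, good _ m1 m2]
    exact mul_mem m1 (inv_mem m3)
  have hW0 : W Γ (c 0) = ⊥ := Γ.faith _ a1 (fun z hz => ⟨(hW3 hz).1, Q_adj (hW3 hz) a1⟩)
    (stab_le_normalizer_W _) (stab_le (Γ.symm a1) (inf_le_right.trans (stab_le_normalizer_W _)) hn
      w3 (smul_ne_of_not_mem_Q (lc.adj (j := 2) rfl) (Γ.symm a1) (lc.ne rfl) w3 w4 w2))
  rw [hW0, mem_bot] at y1
  exact zz_ne _ y1

end odd

end PT

end H76.Gold
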