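import Cfsg.Agent.H76.GoldD

/-! Goldschmidt amalgams, part E: odd critical distance is three. -/

set_option autoImplicit false

namespace H76.Gold

open Cfsg Subgroup H98 H97 H97.Tri MulAction
open scoped commutatorElement

variable {X V : Type*} [Group X] [MulAction X V] {Γ : Tri X V} {τ : Bool}

theorem fold_line {c : ℤ → V} (lc : Γ.IsLine c) {y : X} (y1 : y • c 1 = c 1)
    (y0 : y • c 0 ≠ c 0) : Γ.IsLine fun i => if i ≤ 1 then c i else y • c (2 - i) := by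
  have key : ∀ i : ℤ, 1 ≤ i → (if i ≤ 1 then c i else y • c (2 - i)) = y • c (2 - i) := by
    intro i hi
    by_cases e : i ≤ 1
    · rw [if_pos e, show i = 1 by omega]; exact y1.symm
    · rw [if_neg e]
  refine ⟨fun i => ?_, fun i => ?_⟩
  · by_cases e : i ≤ 0
    · simp only [show i ≤ 1 by omega, show i + 1 ≤ 1 by omega, if_true]; exact lc.1 i
    · simp only [key i (by omega), key (i + 1) (by omega)]
      exact Γ.smul y (lc.adj' (by ring))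
  · by_cases e : i ≤ -1
    · simp only [show i ≤ 1 by omega, show i + 2 ≤ 1 by omega, if_true]; exact lc.2 i
    by_cases e0 : i = 0
    · subst e0; simpa using y0.symm
    · simp only [key i (by omega), key (i + 2) (by omega)]
      exact fun e => lc.ne' (by ring) (smul_left_cancel y e)

theorem exists_fold {c : ℤ → V} (lc : Γ.IsLine c) {y : X} (y1 : y • c 1 = c 1)
    (y0 : y • c 0 ≠ c 0) : ∃ d, Γ.IsLine d ∧ (∀ i j, j ≤ 1 → j = i - 2 → d i = c j) ∧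
      ∀ i j, j ≤ 0 → j = 4 - i → d i = y • c j := by
  refine ⟨_, (fold_line lc y1 y0).shift (-2), fun i j h1 h2 => ?_, fun i j h1 h2 => ?_⟩
  · show (if i + -2 ≤ 1 then c (i + -2) else y • c (2 - (i + -2))) = c j
    rw [if_pos (by omega), show i + -2 = j by omega]
  · show (if i + -2 ≤ 1 then c (i + -2) else y • c (2 - (i + -2))) = y • c j
    rw [if_neg (by omega), show 2 - (i + -2) = j by omega]

theorem cc {c : ℤ → V} {i j i' j' : ℤ} (h : ¬ Γ.Z (c i) ≤ Γ.Q (c j)) (hi : i' = i)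
    (hj : j' = j) : ¬ Γ.Z (c i') ≤ Γ.Q (c j') := by rwa [hi, hj]

namespace PT

variable (o : PT Γ τ) {b : ℕ} (h : Γ.Crit b) (hb : b % 2 = 1)
include o h hb

theorem r_b {c : ℤ → V} (lc : Γ.IsLine c) (h1 : ¬ Γ.Z (c 0) ≤ Γ.Q (c b)) :
    Cp Γ (c b) (zz Γ (c (-1)) * zz Γ (c (b + 2)) * zz Γ (c (-1)) * zz Γ (c (b + 2)) *
      zz Γ (c (b - 2))) := by
  obtain ⟨te, tO⟩ := o.odd_ty h hb lc h1
  have b3 := o.three_le h hb
  have y1 := o.zz_line (te 0 rfl) (lc.adj' (j := -1) rfl)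
  have y2 : zz Γ (c (-1)) • c b = c b := h.lineS lc (by omega) (by omega) y1
  have y3 : zz Γ (c (-1)) • c (b - 1) = c (b - 1) := h.lineS lc (by omega) (by omega) y1
  have a1 : Γ.Adj (c b) (c (b + 1)) := lc.adj rfl
  have a2 : Γ.Adj (c b) (c (b - 1)) := lc.adj' (by ring)
  have a3 : Γ.Adj (c (b + 1)) (c (b + 2)) := lc.adj (by ring)
  have n1 : c (b + 1) ≠ c (b - 1) := lc.ne' (by ring)
  have n2 : c (b + 2) ≠ c b := lc.ne' rfl
  refine ⟨_, _, _, _, _, c (b - 2), adj_of_fix y2 a1, a1, a2,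
    smul_ne_of_not_mem_Q a2 a1 n1 y2 y3 (o.y_not h hb lc h1),
    fun e => n1 (smul_left_cancel _ (e.trans y3.symm)), n1, Γ.smul _ a3, a3, lc.adj' (by ring),
    fun e => n2 (smul_left_cancel _ (e.trans y2.symm)), n2, lc.ne (by ring), ?_⟩
  rw [← o.conj_zz (tO _ (by omega)), o.zz_inv]

theorem r_1 {c : ℤ → V} (lc : Γ.IsLine c) (h1 : ¬ Γ.Z (c 0) ≤ Γ.Q (c b)) :
    Cp Γ (c 1) (zz Γ (c (-1)) * zz Γ (c (b + 2)) * zz Γ (c (-1)) * zz Γ (c (b + 2)) *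
      zz Γ (c 3)) := by
  obtain ⟨te, tO⟩ := o.odd_ty h hb lc h1
  have b3 := o.three_le h hb
  have w1 := o.zz_line (te (b + 1) (by omega)) (lc.adj (j := b + 2) (by ring))
  have w3 : zz Γ (c (b + 2)) • c 1 = c 1 := h.lineS lc (by omega) (by omega) w1
  have w4 : zz Γ (c (b + 2)) • c 2 = c 2 := h.lineS lc (by omega) (by omega) w1
  have a1 : Γ.Adj (c 1) (c 0) := lc.adj' rfl
  have a2 : Γ.Adj (c 1) (c 2) := lc.adj rfl
  have a3 : Γ.Adj (c 0) (c (-1)) := lc.adj' rfl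
  have n1 : c 0 ≠ c 2 := lc.ne rfl
  have n2 : c (-1) ≠ c 1 := lc.ne rfl
  refine ⟨_, _, _, _, _, c 3, a1, adj_of_fix w3 a1, a2,
    (smul_ne_of_not_mem_Q a2 a1 n1 w3 w4 (o.w_not h hb lc h1)).symm, n1,
    fun e => n1 (smul_left_cancel _ (e.trans w4.symm)), a3, Γ.smul _ a3, lc.adj rfl, n2,
    fun e => n2 (smul_left_cancel _ (e.trans w3.symm)), lc.ne' rfl, ?_⟩
  rw [← o.conj_zz (tO _ (by omega)), o.zz_inv]; group

/-- The element `e` of a left shifted critical pair centralizes the `C`-element at the end. -/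
theorem shift_data (b5 : 5 ≤ b) {c : ℤ → V} (lc : Γ.IsLine c) (h1 : ¬ Γ.Z (c 0) ≤ Γ.Q (c b))
    (h2 : ¬ Γ.Z (c (-2)) ≤ Γ.Q (c (b - 2))) :
    ∃ e : X, e • c (b - 2) = c (b - 2) ∧ e • c (b - 1) ≠ c (b - 1) ∧
      e * (zz Γ (c (-1)) * zz Γ (c (b + 2)) * zz Γ (c (-1)) * zz Γ (c (b + 2)) *
        zz Γ (c (b - 2))) = (zz Γ (c (-1)) * zz Γ (c (b + 2)) * zz Γ (c (-1)) *
        zz Γ (c (b + 2)) * zz Γ (c (b - 2))) * e := by
  obtain ⟨te, tO⟩ := o.odd_ty h hb lc h1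
  have e1 := o.zz_line (te (-2) rfl) (lc.adj' (j := -3) rfl)
  have e2 := o.y_not h hb (lc.shift (-2)) (by simpa [sub_eq_add_neg] using h2)
  have k1 : (-1 : ℤ) + -2 = -3 := by ring
  have k2 : (b : ℤ) + -2 = b - 2 := by ring
  simp only [k1, k2] at e2
  have e3 : zz Γ (c (-3)) • c (b - 2) = c (b - 2) := h.lineS lc (by omega) (by omega) e1
  refine ⟨_, e3, smul_ne_of_not_mem_Q (lc.adj' (j := b - 3) (by ring)) (lc.adj (by ring))
    (lc.ne' (by ring)) e3 (h.lineS lc (by omega) (by omega) e1) e2, ?_⟩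
  have v1 : Γ.Vx (c 1) ≤ Γ.Q (c (-2)) := Vx_le_iff.2 fun δ hδ =>
    h.le_Q (n := 1 + 3) (by omega) ((near_one (Γ.symm hδ)).trans (lc.near (by omega) (by omega)))
  have v2 := mul_mem (o.Cp_mem (tO 1 rfl) (o.r_1 h hb lc h1))
    (inv_mem (o.zz_Vx (tO 1 rfl) (lc.adj (j := 2) rfl) (lc.adj (j := 3) rfl)))
  rw [mul_inv_cancel_right] at v2
  rw [← mul_assoc, ← Q_comm_Z (v1 v2) e1, mul_assoc _ (zz Γ (c (-3))),
    o.zz_comm (tO _ (by omega)) e3, ← mul_assoc]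

theorem noV8 (hV : ∀ p x, Γ.ty p = !τ → Cp Γ p x → x ∉ Γ.Z p) : False := by
  obtain ⟨c0, lc0, hc0⟩ := h.ex
  obtain ⟨c, lc, hcc, h2⟩ := o.O6 h hb lc0 hc0
  have h1 : ¬ Γ.Z (c 0) ≤ Γ.Q (c b) := by rwa [hcc 0 le_rfl, hcc b (by omega)]
  obtain ⟨te, tO⟩ := o.odd_ty h hb lc h1
  have b3 := o.three_le h hb
  have r1 := o.r_1 h hb lc h1
  have rb := o.r_b h hb lc h1
  rcases (by omega : b = 3 ∨ 5 ≤ b) with rfl | b5
  · have a1 : Γ.Adj (c 2) (c 1) := lc.adj' rfl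
    have a3 : Γ.Adj (c 2) (c 3) := lc.adj rfl
    refine hV _ _ (tO 1 rfl) r1 (o.claimN h hb (te 2 rfl) a1 a3 (lc.ne rfl) r1
      (mul_mem (o.zz_line (te 2 rfl) a3) (o.zz_line (te 2 rfl) a1)) ?_)
    rw [← mul_assoc, mul_assoc _ (zz Γ (c 3)) (zz Γ (c 3)), o.zz_sq, mul_one]
    exact rb
  obtain ⟨e, e1, e2, e3⟩ := o.shift_data h hb b5 lc h1 h2
  obtain ⟨x, hx⟩ : ∃ x, x = zz Γ (c (-1)) * zz Γ (c (b + 2)) * zz Γ (c (-1)) *
    zz Γ (c (b + 2)) * zz Γ (c (b - 2)) := ⟨_, rfl⟩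
  rw [← hx] at rb e3
  have tp := tO (b - 2) (by omega)
  have tq := tO b (by omega)
  have tm := te (b - 1) (by omega)
  have am : Γ.Adj (c (b - 2)) (c (b - 1)) := lc.adj (by ring)
  have aq : Γ.Adj (c (b - 1)) (c b) := lc.adj (by ring)
  have nq : c b ≠ c (b - 2) := lc.ne' (by ring)
  generalize c (b - 2) = p at *
  generalize c (b - 1) = m at *
  generalize c b = q at *
  have am' : Γ.Adj p (e • m) := adj_of_fix e1 am
  have aq' : Γ.Adj (e • m) (e • q) := Γ.smul e aq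
  have nq' : e • q ≠ p := fun k => nq (smul_left_cancel e (k.trans e1.symm))
  have tq' : Γ.ty (e • q) = !τ := (Γ.ty_smul e q).trans tq
  have c' := o.Cp_conj tq rb e
  rw [e3, mul_inv_cancel_right] at c'
  obtain ⟨g, g1, g2, g3⟩ := o.O1 tp am' am e2
  obtain ⟨ζ, f1, f2⟩ := o.Cp_U h hb tq' c' (Q_adj g2 aq')
  have c2 := o.Cp_conj tq rb g
  have ag : Γ.Adj m (g • q) := adj_of_fix (Q_adj g1 am) aq
  have ng : g • q ≠ q := smul_ne_of_not_mem_Q (Γ.symm am) aq nq (Q_adj g1 am) g1.1 g3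
  rw [f2] at c2
  rcases o.cases_Z tq' f1 with rfl | rfl
  · exact hV _ _ tq rb (o.claimN h hb tm aq ag ng.symm rb (one_mem _) c2)
  obtain ⟨t, t1, t2⟩ := o.hc.exists_Q_not_mem (Γ.symm am)
  have tp' : t • p = p := Q_adj t1 (Γ.symm am)
  obtain ⟨ζ1, f3, f4⟩ := o.Cp_U h hb tq rb (Q_adj t1 aq)
  obtain ⟨ζ2, f5, f6⟩ := o.Cp_U h hb (ty_pt tm ag) c2 (Q_adj t1 ag)
  have k1 : zz Γ (t • e • q) = ζ1⁻¹ * zz Γ (e • q) * ζ2 := by
    rw [← o.conj_zz tq']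
    calc t * zz Γ (e • q) * t⁻¹ = (t * x * t⁻¹)⁻¹ * (t * (x * zz Γ (e • q)) * t⁻¹) := by group
      _ = _ := by rw [f4, f6]; group
  have n3 : t • e • m ≠ e • m := smul_ne_of_not_mem_Q am am' e2 tp' t1.1 t2
  have c3 : Cp Γ p (zz Γ (e • q) * zz Γ (t • e • q) * zz Γ q) :=
    ⟨_, _, _, _, _, _, am', adj_of_fix tp' am', am, n3.symm, e2,
      fun k => e2 (smul_left_cancel t (k.trans t1.1.symm)), aq', Γ.smul t aq', aq, nq',
      fun k => nq' (smul_left_cancel t (k.trans tp'.symm)), nq, rfl⟩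
  refine hV _ _ tp c3 (o.Cp_line h hb tp am c3 ?_)
  have z1 := o.Z_le tm aq f3
  have cm := o.Vcomm h hb (Z_le_Vx am (inv_mem z1)) (o.zz_Vx tp am' aq')
  rw [k1, cm, ← mul_assoc, ← mul_assoc, o.zz_sq, one_mul]
  exact mul_mem (mul_mem (inv_mem z1) (o.Z_le tm ag f5)) (o.zz_line tm aq)

theorem V8 {p : V} (hp : Γ.ty p = !τ) {x : X} (hx : Cp Γ p x) : x ∈ Γ.Z p := by
  by_contra hn
  refine o.noV8 h hb fun p' x' hp' hx' hz => hn ?_
  obtain ⟨g, rfl⟩ := Γ.ty_conj (hp.trans hp'.symm)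
  obtain ⟨ζ, f1, f2⟩ := o.Cmod h hb hp' (o.Cp_conj hp hx g) hx'
  have := mul_mem hz (inv_mem f1)
  rw [f2, mul_inv_cancel_right, ← cj_Z, conj_mem_cj_iff] at this
  exact this

theorem rL (b5 : 5 ≤ b) {c : ℤ → V} (lc : Γ.IsLine c) (h1 : ¬ Γ.Z (c 0) ≤ Γ.Q (c b))
    (h2 : ¬ Γ.Z (c (-2)) ≤ Γ.Q (c (b - 2))) :
    zz Γ (c (-1)) * zz Γ (c (b + 2)) * zz Γ (c (-1)) * zz Γ (c (b + 2)) = zz Γ (c (b - 2)) := by
  obtain ⟨te, tO⟩ := o.odd_ty h hb lc h1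
  obtain ⟨e, e1, e2, e3⟩ := o.shift_data h hb b5 lc h1 h2
  have tq := tO b (by omega)
  rcases o.cases_Z tq (o.V8 h hb tq (o.r_b h hb lc h1)) with k | k
  · rw [eq_inv_of_mul_eq_one_left k, o.zz_inv]
  · rw [k] at e3
    exact absurd e3 (o.not_comm (tO (b - 2) (by omega)) (lc.adj (j := b - 1) (by ring))
      (lc.adj (by ring)) (lc.ne' (by ring)) e1 e2)

theorem mid (b5 : 5 ≤ b) {c : ℤ → V} (lc : Γ.IsLine c) (h1 : ¬ Γ.Z (c 0) ≤ Γ.Q (c b))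
    (h2 : ¬ Γ.Z (c (-2)) ≤ Γ.Q (c (b - 2))) (h3 : ¬ Γ.Z (c (b + 3)) ≤ Γ.Q (c 3)) :
    zz Γ (c 3) = zz Γ (c (b - 2)) := by
  have k1 := o.rL h hb b5 lc h1 h2
  have e1 : (b : ℤ) + 1 - -2 = b + 3 := by ring
  have e2 : (b : ℤ) + 1 - (b - 2) = 3 := by ring
  have e3 : (b : ℤ) + 1 - -1 = b + 2 := by ring
  have e4 : (b : ℤ) + 1 - (b + 2) = -1 := by ring
  have k2 := o.rL h hb b5 (lc.rev (b + 1)) (by simpa using o.O4 h hb lc h1)
    (by simpa only [e1, e2] using h3)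
  simp only [e2, e3, e4] at k2
  rw [← k1, ← o.zz_inv (c 3), ← k2]
  simp only [mul_inv_rev, o.zz_inv, mul_assoc]

theorem not_seven (b7 : 7 ≤ b) : False := by
  have sh : ∀ {c : ℤ → V} (k : ℤ), Γ.IsLine c → ¬ Γ.Z (c k) ≤ Γ.Q (c (k + b)) →
      ∃ d, Γ.IsLine d ∧ (∀ i, k ≤ i → d i = c i) ∧ ¬ Γ.Z (d (k - 2)) ≤ Γ.Q (d (k - 2 + b)) := by
    intro c k lc h1
    obtain ⟨d, ld, d1, d2⟩ := o.O6 h hb (lc.shift k) (by simpa [add_comm] using h1)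
    refine ⟨_, ld.shift (-k), fun i hi => by simpa using d1 (i + -k) (by omega), ?_⟩
    have e1 : k - 2 + -k = -2 := by ring
    have e2 : k - 2 + b + -k = b - 2 := by ring
    simpa only [e1, e2] using d2
  obtain ⟨c0, l0, h0⟩ := h.ex
  obtain ⟨c1, l1, a1, h1⟩ := sh 0 l0 (by simpa using h0)
  obtain ⟨c2, l2, a2, h2⟩ := sh (0 - 2) l1 h1
  obtain ⟨c, lc, a3, h3⟩ := sh (0 - 2 - 2) l2 h2
  rw [← a3 _ (by omega), ← a3 _ (by omega)] at h2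
  rw [← a2 _ (by omega), ← a2 _ (by omega), ← a3 _ (by omega), ← a3 _ (by omega)] at h1
  rw [← a1 _ (by omega), ← a1 _ (by omega), ← a2 _ (by omega), ← a2 _ (by omega),
    ← a3 _ (by omega), ← a3 _ (by omega)] at h0
  have k1 := o.O4 h hb (lc.shift (-2)) (cc h1 (by ring) (by ring))
  have k2 := o.mid h hb (by omega) (lc.shift (-4)) (cc h2 (by ring) (by ring))
    (cc h3 (by ring) (by ring)) (cc k1 (by ring) (by ring))
  obtain ⟨te, tO⟩ := o.odd_ty h hb lc h0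
  refine o.y_not h hb lc h0 ?_
  have e : (3 : ℤ) + -4 = -1 := by ring
  simp only [e] at k2
  rw [k2]
  exact h.lineQ lc (i := b - 5) (by omega) (by omega) (o.zz_line (te _ (by omega))
    (lc.adj' (by ring)))

end PT

namespace PT

variable (o : PT Γ τ)
include o

theorem third_le {b : ℕ} (h : Γ.Crit b) (hb : b % 2 = 1) {p l1 l2 l3 : V} (hp : Γ.ty p = !τ)
    (a1 : Γ.Adj p l1) (a2 : Γ.Adj p l2) (a3 : Γ.Adj p l3) (n1 : l1 ≠ l2) {K : Subgroup X}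
    (h1 : Γ.Z l1 ≤ K) (h2 : Γ.Z l2 ≤ K) : Γ.Z l3 ≤ K := by
  by_cases e1 : l1 = l3
  · exact e1 ▸ h1
  by_cases e2 : l2 = l3
  · exact e2 ▸ h2
  obtain ⟨s1, b1, m1⟩ := exists_other (Γ.symm a1)
  obtain ⟨s2, b2, m2⟩ := exists_other (Γ.symm a2)
  obtain ⟨s3, b3, m3⟩ := exists_other (Γ.symm a3)
  have k := h1 (o.Z_le (ty_ln hp a1) (Γ.symm a1)
    (o.V8 h hb hp ⟨_, _, _, _, _, _, a1, a2, a3, n1, e1, e2, b1, b2, b3, m1, m2, m3, rfl⟩))
  refine o.line_le (ty_ln hp a3) (Γ.symm a3) b3 m3.symm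
    (h1 (o.zz_line (ty_ln hp a1) (Γ.symm a1))) ?_
  have := mul_mem (inv_mem (mul_mem (h1 (o.zz_line (ty_ln hp a1) b1))
    (h2 (o.zz_line (ty_ln hp a2) b2)))) k
  rwa [inv_mul_cancel_left] at this

theorem five_all (h : Γ.Crit 5) {d : ℤ → V} (ld : Γ.IsLine d) (td : Γ.ty (d 0) = τ) :
    ¬ Γ.Z (d 0) ≤ Γ.Q (d 5) := by
  obtain ⟨c, lc, h1⟩ := h.ex
  obtain ⟨te, tO⟩ := o.odd_ty h rfl lc h1
  have m1 : Γ.Mov τ 3 := by
    obtain ⟨g, g1, g2, g3⟩ := o.O1 (tO 1 rfl) (lc.adj' (j := 0) rfl) (lc.adj (j := 2) rfl)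
      (lc.ne rfl)
    have e : ((3 : ℕ) : ℤ) + -1 = 2 := by norm_num
    refine ⟨_, lc.shift (-1), by simpa only [e] using te 2 rfl, g, fun i i1 i2 => ?_,
      by simpa only [e] using g3⟩
    rcases (by omega : i = 0 ∨ i = 1 ∨ i = 2 ∨ i = 3) with rfl | rfl | rfl | rfl
    · exact Q_adj g2 (lc.adj' rfl)
    · exact g2.1
    · exact g1.1
    · exact Q_adj g1 (lc.adj rfl)
  have hm := mov_both m1 (((tO 5 rfl) ▸ h.mov lc h1).mono (by omega))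
  have td1 : Γ.ty (d 1) = !τ := ty_pt td (ld.adj rfl)
  obtain ⟨g, hg⟩ := arc_trans_of_mov hm (lc.shift 1) (ld.shift 1) ((tO 1 rfl).trans td1.symm)
  have g1 : g • c 1 = d 1 := hg 0 le_rfl (by omega)
  have g5 : g • c 5 = d 5 := hg 4 (by omega) (by omega)
  intro h2
  refine not_le_Q_smul g h1 ?_
  erw [g5]
  exact o.third_le h rfl td1 (ld.adj' rfl) (ld.adj (j := 2) rfl)
    (g1 ▸ Γ.smul g (lc.adj' rfl)) (ld.ne rfl) h2 (h.lineQ ld (by omega) (by omega))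

theorem five_four (h : Γ.Crit 5) {c : ℤ → V} (lc : Γ.IsLine c) (tc : Γ.ty (c 0) = τ) :
    zz Γ (c (-3)) * zz Γ (c 7) * zz Γ (c (-3)) * zz Γ (c 7) *
      (zz Γ (c (-3)) * zz Γ (c 7) * zz Γ (c (-3)) * zz Γ (c 7)) = zz Γ (c 1) := by
  have h1 := o.five_all h lc tc
  obtain ⟨te, tO⟩ := o.odd_ty h rfl lc h1
  have w1 := o.zz_line (te 6 rfl) (lc.adj (j := 7) rfl)
  have w2 : zz Γ (c 7) ∉ Γ.Q (c 1) := o.w_not h rfl lc h1
  have w3 : zz Γ (c 7) • c 1 = c 1 := h.lineS lc (by omega) (by omega) w1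
  have w4 : zz Γ (c 7) • c 2 = c 2 := h.lineS lc (by omega) (by omega) w1
  obtain ⟨d, ld, d1, d2⟩ := exists_fold lc w3 (smul_ne_of_not_mem_Q (lc.adj (j := 2) rfl)
    (lc.adj' rfl) (lc.ne rfl) w3 w4 w2)
  have td : Γ.ty (d 0) = τ := by rw [d1 0 (-2) (by omega) (by omega)]; exact te (-2) rfl
  have k0 := o.five_all h (ld.shift (-2)) ((ld.ty_eq (i := 0) (by omega)).trans td)
  have k' := o.rL h rfl le_rfl ld (o.five_all h ld td) (cc k0 (by ring) (by norm_num))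
  rw [d1 (-1) (-3) (by omega) (by omega), d1 (((5 : ℕ) : ℤ) - 2) 1 (by omega) (by norm_num),
    d2 (((5 : ℕ) : ℤ) + 2) (-3) (by omega) (by norm_num)] at k'
  rw [← o.conj_zz (tO (-3) rfl), o.zz_inv] at k'
  rw [← k']; group

theorem not_five (h : Γ.Crit 5) : False := by
  obtain ⟨c, lc, h1⟩ := h.ex
  obtain ⟨te, tO⟩ := o.odd_ty h rfl lc h1
  have k1 := o.five_four h lc (te 0 rfl)
  have k2 := o.five_four h (lc.rev 4) (te _ rfl)
  have e1 : (4 : ℤ) - -3 = 7 := by norm_num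
  have e2 : (4 : ℤ) - 7 = -3 := by norm_num
  have e3 : (4 : ℤ) - 1 = 3 := by norm_num
  simp only [e1, e2, e3] at k2
  refine lc.ne (i := 1) (j := 3) rfl (o.zz_inj (te 2 rfl) (lc.adj' rfl) (lc.adj rfl) ?_)
  rw [← k2, ← o.zz_inv (c 1), ← k1]
  simp only [mul_inv_rev, o.zz_inv, mul_assoc]

end PT

end H76.Gold
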