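import Cfsg.Agent.H76.GoldE

/-! Goldschmidt amalgams, part F: critical distance three, local computations. -/

set_option autoImplicit false

namespace H76.Gold

open Cfsg Subgroup H98 H97 H97.Tri MulAction
open scoped commutatorElement

variable {X V : Type*} [Group X] [MulAction X V] {Γ : Tri X V} {τ : Bool}

/-- `a` is the involution of a point collinear with `p` and not on `l`. -/
def A (Γ : Tri X V) (l p : V) (a : X) : Prop :=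
  ∃ l' s, Γ.Adj p l' ∧ l' ≠ l ∧ Γ.Adj l' s ∧ s ≠ p ∧ a = zz Γ s

theorem exists_A {l p : V} (hp : Γ.Adj l p) : ∃ a, A Γ l p a := by
  obtain ⟨l', h1, n1⟩ := exists_other (Γ.symm hp)
  obtain ⟨s, h2, n2⟩ := exists_other (Γ.symm h1)
  exact ⟨_, l', s, h1, n1, h2, n2, rfl⟩

theorem D_comm {p : V} {d v : X} (hd : d ∈ D Γ p) (hv : v ∈ Γ.Vx p) : d * v = v * d := by
  have : Γ.Vx p ≤ centralizer {d} := Vx_le_iff.2 fun δ hδ z hz =>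
    mem_centralizer_singleton_iff.2 (Q_comm_Z (hd.2 δ hδ) hz).symm
  exact (mem_centralizer_singleton_iff.1 (this hv)).symm

namespace PT

variable (o : PT Γ τ) (h : Γ.Crit 3)
include o

theorem A_conj {l p : V} (hp : Γ.ty p = !τ) {a : X} (ha : A Γ l p a) (g : X) :
    A Γ (g • l) (g • p) (g * a * g⁻¹) := by
  obtain ⟨l', s, h1, n1, h2, n2, rfl⟩ := ha
  exact ⟨_, _, Γ.smul g h1, fun e => n1 (smul_left_cancel g e), Γ.smul g h2,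
    fun e => n2 (smul_left_cancel g e), o.conj_zz (ty_pt (ty_ln hp h1) h2) g⟩

theorem A_Vx {l p : V} (hp : Γ.ty p = !τ) {a : X} (ha : A Γ l p a) : a ∈ Γ.Vx p := by
  obtain ⟨l', s, h1, -, h2, -, rfl⟩ := ha
  exact o.zz_Vx hp h1 h2

theorem A_sq {l p : V} {a : X} (ha : A Γ l p a) : a * a = 1 := by
  obtain ⟨l', s, -, -, -, -, rfl⟩ := ha
  exact o.zz_sq s

include h

theorem A_Q {l p : V} (hl : Γ.ty l = τ) (hp : Γ.Adj l p) {a : X} (ha : A Γ l p a) :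
    a ∈ Γ.Q l := o.Vx_le_Ql h rfl (Γ.symm hp) (o.A_Vx (ty_pt hl hp) ha)

theorem Z_le_D {l p : V} (hl : Γ.ty l = τ) (hp : Γ.Adj l p) : Γ.Z l ≤ D Γ p := fun _ hz =>
  ⟨o.Z_le_Q hl hp hz, fun _ hl' => o.Vx_le_Ql h rfl hl' (Z_le_Vx (Γ.symm hp) hz)⟩

theorem A_mod {l p : V} (hl : Γ.ty l = τ) (hp : Γ.Adj l p) {a a' : X} (ha : A Γ l p a)
    (ha' : A Γ l p a') : ∃ m ∈ Γ.Z l, a' = a * m := by
  have tp := ty_pt hl hp
  obtain ⟨l1, s1, h1, n1, h2, n2, rfl⟩ := ha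
  obtain ⟨l2, s2, h3, n3, h4, n4, rfl⟩ := ha'
  by_cases e : l1 = l2
  · subst e
    obtain ⟨ζ, f1, f2⟩ := o.zz_mod (ty_ln tp h1) (Γ.symm h1) h4 h2 n4 n2
    exact ⟨ζ, o.Z_le hl hp f1, f2⟩
  obtain ⟨q, hq, nq⟩ := exists_other hp
  have k := o.Z_le hl hp (o.V8 h rfl tp
    ⟨_, _, _, _, _, _, h1, h3, Γ.symm hp, e, n1, n3, h2, h4, hq, n2, n4, nq, rfl⟩)
  refine ⟨_, mul_mem k (inv_mem (o.zz_line hl hq)), ?_⟩
  rw [mul_inv_cancel_right, ← mul_assoc, o.zz_sq, one_mul]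

theorem A_not {l p q : V} (hl : Γ.ty l = τ) (hp : Γ.Adj l p) (hq : Γ.Adj l q) (n : p ≠ q)
    {a : X} (ha : A Γ l p a) : a ∉ Γ.Q q := by
  obtain ⟨c, lc, h1⟩ := h.ex
  obtain ⟨te, tO⟩ := o.odd_ty h rfl lc h1
  have y1 : zz Γ (c (-1)) ∉ Γ.Q (c 3) := o.y_not h rfl lc h1
  have y2 : A Γ (c 2) (c 1) (zz Γ (c (-1))) :=
    ⟨c 0, c (-1), lc.adj' rfl, lc.ne rfl, lc.adj' rfl, lc.ne rfl, rfl⟩
  obtain ⟨g, hg⟩ := Γ.ty_conj ((te 2 rfl).trans hl.symm)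
  obtain ⟨k, k1, k2, k3⟩ := Γ.trans2 (hg ▸ Γ.smul g (lc.adj' (i := 2) (j := 1) rfl))
    (hg ▸ Γ.smul g (lc.adj (i := 2) (j := 3) rfl))
    (fun e => lc.ne (i := 1) (j := 3) rfl (smul_left_cancel g e)) hp hq n
  have y3 := o.A_conj (tO 1 rfl) y2 (k * g)
  rw [mul_smul, mul_smul, hg, k1, k2] at y3
  obtain ⟨m, m1, m2⟩ := o.A_mod h hl hp ha y3
  intro e
  have := mul_mem e (o.Z_le_Q hl hq m1)
  rw [← m2, ← k3, ← mul_smul, conj_mem_Q_iff] at this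
  exact y1 this

theorem A_conj_mod {l p : V} (hl : Γ.ty l = τ) (hp : Γ.Adj l p) {a g : X} (ha : A Γ l p a)
    (gl : g • l = l) (gp : g • p = p) : ∃ m ∈ Γ.Z l, g * a * g⁻¹ = a * m := by
  have := o.A_conj (ty_pt hl hp) ha g
  rw [gl, gp] at this
  exact o.A_mod h hl hp ha this

omit h in
theorem A_move {l p : V} (hl : Γ.ty l = τ) (hp : Γ.Adj l p) {a g : X} (ha : A Γ l p a)
    (gl : g • l = l) (gp : g • p = p) (hg : g ∉ Γ.Q p) {m : X} (e : g * a * g⁻¹ = a * m) :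
    m ∉ Γ.Z p := by
  intro hm
  have tp := ty_pt hl hp
  obtain ⟨l1, s1, h1, n1, h2, n2, rfl⟩ := ha
  have t1 := ty_ln tp h1
  have k1 := conj_mem_Z g (o.zz_line t1 h2)
  have k2 := mul_mem (o.zz_line t1 h2) (o.Z_le t1 (Γ.symm h1) hm)
  rw [e] at k1
  have k3 := o.O2 tp h1 (adj_of_fix gp h1)
    (smul_ne_of_not_mem_Q (Γ.symm hp) h1 n1 gp gl hg).symm k2 k1
  have k4 := mul_mem k3 (inv_mem hm)
  rw [mul_inv_cancel_right] at k4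
  exact zz_ne s1 (o.Z2 t1 h2 (Γ.symm h1) n2 (zz_mem s1) k4)

theorem A_anti {l p q r : V} (hl : Γ.ty l = τ) (hp : Γ.Adj l p) (hq : Γ.Adj l q)
    (hr : Γ.Adj l r) (n1 : p ≠ q) (n2 : p ≠ r) (n3 : q ≠ r) {a a' : X} (ha : A Γ l p a)
    (ha' : A Γ l q a') : a * a' = a' * a * zz Γ r := by
  have q1 := o.A_Q h hl hp ha
  have q2 := o.A_Q h hl hq ha'
  obtain ⟨m, m1, m2⟩ := o.A_conj_mod h hl hq ha' q1.1 (Q_adj q1 hq)
  have m3 := o.A_move hl hq ha' q1.1 (Q_adj q1 hq) (o.A_not h hl hp hq n1 ha) m2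
  have e1 : a * a' = a' * a * m := by
    rw [mul_inv_eq_iff_eq_mul] at m2
    rw [m2, mul_assoc, ← Q_comm_Z q1 m1, mul_assoc]
  have m4 := o.A_move hl hp ha q2.1 (Q_adj q2 hp) (o.A_not h hl hq hp n1.symm ha') (m := m) (by
    rw [mul_inv_eq_iff_eq_mul, mul_assoc a, ← Q_comm_Z q2 m1, ← mul_assoc, e1, mul_assoc _ m,
      o.hc.Z_sq m1, mul_one])
  rcases o.cases_line hl m1 with rfl | ⟨s, hs, rfl⟩
  · exact absurd (one_mem _) m3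
  rcases eq_of_three hp hq hr n1 n2 n3 hs with rfl | rfl | rfl
  · exact absurd (zz_mem _) m4
  · exact absurd (zz_mem _) m3
  · exact e1

theorem mem_D_of_two {p l l' : V} (hp : Γ.ty p = !τ) (h1 : Γ.Adj p l) (h2 : Γ.Adj p l')
    (n : l ≠ l') {g : X} (g0 : g ∈ Γ.Q p) (g1 : g ∈ Γ.Q l) (g2 : g ∈ Γ.Q l') : g ∈ D Γ p := by
  refine ⟨g0, fun m hm => (o.nc m (ty_ln hp hm)).mem_Q (Q_adj g0 hm) fun z hz => ?_⟩
  exact mem_centralizer_singleton_iff.1 (o.third_le h rfl hp h1 h2 hm n (K := centralizer {g})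
    (fun w hw => mem_centralizer_singleton_iff.2 (Q_comm_Z g1 hw).symm)
    (fun w hw => mem_centralizer_singleton_iff.2 (Q_comm_Z g2 hw).symm) hz)

theorem mul_mem_D {l p : V} (hl : Γ.ty l = τ) (hp : Γ.Adj l p) {x y : X} (x1 : x ∈ Γ.Q p)
    (x2 : x ∈ Γ.Q l) (x3 : x ∉ D Γ p) (y1 : y ∈ Γ.Q p) (y2 : y ∈ Γ.Q l) (y3 : y ∉ D Γ p) :
    x * y ∈ D Γ p := by
  obtain ⟨l', h1, n1⟩ := exists_other (Γ.symm hp)
  have tp := ty_pt hl hp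
  refine o.mem_D_of_two h tp (Γ.symm hp) h1 n1.symm (mul_mem x1 y1) (mul_mem x2 y2)
    (mul_mem_Q (Γ.symm h1) (Q_adj x1 h1) x1.1 (Q_adj y1 h1) y1.1 (fun e => x3 ?_) fun e => y3 ?_)
  · exact o.mem_D_of_two h tp (Γ.symm hp) h1 n1.symm x1 x2 e
  · exact o.mem_D_of_two h tp (Γ.symm hp) h1 n1.symm y1 y2 e

/-- The element `c = a_s a_s'` attached to a point `p` and a line `l0` through it. -/
theorem exists_c {p l0 l : V} (tp : Γ.ty p = !τ) (h0 : Γ.Adj p l0) (hl : Γ.Adj p l)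
    (n : l ≠ l0) : ∃ c ∈ Γ.Q p, c ∉ Γ.Q l ∧ c * c = zz Γ p ∧
      ∀ g ∈ Γ.Q p, ∃ m ∈ Γ.Z l0, g * c * g⁻¹ = c * m := by
  have t0 := ty_ln tp h0
  have hp := Γ.symm h0
  obtain ⟨s, hs, ns⟩ := exists_other hp
  obtain ⟨r, hr, nr, nrs⟩ := exists_third hp hs
  obtain ⟨a, ha⟩ := exists_A hs
  obtain ⟨b, hb⟩ := exists_A hr
  have qa := o.A_Q h t0 hs ha
  have qb := o.A_Q h t0 hr hb
  have ab := o.A_anti h t0 hs hr hp nrs.symm ns nr ha hb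
  have zp := o.zz_line t0 hp
  refine ⟨a * b, mul_mem_Q h0 (Q_adj qa hp) qa.1 (Q_adj qb hp) qb.1
    (o.A_not h t0 hs hp ns ha) (o.A_not h t0 hr hp nr hb), fun e => ?_, ?_, fun g hg => ?_⟩
  · obtain ⟨q, hq, nq⟩ := exists_other (Γ.symm hl)
    have hy : A Γ l0 p (zz Γ q) := ⟨l, q, hl, n, hq, nq, rfl⟩
    have e1 := o.A_anti h t0 hs hp hr ns nrs.symm nr.symm ha hy
    have e2 := o.A_anti h t0 hr hp hs nr nrs ns.symm hb hy
    have e3 := Q_comm_Z e (o.zz_line (ty_ln tp hl) hq)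
    rw [mul_assoc, e2, ← mul_assoc, ← mul_assoc, e1, mul_assoc _ (zz Γ r),
      ← Q_comm_Z qb (o.zz_line t0 hr), ← mul_assoc, mul_assoc _ (zz Γ r),
      o.zz_mul t0 hr hs hp nrs nr ns, ← mul_assoc, mul_eq_left] at e3
    exact zz_ne p e3
  · calc a * b * (a * b) = a * b * (b * a * zz Γ p) := by rw [← ab]
      _ = a * (b * b) * a * zz Γ p := by group
      _ = _ := by rw [o.A_sq hb, mul_one, o.A_sq ha, one_mul]
  · have gl : g • l0 = l0 := Q_adj hg h0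
    have a' := o.A_conj (ty_pt t0 hs) ha g
    have b' := o.A_conj (ty_pt t0 hr) hb g
    have e0 : g * (a * b) * g⁻¹ = (g * a * g⁻¹) * (g * b * g⁻¹) := by group
    rw [gl] at a' b'
    by_cases gq : g ∈ Γ.Q l0
    · rw [Q_adj gq hs] at a'
      rw [Q_adj gq hr] at b'
      obtain ⟨m1, f1, g1⟩ := o.A_mod h t0 hs ha a'
      obtain ⟨m2, f2, g2⟩ := o.A_mod h t0 hr hb b'
      refine ⟨m1 * m2, mul_mem f1 f2, ?_⟩
      rw [e0, g1, g2, mul_assoc, ← mul_assoc m1, ← Q_comm_Z qb f1]; group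
    · rw [swap hp hs hr ns nr nrs.symm gl hg.1 gq] at a'
      rw [swap hp hr hs nr ns nrs gl hg.1 gq] at b'
      obtain ⟨m1, f1, g1⟩ := o.A_mod h t0 hr hb a'
      obtain ⟨m2, f2, g2⟩ := o.A_mod h t0 hs ha b'
      refine ⟨zz Γ p * m1 * m2, mul_mem (mul_mem zp f1) f2, ?_⟩
      rw [e0, g1, g2, mul_assoc, ← mul_assoc m1, ← Q_comm_Z qa f1, ab]
      calc b * (a * m1 * m2) = b * a * (zz Γ p * zz Γ p) * m1 * m2 := by rw [o.zz_sq]; group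
        _ = _ := by group

theorem Z_inf_Q {l p q l0 : V} (hl : Γ.ty l = τ) (hp : Γ.Adj l p) (hq : Γ.Adj l q) (n : p ≠ q)
    (h0 : Γ.Adj p l0) (n0 : l0 ≠ l) {m : X} (m1 : m ∈ Γ.Z l0) (m2 : m ∈ Γ.Q q) : m ∈ Γ.Z p := by
  rcases o.cases_line (ty_ln (ty_pt hl hp) h0) m1 with rfl | ⟨s, hs, rfl⟩
  · exact one_mem _
  by_cases e : s = p
  · exact e ▸ zz_mem s
  · exact absurd m2 (o.A_not h hl hp hq n ⟨l0, s, h0, n0, hs, e, rfl⟩)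

theorem nu {l p q r : V} (hl : Γ.ty l = τ) (hp : Γ.Adj l p) (hq : Γ.Adj l q)
    (hr : Γ.Adj l r) (n1 : p ≠ q) (n2 : p ≠ r) (n3 : q ≠ r) {g : X} (g1 : g ∈ D Γ p)
    (g2 : g ∈ Γ.Q q) (g3 : g ∈ D Γ r) : g ∈ D Γ q := by
  obtain ⟨l0, h0, n0⟩ := exists_other (Γ.symm hp)
  obtain ⟨c, c1, c2, -, c4⟩ := o.exists_c h (ty_pt hl hp) h0 (Γ.symm hp) n0.symm
  obtain ⟨m, m1, m2⟩ := c4 g g1.1
  have e : c⁻¹ * g * c⁻¹⁻¹ = m * g := by
    rw [mul_inv_eq_iff_eq_mul] at m2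
    rw [inv_inv, mul_assoc, m2]; group
  have k := conj_mem_D c⁻¹ g3
  rw [e, swap hp hr hq n2.symm n1.symm n3.symm (inv_smul_of (Q_adj c1 (Γ.symm hp)))
    (inv_smul_of c1.1) (fun e => c2 (inv_mem_iff.1 e))] at k
  have m3 : m ∈ Γ.Q q := by simpa using mul_mem k.1 (inv_mem g2)
  have m4 := o.Z_le_D h hl hq (o.Z_le hl hp (o.Z_inf_Q h hl hp hq n1 h0 n0 m1 m3))
  simpa using mul_mem (inv_mem m4) k

theorem T0 {l p q r : V} (hl : Γ.ty l = τ) (hp : Γ.Adj l p) (hq : Γ.Adj l q)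
    (hr : Γ.Adj l r) (n1 : p ≠ q) (n2 : p ≠ r) (n3 : q ≠ r) {a b c : X} (ha : A Γ l p a)
    (hb : A Γ l q b) (hc : A Γ l r c) : a * b * c ∈ Γ.Q p ∧ a * b * c ∉ D Γ p := by
  have tp := ty_pt hl hp
  have qb := o.A_Q h hl hq hb
  have qc := o.A_Q h hl hr hc
  refine ⟨?_, fun e => ?_⟩
  · rw [mul_assoc]
    exact mul_mem (o.Vx_le_Q tp (o.A_Vx tp ha)) (mul_mem_Q (Γ.symm hp) (Q_adj qb hp) qb.1
      (Q_adj qc hp) qc.1 (o.A_not h hl hq hp n1.symm hb) (o.A_not h hl hr hp n2.symm hc))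
  · have e1 := o.A_anti h hl hq hp hr n1.symm n3 n2 hb ha
    have e2 := o.A_anti h hl hr hp hq n2.symm n3.symm n1 hc ha
    have e3 := D_comm e (o.A_Vx tp ha)
    rw [mul_assoc, mul_assoc, mul_right_inj, e2, ← mul_assoc, ← mul_assoc, e1,
      mul_assoc _ (zz Γ r), ← Q_comm_Z qc (o.zz_line hl hr), ← mul_assoc, mul_assoc _ (zz Γ r),
      o.zz_mul hl hr hq hp n3.symm n2.symm n1.symm, mul_eq_left] at e3
    exact zz_ne p e3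

theorem nu2 {l p q r : V} (hl : Γ.ty l = τ) (hp : Γ.Adj l p) (hq : Γ.Adj l q)
    (hr : Γ.Adj l r) (n1 : p ≠ q) (n2 : p ≠ r) (n3 : q ≠ r) {g : X} (g1 : g ∈ D Γ p)
    (g2 : g ∈ Γ.Q q) (g3 : g ∈ Γ.Q r) : g ∈ D Γ q := by
  by_contra g4
  have g5 : g ∉ D Γ r := fun e => g4 (o.nu h hl hp hq hr n1 n2 n3 g1 g2 e)
  obtain ⟨a, ha⟩ := exists_A hp
  obtain ⟨b, hb⟩ := exists_A hq
  obtain ⟨c, hc⟩ := exists_A hr
  have ql : a * b * c ∈ Γ.Q l :=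
    mul_mem (mul_mem (o.A_Q h hl hp ha) (o.A_Q h hl hq hb)) (o.A_Q h hl hr hc)
  obtain ⟨p1, p2⟩ := o.T0 h hl hp hq hr n1 n2 n3 ha hb hc
  obtain ⟨q1, q2⟩ := o.T0 h hl hq hp hr n1.symm n3 n2 hb ha hc
  obtain ⟨r1, r2⟩ := o.T0 h hl hr hp hq n2.symm n3.symm n1 hc ha hb
  have zp := o.zz_line hl hp
  have zq := o.zz_line hl hq
  have zr := o.zz_line hl hr
  have e1 : a * b * c = b * a * c * zz Γ r := by
    rw [o.A_anti h hl hp hq hr n1 n2 n3 ha hb, mul_assoc _ (zz Γ r),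
      ← Q_comm_Z (o.A_Q h hl hr hc) zr, ← mul_assoc]
  have e2 : a * b * c = c * a * b * (zz Γ q * zz Γ p) := by
    rw [mul_assoc, o.A_anti h hl hq hr hp n3 n1.symm n2.symm hb hc, ← mul_assoc, ← mul_assoc,
      o.A_anti h hl hp hr hq n2 n1 n3.symm ha hc, mul_assoc _ (zz Γ q),
      ← Q_comm_Z (o.A_Q h hl hq hb) zq]
    group
  have gl := g1.2 l (Γ.symm hp)
  have d1 := o.Z_le_D h hl hq zr
  have d2 := o.Z_le_D h hl hr (mul_mem zq zp)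
  have k1 : g * (a * b * c) ∈ D Γ q := o.mul_mem_D h hl hq g2 gl g4 (e1 ▸ mul_mem q1 d1.1) ql
    fun e => q2 (by rw [e1] at e; simpa using mul_mem e (inv_mem d1))
  have k2 : g * (a * b * c) ∈ D Γ r := o.mul_mem_D h hl hr g3 gl g5 (e2 ▸ mul_mem r1 d2.1) ql
    fun e => r2 (by rw [e2] at e; exact (mul_mem_cancel_right d2).1 e)
  have k3 := o.nu h hl hq hp hr n1.symm n3 n2 k1 (mul_mem g1.1 p1) k2
  exact p2 ((mul_mem_cancel_left g1).1 k3)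

end PT

end H76.Gold
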