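import Cfsg.Agent.H76.GoldF

/-! Goldschmidt's bound `|T| ≤ 2^7` for amalgams of index `(3,3)`. -/

set_option autoImplicit false

namespace H76.Gold

open Cfsg Subgroup H98 H97 H97.Tri MulAction
open scoped commutatorElement

variable {X V : Type*} [Group X] [MulAction X V] {Γ : Tri X V} {τ : Bool}

/-- The elements lying in `D p` for all points `p` of the line. -/
def NN (Γ : Tri X V) (l : V) : Subgroup X := ⨅ (p : V) (_ : Γ.Adj l p), D Γ p

theorem mem_NN {l : V} {n : X} : n ∈ NN Γ l ↔ ∀ p, Γ.Adj l p → n ∈ D Γ p := by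
  simp only [NN, mem_iInf]

theorem conj_mem_NN {l : V} {g n : X} (hg : g • l = l) (hn : n ∈ NN Γ l) :
    g * n * g⁻¹ ∈ NN Γ l := mem_NN.2 fun r hr => by
  simpa using conj_mem_D g (mem_NN.1 hn (g⁻¹ • r) (adj_of_fix (inv_smul_of hg) hr))

theorem NN_le_Q (l : V) : NN Γ l ≤ Γ.Q l := fun _ hn => by
  obtain ⟨p, hp⟩ := Γ.exists_adj l
  exact (mem_NN.1 hn p hp).2 l (Γ.symm hp)

theorem conj_mem_cent {l : V} {g k : X} (hg : g • l = l)
    (hk : k ∈ centralizer (NN Γ l : Set X)) : g * k * g⁻¹ ∈ centralizer (NN Γ l : Set X) :=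
  conj_mem_of_mem_normalizer (le_normalizer_centralizer (H := stabilizer X l)
    (mem_normalizer_of fun _ hg _ hn => conj_mem_NN hg hn) hg) hk

theorem Vx_le_cent {l p : V} (hp : Γ.Adj l p) : Γ.Vx p ≤ centralizer (NN Γ l : Set X) :=
  fun _ hv _ hn => D_comm (mem_NN.1 hn p hp) hv

namespace PT

variable (o : PT Γ τ) (h : Γ.Crit 3)
include o h

theorem exists_t {l p : V} (hl : Γ.ty l = τ) (hp : Γ.Adj l p) :
    ∃ t : X, t • l = l ∧ t • p = p ∧ t ∉ Γ.Q l ∧ t * t ∈ Γ.Z l ∧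
      (∀ n ∈ NN Γ l, ∃ ζ ∈ Γ.Z l, t * n * t⁻¹ = ζ * n) ∧
      ∀ g ∈ Γ.Q l, t * g * t⁻¹ * g⁻¹ ∈ centralizer (NN Γ l : Set X) := by
  have tp := ty_pt hl hp
  obtain ⟨l0, h0, n0⟩ := exists_other (Γ.symm hp)
  obtain ⟨q, hq, nq⟩ := exists_other hp
  obtain ⟨c, c1, c2, c3, c4⟩ := o.exists_c h tp h0 (Γ.symm hp) n0.symm
  have cl : c • l = l := Q_adj c1 (Γ.symm hp)
  have base : ∀ g ∈ Γ.Q p, ∃ m ∈ Γ.Z l0, c * g * c⁻¹ * g⁻¹ = m := fun g hg => by
    obtain ⟨m, m1, m2⟩ := c4 g hg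
    refine ⟨c * m⁻¹ * c⁻¹, conj_mem_Z_of_fix (Q_adj c1 h0) (inv_mem m1), ?_⟩
    calc c * g * c⁻¹ * g⁻¹ = c * (g * c * g⁻¹)⁻¹ := by group
      _ = _ := by rw [m2]; group
  refine ⟨c, cl, c1.1, c2, c3 ▸ o.zz_line hl hp, fun n hn => ?_, fun g hg => ?_⟩
  · obtain ⟨m, m1, m2⟩ := base n (mem_NN.1 hn p hp).1
    have m3 : m ∈ Γ.Q q := m2 ▸ (mem_NN.1 (mul_mem (conj_mem_NN cl hn) (inv_mem hn)) q hq).1
    exact ⟨m, o.Z_le hl hp (o.Z_inf_Q h hl hp hq nq.symm h0 n0 m1 m3), by rw [← m2]; group⟩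
  · have base' : ∀ g ∈ Γ.Q p, c * g * c⁻¹ * g⁻¹ ∈ centralizer (NN Γ l : Set X) := fun g hg => by
      obtain ⟨m, m1, m2⟩ := base g hg
      exact m2 ▸ Vx_le_cent hp (Z_le_Vx h0 m1)
    by_cases gp : g ∈ Γ.Q p
    · exact base' g gp
    obtain ⟨b, hb⟩ := exists_A hq
    have qb := o.A_Q h hl hq hb
    have vb := Vx_le_cent hq (o.A_Vx (ty_pt hl hq) hb)
    have gb : g * b ∈ Γ.Q p := mul_mem_Q (Γ.symm hp) (Q_adj hg hp) hg.1 (Q_adj qb hp) qb.1 gp
      (o.A_not h hl hq hp nq hb)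
    have e : c * g * c⁻¹ * g⁻¹ = (c * (g * b) * c⁻¹ * (g * b)⁻¹) *
        (g * b * (c * b⁻¹ * c⁻¹ * b) * (g * b)⁻¹) := by group
    rw [e]
    exact mul_mem (base' _ gb) (conj_mem_cent (mul_smul_of hg.1 qb.1)
      (mul_mem (conj_mem_cent cl (inv_mem vb)) vb))

theorem NN_le_Z {l : V} (hl : Γ.ty l = τ) : NN Γ l ≤ Γ.Z l := by
  have : Fact (Nat.Prime 2) := ⟨Nat.prime_two⟩
  obtain ⟨p, q, r, hp, hq, hr, n1, n2, n3, -⟩ := Γ.three l
  obtain ⟨t, tl, tp, tn, tt, t1, t2⟩ := o.exists_t h hl hp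
  obtain ⟨s, sl, sq', sn, ss, s1, s2⟩ := o.exists_t h hl hq
  have zc : Γ.Z l ≤ centralizer (NN Γ l : Set X) := fun z hz n hn => Q_comm_Z (NN_le_Q l hn) hz
  have xl : (t * s) • l = l := mul_smul_of tl sl
  have xp : (t * s) • p = q := by
    rw [mul_smul, swap hq hp hr n1 n3.symm n2 sl sq' sn, swap hp hr hq n2.symm n1.symm n3.symm tl tp tn]
  have xq : (t * s) • q = r := by
    rw [mul_smul, sq', swap hp hq hr n1.symm n2.symm n3 tl tp tn]
  have xr : (t * s) • r = p := by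
    rw [mul_smul, swap hq hr hp n3.symm n1 n2.symm sl sq' sn, tp]
  let F : Subgroup X := NN Γ l ⊓ centralizer {t * s}
  have hF : F = ⊥ := by
    by_contra hne
    have fl : F ≤ Ed X l p := fun f hf => Q_le_Ed hp (NN_le_Q l hf.1)
    have := Γ.fin_Ed l p
    have : Finite F := finite_of_le fl
    have nF : Ed X l p ≤ normalizer (F : Set X) := by
      refine Ed_le hp (fun g hg => mem_normalizer_fintype fun f hf => ?_)
        (mem_normalizer_fintype fun f hf => ?_) tl tp tn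
      · refine ⟨conj_mem_NN hg.1 hf.1, mem_centralizer_singleton_iff.2 ?_⟩
        have k : t * s * g * (t * s)⁻¹ * g⁻¹ ∈ centralizer (NN Γ l : Set X) := by
          have e : t * s * g * (t * s)⁻¹ * g⁻¹ =
            (t * (s * g * s⁻¹ * g⁻¹) * t⁻¹) * (t * g * t⁻¹ * g⁻¹) := by group
          rw [e]
          exact mul_mem (conj_mem_cent tl (s2 g hg)) (t2 g hg)
        have k1 := k _ (conj_mem_NN hg.1 hf.1)
        have k2 := mem_centralizer_singleton_iff.1 hf.2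
        generalize t * s = x at k1 k2
        calc g * f * g⁻¹ * x = (g * f * g⁻¹ * (x * g * x⁻¹ * g⁻¹)) * (g * x * g⁻¹) := by group
          _ = x * g * x⁻¹ * (f * x) * g⁻¹ := by rw [k1]; group
          _ = _ := by rw [k2]; group
      · refine ⟨conj_mem_NN tl hf.1, mem_centralizer_singleton_iff.2 ?_⟩
        have k1 := zc tt f hf.1
        have k2 := zc ss f hf.1
        have k3 := mem_centralizer_singleton_iff.1 hf.2
        have k4 : s * t ∈ centralizer ({f} : Set X) := by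
          have e : s * t = (s * s) * (t * s)⁻¹ * (t * t) := by group
          rw [e]
          exact mul_mem (mul_mem (mem_centralizer_singleton_iff.2 k2.symm)
            (inv_mem (mem_centralizer_singleton_iff.2 k3.symm)))
            (mem_centralizer_singleton_iff.2 k1.symm)
        calc t * f * t⁻¹ * (t * s) = t * (f * (s * t)) * t⁻¹ := by group
          _ = _ := by rw [← mem_centralizer_singleton_iff.1 k4]; group
    obtain ⟨u, u1, u2, u3⟩ := exists_pow_eq_one_of_isPGroup (((Γ.pT hp).to_le fl).to_le inf_le_left)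
      (inf_centralizer_ne_bot ((Γ.pT hp).to_le fl) (Γ.pT hp) nF hne)
    have u4 : u ∈ Γ.Z p := by
      rw [o.Z_eq hl hp]; exact mem_oZ.2 ⟨fl u1.1, u1.2, u3⟩
    have u5 := mem_centralizer_singleton_iff.1 u1.1.2
    rw [o.eq_zz (ty_pt hl hp) u4 u2] at u5
    exact n1 ((o.fix_of_comm hl hp xl u5.symm).symm.trans xp)
  intro n hn
  obtain ⟨ζ, f1, f2⟩ := t1 n hn
  obtain ⟨ζ', f3, f4⟩ := s1 n hn
  have e1 : t * s * n * (t * s)⁻¹ = (t * ζ' * t⁻¹ * ζ) * n := by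
    calc t * s * n * (t * s)⁻¹ = t * (s * n * s⁻¹) * t⁻¹ := by group
      _ = t * ζ' * t⁻¹ * (t * n * t⁻¹) := by rw [f4]; group
      _ = _ := by rw [f2]; group
  have f5 := mul_mem (conj_mem_Z_of_fix tl f3) f1
  generalize t * ζ' * t⁻¹ * ζ = η at e1 f5
  have key : ∀ u ∈ Γ.Z l, t * s * u * (t * s)⁻¹ * η = u → n ∈ Γ.Z l := fun u hu e => by
    have m : u * n ∈ F := by
      refine ⟨mul_mem (mem_NN.2 fun y hy => o.Z_le_D h hl hy hu) hn,
        mem_centralizer_singleton_iff.2 ?_⟩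
      rw [eq_comm, ← mul_inv_eq_iff_eq_mul]
      calc t * s * (u * n) * (t * s)⁻¹ = (t * s * u * (t * s)⁻¹) * (t * s * n * (t * s)⁻¹) := by
            group
        _ = _ := by rw [e1, ← mul_assoc, e]
    rw [hF, mem_bot] at m
    rw [eq_inv_of_mul_eq_one_right m]
    exact inv_mem hu
  rcases o.cases_line hl f5 with rfl | ⟨y, hy, rfl⟩
  · exact key 1 (one_mem _) (by group)
  rcases eq_of_three hp hq hr n1 n2 n3 hy with rfl | rfl | rfl
  · exact key _ (o.zz_line hl hq) (by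
      rw [o.conj_zz (ty_pt hl hq), xq, o.zz_mul hl hr hp hq n2.symm n3.symm n1])
  · exact key _ (o.zz_line hl hr) (by
      rw [o.conj_zz (ty_pt hl hr), xr, o.zz_mul hl hp hq hr n1 n2 n3])
  · exact key _ (o.zz_line hl hp) (by
      rw [o.conj_zz (ty_pt hl hp), xp, o.zz_mul hl hq hr hp n3 n1.symm n2.symm])

theorem three_bound {u v : V} (huv : Γ.Adj u v) : Nat.card (Ed X u v) ≤ 128 := by
  obtain ⟨c, lc, hc⟩ := h.ex
  have hl := o.crit_ty h lc hc
  generalize c 0 = l at hl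
  obtain ⟨p, q, r, hp, hq, hr, n1, n2, n3, -⟩ := Γ.three l
  obtain ⟨l0, h0, n0⟩ := exists_other (Γ.symm hp)
  rw [card_Ed_eq hp huv]
  have s1 := card_step hp (H := Ed X l p) fun x hx => hx
  have s2 := card_step (Γ.symm hp) (H := Ed X l p ⊓ Γ.Q l) fun x hx => ⟨hx.1.2, hx.1.1⟩
  have s3 := card_step (Γ.symm hq) (H := Ed X l p ⊓ Γ.Q l ⊓ Γ.Q p)
    fun x hx => ⟨Q_adj hx.1.2 hq, hx.1.2.1⟩
  have s4 := card_step (Γ.symm hr) (H := Ed X l p ⊓ Γ.Q l ⊓ Γ.Q p ⊓ Γ.Q q)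
    fun x hx => ⟨Q_adj hx.1.1.2 hr, hx.1.1.2.1⟩
  have s5 := card_step (Γ.symm h0) (H := Ed X l p ⊓ Γ.Q l ⊓ Γ.Q p ⊓ Γ.Q q ⊓ Γ.Q r)
    fun x hx => ⟨Q_adj hx.1.1.2 h0, hx.1.1.2.1⟩
  have e : (Ed X l p ⊓ Γ.Q l ⊓ Γ.Q p ⊓ Γ.Q q ⊓ Γ.Q r ⊓ Γ.Q l0 : Subgroup X) ≤ Γ.Z l := by
    refine le_trans ?_ (o.NN_le_Z h hl)
    rintro x ⟨⟨⟨⟨⟨-, x1⟩, x2⟩, x3⟩, x4⟩, x5⟩
    have d1 := o.mem_D_of_two h (ty_pt hl hp) (Γ.symm hp) h0 n0.symm x2 x1 x5
    refine mem_NN.2 fun y hy => ?_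
    rcases eq_of_three hp hq hr n1 n2 n3 hy with rfl | rfl | rfl
    · exact d1
    · exact o.nu2 h hl hp hq hr n1 n2 n3 d1 x3 x4
    · exact o.nu2 h hl hp hr hq n2 n1 n3.symm d1 x4 x3
  have := Γ.fin l
  have : Finite (Γ.Z l) := finite_of_le (Z_le_stab l)
  have s6 := (card_le_of_le e).trans (o.card_Z_le hl)
  omega

end PT

theorem OC.bound (o : OC Γ τ) {u v : V} (huv : Γ.Adj u v) : Nat.card (Ed X u v) ≤ 128 := by
  obtain ⟨b, h⟩ := Γ.exists_crit u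
  have o' := o.pt h
  have h2 := o.two_le h
  rcases Nat.mod_two_eq_zero_or_one b with hb | hb
  · obtain rfl : b = 2 := by
      by_contra hne
      exact o'.even_false h hb (by omega)
    exact o'.two_bound h huv
  · obtain rfl : b = 3 := by
      by_contra hne
      rcases (by omega : b = 5 ∨ 7 ≤ b) with rfl | h7
      · exact o'.not_five h
      · exact o'.not_seven h hb h7
    exact o'.three_bound h huv

theorem oc_of (hc : Γ.CharP) {a b : V} (hab : Γ.Adj a b) (h1 : Γ.NC a) (h2 : ¬ Γ.NC b) :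
    OC Γ (Γ.ty a) := by
  refine ⟨hc, fun l hl => h1.of_ty hl.symm, fun l p hl hp => ?_⟩
  by_contra hn
  refine h2 (NC.of_ty (nc_of_adj (Γ.symm hp) (by rwa [Om_comm])) ?_)
  rw [Γ.ty_adj hp, Γ.ty_adj hab, hl]

/-- Goldschmidt's bound for trivalent amalgams. -/
theorem card_Ed_le {u v : V} (huv : Γ.Adj u v) : Nat.card (Ed X u v) ≤ 128 := by
  by_cases hc : Γ.CharP
  · by_cases h1 : Γ.NC u <;> by_cases h2 : Γ.NC v
    · exact (card_Ed_le_sixteen hc (Tri.nc_of_edge huv h1 h2) huv).trans (by norm_num)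
    · exact (oc_of hc huv h1 h2).bound huv
    · exact (oc_of hc (Γ.symm huv) h2 h1).bound huv
    · exfalso
      have c1 : stabilizer X u ≤ centralizer (Om X u v : Set X) := by
        by_contra hn; exact h1 (nc_of_adj huv hn)
      have c2 : stabilizer X v ≤ centralizer (Om X u v : Set X) := by
        by_contra hn; exact h2 (nc_of_adj (Γ.symm huv) (by rwa [Om_comm]))
      exact Om_ne_bot huv (Γ.faith _ huv (oZ_le _) (c1.trans (centralizer_le_normalizer _))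
        (c2.trans (centralizer_le_normalizer _)))
  · exact (case0 hc huv).trans (by norm_num)

theorem goldschmidt {P₁ P₂ : Subgroup X} (h1 : SymThreeOver (P₁ ⊓ P₂) P₁)
    (h2 : SymThreeOver (P₁ ⊓ P₂) P₂)
    (hf : ∀ N : Subgroup X, N ≤ P₁ ⊓ P₂ → P₁ ≤ normalizer (N : Set X) →
      P₂ ≤ normalizer (N : Set X) → N = ⊥) : Nat.card (P₁ ⊓ P₂ : Subgroup X) ≤ 128 := by
  have := card_Ed_le (Γ := cosetTri h1 h2 hf) (cosetGraph_adj_mk (1 : X))
  rw [Ed, stabilizer_inl, stabilizer_inr] at this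
  have e1 : cj 1 P₁ = P₁ := cj_one _
  have e2 : cj 1 P₂ = P₂ := cj_one _
  rw [← e1, ← e2]
  exact this

end H76.Gold
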