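import Cfsg.Agent.H51.KLSpec

/-! `JobF4` of `blueprints/KL.md`. -/

set_option autoImplicit false
set_option linter.unusedSectionVars false

open Module Submodule H51.KL

namespace H76.KL

universe u v

variable {F : Type u} [Field F] {V : Type v} [AddCommGroup V] [Module F V] {ω : V →ₗ[F] V}

theorem card_eq (e : V ≃ V) {p q : V → Prop} (h : ∀ v, p v ↔ q (e v)) :
    {v | p v}.ncard = {v | q v}.ncard := Nat.card_congr (e.subtypeEquiv h)

theorem exk (n : 5 ≤ finrank F V) [FiniteDimensional F V] (φ ψ : Dual F V) :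
    ∃ e, e ≠ 0 ∧ (φ e = 0 ∧ φ (ω e) = 0) ∧ ψ e = 0 ∧ ψ (ω e) = 0 := by
  obtain ⟨e, h1, h2⟩ := (Submodule.ne_bot_iff _).1 (LinearMap.ker_ne_bot_of_finrank_lt
    (f := (φ.prod (φ ∘ₗ ω)).prod (ψ.prod (ψ ∘ₗ ω))) (by simp; omega))
  exact ⟨e, h2, by simpa using h1⟩

variable (h2 : ∀ c : F, c = 0 ∨ c = 1) (hω : ∀ y, ω (ω y) = ω y + y)
include h2

theorem two : (2 : F) = 0 := (h2 2).resolve_right fun e =>
  one_ne_zero (α := F) (by linear_combination e)

theorem add_self (x : V) : x + x = 0 := by rw [← two_smul F, two h2, zero_smul]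

include hω

theorem fix0 {x : V} (e : ω x = x) : x = 0 := by simpa [e] using hω x

theorem ex1 {e : V} (n : e ≠ 0) : ∃ ψ : Dual F V, ψ e = 1 ∧ ψ (ω e) = 0 := by
  obtain ⟨ψ, h1, h3⟩ := H62.exists_dual_eq_one (W := F ∙ ω e) (x := e) fun k => by
    obtain ⟨c, k⟩ := mem_span_singleton.1 k
    rcases h2 c with rfl | rfl
    · exact n (by simpa using k.symm)
    · exact n (fix0 h2 hω (by simpa using k))
  exact ⟨ψ, h1, h3 _ (mem_span_singleton_self _)⟩

omit h2 in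
theorem proj {φ : Dual F V} {e : V} (h : φ e = 1 ∧ φ (ω e) = 0) (ψ : Dual F V) :
    ∃ χ : Dual F V, (χ e = 0 ∧ χ (ω e) = 0) ∧
      ∀ v, φ v = 0 ∧ φ (ω v) = 0 → χ v = ψ v ∧ χ (ω v) = ψ (ω v) :=
  ⟨ψ - ψ e • φ - ψ (ω e) • φ ∘ₗ ω, by simp [h.1, h.2, hω], fun v k => by simp [k.1, k.2, hω]⟩

theorem inv (g k : V ≃ₗ[F] V) (hk : ∀ y, k (ω y) = ω (k y) ∨ k (ω y) = ω (ω (k y)))
    {ι : (V ≃ₗ[F] V) → ℕ} (hι : ∀ g, ι g = {v | g (ω v) = ω (g v)}.ncard +
      {v | g (ω v) = ω (ω (g v))}.ncard) : ι (k * g) = ι g ∧ ι (g * k) = ι g := by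
  have t : ∀ x y z : V, x + y = z ↔ x = z + y := fun x y z => by
    rw [← eq_sub_iff_add_eq, sub_eq_add_neg, neg_eq_of_add_eq_zero_left (add_self h2 y)]
  simp only [hι, LinearEquiv.mul_apply]
  by_cases h1 : ∀ y, k (ω y) = ω (k y)
  · exact ⟨by simp only [← h1, k.injective.eq_iff], congrArg₂ _
      (card_eq k.toEquiv fun v => by simp [h1]) (card_eq k.toEquiv fun v => by simp [h1])⟩
  obtain ⟨y, hy⟩ := not_forall.1 h1
  have h3 : ∀ x, k (ω x) = ω (ω (k x)) := fun x => (hk x).elim (fun e => by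
    rcases hk (y + x) with e' | e' <;> simp only [map_add] at e'
    · exact absurd (add_right_cancel (e ▸ e')) hy
    · exact add_left_cancel ((hk y).resolve_left hy ▸ e')) id
  have h4 : ∀ x, ω (k x) = k (ω (ω x)) := fun x => by
    rw [hω, map_add, h3, hω, add_assoc, add_self h2, add_zero]
  refine ⟨(congrArg₂ _ ?_ ?_).trans (add_comm _ _), (congrArg₂ _ ?_ ?_).trans (add_comm _ _)⟩
  · simp only [h4, k.injective.eq_iff]
  · simp only [← h3, k.injective.eq_iff]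
  · exact card_eq k.toEquiv fun v => by simp [h3, hω, t]
  · exact card_eq k.toEquiv fun v => by simp [h3, hω]

omit h2 hω in
theorem jobF4 : JobF4.{u, v} := fun F _ _ V _ _ _ K n ⟨hF, ω, hω', hK⟩ => by
  have h2 : ∀ c : F, c = 0 ∨ c = 1 := fun c => or_iff_not_imp_left.2 fun e =>
    ((Nat.card_eq_two_iff' 0).1 hF).unique e one_ne_zero
  have hω : ∀ y, ω (ω y) = ω y + y := fun y => by
    rw [← add_left_inj (ω y + y), ← add_assoc, hω', add_self h2]
  have := H53.CK.finV F V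
  obtain ⟨e1, n1, -⟩ := exk (ω := ω) n 0 0
  obtain ⟨φ1, a11⟩ := ex1 h2 hω n1
  obtain ⟨e2, n2, a12, -⟩ := exk (ω := ω) n φ1 0
  obtain ⟨ψ2, b⟩ := ex1 h2 hω n2
  obtain ⟨φ2, a21, k⟩ := proj hω a11 ψ2
  have a22 := k e2 a12
  obtain ⟨e3, n3, a13, a23⟩ := exk (ω := ω) n φ1 φ2
  obtain ⟨ψ3, c⟩ := ex1 h2 hω n3
  obtain ⟨χ, d, k1⟩ := proj hω a11 ψ3
  rw [b.1, b.2] at a22
  obtain ⟨φ3, a32, k2⟩ := proj hω a22 χ
  have a31 := k2 e1 a21
  have a33 := k2 e3 a23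
  rw [d.1, d.2] at a31
  rw [(k1 e3 a13).1, (k1 e3 a13).2, c.1, c.2] at a33
  clear k k1 k2 b c d
  obtain ⟨M, hM⟩ : ∃ M : F → F → F → V →ₗ[F] V, ∀ s t u v, M s t u v =
      s • (φ1 (ω v) • e2 + φ1 v • ω e2) + t • (φ2 (ω v) • e3 + φ2 v • ω e3) +
        u • (φ3 (ω v) • (e1 + e2) + φ3 v • ω (e1 + e2)) :=
    ⟨fun s t u => s • ((φ1 ∘ₗ ω).smulRight e2 + φ1.smulRight (ω e2)) +
      t • ((φ2 ∘ₗ ω).smulRight e3 + φ2.smulRight (ω e3)) +
      u • ((φ3 ∘ₗ ω).smulRight (e1 + e2) + φ3.smulRight (ω (e1 + e2))), fun _ _ _ _ => rfl⟩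
  have co : ∀ s t u v, φ1 (M s t u v) = u * φ3 (ω v) ∧ φ1 (ω (M s t u v)) = u * φ3 v ∧
      φ2 (M s t u v) = s * φ1 (ω v) + u * φ3 (ω v) ∧ φ2 (ω (M s t u v)) = s * φ1 v + u * φ3 v ∧
      φ3 (M s t u v) = t * φ2 (ω v) ∧ φ3 (ω (M s t u v)) = t * φ2 v := fun s t u v => by
    simp [hM, hω, a11, a12, a13, a21, a22, a23, a31, a32, a33]
  have an : ∀ s t u v, M s t u (ω v) = ω (ω (M s t u v)) := fun s t u v => by
    have t2 : (1 : F) + 1 = 0 := one_add_one_eq_two.trans (two h2)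
    simp only [hM, hω, map_add, map_smul]
    match_scalars <;> simp [t2, mul_add, add_comm]
  have ker : ∀ s t u v, M s t u v = 0 ↔ (s * φ1 v = 0 ∧ s * φ1 (ω v) = 0) ∧
      (t * φ2 v = 0 ∧ t * φ2 (ω v) = 0) ∧ u * φ3 v = 0 ∧ u * φ3 (ω v) = 0 := fun s t u v =>
    ⟨fun e => by
      obtain ⟨k1, k2, k3, k4, k5, k6⟩ := co s t u v
      simp only [e, map_zero] at k1 k2 k3 k4 k5 k6
      exact ⟨⟨by linear_combination k2 - k4, by linear_combination k1 - k3⟩, ⟨k6.symm, k5.symm⟩,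
        k2.symm, k1.symm⟩, fun e => by
      simp only [hM, smul_add, smul_smul, e, zero_smul, add_zero]⟩
  have inj : ∀ s t u, u = 0 ∨ s = 1 ∧ t = 1 ∧ u = 1 →
      Function.Injective (1 + M s t u : V →ₗ[F] V) :=
    fun s t u e => (injective_iff_map_eq_zero _).2 fun v k => by
      have k' : M s t u v = v := by
        rw [← add_right_inj v, add_self h2]; exact k
      obtain ⟨k1, k2, k3, k4, k5, k6⟩ := co s t u v
      rw [k'] at k1 k2 k3 k4 k5 k6
      rw [← k', ker]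
      rcases e with rfl | ⟨rfl, rfl, rfl⟩
      · rw [zero_mul] at k1 k2
        simp only [k1, k2, mul_zero, zero_mul, add_zero] at k3 k4
        simp [k1, k2, k3, k4]
      · exact ⟨⟨by linear_combination -k4 - k5, by linear_combination -k3 - k6⟩,
          ⟨by linear_combination -k6 - k1 - k4 - k5, by linear_combination -k5 - k2 - k3 - k6⟩,
          by linear_combination -k2 - k3 - k6, by linear_combination -k1 - k4 - k5⟩
  obtain ⟨ι, hι⟩ : ∃ ι : (V ≃ₗ[F] V) → ℕ, ∀ g, ι g = {v | g (ω v) = ω (g v)}.ncard +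
    {v | g (ω v) = ω (ω (g v))}.ncard := ⟨_, fun _ => rfl⟩
  have val : ∀ s t u e, ι (.ofInjectiveEndo _ (inj s t u e)) =
      {v | M s t u v = 0}.ncard + {v | ω v = ω (ω v)}.ncard := fun s t u e => by
    simp only [hι, LinearEquiv.coe_ofInjectiveEndo, LinearMap.add_apply, Module.End.one_apply, an,
      map_add, add_right_inj, add_left_inj]
    congr 3
    ext v
    exact ⟨fun k => by simpa [k] using (hω (M s t u v)).symm, fun k => by simp [k]⟩
  have l : ∀ s t u s' t' u' e, (∀ v, M s t u v = 0 → M s' t' u' v = 0) → M s' t' u' e = 0 →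
      M s t u e ≠ 0 → {v | M s t u v = 0}.ncard < {v | M s' t' u' v = 0}.ncard :=
    fun s t u s' t' u' e k1 k2 k3 => Set.ncard_lt_ncard ⟨k1, fun k => k3 (k k2)⟩
  have l1 := l 1 0 0 0 0 0 e1 (by simp [ker]) (by simp [ker]) (by simp [ker, a11])
  have l2 := l 1 1 0 1 0 0 e2 (by simp +contextual [ker]) (by simp [ker, a12]) (by simp [ker, a22])
  have l3 := l 1 1 1 1 1 0 e3 (by simp +contextual [ker]) (by simp [ker, a13, a23])
    (by simp [ker, a33])
  refine ⟨ι, fun g k hk => inv h2 hω g k (hK k hk) hι, ![.ofInjectiveEndo _ (inj 0 0 0 (.inl rfl)),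
    .ofInjectiveEndo _ (inj 1 0 0 (.inl rfl)), .ofInjectiveEndo _ (inj 1 1 0 (.inl rfl)),
    .ofInjectiveEndo _ (inj 1 1 1 (.inr ⟨rfl, rfl, rfl⟩))],
    fun i => (h2 _).resolve_left (LinearEquiv.isUnit_det' _).ne_zero, fun i j => ?_⟩
  fin_cases i <;> fin_cases j <;> simp [val] <;> omega

end H76.KL
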