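import Cfsg.Agent.Base

/-! Involutions with odd products: combinatorial part (for S3265). -/

set_option autoImplicit false
set_option linter.unusedVariables false

namespace H76.Lf

open Function

variable {α : Type*} [DecidableEq α]

/-- all cycles have odd length -/
def Od (f : α → α) : Prop := ∀ a, ∃ m, Odd m ∧ f^[m] a = a

omit [DecidableEq α] in
theorem step {σ π : α → α} (hσ : Injective σ) (T : α → Prop)
    (h1 : ∀ a, T a → T (π a) ∧ (π a = σ a ∨ π a = σ (σ (σ a))))
    (h2 : ∀ a, T a ∨ T (σ a) ∨ T (σ (σ a)) ∨ σ a = a) (h : Od π) : Od σ := by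
  have key : ∀ m a, T a → ∃ m', m' % 2 = m % 2 ∧ σ^[m'] a = π^[m] a := by
    intro m
    induction m with
    | zero => exact fun a _ => ⟨0, rfl, rfl⟩
    | succ m ih =>
      intro a ha
      obtain ⟨hT, e⟩ := h1 a ha
      obtain ⟨m', h3, h4⟩ := ih _ hT
      rcases e with e | e
      · exact ⟨m' + 1, by omega, by rw [iterate_succ_apply, iterate_succ_apply, ← e, h4]⟩
      · exact ⟨m' + 3, by omega, by
          rw [iterate_succ_apply, iterate_succ_apply, iterate_succ_apply, iterate_succ_apply, ← e, h4]⟩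
  have k2 : ∀ a, T a → ∃ m, Odd m ∧ σ^[m] a = a := fun a ha => by
    obtain ⟨m, hm, e⟩ := h a
    obtain ⟨m', h3, h4⟩ := key m a ha
    exact ⟨m', by rw [Nat.odd_iff] at *; omega, h4.trans e⟩
  have k3 : ∀ a, (∃ m, Odd m ∧ σ^[m] (σ a) = σ a) → ∃ m, Odd m ∧ σ^[m] a = a := by
    rintro a ⟨m, hm, e⟩
    refine ⟨m, hm, hσ ?_⟩
    rw [← iterate_succ_apply' σ, iterate_succ_apply, e]
  intro a
  rcases h2 a with h | h | h | h
  · exact k2 a h
  · exact k3 _ (k2 _ h)
  · exact k3 _ (k3 _ (k2 _ h))
  · exact ⟨1, odd_one, h⟩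

omit [DecidableEq α] in
theorem od_self {x : α → α} (hx : Involutive x) : Od (x ∘ x) := fun a => ⟨1, odd_one, hx a⟩

/-- remove the edge at `u` -/
def del (x : α → α) (u : α) : α → α := fun a => if a = u ∨ a = x u then a else x a
/-- add the edge `u v` -/
def add (z : α → α) (u v : α) : α → α := fun a => if a = u then v else if a = v then u else z a
/-- contract the path `x u, u, v, x v, s, x s` to an edge -/
def con (x : α → α) (u v s : α) : α → α := fun a =>
  if a = u ∨ a = v ∨ a = x v ∨ a = s then a else if a = x u then x s else if a = x s then x u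
  else x a

theorem del_inv {x : α → α} (hx : Involutive x) (u : α) : Involutive (del x u) := by
  intro a
  have := hx a; have := hx u
  unfold del; grind

theorem add_inv {z : α → α} (hz : Involutive z) {u v : α} (hu : z u = u) (hv : z v = v) :
    Involutive (add z u v) := by
  intro a
  have := hz a
  unfold add; grind

theorem con_inv {x : α → α} (hx : Involutive x) {u v s : α} (h1 : u ≠ v) (h2 : u ≠ x v)
    (h3 : u ≠ s) (h4 : s ≠ v) (h5 : s ≠ x v) (h6 : x u ≠ u) (h7 : x s ≠ s) (h8 : x u ≠ s) :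
    Involutive (con x u v s) := by
  intro a
  have := hx a; have := hx u; have := hx v; have := hx s
  unfold con; grind

theorem od_ins {x z : α → α} (hx : Involutive x) (hz : Involutive z) {u v : α} (h1 : x u ≠ u)
    (h2 : x v = v) (hu : z u = u) (hv : z v = v) (h : Od (del x u ∘ z)) : Od (x ∘ add z u v) := by
  refine step (hx.injective.comp (add_inv hz hu hv).injective) (fun a => a ≠ u ∧ a ≠ v) ?_ ?_ h
  · intro a ha
    have := hz a; have := hx u; have := hx (z a)
    simp only [comp, del, add]; grind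
  · intro a
    have := hx u
    simp only [comp, add]; grind

theorem add_comm' (z : α → α) (u v : α) : add z u v = add z v u := by
  funext a; unfold add; grind

theorem od_con {x z z' : α → α} (hx : Involutive x) (hz : Involutive z) (hz' : Involutive z')
    {u v s : α} (h0 : v ≠ x v) (h1 : u ≠ v) (h2 : u ≠ x v)
    (h3 : u ≠ s) (h4 : s ≠ v) (h5 : s ≠ x v) (h6 : x u ≠ u) (h7 : x s ≠ s) (h8 : x u ≠ s)
    (e1 : z u = v) (e2 : z (x v) = s) (f1 : z' u = u) (f2 : z' v = v) (f3 : z' (x v) = x v)
    (f4 : z' s = s) (e : ∀ a, a ≠ u → a ≠ v → a ≠ x v → a ≠ s → z a = z' a)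
    (h : Od (con x u v s ∘ z')) : Od (x ∘ z) := by
  refine step (hx.injective.comp hz.injective) (fun a => a ≠ u ∧ a ≠ v ∧ a ≠ x v ∧ a ≠ s) ?_ ?_ h
  · intro a ha
    have := hz' a; have := hx u; have := hx v; have := hx s; have := hx (z' a)
    have := e a ha.1 ha.2.1 ha.2.2.1 ha.2.2.2
    have := hz u; have := hz (x v)
    simp only [comp, con]; grind
  · intro a
    have := hx u; have := hx v; have := hx s; have := hz u; have := hz (x v)
    simp only [comp]; grind

theorem od_dbl {x z : α → α} (hx : Involutive x) (hz : Involutive z) {u : α}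
    (hu : z u = u) (hv : z (x u) = x u) : x ∘ add z u (x u) = del x u ∘ z := by
  funext a
  have := hz a; have := hx u
  simp only [comp, del, add]; grind

/-- involution supported in `A` -/
def Iv (A : Finset α) (x : α → α) : Prop := Involutive x ∧ ∀ a, a ∉ A → x a = a
/-- moved points -/
def mv (A : Finset α) (x : α → α) : Finset α := A.filter fun a => x a ≠ a

theorem card_sd {A S : Finset α} (h : S ⊆ A) {k : ℕ} (hk : S.card = k) :
    (A \ S).card + k = A.card := by rw [← hk, Finset.card_sdiff_add_card_eq_card h]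

theorem exists_not_mem {A S : Finset α} (h : S.card < A.card) : ∃ u ∈ A, u ∉ S :=
  Finset.exists_mem_notMem_of_card_lt_card h

theorem mv_del {A : Finset α} {x : α → α} (hx : Iv A x) {u v : α} (hu : x u ≠ u) (hv : x v = v) :
    Iv (A \ {u, v}) (del x u) ∧ (mv (A \ {u, v}) (del x u)).card + 2 = (mv A x).card := by
  have h1 := hx.1 u
  have h2 := hx.2 u
  have h3 := hx.2 (x u)
  refine ⟨⟨del_inv hx.1 u, fun a ha => ?_⟩, ?_⟩
  · have := hx.2 a
    unfold del; grind
  · have e : mv (A \ {u, v}) (del x u) = mv A x \ {u, x u} := by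
      ext a
      unfold mv del; grind
    rw [e]
    refine card_sd (fun a ha => ?_) (Finset.card_pair hu.symm)
    unfold mv; grind

theorem add_iv {A : Finset α} {z : α → α} {u v : α} (hu : u ∈ A) (hv : v ∈ A)
    (hz : Iv (A \ {u, v}) z) : z u = u ∧ z v = v ∧ Iv A (add z u v) := by
  have h1 := hz.2 u (by simp)
  have h2 := hz.2 v (by simp)
  refine ⟨h1, h2, add_inv hz.1 h1 h2, fun a ha => ?_⟩
  have := hz.2 a
  unfold add; grind

theorem main1 (n : ℕ) : ∀ (A : Finset α) (x y : α → α), A.card = n → Iv A x → Iv A y →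
    (mv A x).card = (mv A y).card → (mv A x).card < A.card →
    ∃ z, Iv A z ∧ Od (x ∘ z) ∧ Od (y ∘ z) := by
  induction n using Nat.strong_induction_on with
  | _ n ih =>
  intro A x y hn hx hy hc hlt
  by_cases he : mv A x = mv A y
  · by_cases h0 : mv A x = ∅
    · have e : y = x := by
        funext a
        have h1 : a ∉ mv A x := by simp [h0]
        have h2 : a ∉ mv A y := he ▸ h1
        have := hx.2 a; have := hy.2 a
        unfold mv at h1 h2; grind
      exact ⟨x, hx, od_self hx.1, e ▸ od_self hy.1⟩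
    · obtain ⟨u, hu⟩ := Finset.nonempty_iff_ne_empty.2 h0
      obtain ⟨v, hvA, hv⟩ := exists_not_mem hlt
      have hu' : u ∈ mv A y := he ▸ hu
      have hv' : v ∉ mv A y := he ▸ hv
      simp only [mv, Finset.mem_filter, hvA, true_and, not_not] at hu hu' hv hv'
      obtain ⟨a1, a2⟩ := mv_del hx hu.2 hv
      obtain ⟨b1, b2⟩ := mv_del hy hu'.2 hv'
      have hcA := card_sd (A := A) (S := {u, v}) (by grind) (Finset.card_pair (by grind))
      obtain ⟨z, hz, o1, o2⟩ := ih _ (by omega) _ _ _ rfl a1 b1 (by omega) (by omega)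
      obtain ⟨z1, z2, z3⟩ := add_iv hu.1 hvA hz
      exact ⟨_, z3, od_ins hx.1 hz.1 hu.2 hv z1 z2 o1, od_ins hy.1 hz.1 hu'.2 hv' z1 z2 o2⟩
  · obtain ⟨u, hu, hu'⟩ : ∃ u ∈ mv A x, u ∉ mv A y := by
      by_contra hh
      push Not at hh
      exact he (Finset.eq_of_subset_of_card_le hh hc.ge)
    obtain ⟨v, hv', hv⟩ : ∃ u ∈ mv A y, u ∉ mv A x := by
      by_contra hh
      push Not at hh
      exact he (Finset.eq_of_subset_of_card_le hh hc.le).symm
    simp only [mv, Finset.mem_filter] at hu hv'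
    simp only [mv, Finset.mem_filter, hu.1, hv'.1, true_and, not_not] at hu' hv
    obtain ⟨a1, a2⟩ := mv_del hx hu.2 hv
    obtain ⟨b1, b2⟩ := mv_del hy hv'.2 hu'
    rw [Finset.pair_comm] at b1 b2
    have hcA := card_sd (A := A) (S := {u, v}) (by grind) (Finset.card_pair (by grind))
    obtain ⟨z, hz, o1, o2⟩ := ih _ (by omega) _ _ _ rfl a1 b1 (by omega) (by omega)
    obtain ⟨z1, z2, z3⟩ := add_iv hu.1 hv'.1 hz
    exact ⟨_, z3, od_ins hx.1 hz.1 hu.2 hv z1 z2 o1,
      add_comm' z u v ▸ od_ins hy.1 hz.1 hv'.2 hu' z2 z1 o2⟩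

/-- perfect matching of `A` -/
def Pf (A : Finset α) (x : α → α) : Prop := Involutive x ∧ ∀ a, a ∈ A ↔ x a ≠ a

theorem con_pf {A : Finset α} {x : α → α} (hx : Pf A x) {u v s : α} (hu : u ∈ A) (hs : s ∈ A)
    (h1 : u ≠ v) (h2 : u ≠ x v) (h3 : u ≠ s) (h4 : s ≠ v) (h5 : s ≠ x v) (h8 : x u ≠ s) :
    Pf (A \ {u, v, x v, s}) (con x u v s) := by
  have h6 := (hx.2 u).1 hu
  have h7 := (hx.2 s).1 hs
  refine ⟨con_inv hx.1 h1 h2 h3 h4 h5 h6 h7 h8, fun a => ?_⟩
  have := hx.2 a; have := hx.1 u; have := hx.1 v; have := hx.1 s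
  have := hx.2 (x u); have := hx.2 (x s)
  unfold con; grind

theorem del_pf {A : Finset α} {x : α → α} (hx : Pf A x) (u : α) :
    Pf (A \ {u, x u}) (del x u) := by
  refine ⟨del_inv hx.1 u, fun a => ?_⟩
  have := hx.2 a
  unfold del; grind

theorem main2 (j : ℕ) : ∀ (A : Finset α) (x y : α → α), A.card = 4 * j + 2 → Pf A x → Pf A y →
    ∃ z, Iv A z ∧ Od (x ∘ z) ∧ Od (y ∘ z) := by
  induction j using Nat.strong_induction_on with
  | _ j ih =>
  intro A x y hn hx hy
  by_cases he : y = x
  · exact ⟨x, ⟨hx.1, fun a ha => by have := hx.2 a; grind⟩, od_self hx.1, he ▸ od_self hy.1⟩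
  obtain ⟨v, hv⟩ := Function.ne_iff.1 he
  have x1 := hx.2 v; have y1 := hy.2 v; have x2 := hx.2 (x v); have y2 := hy.2 (y v)
  have x3 := hx.1 v; have y3 := hy.1 v
  have hvA : v ∈ A := by grind
  have h3 : ({v, x v, y v} : Finset α).card ≤ A.card := Finset.card_le_card (by grind)
  rw [Finset.card_eq_three.2 ⟨_, _, _, by grind, by grind, by grind, rfl⟩] at h3
  obtain ⟨u, huA, hu⟩ := exists_not_mem (A := A) (S := {v, x v, y v, x (y v), y (x v)})
    (lt_of_le_of_lt Finset.card_le_five (by omega))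
  have x4 := hx.1 u; have y4 := hy.1 u; have x5 := hx.2 u; have y5 := hy.2 u
  have x6 := hx.2 (y v); have y6 := hy.2 (x v)
  have a1 := con_pf hx (u := u) (v := v) (s := y v) huA (by grind) (by grind) (by grind) (by grind)
    (by grind) (by grind) (by grind)
  have b1 := con_pf hy (u := u) (v := v) (s := x v) huA (by grind) (by grind) (by grind) (by grind)
    (by grind) (by grind) (by grind)
  rw [Finset.pair_comm (y v)] at b1
  have hcA := card_sd (A := A) (S := {u, v, x v, y v}) (k := 4) (by grind) (by grind)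
  obtain ⟨z, hz, o1, o2⟩ := ih (j - 1) (by omega) _ _ _ (by omega) a1 b1
  have z1 := hz.2 u (by simp); have z2 := hz.2 v (by simp)
  have z3 := hz.2 (x v) (by simp); have z4 := hz.2 (y v) (by simp)
  have hi : Involutive (add (add z u v) (x v) (y v)) :=
    add_inv (add_inv hz.1 z1 z2) (by unfold add; grind) (by unfold add; grind)
  refine ⟨add (add z u v) (x v) (y v), ⟨hi, fun a ha => ?_⟩, ?_, ?_⟩
  · have := hz.2 a
    unfold add; grind
  · exact od_con hx.1 hi hz.1 (u := u) (v := v) (s := y v) (by grind) (by grind) (by grind)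
      (by grind) (by grind) (by grind) (by grind) (by grind) (by grind) (by unfold add; grind)
      (by unfold add; grind) z1 z2 z3 z4 (by unfold add; grind) o1
  · exact od_con hy.1 hi hz.1 (u := u) (v := v) (s := x v) (by grind) (by grind) (by grind)
      (by grind) (by grind) (by grind) (by grind) (by grind) (by grind) (by unfold add; grind)
      (by unfold add; grind) z1 z2 z4 z3 (by unfold add; grind) o2

end H76.Lf
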