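import Cfsg.Agent.H76.LfA

/-! Local fusion graphs of the symmetric groups have diameter two (S3265). -/

set_option autoImplicit false
set_option linter.unusedVariables false

namespace H76.Lf

open Function

variable {α : Type*} [DecidableEq α]

/-- one side of the three-edge step -/
theorem side {A : Finset α} {x : α → α} (hx : Pf A x) {a c d q : α} (ha : a ∈ A) (hc : c ∈ A)
    (hd : d ∈ A) (hq : q ∈ A) (h1 : c ≠ a) (h2 : c ≠ x a) (h3 : d ≠ a) (h4 : d ≠ x a) (h5 : q ≠ a)
    (h6 : q ≠ x a) (h7 : d ≠ c) (h8 : d ≠ x c) (h9 : d ≠ q) (h10 : q ≠ c) (h11 : q ≠ x c)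
    (h12 : x d ≠ q) :
    ∃ x', Pf (A \ {a, x a, d, c, x c, q}) x' ∧ ∀ z, Iv (A \ {a, x a, d, c, x c, q}) z →
      Od (x' ∘ z) → Od (x ∘ add (add (add z d c) (x c) q) a (x a)) := by
  have p1 := del_pf hx a
  have x1 := hx.1 a; have x2 := hx.1 c; have x3 := hx.1 d; have x4 := hx.1 q
  have x5 := hx.2 c; have x6 := hx.2 d; have x7 := hx.2 q
  have e1 : del x a c = x c := by unfold del; grind
  have e2 : del x a d = x d := by unfold del; grind
  have e3 : del x a q = x q := by unfold del; grind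
  have p2 := con_pf p1 (u := d) (v := c) (s := q) (by grind) (by grind) h7 (by grind) h9 h10
    (by grind) (by grind)
  have e : (A \ {a, x a}) \ {d, c, del x a c, q} = A \ {a, x a, d, c, x c, q} := by
    ext t; grind
  rw [e] at p2
  refine ⟨_, p2, fun z hz o => ?_⟩
  have z1 := hz.2 a (by simp); have z2 := hz.2 (x a) (by simp)
  have z3 := hz.2 d (by simp); have z4 := hz.2 c (by simp)
  have z5 := hz.2 (x c) (by simp); have z6 := hz.2 q (by simp)
  have hi : Involutive (add (add z d c) (x c) q) :=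
    add_inv (add_inv hz.1 z3 z4) (by unfold add; grind) (by unfold add; grind)
  rw [od_dbl hx.1 hi (by unfold add; grind) (by unfold add; grind)]
  exact od_con p1.1 hi hz.1 (u := d) (v := c) (s := q) (by grind) h7 (by grind) h9 h10 (by grind)
    (by grind) (by grind) (by grind) (by unfold add; grind) (by unfold add; grind) z3 z4
    (by grind) z6 (by unfold add; grind) o

theorem main3 (j : ℕ) (A : Finset α) (x y : α → α) (hn : A.card = 4 * j + 8) (hx : Pf A x)
    (hy : Pf A y) : ∃ z, Iv A z ∧ Od (x ∘ z) ∧ Od (y ∘ z) := by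
  by_cases hsh : ∃ a ∈ A, x a = y a
  · obtain ⟨a, ha, e⟩ := hsh
    have x1 := hx.2 a; have x2 := hx.2 (x a); have x3 := hx.1 a
    have hcA := card_sd (A := A) (S := {a, x a}) (by grind) (Finset.card_pair (by grind))
    obtain ⟨z, hz, o1, o2⟩ := main2 (j + 1) _ _ _ (by omega) (del_pf hx a) (e ▸ del_pf hy a)
    obtain ⟨z1, z2, z3⟩ := add_iv ha (by grind) hz
    refine ⟨_, z3, by rwa [od_dbl hx.1 hz.1 z1 z2], ?_⟩
    rw [e] at z2 ⊢
    rwa [od_dbl hy.1 hz.1 z1 z2]
  push Not at hsh
  obtain ⟨a, ha⟩ := Finset.card_pos.1 (show 0 < A.card by omega)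
  obtain ⟨c, hc, hc'⟩ := exists_not_mem (A := A)
    (S := {a, x a, y a, y (x a), x (y a), y (x (y a)), x (y (x a))})
    (lt_of_le_of_lt ((Finset.card_insert_le _ _).trans (Nat.succ_le_succ Finset.card_le_six))
      (by omega))
  have x1 := hx.1 a; have x2 := hx.1 c; have y1 := hy.1 a; have y2 := hy.1 c
  have x3 := hx.2 a; have x4 := hx.2 c; have y3 := hy.2 a; have y4 := hy.2 c
  have x5 := hx.2 (x a); have x6 := hx.2 (x c); have y5 := hy.2 (y a); have y6 := hy.2 (y c)
  have s1 := hsh a ha; have s2 := hsh c hc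
  have x7 := hx.1 (y a); have y7 := hy.1 (x a); have x8 := hx.1 (y c)
  simp only [Finset.mem_insert, Finset.mem_singleton, not_or] at hc'
  obtain ⟨x', p1, q1⟩ := side hx (a := a) (c := c) (d := y c) (q := y a) ha hc (by grind) (by grind)
    (by grind) (by grind) (by grind) (by grind) (by grind) (by grind) (by grind) (by grind)
    (by grind) (by grind) (by grind) (by grind)
  obtain ⟨y', p2, q2⟩ := side hy (a := c) (c := a) (d := x a) (q := x c) hc ha (by grind) (by grind)
    (by grind) (by grind) (by grind) (by grind) (by grind) (by grind) (by grind) (by grind)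
    (by grind) (by grind) (by grind) (by grind)
  have e : ({c, y c, x a, a, y a, x c} : Finset α) = {a, x a, y c, c, x c, y a} := by
    ext t; grind
  rw [e] at p2 q2
  clear e
  have hcA := card_sd (A := A) (S := {a, x a, y c, c, x c, y a}) (k := 6)
    (by simp only [Finset.insert_subset_iff, Finset.singleton_subset_iff]; grind)
    (by
      clear q1 q2 p1 p2 hsh
      repeat rw [Finset.card_insert_of_notMem
        (by simp only [Finset.mem_insert, Finset.mem_singleton]; grind)]
      rw [Finset.card_singleton])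
  obtain ⟨z, hz, o1, o2⟩ := main2 j _ _ _ (by omega) p1 p2
  have z1 := hz.2 a (by simp); have z2 := hz.2 (x a) (by simp)
  have z3 := hz.2 (y c) (by simp); have z4 := hz.2 c (by simp)
  have z5 := hz.2 (x c) (by simp); have z6 := hz.2 (y a) (by simp)
  refine ⟨_, ⟨add_inv (add_inv (add_inv hz.1 z3 z4) (by unfold add; grind) (by unfold add; grind))
    (by unfold add; grind) (by unfold add; grind), fun t ht => ?_⟩, q1 z hz o1, ?_⟩
  · have := hz.2 t
    unfold add; grind
  · have e2 : add (add (add z (y c) c) (x c) (y a)) a (x a) =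
        add (add (add z (x a) a) (y a) (x c)) c (y c) := by
      funext t; unfold add; grind
    rw [e2]; exact q2 z hz o2

variable [Fintype α]

theorem odd_of_od {σ : Equiv.Perm α} (h : Od σ) : Odd (orderOf σ) := by
  choose m hm he using h
  refine Odd.of_dvd_nat (n := ∏ a, m a) (Finset.prod_induction _ Odd (fun _ _ => Odd.mul) odd_one
    fun a _ => hm a) (orderOf_dvd_of_pow_eq_one ?_)
  ext a
  rw [Equiv.Perm.coe_pow]
  exact IsPeriodicPt.trans_dvd (he a) (Finset.dvd_prod_of_mem _ (Finset.mem_univ a))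

theorem isConj_of_odd {G : Type*} [Group G] {x z : G} (hx : x * x = 1) (hz : z * z = 1)
    (h : Odd (orderOf (x * z))) : IsConj x z := by
  obtain ⟨j, hj⟩ := h
  have h1 : x * (x * z) * x⁻¹ = (x * z)⁻¹ := by
    rw [← mul_assoc, hx, one_mul, mul_inv_rev, inv_eq_of_mul_eq_one_right hz]
  have h2 : x * (x * z) ^ j * x⁻¹ = ((x * z) ^ j)⁻¹ := by rw [← conj_pow, h1, inv_pow]
  have h3 : (x * z) ^ j * (x * z) ^ j * (x * z) = 1 := by
    rw [← pow_add, ← pow_succ, ← two_mul, ← hj, pow_orderOf_eq_one]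
  refine isConj_iff.2 ⟨(x * z) ^ j, ?_⟩
  rw [← h2]
  calc (x * z) ^ j * x * (x * (x * z) ^ j * x⁻¹) =
        (x * z) ^ j * (x * x) * (x * z) ^ j * (x * z) * (z⁻¹ * (x * x)⁻¹) := by group
    _ = z := by rw [hx, mul_one, h3, inv_one, mul_one, one_mul, inv_eq_of_mul_eq_one_right hz]

theorem exists_mid (hn : 5 ≤ Fintype.card α) {x y : Equiv.Perm α} (hx : x * x = 1)
    (hxy : IsConj x y) :
    ∃ z : Equiv.Perm α, z * z = 1 ∧ Odd (orderOf (x * z)) ∧ Odd (orderOf (y * z)) := by
  obtain ⟨g, rfl⟩ := isConj_iff.1 hxy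
  have hy : g * x * g⁻¹ * (g * x * g⁻¹) = 1 := by
    rw [show g * x * g⁻¹ * (g * x * g⁻¹) = g * (x * x) * g⁻¹ by group, hx]; group
  have hc : (g * x * g⁻¹).support.card = x.support.card := Equiv.Perm.card_support_conj
  generalize g * x * g⁻¹ = y at *
  have ix : Involutive x := fun a => by rw [← Equiv.Perm.mul_apply, hx]; rfl
  have iy : Involutive y := fun a => by rw [← Equiv.Perm.mul_apply, hy]; rfl
  suffices h : ∃ z, Iv Finset.univ z ∧ Od (x ∘ z) ∧ Od (y ∘ z) by
    obtain ⟨z, hz, o1, o2⟩ := h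
    exact ⟨hz.1.toPerm, Equiv.ext hz.1, odd_of_od o1, odd_of_od o2⟩
  by_cases hlt : x.support.card < Fintype.card α
  · exact main1 _ _ _ _ rfl ⟨ix, by simp⟩ ⟨iy, by simp⟩ hc.symm hlt
  · have h1 : x.support = Finset.univ := Finset.eq_univ_of_card _
      (le_antisymm (Finset.card_le_univ _) (not_lt.1 hlt))
    have h2 : y.support = Finset.univ := Finset.eq_univ_of_card _ (by rw [hc, h1, Finset.card_univ])
    have px : Pf Finset.univ x := ⟨ix, fun a => by rw [← h1, Equiv.Perm.mem_support]⟩
    have py : Pf Finset.univ y := ⟨iy, fun a => by rw [← h2, Equiv.Perm.mem_support]⟩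
    have hev : 2 ∣ Fintype.card α := by
      rw [← Finset.card_univ, ← h1]
      exact Equiv.Perm.two_dvd_card_support (by rw [pow_two, hx])
    by_cases h4 : Fintype.card α % 4 = 2
    · exact main2 (Fintype.card α / 4) _ _ _ (by rw [Finset.card_univ]; omega) px py
    · exact main3 (Fintype.card α / 4 - 2) _ _ _ (by rw [Finset.card_univ]; omega) px py

theorem exists_even (hn : 5 ≤ Fintype.card α) {t : Equiv.Perm α} (ht : t * t = 1) (h1 : t ≠ 1) :
    ∃ g : Equiv.Perm α, orderOf (t * (g * t * g⁻¹)) = 2 := by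
  have it : ∀ a, t (t a) = a := fun a => by rw [← Equiv.Perm.mul_apply, ht]; rfl
  obtain ⟨a, ha⟩ : ∃ a, t a ≠ a := by
    by_contra h
    push Not at h
    exact h1 (Equiv.ext h)
  by_cases hc : ∃ c, t c ≠ c ∧ c ≠ a ∧ c ≠ t a
  · obtain ⟨c, c1, c2, c3⟩ := hc
    have := it a; have := it c
    refine ⟨Equiv.swap (t a) c, orderOf_eq_prime ?_ fun e => ?_⟩
    · ext b
      have := it b
      simp only [pow_two, Equiv.Perm.mul_apply, Equiv.swap_inv, Equiv.Perm.one_apply,
        Equiv.swap_apply_def]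
      grind
    · have := congrArg (fun σ : Equiv.Perm α => σ a) e
      simp only [Equiv.Perm.mul_apply, Equiv.swap_inv, Equiv.Perm.one_apply,
        Equiv.swap_apply_def] at this
      grind
  · push Not at hc
    obtain ⟨c, -, c1⟩ := exists_not_mem (A := Finset.univ) (S := {a, t a})
      (lt_of_le_of_lt Finset.card_le_two (by rw [Finset.card_univ]; omega))
    obtain ⟨d, -, d1⟩ := exists_not_mem (A := Finset.univ) (S := {a, t a, c})
      (lt_of_le_of_lt Finset.card_le_three (by rw [Finset.card_univ]; omega))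
    have := it a; have := hc c; have := hc d
    have e : t = Equiv.swap a (t a) := by
      ext b
      have := hc b
      rw [Equiv.swap_apply_def]; grind
    obtain ⟨g, hg⟩ := isConj_iff.1 (Equiv.Perm.isConj_swap (w := a) (x := t a) (y := c) (z := d)
      ha.symm (by grind))
    rw [← e] at hg
    refine ⟨g, ?_⟩
    rw [hg]
    refine orderOf_eq_prime ?_ fun e => ?_
    · ext b
      have := it b
      simp only [pow_two, Equiv.Perm.mul_apply, Equiv.Perm.one_apply, Equiv.swap_apply_def]
      grind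
    · have := congrArg (fun σ : Equiv.Perm α => σ a) e
      simp only [Equiv.Perm.mul_apply, Equiv.Perm.one_apply, Equiv.swap_apply_def] at this
      grind

theorem result (hn : 5 ≤ Fintype.card α) (t : Equiv.Perm α) (ht : orderOf t = 2) :
    (SimpleGraph.fromRel fun x y : {x : Equiv.Perm α // IsConj t x} =>
        Odd (orderOf (x.1 * y.1))).Connected ∧
      (SimpleGraph.fromRel fun x y : {x : Equiv.Perm α // IsConj t x} =>
        Odd (orderOf (x.1 * y.1))).diam = 2 := by
  set Γ := SimpleGraph.fromRel fun x y : {x : Equiv.Perm α // IsConj t x} =>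
        Odd (orderOf (x.1 * y.1)) with hΓ
  have tt : t * t = 1 := by rw [← pow_two, ← ht, pow_orderOf_eq_one]
  have t1 : t ≠ 1 := fun e => by rw [e, orderOf_one] at ht; omega
  have sq : ∀ x : {x : Equiv.Perm α // IsConj t x}, x.1 * x.1 = 1 := fun x => by
    obtain ⟨g, hg⟩ := isConj_iff.1 x.2
    rw [← hg, show g * t * g⁻¹ * (g * t * g⁻¹) = g * (t * t) * g⁻¹ by group, tt]; group
  have one : ∀ x y : {x : Equiv.Perm α // IsConj t x}, Odd (orderOf (x.1 * y.1)) →
      Γ.edist x y ≤ 1 := fun x y h => by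
    rw [SimpleGraph.edist_le_one_iff_adj_or_eq, hΓ, SimpleGraph.fromRel_adj]
    by_cases e : x = y
    · exact Or.inr e
    · exact Or.inl ⟨e, Or.inl h⟩
  have two : ∀ x y, Γ.edist x y ≤ 2 := fun x y => by
    obtain ⟨z, hz, o1, o2⟩ := exists_mid hn (sq x) (x.2.symm.trans y.2)
    let z' : {x : Equiv.Perm α // IsConj t x} := ⟨z, x.2.trans (isConj_of_odd (sq x) hz o1)⟩
    calc Γ.edist x y ≤ Γ.edist x z' + Γ.edist z' y := SimpleGraph.edist_triangle
      _ ≤ 1 + 1 := add_le_add (one x z' o1) (SimpleGraph.edist_comm ▸ one y z' o2)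
      _ = 2 := one_add_one_eq_two
  have hne : Nonempty {x : Equiv.Perm α // IsConj t x} := ⟨⟨t, IsConj.refl t⟩⟩
  refine ⟨⟨fun x y => SimpleGraph.edist_ne_top_iff_reachable.1
    (ne_top_of_le_ne_top (by simp) (two x y))⟩, ?_⟩
  have hd : Γ.ediam = 2 := by
    refine le_antisymm (SimpleGraph.ediam_le_of_edist_le two) ?_
    obtain ⟨g, hg⟩ := exists_even hn tt t1
    refine le_trans ?_ (SimpleGraph.edist_le_ediam (u := ⟨t, IsConj.refl t⟩)
      (v := ⟨g * t * g⁻¹, isConj_iff.2 ⟨g, rfl⟩⟩))
    by_contra hlt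
    have := SimpleGraph.edist_le_one_iff_adj_or_eq.1 (Order.le_of_lt_add_one (x := Γ.edist _ _)
      (y := 1) (by rw [one_add_one_eq_two]; exact not_le.1 hlt))
    rw [hΓ, SimpleGraph.fromRel_adj] at this
    rcases this with ⟨-, h | h⟩ | h
    · simp only [hg] at h; exact absurd h (by decide)
    · simp only at h
      rw [SemiconjBy.orderOf_eq t (x := g * t * g⁻¹ * t) (y := t * (g * t * g⁻¹))
        (mul_assoc _ _ _).symm, hg] at h
      exact absurd h (by decide)
    · have e : t = g * t * g⁻¹ := congrArg Subtype.val h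
      rw [← e, tt, orderOf_one] at hg
      omega
  rw [SimpleGraph.diam, hd]; rfl

end H76.Lf
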