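import Cfsg.Agent.H76.NilSnA
import Cfsg.Agent.H3.NonCyclic

/-! The orders of the nilpotent subgroups of symmetric and alternating groups. -/

set_option autoImplicit false

namespace H76.NS
open Equiv Equiv.Perm Subgroup MulAction
open scoped Nat

theorem A_mono {x y : ℕ} (hx : 0 < x) (h : x ≤ y) : A x ≤ A y := by
  obtain ⟨d, rfl⟩ := Nat.exists_eq_add_of_le h
  rcases Nat.eq_zero_or_pos d with rfl | hd
  · exact le_rfl
  · exact (Nat.le_mul_of_pos_right _ (A_pos d)).trans (A_mul_le x d hx hd)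

/-- restriction to an invariant subset -/
def res {G Ω : Type*} [Group G] (θ : G →* Perm Ω) (p : Ω → Prop) (h : ∀ g x, p (θ g x) ↔ p x) :
    G →* Perm {x // p x} where
  toFun g := (θ g).subtypePerm (h g)
  map_one' := by ext; simp
  map_mul' a b := by ext x; exact congrArg (fun f : Perm Ω => f x) (map_mul θ a b)

theorem res_congr {G Ω : Type*} [Group G] (θ : G →* Perm Ω) (p : Ω → Prop) [DecidablePred p]
    (h : ∀ g x, p (θ g x) ↔ p x) (g : G) :
    θ g = (res θ p h g).subtypeCongr (res θ (fun x => ¬ p x) (fun g x => not_congr (h g x)) g) := by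
  ext x
  by_cases hx : p x
  · rw [subtypeCongr.left_apply _ _ hx]; rfl
  · rw [subtypeCongr.right_apply _ _ hx]; rfl

/-- the bound -/
def Bd (n : ℕ) : Prop :=
  ∀ (Ω : Type) [Fintype Ω] [DecidableEq Ω] (G : Type) [Group G] [Group.IsNilpotent G]
    (θ : G →* Perm Ω), Function.Injective θ → Fintype.card Ω = n →
    Nat.card G ≤ B n ∧ ((∀ g, sign (θ g) = 1) → Nat.card G ≤ A n)

variable {Ω : Type} [Fintype Ω] [DecidableEq Ω] {G : Type} [Group G] {θ : G →* Perm Ω}

theorem card_dvd (hθ : Function.Injective θ) : Nat.card G ∣ (Fintype.card Ω)! := by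
  rw [← Fintype.card_perm, ← Nat.card_eq_fintype_card]; exact card_dvd_of_injective θ hθ

theorem two_card_dvd [Nontrivial Ω] (hθ : Function.Injective θ) (h : ∀ g, sign (θ g) = 1) :
    2 * Nat.card G ∣ (Fintype.card Ω)! := by
  rw [← Fintype.card_perm, ← Nat.card_eq_fintype_card, ← two_mul_nat_card_alternatingGroup]
  exact mul_dvd_mul_left 2 (card_dvd_of_injective (θ.codRestrict (alternatingGroup Ω) h)
    fun a b e => hθ (congrArg Subtype.val e))

theorem bd_pgroup {p : ℕ} (hp : p.Prime) (hG : IsPGroup p G) (hθ : Function.Injective θ) :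
    Nat.card G ≤ B (Fintype.card Ω) ∧ ((∀ g, sign (θ g) = 1) → Nat.card G ≤ A (Fintype.card Ω)) := by
  have := Fact.mk hp
  have := Finite.of_injective θ hθ
  obtain ⟨k, hk⟩ := IsPGroup.iff_card.1 hG
  have hd := card_dvd hθ
  rw [hk] at hd ⊢
  by_cases h2 : p = 2
  · subst h2
    refine ⟨(Nat.le_of_dvd (W_pos _) (pow_dvd_W hd)).trans (W_le_B _), fun h => ?_⟩
    rcases subsingleton_or_nontrivial Ω with hs | hs
    · have : Subsingleton G := hθ.subsingleton
      rw [← hk, Nat.card_unique]; exact A_pos _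
    · have := two_card_dvd hθ h
      rw [hk, ← pow_succ'] at this
      exact le_A (pow_succ' 2 k ▸ (Nat.le_of_dvd (W_pos _) (pow_dvd_W this)).trans (W_le_B _))
  · exact ⟨(odd_pow_le_A hp h2 hd).trans (A_le_B _), fun _ => odd_pow_le_A hp h2 hd⟩

theorem bd_split [Group.IsNilpotent G] (ih : ∀ m < Fintype.card Ω, Bd m) (hθ : Function.Injective θ)
    {p : Ω → Prop} (h : ∀ g x, p (θ g x) ↔ p x) {a b : Ω} (ha : p a) (hb : ¬ p b) :
    Nat.card G ≤ B (Fintype.card Ω) ∧ ((∀ g, sign (θ g) = 1) → Nat.card G ≤ A (Fintype.card Ω)) := by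
  classical
  let f₁ := res θ p h
  let f₂ := res θ (fun x => ¬ p x) (fun g x => not_congr (h g x))
  have hc : Fintype.card {x // p x} + Fintype.card {x // ¬ p x} = Fintype.card Ω := by
    rw [Fintype.card_subtype_compl, Nat.add_sub_cancel' (Fintype.card_subtype_le p)]
  have p1 : 0 < Fintype.card {x // p x} := Fintype.card_pos_iff.2 ⟨⟨a, ha⟩⟩
  have p2 : 0 < Fintype.card {x // ¬ p x} := Fintype.card_pos_iff.2 ⟨⟨b, hb⟩⟩
  have := Group.nilpotent_of_surjective _ f₁.rangeRestrict_surjective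
  have := Group.nilpotent_of_surjective _ f₂.rangeRestrict_surjective
  obtain ⟨b1, a1⟩ := ih _ (by omega) _ f₁.range f₁.range.subtype (subtype_injective _) rfl
  obtain ⟨b2, a2⟩ := ih _ (by omega) _ f₂.range f₂.range.subtype (subtype_injective _) rfl
  let ψ := f₁.rangeRestrict.prod f₂.rangeRestrict
  have e : ∀ g, θ g = (ψ g).1.1.subtypeCongr (ψ g).2.1 := res_congr θ p h
  have hψ : Function.Injective ψ := fun x y k => hθ (by rw [e, e, k])
  have c1 := ψ.range.card_mul_index
  rw [← Nat.card_congr (MonoidHom.ofInjective hψ).toEquiv, Nat.card_prod] at c1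
  have c2 : Nat.card G ≤ Nat.card f₁.range * Nat.card f₂.range :=
    c1 ▸ Nat.le_mul_of_pos_right _ (Nat.pos_of_ne_zero index_ne_zero_of_finite)
  have c3 := (Nat.mul_le_mul b1 b2).trans (B_mul_le _ _)
  rw [← hc]
  refine ⟨c2.trans c3, fun hs => ?_⟩
  by_cases k : ∀ g, sign (f₁ g) = 1
  · refine c2.trans ((Nat.mul_le_mul (a1 ?_) (a2 ?_)).trans (A_mul_le _ _ p1 p2))
    · rintro ⟨_, g, rfl⟩; exact k g
    · rintro ⟨_, g, rfl⟩
      have := hs g
      rw [e, sign_subtypeCongr, show sign (ψ g).1.1 = 1 from k g, one_mul] at this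
      exact this
  · push Not at k
    obtain ⟨g, hg⟩ := k
    have i1 : ψ.range.index ≠ 1 := fun i => by
      obtain ⟨g', k⟩ := (index_eq_one.1 i).ge (mem_top (⟨⟨_, g, rfl⟩, 1⟩ : f₁.range × f₂.range))
      have := hs g'
      rw [e, k, sign_subtypeCongr] at this
      exact hg (by simpa using this)
    have i2 : ψ.range.index ≠ 0 := index_ne_zero_of_finite
    refine le_A (le_trans ?_ c3)
    rw [← c1, mul_comm]
    exact Nat.mul_le_mul_left _ (by omega)

omit [Fintype Ω] [DecidableEq Ω] in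
theorem faith [MulAction G Ω] [FaithfulSMul G Ω] [IsPretransitive G Ω] {P K : Subgroup G}
    (hc : ∀ u ∈ P, ∀ k ∈ K, k * u = u * k) (hg : ∀ g : G, ∃ k ∈ K, ∃ u ∈ P, g = k * u) (a : Ω) :
    Function.Injective (toPermHom P (orbit P a)) := by
  refine (injective_iff_map_eq_one _).2 fun u hu => Subtype.ext (eq_of_smul_eq_smul (α := Ω) fun x => ?_)
  obtain ⟨g, rfl⟩ := exists_smul_eq G a x
  obtain ⟨k, hk, v, hv, rfl⟩ := hg g
  have : (u : G) • v • a = v • a :=
    congrArg Subtype.val (DFunLike.congr_fun hu (⟨v • a, ⟨v, hv⟩, rfl⟩ : orbit P a))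
  rw [← mul_smul, ← mul_assoc, ← hc u u.2 k hk, mul_assoc, mul_smul, mul_smul, this, ← mul_smul]
  simp

theorem bd (n : ℕ) : Bd n := by
  induction n using Nat.strong_induction_on with
  | _ n ih =>
  intro Ω _ _ G _ _ θ hθ hn
  subst hn
  classical
  have := Finite.of_injective θ hθ
  by_cases h1 : ∃ p : ℕ, p.Prime ∧ IsPGroup p G
  · obtain ⟨p, hp, hG⟩ := h1
    exact bd_pgroup hp hG hθ
  let _ : MulAction G Ω := MulAction.compHom Ω θ
  have : FaithfulSMul G Ω := ⟨fun h => hθ (Equiv.ext h)⟩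
  by_cases h2 : ∃ a b : Ω, b ∉ orbit G a
  · obtain ⟨a, b, hb⟩ := h2
    exact bd_split ih hθ (p := (· ∈ orbit G a)) (fun g x => by
      rw [← orbit_eq_iff, ← orbit_eq_iff, ← orbit_smul g x]; rfl)
      (mem_orbit_self a) hb
  push Not at h2
  have : IsPretransitive G Ω := ⟨fun a b => h2 a b⟩
  obtain ⟨p, hp, hd⟩ := Nat.exists_prime_and_dvd (n := Nat.card G) fun e =>
    h1 ⟨2, Nat.prime_two, IsPGroup.of_card (n := 0) e⟩
  have := Fact.mk hp
  obtain ⟨P⟩ : Nonempty (Sylow p G) := inferInstance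
  obtain ⟨K, nK, hK, hc, hpK⟩ := H3.exists_isComplement'_sylow_of_nilpotent P
  have P1 : (P : Subgroup G) ≠ ⊥ := P.ne_bot_of_dvd_card hd
  have K1 : K ≠ ⊥ := fun e => h1 ⟨p, hp, by
    have := hK.card_mul_card
    rw [e, card_bot, mul_one] at this
    obtain ⟨k, hk⟩ := IsPGroup.iff_card.1 P.isPGroup'
    exact IsPGroup.of_card (this.symm.trans hk)⟩
  obtain ⟨a⟩ : Nonempty Ω := by
    by_contra e
    rw [not_nonempty_iff] at e
    have : Subsingleton G := hθ.subsingleton
    exact K1 (Subsingleton.elim _ _)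
  have key : ∀ (X : Subgroup G) [X.Normal], X ≠ ⊥ → Function.Injective (toPermHom X (orbit X a)) →
      2 ≤ (orbit X a).ncard ∧ (orbit X a).ncard ∣ Fintype.card Ω ∧ (orbit X a).ncard ∣ Nat.card X ∧
        ((orbit X a).ncard < Fintype.card Ω → Nat.card X ≤ B (orbit X a).ncard) := fun X _ X1 f => by
    have := Fintype.ofFinite (orbit X a)
    have e : Fintype.card (orbit X a) = (orbit X a).ncard := by
      rw [← Nat.card_eq_fintype_card, Nat.card_coe_set_eq]
    refine ⟨?_, Nat.card_eq_fintype_card (α := Ω) ▸ (IsBlock.orbit_of_normal a).ncard_dvd_card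
      ⟨a, mem_orbit_self a⟩, index_stabilizer X a ▸ index_dvd_card _, fun l => (ih _ l _ X _ f e).1⟩
    by_contra l
    have := Fintype.card_le_one_iff_subsingleton.1 (show Fintype.card (orbit X a) ≤ 1 by omega)
    have : Subsingleton X := f.subsingleton
    exact X1 (eq_bot_of_subsingleton X)
  have g1 : ∀ g : G, ∃ u ∈ (P : Subgroup G), ∃ k ∈ K, g = u * k := fun g => by
    obtain ⟨⟨u, k⟩, e⟩ := hK.2 g
    exact ⟨u, u.2, k, k.2, e.symm⟩
  obtain ⟨x1, x2, x3, x4⟩ := key P P1 (faith (K := K) (fun u hu k hk => hc hu k hk) (fun g => by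
    obtain ⟨u, hu, k, hk, e⟩ := g1 g
    exact ⟨k, hk, u, hu, e.trans (hc hu k hk).symm⟩) a)
  obtain ⟨y1, y2, y3, y4⟩ := key K K1 (faith (K := P) (fun k hk u hu => (hc hu k hk).symm) g1 a)
  generalize (orbit (P : Subgroup G) a).ncard = x at *
  generalize (orbit K a).ncard = y at *
  have co : x.Coprime y := by
    obtain ⟨k, hk⟩ := IsPGroup.iff_card.1 P.isPGroup'
    exact ((Nat.Coprime.pow_left k ((Nat.Prime.coprime_iff_not_dvd hp).2 hpK)).coprime_dvd_left
      (hk ▸ x3)).coprime_dvd_right y3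
  have le := Nat.le_of_dvd (Fintype.card_pos_iff.2 ⟨a⟩) (co.mul_dvd_of_dvd_of_dvd x2 y2)
  have fin : Nat.card G ≤ A (Fintype.card Ω) := by
    rw [← hK.card_mul_card]
    exact ((Nat.mul_le_mul (x4 (by nlinarith)) (y4 (by nlinarith))).trans (B_mul_le_A x1 y1 co)).trans
      (A_mono (by positivity) le)
  exact ⟨fin.trans (A_le_B _), fun _ => fin⟩

theorem sym_le {n : ℕ} (N : Subgroup (Perm (Fin n))) (hN : Group.IsNilpotent N) : Nat.card N ≤ B n :=
  (bd n _ N N.subtype (subtype_injective _) (Fintype.card_fin n)).1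

theorem alt_le {n : ℕ} (N : Subgroup (alternatingGroup (Fin n))) (hN : Group.IsNilpotent N) :
    Nat.card N ≤ A n :=
  (bd n _ N ((alternatingGroup (Fin n)).subtype.comp N.subtype)
    ((subtype_injective _).comp (subtype_injective _)) (Fintype.card_fin n)).2 fun g => g.1.2

theorem card_sylow_sym {n : ℕ} (P : Sylow 2 (Perm (Fin n))) : Nat.card P = W n := by
  rw [P.card_eq_multiplicity, W_eq, Nat.card_perm, Nat.card_eq_fintype_card, Fintype.card_fin,
    Nat.factorization_def _ Nat.prime_two]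

theorem card_sylow_alt {n : ℕ} (hn : 2 ≤ n) (P : Sylow 2 (alternatingGroup (Fin n))) :
    2 * Nat.card P = W n := by
  have : Nontrivial (Fin n) := Fin.nontrivial_iff_two_le.2 hn
  have e := two_mul_nat_card_alternatingGroup (α := Fin n)
  rw [Nat.card_perm, Nat.card_eq_fintype_card (α := Fin n), Fintype.card_fin] at e
  rw [P.card_eq_multiplicity, W_eq, ← e, padicValNat.mul two_ne_zero Nat.card_pos.ne',
    padicValNat.self one_lt_two, Nat.factorization_def _ Nat.prime_two, pow_add, pow_one]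

end H76.NS
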