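import Cfsg.Agent.Base

/-! Arithmetic for the largest nilpotent subgroups of symmetric and alternating groups. -/

set_option autoImplicit false

namespace H76.NS
open Nat

/-- the 2-part of `n !` -/
def W (n : ℕ) : ℕ := Nat.gcd n ! (2 ^ n)

theorem v_le (p n : ℕ) [hp : Fact p.Prime] : (p - 1) * padicValNat p n ! ≤ n := by
  rw [sub_one_mul_padicValNat_factorial]; omega

theorem W_eq (n : ℕ) : W n = 2 ^ padicValNat 2 n ! := by
  apply Nat.dvd_antisymm
  · obtain ⟨j, -, hj⟩ := (Nat.dvd_prime_pow Nat.prime_two).1 (Nat.gcd_dvd_right n ! (2 ^ n))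
    have h : 2 ^ j ∣ n ! := hj ▸ Nat.gcd_dvd_left _ _
    rw [W, hj]
    exact pow_dvd_pow _ ((padicValNat_dvd_iff_le (factorial_ne_zero n)).1 h)
  · refine Nat.dvd_gcd pow_padicValNat_dvd (pow_dvd_pow _ ?_)
    have := v_le 2 n
    omega

theorem W_pos (n : ℕ) : 0 < W n := by rw [W_eq]; positivity

theorem pow_dvd_W {n k : ℕ} (h : 2 ^ k ∣ n !) : 2 ^ k ∣ W n := by
  rw [W_eq]; exact pow_dvd_pow _ ((padicValNat_dvd_iff_le (factorial_ne_zero n)).1 h)

theorem W_dvd (n : ℕ) : W n ∣ n ! := Nat.gcd_dvd_left _ _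

theorem W_mul_dvd (x y : ℕ) : W x * W y ∣ W (x + y) := by
  rw [W_eq x, W_eq y, ← pow_add]
  apply pow_dvd_W
  rw [pow_add, ← W_eq, ← W_eq]
  exact (mul_dvd_mul (W_dvd x) (W_dvd y)).trans (factorial_mul_factorial_dvd_factorial_add x y)

theorem W_mul_le (x y : ℕ) : W x * W y ≤ W (x + y) := le_of_dvd (W_pos _) (W_mul_dvd x y)

theorem W_mono {x y : ℕ} (h : x ≤ y) : W x ≤ W y := by
  obtain ⟨d, rfl⟩ := Nat.exists_eq_add_of_le h
  exact (Nat.le_mul_of_pos_right _ (W_pos d)).trans (W_mul_le x d)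

theorem W_succ (n : ℕ) : W (n + 1) = 2 ^ padicValNat 2 (n + 1) * W n := by
  rw [W_eq, W_eq, factorial_succ, padicValNat.mul (by omega) (factorial_ne_zero n), pow_add]

theorem W_odd {n : ℕ} (h : n % 2 = 0) : W (n + 1) = W n := by
  rw [W_succ, padicValNat.eq_zero_of_not_dvd (by omega)]; simp

theorem W_two {n : ℕ} (h : n % 4 = 1) : W (n + 1) = 2 * W n := by
  obtain ⟨k, hk⟩ : ∃ k, n + 1 = 2 * (2 * k + 1) := ⟨n / 4, by omega⟩
  rw [W_succ, hk, padicValNat.mul (by omega) (by omega), padicValNat.self (by omega),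
    padicValNat.eq_zero_of_not_dvd (by omega)]
  simp

theorem W1 (k : ℕ) : W (4 * k + 1) = W (4 * k) := W_odd (by omega)
theorem W2 (k : ℕ) : W (4 * k + 2) = 2 * W (4 * k) := by
  rw [← W1]; exact W_two (n := 4 * k + 1) (by omega)
theorem W3 (k : ℕ) : W (4 * k + 3) = 2 * W (4 * k) := by
  rw [← W2]; exact W_odd (n := 4 * k + 2) (by omega)
theorem W4 (k : ℕ) : 8 * W (4 * k) ≤ W (4 * (k + 1)) := by
  have := W_mul_le (4 * k) 4
  have h4 : W 4 = 8 := by decide
  rw [h4] at this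
  rw [show 4 * (k + 1) = 4 * k + 4 by ring]; omega

/-- correction factor -/
def c (i : ℕ) : ℕ := if i = 3 then 3 else if i = 2 then 2 else 1

/-- the largest order of a nilpotent subgroup of `S_n` -/
def B (n : ℕ) : ℕ := W (4 * (n / 4)) * c (n % 4)

/-- exceptional values for `A_n` -/
def e (n : ℕ) : ℕ :=
  if n = 3 then 3 else if n = 5 then 5 else if n = 6 then 9 else if n = 9 then 81 else 1

/-- the largest order of a nilpotent subgroup of `A_n` -/
def A (n : ℕ) : ℕ := max (B n / 2) (e n)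

theorem B_form (k i : ℕ) (hi : i < 4) : B (4 * k + i) = W (4 * k) * c i := by
  rw [B, show (4 * k + i) / 4 = k by omega, show (4 * k + i) % 4 = i by omega]

theorem c_pos (i : ℕ) : 0 < c i := by unfold c; split_ifs <;> omega

theorem B_pos (n : ℕ) : 0 < B n := Nat.mul_pos (W_pos _) (c_pos _)

theorem B_eq_W {n : ℕ} (h : n % 4 ≠ 3) : B n = W n := by
  obtain ⟨k, i, hi, rfl⟩ : ∃ k i, i < 4 ∧ n = 4 * k + i := ⟨n / 4, n % 4, by omega, by omega⟩
  rw [B_form k i hi]
  interval_cases i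
  · simp [c]
  · simp [c, W1]
  · rw [W2, mul_comm]; rfl
  · omega

theorem B_three (k : ℕ) : B (4 * k + 3) = 3 * W (4 * k) := by
  rw [B_form k 3 (by omega)]; simp [c, mul_comm]

theorem W_le_B (n : ℕ) : W n ≤ B n := by
  by_cases h : n % 4 = 3
  · obtain ⟨k, rfl⟩ : ∃ k, n = 4 * k + 3 := ⟨n / 4, by omega⟩
    rw [B_three, W3]; omega
  · rw [B_eq_W h]

theorem B_mul_le (x y : ℕ) : B x * B y ≤ B (x + y) := by
  obtain ⟨a, i, hi, rfl⟩ : ∃ k i, i < 4 ∧ x = 4 * k + i := ⟨x / 4, x % 4, by omega, by omega⟩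
  obtain ⟨b, j, hj, rfl⟩ : ∃ k i, i < 4 ∧ y = 4 * k + i := ⟨y / 4, y % 4, by omega, by omega⟩
  rw [B_form a i hi, B_form b j hj]
  have h1 := W_mul_le (4 * a) (4 * b)
  rw [← mul_add] at h1
  have h2 := W4 (a + b)
  have e1 : W (4 * a) * c i * (W (4 * b) * c j) = W (4 * a) * W (4 * b) * (c i * c j) := by ring
  rw [e1]
  by_cases h : i + j < 4
  · rw [show 4 * a + i + (4 * b + j) = 4 * (a + b) + (i + j) by ring, B_form _ _ h]
    refine Nat.mul_le_mul h1 ?_
    interval_cases i <;> interval_cases j <;> first | omega | decide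
  · rw [show 4 * a + i + (4 * b + j) = 4 * (a + b + 1) + (i + j - 4) by omega,
      B_form _ _ (by omega)]
    have h3 : c i * c j ≤ 8 * c (i + j - 4) := by
      interval_cases i <;> interval_cases j <;> first | omega | decide
    calc W (4 * a) * W (4 * b) * (c i * c j) ≤ W (4 * (a + b)) * (8 * c (i + j - 4)) :=
          Nat.mul_le_mul h1 h3
      _ = 8 * W (4 * (a + b)) * c (i + j - 4) := by ring
      _ ≤ _ := Nat.mul_le_mul_right _ h2

theorem B_mono {x y : ℕ} (h : x ≤ y) : B x ≤ B y := by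
  obtain ⟨d, rfl⟩ := Nat.exists_eq_add_of_le h
  exact (Nat.le_mul_of_pos_right _ (B_pos d)).trans (B_mul_le x d)

theorem e_le_B (n : ℕ) : e n ≤ B n := by
  unfold e
  split_ifs with h1 h2 h3 h4
  · subst h1; decide +kernel
  · subst h2; decide +kernel
  · subst h3; decide +kernel
  · subst h4; decide +kernel
  · exact B_pos n

theorem A_le_B (n : ℕ) : A n ≤ B n := max_le (Nat.div_le_self _ _) (e_le_B n)

theorem le_A {n m : ℕ} (h : 2 * m ≤ B n) : m ≤ A n :=
  le_max_of_le_left (by omega)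

theorem A_pos (n : ℕ) : 0 < A n := by
  refine lt_max_of_lt_right ?_
  unfold e; split_ifs <;> omega

theorem A_big {n : ℕ} (h : 10 ≤ n) : 2 * A n ≤ B n := by
  have h1 : e n = 1 := by unfold e; split_ifs <;> omega
  have h2 : B 2 ≤ B n := B_mono (by omega)
  have h3 : B 2 = 2 := by decide +kernel
  rw [A, h1]
  rcases le_total (B n / 2) 1 with h | h
  · rw [max_eq_right h]; omega
  · rw [max_eq_left h]; omega

theorem A_mul_le (x y : ℕ) (hx : 0 < x) (hy : 0 < y) : A x * A y ≤ A (x + y) := by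
  by_cases h1 : 10 ≤ x
  · apply le_A
    calc 2 * (A x * A y) = 2 * A x * A y := by ring
      _ ≤ B x * B y := Nat.mul_le_mul (A_big h1) (A_le_B y)
      _ ≤ _ := B_mul_le x y
  by_cases h2 : 10 ≤ y
  · apply le_A
    calc 2 * (A x * A y) = A x * (2 * A y) := by ring
      _ ≤ B x * B y := Nat.mul_le_mul (A_le_B x) (A_big h2)
      _ ≤ _ := B_mul_le x y
  have key : ∀ x < 10, ∀ y < 10, 0 < x → 0 < y → A x * A y ≤ A (x + y) := by decide +kernel
  exact key x (by omega) y (by omega) hx hy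

theorem three_pow {n : ℕ} (h : 16 ≤ n) : 4 * 3 ^ n ≤ B n ^ 2 := by
  induction n using Nat.strong_induction_on with
  | _ n ih =>
    by_cases h24 : n < 24
    · have key : ∀ n < 24, 16 ≤ n → 4 * 3 ^ n ≤ B n ^ 2 := by decide +kernel
      exact key n h24 h
    · obtain ⟨m, rfl⟩ : ∃ m, n = m + 8 := ⟨n - 8, by omega⟩
      have h1 := ih m (by omega) (by omega)
      have h2 := B_mul_le m 8
      have h3 : B 8 = 128 := by decide +kernel
      rw [h3] at h2
      calc 4 * 3 ^ (m + 8) = 4 * 3 ^ m * 3 ^ 8 := by ring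
        _ ≤ B m ^ 2 * 128 ^ 2 := Nat.mul_le_mul h1 (by norm_num)
        _ = (B m * 128) ^ 2 := by ring
        _ ≤ _ := Nat.pow_le_pow_left h2 2

theorem sq_le_three_pow {p : ℕ} (h : 3 ≤ p) : p ^ 2 ≤ 3 ^ (p - 1) := by
  induction p, h using Nat.le_induction with
  | base => norm_num
  | succ p hp ih =>
    obtain ⟨q, rfl⟩ : ∃ q, p = q + 1 := ⟨p - 1, by omega⟩
    simp only [Nat.add_sub_cancel] at ih ⊢
    rw [pow_succ 3 q]
    nlinarith

theorem odd_pow_le_A {p m n : ℕ} (hp : p.Prime) (h2 : p ≠ 2) (h : p ^ m ∣ n !) : p ^ m ≤ A n := by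
  have := Fact.mk hp
  have h3 : 3 ≤ p := by have := hp.two_le; omega
  have hm : (p - 1) * m ≤ n :=
    (Nat.mul_le_mul_left _ ((padicValNat_dvd_iff_le (factorial_ne_zero n)).1 h)).trans (v_le p n)
  by_cases hn : 16 ≤ n
  · apply le_A
    have h1 : (2 * p ^ m) ^ 2 ≤ B n ^ 2 :=
      calc (2 * p ^ m) ^ 2 = 4 * (p ^ 2) ^ m := by ring
        _ ≤ 4 * (3 ^ (p - 1)) ^ m :=
          Nat.mul_le_mul_left _ (Nat.pow_le_pow_left (sq_le_three_pow h3) m)
        _ ≤ 4 * 3 ^ n := by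
          rw [← pow_mul]; exact Nat.mul_le_mul_left _ (Nat.pow_le_pow_right (by omega) hm)
        _ ≤ _ := three_pow hn
    exact (Nat.pow_le_pow_iff_left (by omega)).1 h1
  rcases Nat.eq_zero_or_pos m with rfl | hm0
  · exact A_pos n
  have hpn : p ≤ n := (hp.dvd_factorial).1 ((dvd_pow_self p hm0.ne').trans h)
  have hmn : m ≤ n := le_trans (Nat.le_mul_of_pos_left m (by omega)) hm
  have hd : p ^ m ≤ Nat.gcd n ! (p ^ n) :=
    le_of_dvd (Nat.gcd_pos_of_pos_left _ (factorial_pos n))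
      (Nat.dvd_gcd h (pow_dvd_pow _ hmn))
  refine hd.trans ?_
  have key : ∀ n < 16, ∀ p ∈ [3, 5, 7, 11, 13], Nat.gcd n ! (p ^ n) ≤ A n := by decide +kernel
  refine key n (by omega) p ?_
  have : p < 16 := by omega
  interval_cases p <;> first | decide | (exfalso; revert hp; norm_num)

theorem B_mul_le_A {x y : ℕ} (hx : 2 ≤ x) (hy : 2 ≤ y) (h : x.Coprime y) :
    B x * B y ≤ A (x * y) := by
  by_cases h1 : x + y + 2 ≤ x * y
  · apply le_A
    have h2 := B_mul_le (x + y) 2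
    have h3 : B 2 = 2 := by decide +kernel
    have h4 := B_mul_le x y
    have h5 := B_mono h1
    rw [h3] at h2
    omega
  · have hx3 : x ≤ 3 := by
      by_contra hc
      rcases Nat.lt_or_ge 2 y with h' | h'
      · nlinarith
      · obtain rfl : y = 2 := by omega
        obtain rfl : x = 4 := by omega
        revert h; decide
    have hy3 : y ≤ 3 := by
      by_contra hc
      rcases Nat.lt_or_ge 2 x with h' | h'
      · nlinarith
      · obtain rfl : x = 2 := by omega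
        obtain rfl : y = 4 := by omega
        revert h; decide
    interval_cases x <;> interval_cases y <;> decide +kernel

end H76.NS
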