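import Cfsg.Agent.H76.NilSn
import Cfsg.Agent.H20.CN
import Cfsg.Agent.H98.Sylow

/-! The largest nilpotent subgroups of `S_n` and `A_n` for `n ≡ 3 (mod 4)`. -/

set_option autoImplicit false

namespace H76.NS
open Equiv Equiv.Perm Subgroup H98
open scoped Nat

section
variable {G : Type*} [Group G] [Finite G] {T T' N : Subgroup G} {c c' : G} {e : ℕ}

theorem sup_facts (hT : IsPGroup 2 T) (oc : orderOf c = 3) (hc : T ≤ centralizer {c}) :
    Group.IsNilpotent (T ⊔ zpowers c : Subgroup G) ∧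
      Nat.card (T ⊔ zpowers c : Subgroup G) = 3 * Nat.card T := by
  have : Fact (Nat.Prime 2) := ⟨Nat.prime_two⟩
  have cm : ∀ (a : T) (b : zpowers c), Commute (T.subtype a) ((zpowers c).subtype b) := by
    rintro a ⟨_, i, rfl⟩
    exact Commute.zpow_right (mem_centralizer_singleton_iff.1 (hc a.2)) i
  obtain ⟨k, hk⟩ := IsPGroup.iff_card.1 hT
  have inj := (MonoidHom.noncommCoprod_injective _ _ cm).2 ⟨subtype_injective _, subtype_injective _, by
    rw [range_subtype, range_subtype]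
    exact disjoint_of_coprime_natCard (by
      rw [hk, Nat.card_zpowers, oc]; exact Nat.Coprime.pow_left k (by decide))⟩
  have e := MonoidHom.ofInjective inj
  rw [MonoidHom.noncommCoprod_range, range_subtype, range_subtype] at e
  have := hT.isNilpotent
  have : Fact (Nat.Prime 3) := ⟨Nat.prime_three⟩
  have := (isPGroup_zpowers (p := 3) (k := 1) (x := c) (by rw [pow_one, ← oc, pow_orderOf_eq_one])).isNilpotent
  exact ⟨Group.nilpotent_of_mulEquiv e, by
    rw [← Nat.card_congr e.toEquiv, Nat.card_prod, Nat.card_zpowers, oc, mul_comm]⟩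

theorem nil_struct (hN : Group.IsNilpotent N) (h : Nat.card N = 3 * 2 ^ e) :
    ∃ (c : G) (T : Subgroup G), orderOf c = 3 ∧ IsPGroup 2 T ∧ Nat.card T = 2 ^ e ∧
      T ≤ centralizer {c} ∧ N = T ⊔ zpowers c := by
  have : Fact (Nat.Prime 2) := ⟨Nat.prime_two⟩
  have : Fact (Nat.Prime 3) := ⟨Nat.prime_three⟩
  obtain ⟨c, hc, oc, cc⟩ := H20.exists_center_prime_of_nil hN (p := 3) (h ▸ dvd_mul_right _ _)
  obtain ⟨T, hT⟩ := exists_isSyl 2 N
  have cT : Nat.card T = 2 ^ e := by
    rw [hT.card_eq, h, Nat.factorization_mul (by norm_num) (by positivity), Nat.prime_two.factorization_pow]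
    simp [Nat.prime_three.factorization]
  have hc' : T ≤ centralizer {c} := fun t ht => mem_centralizer_singleton_iff.2 (cc t (hT.le ht))
  exact ⟨c, T, oc, hT.isPGroup, cT, hc', (eq_of_le_of_card_ge (sup_le hT.le (zpowers_le.2 hc))
    (by rw [(sup_facts hT.isPGroup oc hc').2, cT, h])).symm⟩

theorem conj_of (hb : ∀ N : Subgroup G, Group.IsNilpotent N → Nat.card N ≤ 3 * 2 ^ e)
    (oc : orderOf c' = 3) (h1 : IsPGroup 2 T) (h2 : Nat.card T = 2 ^ e) (h3 : T ≤ centralizer {c})
    (k1 : IsPGroup 2 T') (k2 : Nat.card T' = 2 ^ e) (k3 : T' ≤ centralizer {c'}) (h : IsConj c c') :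
    ∃ g : G, T' ⊔ zpowers c' = (T ⊔ zpowers c).map (MulAut.conj g).toMonoidHom := by
  have : Fact (Nat.Prime 2) := ⟨Nat.prime_two⟩
  obtain ⟨g, rfl⟩ := isConj_iff.1 h
  obtain ⟨S, hS⟩ := exists_isSyl 2 (centralizer {g * c * g⁻¹})
  have cS : Nat.card S ≤ 2 ^ e := by
    have := sup_facts hS.isPGroup oc hS.le
    have := this.2 ▸ hb _ this.1
    omega
  have s1 := hS.of_card_ge (Q := cj g T) (h1.map _) (by
    rintro _ ⟨t, ht, rfl⟩
    exact mem_centralizer_singleton_iff.2
      ((show Commute t c from mem_centralizer_singleton_iff.1 (h3 ht)).map (MulAut.conj g)))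
    (by rwa [card_cj, h2])
  obtain ⟨a, ha, e1⟩ := s1.exists_cj_eq (hS.of_card_ge k1 k3 (by rwa [k2]))
  refine ⟨a * g, ?_⟩
  rw [← e1, cj_cj, Subgroup.map_sup, MonoidHom.map_zpowers]
  congr 2
  change _ = a * g * c * (a * g)⁻¹
  rw [show a * g * c * (a * g)⁻¹ = a * (g * c * g⁻¹) * a⁻¹ by group, mem_centralizer_singleton_iff.1 ha,
    mul_inv_cancel_right]

end

theorem three_cycle {k e : ℕ} {c : Perm (Fin (4 * k + 3))} (oc : orderOf c = 3)
    (h1 : 2 ^ e ∣ Nat.card (centralizer {c})) (h2 : W (4 * k) ≤ 2 * 2 ^ e) : c.IsThreeCycle := by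
  obtain ⟨r, hr⟩ := cycleType_prime_order (σ := c) (by rw [oc]; exact Nat.prime_three)
  rw [oc] at hr
  rcases r with _ | r
  · exact hr
  exfalso
  have l := c.sum_cycleType_le
  rw [nat_card_centralizer, hr, Multiset.toFinset_replicate, if_neg (by omega), Finset.prod_singleton,
    Multiset.count_replicate_self, Multiset.prod_replicate] at h1
  rw [hr] at l
  simp only [Multiset.sum_replicate, smul_eq_mul, Fintype.card_fin] at h1 l
  rw [mul_right_comm] at h1
  have h3 := ((Nat.Coprime.pow e (r + 1 + 1) (by decide)).dvd_of_dvd_mul_right h1).trans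
    (Nat.factorial_mul_factorial_dvd_factorial_add _ _)
  obtain ⟨j, rfl⟩ : ∃ j, k = j + 1 := ⟨k - 1, by omega⟩
  have h4 := (Nat.le_of_dvd (W_pos _) (pow_dvd_W h3)).trans (W_mono (y := 4 * j + 3) (by omega))
  have h5 := W4 j
  have h6 := W_pos (4 * j)
  rw [W3] at h4
  omega

theorem ex_emb {n : ℕ} (hn : 3 ≤ n) {X : Type} [Group X] (θ : X →* Perm (Fin (n - 3)))
    (hθ : Function.Injective θ) : ∃ ψ : X × Multiplicative (ZMod 3) →* Perm (Fin n),
      Function.Injective ψ ∧ ∀ x, sign (ψ x) = sign (θ x.1) := by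
  let Z := Multiplicative (ZMod 3)
  obtain ⟨e⟩ : Nonempty (Fin (n - 3) ⊕ Z ≃ Fin n) := Fintype.card_eq.1 (by
    simp only [Fintype.card_sum, Fintype.card_fin, Z, Fintype.card_multiplicative, ZMod.card]; omega)
  refine ⟨e.permCongrHom.toMonoidHom.comp ((sumCongrHom _ _).comp (θ.prodMap (MulAction.toPermHom Z Z))),
    e.permCongrHom.injective.comp (sumCongrHom_injective.comp
      (hθ.prodMap (MulAction.toPerm_injective (α := Z) (β := Z)))), fun x => ?_⟩
  change sign (e.permCongr (Perm.sumCongr (θ x.1) (MulAction.toPermHom Z Z x.2))) = _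
  have : ∀ z : Z, sign (MulAction.toPermHom Z Z z) = 1 := by decide
  rw [sign_permCongr, sign_sumCongr, this, mul_one]

theorem ex_sub {G X : Type} [Group G] [Group X] [Finite X] (hX : IsPGroup 2 X)
    (ψ : X × Multiplicative (ZMod 3) →* G) (h : Function.Injective ψ) :
    ∃ M : Subgroup G, Group.IsNilpotent M ∧ Nat.card M = 3 * Nat.card X ∧
      Nonempty (M ≃* (X × Multiplicative (ZMod 3))) := by
  have : Fact (Nat.Prime 2) := ⟨Nat.prime_two⟩
  have := hX.isNilpotent
  have e := MonoidHom.ofInjective h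
  exact ⟨ψ.range, Group.nilpotent_of_mulEquiv e, by
    rw [← Nat.card_congr e.toEquiv, Nat.card_prod, mul_comm]; simp, ⟨e.symm⟩⟩

end H76.NS
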