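import Cfsg.Agent.Base

/-! Exponent types of finite groups: generic counting machinery (for S4376). -/

set_option autoImplicit false

namespace H76.PW

/-- number of solutions of `g ^ n = 1` -/
noncomputable def e (G : Type) [Group G] (n : ℕ) : ℕ := Nat.card {g : G // g ^ n = 1}

theorem e_prod (G H : Type) [Group G] [Group H] (n : ℕ) : e (G × H) n = e G n * e H n := by
  unfold e
  rw [← Nat.card_prod]
  refine Nat.card_congr ⟨fun x => (⟨x.1.1, congrArg Prod.fst x.2⟩, ⟨x.1.2, congrArg Prod.snd x.2⟩),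
    fun y => ⟨(y.1.1, y.2.1), Prod.ext y.1.2 y.2.2⟩, fun _ => rfl, fun _ => rfl⟩

/-- the test exponents -/
def D : List ℕ := [0, 1, 2, 3, 4, 6, 7, 8, 12, 14, 21, 24, 28, 42, 56, 84, 168]

def Tab (G : Type) [Group G] (l : List ℕ) : Prop := D.map (e G) = l

theorem Tab.prod {G H : Type} [Group G] [Group H] {l l' : List ℕ} (h : Tab G l) (h' : Tab H l') :
    Tab (G × H) (List.zipWith (· * ·) l l') := by
  unfold Tab at *
  rw [← h, ← h', List.zipWith_map, List.zipWith_self]
  exact List.map_congr_left fun n _ => e_prod G H n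

theorem pow_eq_one_of_e {G : Type} [Group G] [Finite G] {n : ℕ} (h : e G 0 = e G n) (g : G) :
    g ^ n = 1 := by
  have h0 : e G 0 = Nat.card G := Nat.card_congr (Equiv.subtypeUnivEquiv fun g => pow_zero g)
  have : Function.Bijective (Subtype.val : {g : G // g ^ n = 1} → G) :=
    Subtype.val_injective.bijective_of_nat_card_le (by rw [← h0, h]; rfl)
  obtain ⟨x, rfl⟩ := this.2 g
  exact x.2

theorem e_gcd {G : Type} [Group G] {N : ℕ} (h : ∀ g : G, g ^ N = 1) (n : ℕ) :
    e G n = e G (Nat.gcd n N) :=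
  Nat.card_congr (Equiv.subtypeEquivRight fun g => by
    rw [pow_gcd_eq_one]; exact ⟨fun a => ⟨a, h g⟩, fun a => a.1⟩)

theorem e_eq_of_tab {G H : Type} [Group G] [Group H] [Finite G] [Finite H] {l : List ℕ}
    (hG : Tab G l) (hH : Tab H l) (hl : l.getD 0 0 = l.getD 16 0) (n : ℕ) : e G n = e H n := by
  have hm : ∀ d ∈ D, e G d = e H d := List.map_inj_left.mp (hG.trans hH.symm)
  have g1 : e G 0 = e G 168 := by
    rw [← hG] at hl; simpa [D] using hl
  have h1 : e H 0 = e H 168 := by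
    rw [← hH] at hl; simpa [D] using hl
  rw [e_gcd (pow_eq_one_of_e g1), e_gcd (pow_eq_one_of_e h1)]
  refine hm _ ?_
  have : ∀ d ∈ Nat.divisors 168, d ∈ D := by decide +kernel
  exact this _ (Nat.mem_divisors.mpr ⟨Nat.gcd_dvd_right _ _, by norm_num⟩)

/-- binary powering with fuel -/
def bp {T : Type} (mul : T → T → T) (one : T) : ℕ → T → ℕ → T
  | 0, _, _ => one
  | f + 1, x, n =>
    cond (Nat.beq n 0) one (cond (Nat.beq n 1) x
      (cond (Nat.beq (n % 2) 0) (bp mul one f (mul x x) (n / 2))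
        (mul x (bp mul one f (mul x x) (n / 2)))))

theorem bp_spec {G T : Type} [Monoid G] (φ : G → T) (mul : T → T → T) (one : T)
    (h1 : φ 1 = one) (hm : ∀ g h, φ (g * h) = mul (φ g) (φ h)) :
    ∀ (f : ℕ) (g : G) (n : ℕ), n < 2 ^ f → bp mul one f (φ g) n = φ (g ^ n) := by
  intro f
  induction f with
  | zero =>
    intro g n hn
    have : n = 0 := by omega
    subst this
    rw [pow_zero, h1]; rfl
  | succ f ih =>
    intro g n hn
    have hlt : n / 2 < 2 ^ f := by rw [pow_succ] at hn; omega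
    unfold bp
    have hb : ∀ a b : ℕ, a ≠ b → Nat.beq a b = false := fun a b h =>
      Bool.eq_false_iff.mpr fun h' => h (Nat.eq_of_beq_eq_true h')
    by_cases h0 : n = 0
    · subst h0; rw [pow_zero, h1]; rfl
    by_cases h1' : n = 1
    · subst h1'; rw [pow_one]; rfl
    rw [← hm, ih _ _ hlt, ← pow_two, ← pow_mul, ← hm, ← pow_succ', hb _ _ h0, hb _ _ h1']
    by_cases h2 : n % 2 = 0
    · have : 2 * (n / 2) = n := by omega
      rw [this, h2]; rfl
    · have : 2 * (n / 2) + 1 = n := by omega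
      rw [this, hb _ _ h2]; rfl

theorem card_enc {G T : Type} (φ : G → T) (hφ : Function.Injective φ) (S : Finset T)
    (hS : ∀ t, t ∈ S ↔ ∃ g, φ g = t) (p : G → Prop) (q : T → Bool)
    (hpq : ∀ g, p g ↔ q (φ g) = true) :
    Nat.card {g : G // p g} = ∑ t ∈ S, cond (q t) 1 0 := by
  classical
  have : ∑ t ∈ S, cond (q t) 1 0 = (S.filter fun t => q t = true).card := by
    rw [Finset.card_filter]
    refine Finset.sum_congr rfl fun t _ => ?_
    cases q t <;> simp
  rw [this, ← Nat.card_eq_finsetCard]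
  refine Nat.card_congr (Equiv.ofBijective (fun g => ⟨φ g.1, Finset.mem_filter.mpr
    ⟨(hS _).mpr ⟨_, rfl⟩, (hpq _).mp g.2⟩⟩) ⟨fun g h e => Subtype.ext (hφ (congrArg Subtype.val e)),
      fun t => ?_⟩)
  obtain ⟨t, ht⟩ := t
  obtain ⟨h1, h2⟩ := Finset.mem_filter.mp ht
  obtain ⟨g, rfl⟩ := (hS t).mp h1
  exact ⟨⟨g, (hpq g).mpr h2⟩, rfl⟩

/-- action data for a semidirect product -/
structure Act (K A : Type) [Group K] [AddCommGroup A] where
  f : K → A → A
  one : ∀ a, f 1 a = a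
  mul : ∀ k l a, f (k * l) a = f k (f l a)
  add : ∀ k a b, f k (a + b) = f k a + f k b

section SD
variable {K A : Type} [Group K] [AddCommGroup A]

@[ext] structure SD (φ : Act K A) where
  a : A
  k : K

theorem Act.zero (φ : Act K A) (k : K) : φ.f k 0 = 0 := by
  have := φ.add k 0 0
  rw [add_zero] at this
  exact left_eq_add.mp this

theorem Act.neg (φ : Act K A) (k : K) (a : A) : φ.f k (-a) = -φ.f k a := by
  have := φ.add k a (-a)
  rw [add_neg_cancel, φ.zero] at this
  exact (neg_eq_of_add_eq_zero_right this.symm).symm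

instance (φ : Act K A) : Mul (SD φ) := ⟨fun g h => ⟨g.a + φ.f g.k h.a, g.k * h.k⟩⟩
instance (φ : Act K A) : One (SD φ) := ⟨⟨0, 1⟩⟩
instance (φ : Act K A) : Inv (SD φ) := ⟨fun g => ⟨-φ.f g.k⁻¹ g.a, g.k⁻¹⟩⟩

variable {φ : Act K A}
@[simp] theorem mul_a (g h : SD φ) : (g * h).a = g.a + φ.f g.k h.a := rfl
@[simp] theorem mul_k (g h : SD φ) : (g * h).k = g.k * h.k := rfl
@[simp] theorem one_a : (1 : SD φ).a = 0 := rfl
@[simp] theorem one_k : (1 : SD φ).k = 1 := rfl
@[simp] theorem inv_a (g : SD φ) : g⁻¹.a = -φ.f g.k⁻¹ g.a := rfl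
@[simp] theorem inv_k (g : SD φ) : g⁻¹.k = g.k⁻¹ := rfl

instance (φ : Act K A) : Group (SD φ) := Group.ofLeftAxioms
  (fun g h l => SD.ext (by simp [φ.add, φ.mul, add_assoc]) (by simp [mul_assoc]))
  (fun g => SD.ext (by simp [φ.one]) (by simp))
  (fun g => SD.ext (by simp) (by simp))

def sdEquiv (φ : Act K A) : SD φ ≃ A × K :=
  ⟨fun g => (g.a, g.k), fun p => ⟨p.1, p.2⟩, fun _ => rfl, fun _ => rfl⟩

instance (φ : Act K A) [Finite A] [Finite K] : Finite (SD φ) :=
  Finite.of_equiv _ (sdEquiv φ).symm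

instance (φ : Act K A) [Group.IsSolvable K] : Group.IsSolvable (SD φ) := by
  let i : Multiplicative A →* SD φ := MonoidHom.mk' (fun a => ⟨a.toAdd, 1⟩) fun a b =>
    SD.ext (by simp [φ.one]) (by simp)
  let π : SD φ →* K := MonoidHom.mk' SD.k fun _ _ => rfl
  refine Group.isSolvable_of_ker_le_range i π fun g hg => ⟨Multiplicative.ofAdd g.a, ?_⟩
  exact SD.ext rfl (by exact (show g.k = 1 from hg).symm)

end SD

end H76.PW
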