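import Cfsg.Agent.H76.PwA

/-! The family `C_m ⋊ (C_a ⋊ C_b)` and its exponent types (for S4376). -/

set_option autoImplicit false

namespace H76.PW

theorem pow_val_cast {R : Type} [Monoid R] {r : R} {n : ℕ} (h : r ^ n = 1) (t : ℕ) :
    r ^ ((t : ZMod n).val) = r ^ t := by
  rw [ZMod.val_natCast, ← pow_eq_pow_mod t h]

theorem pow_val_add {R : Type} [Monoid R] {r : R} {n : ℕ} [NeZero n] (h : r ^ n = 1)
    (z z' : ZMod n) : r ^ (z + z').val = r ^ z.val * r ^ z'.val := by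
  rw [← pow_add, ← pow_val_cast h (z.val + z'.val)]
  simp

theorem cast_pow_eq {u b a c : ℕ} (h : u ^ b % a = c % a) : (u : ZMod a) ^ b = c := by
  have := (ZMod.natCast_eq_natCast_iff' _ _ _).mpr h
  simpa using this

structure Par where
  m : ℕ
  a : ℕ
  b : ℕ
  u : ℕ
  v : ℕ
  w : ℕ
  ok : m ≠ 0 ∧ a ≠ 0 ∧ b ≠ 0 ∧ u ^ b % a = 1 % a ∧ v ^ a % m = 1 % m ∧ w ^ b % m = 1 % m ∧
    v ^ u % m = v % m := by decide

namespace Par
variable (P : Par)

instance : NeZero P.m := ⟨P.ok.1⟩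
instance : NeZero P.a := ⟨P.ok.2.1⟩
instance : NeZero P.b := ⟨P.ok.2.2.1⟩

theorem hu : (P.u : ZMod P.a) ^ P.b = 1 := by simpa using cast_pow_eq P.ok.2.2.2.1
theorem hv : (P.v : ZMod P.m) ^ P.a = 1 := by simpa using cast_pow_eq P.ok.2.2.2.2.1
theorem hw : (P.w : ZMod P.m) ^ P.b = 1 := by simpa using cast_pow_eq P.ok.2.2.2.2.2.1
theorem hvu : (P.v : ZMod P.m) ^ P.u = P.v := cast_pow_eq P.ok.2.2.2.2.2.2

def act1 : Act (Multiplicative (ZMod P.b)) (ZMod P.a) where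
  f z y := (P.u : ZMod P.a) ^ z.toAdd.val * y
  one a := by simp
  mul k l a := by rw [toAdd_mul, pow_val_add P.hu, mul_assoc]
  add k a b := mul_add _ _ _

abbrev K := SD P.act1

theorem v_mul (j : ℕ) (y : ZMod P.a) :
    (P.v : ZMod P.m) ^ ((P.u : ZMod P.a) ^ j * y).val = (P.v : ZMod P.m) ^ y.val := by
  induction j with
  | zero => simp
  | succ j ih =>
    rw [← ih, pow_succ', mul_assoc]
    generalize (P.u : ZMod P.a) ^ j * y = t
    have : (P.u : ZMod P.a) * t = ((P.u * t.val : ℕ) : ZMod P.a) := by simp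
    rw [this, pow_val_cast P.hv, pow_mul, P.hvu]

def act2 : Act P.K (ZMod P.m) where
  f k x := (P.v : ZMod P.m) ^ k.a.val * (P.w : ZMod P.m) ^ k.k.toAdd.val * x
  one a := by simp
  mul k l a := by
    rw [mul_a, mul_k, toAdd_mul, pow_val_add P.hv, pow_val_add P.hw]
    have := P.v_mul k.k.toAdd.val l.a
    change _ * (P.v : ZMod P.m) ^ ((P.u : ZMod P.a) ^ k.k.toAdd.val * l.a).val * _ * _ = _
    rw [this]; ring
  add k a b := mul_add _ _ _

abbrev X := SD P.act2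

def enc (g : P.X) : ℕ × ℕ × ℕ := (g.a.val, g.k.a.val, g.k.k.toAdd.val)

def mulN (s t : ℕ × ℕ × ℕ) : ℕ × ℕ × ℕ :=
  ((s.1 + P.v ^ s.2.1 * P.w ^ s.2.2 * t.1) % P.m, (s.2.1 + P.u ^ s.2.2 * t.2.1) % P.a,
    (s.2.2 + t.2.2) % P.b)

theorem enc_mul (g h : P.X) : P.enc (g * h) = P.mulN (P.enc g) (P.enc h) := by
  unfold enc mulN
  refine Prod.ext ?_ (Prod.ext ?_ ?_)
  · simp only [← ZMod.val_natCast]
    congr 1
    simp [act2]
  · simp only [← ZMod.val_natCast]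
    congr 1
    simp [act1]
  · simp [ZMod.val_add]

theorem enc_inj : Function.Injective P.enc := fun g h e => by
  simp only [enc, Prod.mk.injEq] at e
  exact SD.ext (ZMod.val_injective _ e.1) (SD.ext (ZMod.val_injective _ e.2.1)
    (Multiplicative.toAdd.injective (ZMod.val_injective _ e.2.2)))

def isOne (t : ℕ × ℕ × ℕ) : Bool := Nat.beq t.1 0 && Nat.beq t.2.1 0 && Nat.beq t.2.2 0

def cnt (n : ℕ) : ℕ := ∑ x ∈ Finset.range P.m, ∑ y ∈ Finset.range P.a, ∑ z ∈ Finset.range P.b,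
  cond (isOne (bp P.mulN (0, 0, 0) 8 (x, y, z) n)) 1 0

theorem e_eq {n : ℕ} (hn : n < 2 ^ 8) : e P.X n = P.cnt n := by
  have h1 : P.enc 1 = (0, 0, 0) := by simp [enc]
  unfold e cnt
  rw [card_enc P.enc P.enc_inj (Finset.range P.m ×ˢ Finset.range P.a ×ˢ Finset.range P.b) ?_ _
    (fun t => isOne (bp P.mulN (0, 0, 0) 8 t n)) ?_]
  · simp only [Finset.sum_product]
  · rintro ⟨x, y, z⟩
    simp only [Finset.mem_product, Finset.mem_range]
    constructor
    · rintro ⟨hx, hy, hz⟩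
      exact ⟨⟨x, ⟨y, Multiplicative.ofAdd (z : ZMod P.b)⟩⟩, by
        simp [enc, ZMod.val_natCast, Nat.mod_eq_of_lt, hx, hy, hz]⟩
    · rintro ⟨g, hg⟩
      simp only [enc, Prod.mk.injEq] at hg
      obtain ⟨rfl, rfl, rfl⟩ := hg
      exact ⟨ZMod.val_lt _, ZMod.val_lt _, ZMod.val_lt _⟩
  · intro g
    rw [bp_spec P.enc P.mulN _ h1 P.enc_mul 8 g n hn, ← P.enc_inj.eq_iff, h1]
    generalize P.enc (g ^ n) = t
    obtain ⟨x, y, z⟩ := t
    simp [isOne, and_assoc]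

theorem tab {l : List ℕ} (h : D.map P.cnt = l) : Tab P.X l := by
  rw [← h]
  refine List.map_congr_left fun n hn => P.e_eq ?_
  revert n; decide

end Par

end H76.PW
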