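import Cfsg.Agent.H76.PwB

/-! `AΓL(1,8)` and `PGL(2,7)`: exponent types (for S4376). -/

set_option autoImplicit false

namespace H76.PW

instance {K A : Type} [Group K] [AddCommGroup A] (φ : Act K A) [Fintype A] [Fintype K] :
    Fintype (SD φ) := Fintype.ofEquiv _ (sdEquiv φ).symm

instance {K A : Type} [Group K] [AddCommGroup A] (φ : Act K A) [DecidableEq A] [DecidableEq K] :
    DecidableEq (SD φ) := (sdEquiv φ).decidableEq

def P73 : Par := {m := 1, a := 7, b := 3, u := 2, v := 1, w := 1}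

abbrev V8 := ZMod 2 × ZMod 2 × ZMod 2

def sg (v : V8) : V8 := (v.2.2, v.1 + v.2.2, v.2.1)
def fr (v : V8) : V8 := (v.1, v.2.2, v.2.1 + v.2.2)

def act8 : Act P73.K V8 where
  f k v := sg^[k.a.val] (fr^[k.k.toAdd.val] v)
  one := by decide +kernel
  mul := by decide +kernel
  add := by decide +kernel

abbrev F83 := SD act8

theorem e_fin (G : Type) [Group G] [Fintype G] [DecidableEq G] {n : ℕ} (hn : n < 2 ^ 8) :
    e G n = ∑ t : G, cond (decide (bp (· * ·) 1 8 t n = 1)) 1 0 := by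
  unfold e
  refine card_enc id Function.injective_id Finset.univ (fun t => by simp) _ _ fun g => ?_
  have := bp_spec (id : G → G) (· * ·) 1 rfl (fun _ _ => rfl) 8 g n hn
  simp only [id] at this ⊢
  rw [decide_eq_true_iff, this]

theorem T83 : Tab F83 [168, 1, 8, 57, 8, 120, 49, 8, 120, 56, 105, 120, 56, 168, 56, 168, 168] := by
  have h : D.map (fun n => ∑ t : F83, cond (decide (bp (· * ·) 1 8 t n = 1)) 1 0) =
      [168, 1, 8, 57, 8, 120, 49, 8, 120, 56, 105, 120, 56, 168, 56, 168, 168] := by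
    decide +kernel
  rw [← h]
  refine List.map_congr_left fun n hn => e_fin _ ?_
  revert n; decide

/-- `2 × 2` matrices over `ZMod 7` of determinant `±1` -/
@[ext] structure M where
  a : ZMod 7
  b : ZMod 7
  c : ZMod 7
  d : ZMod 7
  h : (a * d - b * c) ^ 2 = 1

instance : Mul M := ⟨fun g h => ⟨g.a * h.a + g.b * h.c, g.a * h.b + g.b * h.d,
  g.c * h.a + g.d * h.c, g.c * h.b + g.d * h.d, by
    have := congrArg₂ (· * ·) g.h h.h
    linear_combination this⟩⟩
instance : One M := ⟨⟨1, 0, 0, 1, by simp⟩⟩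
instance : Inv M := ⟨fun g => ⟨(g.a * g.d - g.b * g.c) * g.d, -((g.a * g.d - g.b * g.c) * g.b),
  -((g.a * g.d - g.b * g.c) * g.c), (g.a * g.d - g.b * g.c) * g.a, by
    have := congrArg (· ^ 3) g.h
    linear_combination this⟩⟩

@[simp] theorem M.mul_a (g h : M) : (g * h).a = g.a * h.a + g.b * h.c := rfl
@[simp] theorem M.mul_b (g h : M) : (g * h).b = g.a * h.b + g.b * h.d := rfl
@[simp] theorem M.mul_c (g h : M) : (g * h).c = g.c * h.a + g.d * h.c := rfl
@[simp] theorem M.mul_d (g h : M) : (g * h).d = g.c * h.b + g.d * h.d := rfl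
@[simp] theorem M.one_a : (1 : M).a = 1 := rfl
@[simp] theorem M.one_b : (1 : M).b = 0 := rfl
@[simp] theorem M.one_c : (1 : M).c = 0 := rfl
@[simp] theorem M.one_d : (1 : M).d = 1 := rfl
@[simp] theorem M.inv_a (g : M) : g⁻¹.a = (g.a * g.d - g.b * g.c) * g.d := rfl
@[simp] theorem M.inv_b (g : M) : g⁻¹.b = -((g.a * g.d - g.b * g.c) * g.b) := rfl
@[simp] theorem M.inv_c (g : M) : g⁻¹.c = -((g.a * g.d - g.b * g.c) * g.c) := rfl
@[simp] theorem M.inv_d (g : M) : g⁻¹.d = (g.a * g.d - g.b * g.c) * g.a := rfl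

instance : Group M := Group.ofLeftAxioms
  (fun g h l => M.ext (by simp; ring) (by simp; ring) (by simp; ring) (by simp; ring))
  (fun g => M.ext (by simp) (by simp) (by simp) (by simp))
  (fun g => M.ext (by simp; linear_combination g.h) (by simp; ring) (by simp; ring)
    (by simp; linear_combination g.h))

def M.enc (g : M) : ℕ × ℕ × ℕ × ℕ := (g.a.val, g.b.val, g.c.val, g.d.val)

theorem M.enc_inj : Function.Injective M.enc := fun g h e => by
  simp only [M.enc, Prod.mk.injEq] at e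
  exact M.ext (ZMod.val_injective _ e.1) (ZMod.val_injective _ e.2.1)
    (ZMod.val_injective _ e.2.2.1) (ZMod.val_injective _ e.2.2.2)

instance : Finite M := Finite.of_injective (fun g : M => (g.a, g.b, g.c, g.d)) fun g h e => by
  simp only [Prod.mk.injEq] at e
  exact M.ext e.1 e.2.1 e.2.2.1 e.2.2.2

def mulM (s t : ℕ × ℕ × ℕ × ℕ) : ℕ × ℕ × ℕ × ℕ :=
  ((s.1 * t.1 + s.2.1 * t.2.2.1) % 7, (s.1 * t.2.1 + s.2.1 * t.2.2.2) % 7,
    (s.2.2.1 * t.1 + s.2.2.2 * t.2.2.1) % 7, (s.2.2.1 * t.2.1 + s.2.2.2 * t.2.2.2) % 7)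

theorem M.enc_mul (g h : M) : (g * h).enc = mulM g.enc h.enc := by
  unfold M.enc mulM
  simp only [← ZMod.val_natCast]
  simp

/-- scalar matrices -/
def Z : Subgroup M where
  carrier := {g | g.b = 0 ∧ g.c = 0 ∧ g.a = g.d}
  mul_mem' := by
    rintro g h ⟨h1, h2, h3⟩ ⟨h4, h5, h6⟩
    simp [h1, h2, h3, h4, h5, h6]
  one_mem' := ⟨rfl, rfl, rfl⟩
  inv_mem' := by
    rintro g ⟨h1, h2, h3⟩
    simp [h1, h2, h3]

theorem mem_Z (g : M) : g ∈ Z ↔ g.b = 0 ∧ g.c = 0 ∧ g.a = g.d := Iff.rfl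

instance : Z.Normal := ⟨fun n hn g => by
  obtain ⟨h1, h2, h3⟩ := hn
  rw [mem_Z]
  simp only [M.mul_a, M.mul_b, M.mul_c, M.mul_d, M.inv_a, M.inv_b, M.inv_c, M.inv_d, h1, h2, h3]
  refine ⟨?_, ?_, ?_⟩ <;> ring⟩

abbrev PGL := M ⧸ Z

def isSc (t : ℕ × ℕ × ℕ × ℕ) : Bool := Nat.beq t.2.1 0 && Nat.beq t.2.2.1 0 && Nat.beq t.1 t.2.2.2

def okM (t : ℕ × ℕ × ℕ × ℕ) : Bool := Nat.beq ((t.1 * t.2.2.2 + 6 * t.2.1 * t.2.2.1) ^ 2 % 7) 1

def cntM (n : ℕ) : ℕ := ∑ x ∈ Finset.range 7, ∑ y ∈ Finset.range 7, ∑ z ∈ Finset.range 7,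
  ∑ w ∈ Finset.range 7,
    cond (okM (x, y, z, w)) (cond (isSc (bp mulM (1, 0, 0, 1) 8 (x, y, z, w) n)) 1 0) 0

theorem card_M {n : ℕ} (hn : n < 2 ^ 8) : Nat.card {g : M // g ^ n ∈ Z} = cntM n := by
  have h1 : M.enc 1 = (1, 0, 0, 1) := rfl
  unfold cntM
  rw [card_enc M.enc M.enc_inj ((Finset.range 7 ×ˢ Finset.range 7 ×ˢ Finset.range 7 ×ˢ
    Finset.range 7).filter fun t => okM t = true) ?_ _
    (fun t => isSc (bp mulM (1, 0, 0, 1) 8 t n)) ?_]
  · simp only [Finset.sum_filter, Finset.sum_product]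
    refine Finset.sum_congr rfl fun x _ => Finset.sum_congr rfl fun y _ =>
      Finset.sum_congr rfl fun z _ => Finset.sum_congr rfl fun w _ => ?_
    cases okM (x, y, z, w) <;> simp
  · rintro ⟨x, y, z, w⟩
    simp only [Finset.mem_filter, Finset.mem_product, Finset.mem_range, okM, Nat.beq_eq]
    have h6 : (6 : ZMod 7) = -1 := by decide
    constructor
    · rintro ⟨⟨hx, hy, hz, hw⟩, h⟩
      refine ⟨⟨x, y, z, w, ?_⟩, by simp [M.enc, ZMod.val_natCast, Nat.mod_eq_of_lt, hx, hy, hz, hw]⟩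
      have := cast_pow_eq (c := 1) h
      push_cast at this
      rw [h6] at this
      linear_combination this
    · rintro ⟨g, hg⟩
      simp only [M.enc, Prod.mk.injEq] at hg
      obtain ⟨rfl, rfl, rfl, rfl⟩ := hg
      refine ⟨⟨ZMod.val_lt _, ZMod.val_lt _, ZMod.val_lt _, ZMod.val_lt _⟩, ?_⟩
      rw [← ZMod.val_natCast]
      push_cast
      simp only [ZMod.natCast_val, ZMod.cast_id', id_eq]
      rw [h6]
      have : (g.a * g.d + -1 * g.b * g.c) ^ 2 = 1 := by linear_combination g.h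
      rw [this]; rfl
  · intro g
    rw [bp_spec M.enc mulM _ h1 M.enc_mul 8 g n hn, mem_Z]
    generalize g ^ n = t
    simp [isSc, M.enc, and_assoc, (ZMod.val_injective 7).eq_iff]

theorem e_quot {G : Type} [Group G] (N : Subgroup G) [N.Normal] (n : ℕ) :
    Nat.card {g : G // g ^ n ∈ N} = Nat.card N * e (G ⧸ N) n := by
  unfold e
  rw [← Nat.card_prod]
  refine Nat.card_congr ((Equiv.subtypeEquivRight fun g => ?_).trans
    (QuotientGroup.preimageMkEquivSubgroupProdSet N {q | q ^ n = 1}))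
  simp [← QuotientGroup.mk_pow]

theorem TPGL :
    Tab PGL [336, 1, 50, 57, 92, 162, 49, 176, 204, 98, 105, 288, 140, 210, 224, 252, 336] := by
  have h : D.map cntM = List.map (2 * ·)
      [336, 1, 50, 57, 92, 162, 49, 176, 204, 98, 105, 288, 140, 210, 224, 252, 336] := by
    decide +kernel
  have hD : ∀ n ∈ D, n < 2 ^ 8 := by decide
  have hZ : Nat.card Z = 2 := by
    have h1 := card_M (n := 1) (by norm_num)
    simp only [pow_one] at h1
    have h2 : cntM 1 = 2 := by decide +kernel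
    exact h1.trans h2
  have h' : D.map cntM = List.map (2 * ·) (D.map (e PGL)) := by
    rw [List.map_map]
    refine List.map_congr_left fun n hn => ?_
    rw [← card_M (hD n hn), e_quot, hZ]; rfl
  exact List.map_injective_iff.mpr (fun a b (h : 2 * a = 2 * b) => by omega) (h'.symm.trans h)

open scoped commutatorElement in
theorem not_solvable_PGL : ¬ Group.IsSolvable PGL := by
  let x : M := ⟨0, 1, 6, 0, by decide⟩
  let g : M := ⟨0, 2, 3, 1, by decide⟩
  let h : M := ⟨0, 2, 3, 6, by decide⟩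
  have key : x = ⁅g * x * g⁻¹, h * x * h⁻¹⁆ := by
    rw [commutatorElement_def]
    refine M.ext ?_ ?_ ?_ ?_ <;> decide +kernel
  refine not_isSolvable_of_mem_derivedSeries (g := (x : PGL)) ?_ fun n => ?_
  · rw [Ne, QuotientGroup.eq_one_iff, mem_Z]
    decide
  · induction n with
    | zero => exact Subgroup.mem_top _
    | succ n ih =>
      have k2 : (x : PGL) = ⁅(g : PGL) * x * (g : PGL)⁻¹, (h : PGL) * x * (h : PGL)⁻¹⁆ := by
        have := congrArg (QuotientGroup.mk' Z) key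
        simpa [map_commutatorElement] using this
      rw [k2, derivedSeries_succ]
      exact Subgroup.commutator_mem_commutator ((derivedSeries_normal _ _).conj_mem _ ih _)
        ((derivedSeries_normal _ _).conj_mem _ ih _)

end H76.PW
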