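/- Tower R3, slot Four: the eigenvalues of the Cayley graph of an orbit. -/
import Cfsg.Agent.H70.R3Spec
import Mathlib.Analysis.Fourier.FiniteAbelian.PontryaginDuality

set_option autoImplicit false

namespace H76.R3Four

open H70.R3 MulAction

universe u

theorem exists_int {x : ℂ} (hx : IsIntegral ℤ x) {m k : ℤ} (hm : m ≠ 0) (h : (m : ℂ) * x = k) :
    ∃ z : ℤ, x = z := by
  have h1 : x = ((k / m : ℚ) : ℂ) := by
    have : (m : ℂ) ≠ 0 := Int.cast_ne_zero.2 hm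
    push_cast
    rw [← h, mul_div_cancel_left₀ _ this]
  have h2 : IsIntegral ℤ (k / m : ℚ) :=
    (isIntegral_algebraMap_iff (R := ℤ) (A := ℚ) (B := ℂ) (algebraMap ℚ ℂ).injective).mp
      (by rw [h1] at hx; simpa using hx)
  obtain ⟨z, hz⟩ := IsIntegrallyClosed.isIntegral_iff.1 h2
  exact ⟨z, by rw [h1, ← hz]; simp⟩

theorem geom {x : ℂ} {p : ℕ} (h : x ^ p = 1) : ∃ k : ℤ, ∑ c ∈ Finset.range p, x ^ c = k := by
  by_cases e : x = 1
  · exact ⟨p, by simp [e]⟩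
  · exact ⟨0, by rw [geom_sum_eq e, h]; simp⟩

theorem jobFour : JobFour.{u} := by
  classical
  intro hD G V _ _ _ _ _ p n v₁ v₂ h sc
  have := Fintype.ofFinite V
  obtain ⟨S, T, hd, s0, t0, cov, sd, td, hS, hT⟩ := hD G V p n v₁ v₂ h
  have hp := h.prime
  have hq : (Fintype.card V : ℂ) = (p : ℂ) ^ n := by rw [← Nat.card_eq_fintype_card, h.card, Nat.cast_pow]
  have ha : (stabilizer G v₁).index = Fintype.card (orbit G v₁) := by
    rw [index_stabilizer, ← Nat.card_coe_set_eq, Nat.card_eq_fintype_card]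
  have pw : ∀ (ξ : AddChar V ℂ) v, ξ v ^ p = 1 := fun ξ v => by
    rw [← ξ.map_nsmul_eq_pow, h.exp, ξ.map_zero_eq_one]
  have it : ∀ (ξ : AddChar V ℂ) v, IsIntegral ℤ (ξ v) := fun ξ v =>
    IsIntegral.of_pow hp.pos (by rw [pw]; exact isIntegral_one)
  let θ : AddChar V ℂ → ℂ := fun ξ => ∑ v : orbit G v₁, ξ v
  have bij : ∀ (f : V → V), Function.Injective f → (∀ v ∈ orbit G v₁, f v ∈ orbit G v₁) →
      ∀ ξ : AddChar V ℂ, ∑ v : orbit G v₁, ξ (f v) = θ ξ := fun f h1 h2 ξ =>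
    (Finite.injective_iff_bijective.1 (show Function.Injective
      (fun v : orbit G v₁ => (⟨f v, h2 v v.2⟩ : orbit G v₁)) from
        fun a b e => Subtype.ext (h1 (congrArg Subtype.val e)))).sum_comp fun v => ξ v
  have cst : ∀ ξ η : AddChar V ℂ, (∃ g : G, ∀ v, η v = ξ (g • v)) → θ η = θ ξ := fun ξ η ⟨g, e⟩ => by
    rw [← bij (g • ·) (MulAction.injective g) (by rintro _ ⟨k, rfl⟩; exact ⟨g * k, mul_smul g k v₁⟩) ξ]
    exact Finset.sum_congr rfl fun v _ => e v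
  have mem : ∀ c : ℕ, ¬ p ∣ c → ∀ v ∈ orbit G v₁, c • v ∈ orbit G v₁ := fun c hc => by
    rintro _ ⟨k, rfl⟩
    obtain ⟨g, e⟩ := sc c hc
    exact ⟨k * g, by simp only [mul_smul, e]; exact smul_comm k c v₁⟩
  have scl : ∀ c : ℕ, ¬ p ∣ c → ∀ ξ : AddChar V ℂ, ∑ v : orbit G v₁, ξ (c • (v : V)) = θ ξ := fun c hc =>
    bij (c • ·) (fun a b e => by
      have h1 : c • (a - b) = 0 := by rw [smul_sub]; exact sub_eq_zero.2 e
      exact sub_eq_zero.1 (AddMonoid.addOrderOf_eq_one_iff.1 (Nat.eq_one_of_dvd_coprimes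
        ((Nat.Prime.coprime_iff_not_dvd hp).2 hc) (addOrderOf_dvd_of_nsmul_eq_zero (h.exp _))
        (addOrderOf_dvd_of_nsmul_eq_zero h1)))) (mem c hc)
  obtain ⟨m, rfl⟩ : ∃ m, p = m + 1 := ⟨p - 1, by have := hp.pos; omega⟩
  have m0 : m ≠ 0 := by rintro rfl; exact hp.ne_one rfl
  have int : ∀ ξ, ∃ z : ℤ, θ ξ = z := fun ξ => by
    choose k hk using fun v : V => geom (pw ξ v)
    refine exists_int (IsIntegral.sum _ fun v _ => it ξ v) (m := m) (Int.natCast_ne_zero.2 m0)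
      (k := ∑ v : orbit G v₁, (k v - 1)) ?_
    push_cast
    simp only [← hk, Finset.sum_range_succ', pow_zero, add_sub_cancel_right]
    rw [Finset.sum_comm, Finset.sum_congr rfl (g := fun _ => θ ξ) fun c hc => ?_]
    · simp [θ]
    · simp only [← ξ.map_nsmul_eq_pow]
      exact scl _ (Nat.not_dvd_of_pos_of_lt c.succ_pos (by simpa using hc)) ξ
  have hm : ¬ m + 1 ∣ m := Nat.not_dvd_of_pos_of_lt (Nat.pos_of_ne_zero m0) m.lt_succ_self
  have ng : ∀ v : V, m • v = -v := fun v => eq_neg_of_add_eq_zero_left (by rw [← succ_nsmul, h.exp])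
  obtain ⟨ξ₀, x0⟩ := Finset.card_pos.1 (Nat.pos_of_dvd_of_pos sd Nat.card_pos)
  obtain ⟨η₀, y0⟩ := Finset.card_pos.1 (Nat.pos_of_dvd_of_pos td Nat.card_pos)
  obtain ⟨r, hr⟩ := int ξ₀
  obtain ⟨s, hs⟩ := int η₀
  have rS : ∀ ξ ∈ S, θ ξ = r := fun ξ k => (cst _ _ (hS _ x0 _ k)).trans hr
  have sT : ∀ ξ ∈ T, θ ξ = s := fun ξ k => (cst _ _ (hT _ y0 _ k)).trans hs
  have spl : ∀ F : AddChar V ℂ → ℂ, ∑ ξ, F ξ = F 0 + ∑ ξ ∈ S, F ξ + ∑ ξ ∈ T, F ξ := fun F => by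
    have : (Finset.univ : Finset (AddChar V ℂ)) = insert 0 (S ∪ T) := by
      ext ξ
      simpa [or_iff_not_imp_left (a := ξ = 0)] using cov ξ
    rw [this, Finset.sum_insert (by simp [s0, t0]), Finset.sum_union hd, add_assoc]
  have t0' : θ 0 = (stabilizer G v₁).index := by simp [θ, ha]
  have inv : ∀ u : V, ∑ ξ, θ ξ * ξ (-u) = if u ∈ orbit G v₁ then ((m + 1 : ℕ) : ℂ) ^ n else 0 := fun u => by
    simp only [θ, Finset.sum_mul, ← AddChar.map_add_eq_mul]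
    rw [Finset.sum_comm]
    simp only [AddChar.sum_apply_eq_ite, add_neg_eq_zero, hq]
    split_ifs with e
    · rw [Finset.sum_eq_single ⟨u, e⟩ (fun b _ hb => if_neg fun k => hb (Subtype.ext k)) (by simp), if_pos rfl]
    · exact Finset.sum_eq_zero fun v _ => if_neg fun k : (v : V) = u => e (k ▸ v.2)
  have z0 : (0 : V) ∉ orbit G v₁ := fun ⟨g, e⟩ => (smul_ne_zero_iff_ne g).2 h.ne₁ e
  have key : ∀ u : V, u ≠ 0 → ∑ ξ, θ ξ * ξ (-u) =
      (stabilizer G v₁).index - s + (r - s) * ∑ ξ ∈ S, ξ (-u) := fun u hu => by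
    have h1 := spl fun ξ => ξ (-u)
    rw [AddChar.sum_apply_eq_ite, if_neg (neg_ne_zero.2 hu)] at h1
    rw [spl, t0', Finset.sum_congr rfl (g := fun ξ => (r : ℂ) * ξ (-u)) fun ξ k => by rw [rS ξ k],
      Finset.sum_congr rfl (s₁ := T) (g := fun ξ => (s : ℂ) * ξ (-u)) fun ξ k => by rw [sT ξ k],
      ← Finset.mul_sum, ← Finset.mul_sum]
    simp only [AddChar.zero_apply] at h1 ⊢
    linear_combination (-s : ℂ) * h1
  refine ⟨S.card, T.card, r, s, sd, td, ?_, ?_, ?_, ?_⟩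
  · have h1 := spl fun _ => 1
    simp only [Finset.sum_const, Finset.card_univ, AddChar.card_eq, nsmul_eq_mul, mul_one, hq] at h1
    exact_mod_cast (by linear_combination -h1 : (S.card : ℂ) + T.card + 1 = ((m + 1 : ℕ) : ℂ) ^ n)
  · have h1 := inv 0
    simp only [neg_zero, AddChar.map_zero_eq_one, mul_one, if_neg z0] at h1
    rw [spl, t0', Finset.sum_congr rfl rS, Finset.sum_congr rfl sT] at h1
    simp only [Finset.sum_const, nsmul_eq_mul] at h1
    exact_mod_cast h1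
  · have h1 : ∑ ξ, θ ξ ^ 2 = ((m + 1 : ℕ) : ℂ) ^ n * (stabilizer G v₁).index := by
      rw [Finset.sum_congr rfl (g := fun ξ => ∑ v : orbit G v₁, θ ξ * ξ (-(v : V))) fun ξ _ => by
        rw [← Finset.mul_sum, sq]; simp only [← ng, scl m hm], Finset.sum_comm]
      simp only [inv, Subtype.coe_prop, if_true, Finset.sum_const, Finset.card_univ, nsmul_eq_mul, ha]
      exact mul_comm _ _
    rw [spl, t0', Finset.sum_congr rfl (g := fun _ => (r : ℂ) ^ 2) fun ξ k => by rw [rS ξ k],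
      Finset.sum_congr rfl (s₁ := T) (g := fun _ => (s : ℂ) ^ 2) fun ξ k => by rw [sT ξ k]] at h1
    simp only [Finset.sum_const, nsmul_eq_mul] at h1
    exact_mod_cast h1
  · have h1 := (key v₁ h.ne₁).symm.trans (inv v₁)
    have h2 := (key v₂ h.ne₂).symm.trans (inv v₂)
    rw [if_pos (mem_orbit_self v₁)] at h1
    rw [if_neg fun ⟨g, e⟩ => h.sep g e] at h2
    have h3 : ((r - s : ℤ) : ℂ) * (∑ ξ ∈ S, ξ (-v₁) - ∑ ξ ∈ S, ξ (-v₂)) = ((((m + 1 : ℕ) : ℤ) ^ n : ℤ) : ℂ) := by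
      push_cast at h1 h2 ⊢
      linear_combination h1 - h2
    have h4 : r - s ≠ 0 := fun e => by
      rw [e, Int.cast_zero, zero_mul, eq_comm, Int.cast_eq_zero] at h3
      exact pow_ne_zero n (Int.natCast_ne_zero.2 m.succ_ne_zero) h3
    obtain ⟨z, hz⟩ := exists_int ((IsIntegral.sum _ fun ξ _ => it ξ _).sub
      (IsIntegral.sum _ fun ξ _ => it ξ _)) h4 h3
    rw [hz] at h3
    exact ⟨z, by exact_mod_cast h3.symm⟩

end H76.R3Four
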