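import Cfsg.Agent.H30.SQSpec
import Cfsg.Agent.H8.TransferEval

/-! Tower SQ (S4132), slot End. -/

set_option autoImplicit false
set_option linter.unusedSectionVars false

open Cfsg Subgroup

namespace H76.SQEnd

open H30.SQ

universe u

variable {G : Type u} [Group G] [Finite G] {T U₀ : Subgroup G} {z ν v t r : G}

section

variable (S : FS T U₀ z ν v)
include S

theorem sq (ht : t ∈ WS T z) : t * t = 1 := by
  obtain ⟨g, rfl⟩ := isConj_iff.1 ht.2
  rw [conj_mul, S.z2]; group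

theorem ne1 (ht : t ∈ WS T z) : t ≠ 1 := fun e => S.z1 (isConj_one_left.1 (e ▸ ht.2))

theorem zr (ht : t ∈ WS T z) (R : RP U₀ z t r) : ¬ Commute z r := fun k => by
  have := R.2.1
  rw [← k.eq, mul_inv_cancel_right, left_eq_mul] at this
  exact ne1 S ht this

theorem mvz (ht : t ∈ WS T z) (hz : t ≠ z) (R : RP U₀ z t r) : ν * r * z * (ν * r)⁻¹ = t := by
  have h1 : ν * t * ν⁻¹ = t * z :=
    S.mv t ht.1 fun k => hz (S.sU t (S.iv t ht.1 (sq S ht) k) ht.2)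
  have h2 : ν * z * ν⁻¹ = z := by rw [← (S.νc z S.zU).eq, mul_inv_cancel_right]
  calc _ = ν * (r * z * r⁻¹) * ν⁻¹ := by group
    _ = ν * z * ν⁻¹ * (ν * t * ν⁻¹) := by rw [R.2.1]; group
    _ = t := by rw [h1, h2, (S.zc.2 t ht.1).eq, ← mul_assoc, S.z2, one_mul]

theorem four (h : ∀ u ∈ U₀, u = 1 ∨ u = z) : Four T := by
  have v2 := sq S S.vS
  have v1 := ne1 S S.vS
  have vi : v⁻¹ = v := inv_eq_of_mul_eq_one_right v2
  refine ⟨v, S.vS.1, orderOf_eq_prime (by rw [pow_two, v2]) v1, ?_⟩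
  have e : ((T ⊓ centralizer ({v} : Set G) : Subgroup G) : Set G) = {1, z, v, z * v} := by
    ext s
    simp only [SetLike.mem_coe, mem_inf, mem_centralizer_singleton_iff, Set.mem_insert_iff,
      Set.mem_singleton_iff]
    constructor
    · rintro ⟨h1, h2⟩
      rcases (S.cS v S.vS S.vz s h1).1 h2 with k | k
      · exact (h s k).imp_right Or.inl
      · refine Or.inr (Or.inr ((h _ k).imp (fun k => ?_) fun k => ?_))
        · rw [eq_inv_of_mul_eq_one_left k, vi]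
        · rw [← k, mul_assoc, v2, mul_one]
    · have k := (S.zc.2 v S.vS.1).eq.symm
      rintro (rfl | rfl | rfl | rfl)
      · exact ⟨one_mem _, by simp⟩
      · exact ⟨S.zc.1, k⟩
      · exact ⟨S.vS.1, rfl⟩
      · exact ⟨mul_mem S.zc.1 S.vS.1, by rw [← mul_assoc, ← k]⟩
  rw [← SetLike.coe_sort_coe, e, Nat.card_coe_set_eq]
  have n1 : z * v ≠ 1 := fun k => S.vz (by rw [eq_inv_of_mul_eq_one_left k, vi])
  exact Set.ncard_eq_four.2 ⟨_, _, _, _, S.z1.symm, v1.symm, n1.symm, S.vz.symm,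
    by simpa using v1, by simpa using S.z1, rfl⟩

end

theorem jobEnd : JobEnd.{u} := by
  intro jR jF jNC jSol jCL G _ _ T U₀ n z ν v H S idx sol
  obtain ⟨v', v1, v2, v3, v4⟩ := S.cl
  obtain ⟨r, R⟩ := jR G T U₀ n z ν v H S v S.vS S.vz
  obtain ⟨r', R', hr⟩ : ∃ r', RP U₀ z v' r' ∧ (v' = v → r' = r) := by
    by_cases e : v' = v
    · exact ⟨r, e ▸ R, fun _ => rfl⟩
    · obtain ⟨r', R'⟩ := jR G T U₀ n z ν v H S v' v1 v2
      exact ⟨r', R', fun k => absurd k e⟩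
  obtain ⟨n1, n2, n3⟩ := jNC G T U₀ n z ν v H S
  have UC : U₀ ≤ centralizer (WS T z) := n1 ▸ inf_le_right
  have mC : ∀ {a b : G}, a ∈ centralizer ({b} : Set G) ↔ Commute a b :=
    mem_centralizer_singleton_iff
  by_cases hV : U₀ ⊓ centralizer {r} ⊓ centralizer {r'} = ⊥
  · have hV' : ∀ u ∈ U₀, Commute u r → Commute u r' → u = 1 := fun u h1 h2 h3 =>
      mem_bot.1 (hV ▸ ⟨⟨h1, mC.2 h2⟩, mC.2 h3⟩)
    have zz : ∀ u : G, u * z = 1 → u = z := fun u k => by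
      rw [eq_inv_of_mul_eq_one_left k, inv_eq_of_mul_eq_one_right S.z2]
    refine four S fun u hu => ?_
    by_contra! hc
    obtain ⟨f, f1, f2, f3⟩ : ∃ f ∈ U₀, Commute f r ∧ f ≠ 1 :=
      (R.2.2 u hu).elim (fun k => ⟨u, hu, k, hc.1⟩) fun k =>
        ⟨u * z, mul_mem hu S.zU, k, fun e => hc.2 (zz u e)⟩
    obtain ⟨M, m1, m2, m3, m4⟩ := v4.resolve_left fun e => f3 (hV' f f1 f2 (hr e ▸ f2))
    have key : ∀ a ∈ U₀, Commute a r → a = 1 ∨ a * f = 1 := fun a a1 a2 => by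
      refine or_iff_not_imp_left.2 fun a3 => hV' _ (mul_mem a1 f1) (a2.mul_left f2) ?_
      have k1 := (R'.2.2 a a1).resolve_left fun k => a3 (hV' a a1 a2 k)
      have k2 := (R'.2.2 f f1).resolve_left fun k => f3 (hV' f f1 f2 k)
      have := k1.mul_left k2
      rwa [(S.zc.2 f (S.le f1)).eq, mul_assoc, ← mul_assoc z, S.z2, one_mul] at this
    have ff : f * f = 1 := (key f f1 f2).resolve_left f3
    have fi : f⁻¹ = f := inv_eq_of_mul_eq_one_right ff
    have nz : ¬ IsConj z f := fun k => zr S S.vS R (S.sU f f1 k ▸ f2)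
    have fM : f ∉ M := fun k => (m3 f k ff).elim f3 nz
    have i2 : M.relIndex T = 2 := by
      refine relIndex_eq_two_iff_exists_notMem_and.2 ⟨f, S.le f1, fM, fun s hs => ?_⟩
      obtain ⟨a, a1, a2⟩ := m4 s hs
      have : ∃ b ∈ U₀, Commute b r ∧ s * b ∈ M := (R.2.2 a a1).elim (fun k => ⟨a, a1, k, a2⟩)
        fun k => ⟨a * z, mul_mem a1 S.zU, k, mul_assoc s a z ▸ mul_mem a2 m2⟩
      obtain ⟨b, b1, b2, b3⟩ := this
      rcases key b b1 b2 with k | k
      · exact Or.inr (by rwa [k, mul_one] at b3)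
      · exact Or.inl (by rwa [eq_inv_of_mul_eq_one_left k, fi] at b3)
    obtain ⟨g, hg⟩ : ∃ g : G, g * f * g⁻¹ ∈ M := by
      by_contra! k
      obtain ⟨N, -, hN, -⟩ := H8.thompson_transfer T M
        (Nat.not_even_iff_odd.1 fun e => H.odd (even_iff_two_dvd.1 e)) i2 f (by rw [pow_two, ff]) k
      exact idx N hN
    rcases m3 _ hg (by rw [conj_mul, ff]; group) with k | k
    · exact f3 (by simpa using k)
    · exact nz (k.trans (isConj_iff.2 ⟨g, rfl⟩).symm)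
  · exfalso
    obtain ⟨E, e1, e2, e3, e4, e5⟩ := jSol G _ U₀ _ sol UC (H.pg.to_le S.le) n2
      (inf_le_left.trans inf_le_left) hV fun x hx hx' =>
        ⟨⟨hx, mC.2 (jF G T U₀ n z ν v H S v S.vS S.vz r R x hx hx')⟩,
          mC.2 (jF G T U₀ n z ν v H S v' v1 v2 r' R' x hx hx')⟩
    have EU : E ≤ U₀ := fun f hf => (e1 hf).1.1
    have fw : ∀ τ ∈ T, ∀ h ∈ centralizer (WS T z), ∀ f ∈ E, τ * h * f * (τ * h)⁻¹ ∈ T →
        τ * h * f * (τ * h)⁻¹ ∈ E := by
      intro τ hτ h hh f hf k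
      have k1 : h * f * h⁻¹ ∈ E := e5 f hf h hh (n1 ▸ mem_inf.2 ⟨by
        simpa [mul_assoc] using mul_mem (mul_mem (inv_mem hτ) k) hτ,
        mul_mem (mul_mem hh (UC (EU hf))) (inv_mem hh)⟩)
      obtain ⟨a, a1, d, -, d2, rfl⟩ := S.gen τ hτ
      rw [show a * d * h * f * (a * d * h)⁻¹ = a * (d * (h * f * h⁻¹) * d⁻¹) * a⁻¹ by group,
        ← (d2 _ (EU k1)).eq, mul_inv_cancel_right]
      exact e5 _ k1 a (UC a1) (mul_mem (mul_mem a1 (EU k1)) (inv_mem a1))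
    refine H.nsc E e2 e3 (jCL G T U₀ n z ν v H S E EU (fun k => zr S S.vS R (mC.1 (e1 k).1.2)) e4
      (fun g hg f hf k => ?_) fun t ht hz => ?_)
    · obtain ⟨τ, hτ, h, hh, g1, τ', hτ', h', hh', g2⟩ := n3 g hg
      refine ⟨fun k' => ?_, fun k' => ?_⟩
      · rw [g1] at k ⊢
        exact fw τ hτ h hh f k' k
      · have := fw τ' hτ' h' hh' _ k'
        rw [← g2, show g⁻¹ * (g * f * g⁻¹) * g⁻¹⁻¹ = f by group] at this
        exact this hf
    · obtain ⟨k, -, k2, k3 | k3⟩ := v3 t ht hz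
      · refine ⟨k * (ν * r), fun f hf => (k2 f (EU hf)).mul_right
          ((S.νc f (EU hf)).mul_right (mC.1 (e1 hf).1.2)), ?_⟩
        rw [k3, ← mvz S S.vS S.vz R]; group
      · refine ⟨k * (ν * r'), fun f hf => (k2 f (EU hf)).mul_right
          ((S.νc f (EU hf)).mul_right (mC.1 (e1 hf).2)), ?_⟩
        rw [k3, ← mvz S v1 v2 R']; group

end H76.SQEnd
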