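/- STD-R (S3323, blueprints/STDR.md), job W1: the splitting `U* = X₁ × X₂` in the case `sw = false`. -/
import Cfsg.Agent.H65.SRAux
import Cfsg.Agent.H65.SRSpec2

set_option autoImplicit false
set_option linter.unusedSectionVars false
set_option linter.unusedVariables false

open Subgroup H63.Oc H64.SG H65.SR
open scoped commutatorElement

universe u v

namespace H76.SRW1

section Gen
variable {G : Type*} [Group G] [Finite G]

theorem ns_comm {g : G} {X Y : Subgroup G} (h1 : g ∈ Ns X) (h2 : g ∈ Ns Y) : g ∈ Ns ⁅X, Y⁆ :=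
  mem_ns_of fun y hy => by
    have : ⁅X, Y⁆ ≤ (⁅X, Y⁆).comap (MulAut.conj g).toMonoidHom := commutator_le.2 fun a ha b hb => by
      have := commutator_mem_commutator (cj_mem h1 ha) (cj_mem h2 hb)
      rw [mem_comap, map_commutatorElement]
      exact this
    exact this hy

theorem eq_bot_of_le_comm {U J : Subgroup G} (hU : IsPGroup 2 U) (h1 : J ≤ U) (h2 : J ≤ ⁅J, U⁆) :
    J = ⊥ := by
  have : Fact (Nat.Prime 2) := ⟨Nat.prime_two⟩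
  obtain ⟨n, hn⟩ := (Subgroup.isNilpotent_iff_lowerCentralSeries U).1 hU.isNilpotent
  have : ∀ m, J ≤ U.lowerCentralSeries m := fun m => by
    induction m with
    | zero => exact h1
    | succ m ih => exact h2.trans (commutator_mono ih le_rfl)
  exact eq_bot_iff.2 (hn ▸ this n)

theorem odd_card {X : Subgroup G} (h : ∀ x ∈ X, Odd (orderOf x)) : Odd (Nat.card X) := by
  have : Fact (Nat.Prime 2) := ⟨Nat.prime_two⟩
  by_contra hc
  obtain ⟨x, hx⟩ := exists_prime_orderOf_dvd_card' (G := X) 2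
    (even_iff_two_dvd.1 (Nat.not_odd_iff_even.1 hc))
  have := h x x.2
  rw [orderOf_coe, hx] at this
  exact absurd this (by decide)

/-- one half of the commutator argument -/
theorem half {C1 C2 T1 T2 M : Subgroup G} (hM : IsPGroup 2 M) (h1 : C1 ≤ M) (h2 : C2 ≤ M)
    (o1 : Odd (Nat.card T1)) (n11 : T1 ≤ Ns C1) (c12 : T1 ≤ Cs C2) (c21 : T2 ≤ Cs C1)
    (nM : T1 ≤ Ns M) (nJ : M ≤ Ns ⁅C1, C2⁆) (dj : C1 ⊓ Cs T1 = ⊥)
    (gen : ⁅C1, C2⁆ ≤ ⁅C1, C2⁆ ⊓ C1 ⊔ ⁅C1, C2⁆ ⊓ C2) (n2 : T2 ≤ Ns ⁅⁅C1, C2⁆, M⁆) :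
    T2 ≤ Cm ⁅C1, C2⁆ ⁅⁅C1, C2⁆, M⁆ := by
  set J := ⁅C1, C2⁆ with hJ
  have JM : J ≤ M := (commutator_le_sup _ _).trans (sup_le h1 h2)
  have J0 : ⁅J, M⁆ ≤ J := le_normalizer_iff_commutator_le_left.1 nJ
  have nJ0 : M ≤ Ns ⁅J, M⁆ := normalizer_commutator_ge_right _ _
  set N0 := J ⊓ C1 ⊔ ⁅J, M⁆ with hN0
  have N0J : N0 ≤ J := sup_le inf_le_left J0
  have nN0 : M ≤ Ns N0 := fun m hm => ns_sup_of (nJ0 hm) fun x hx => mem_sup_right (by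
    rw [← commutatorElement_inv]; exact inv_mem (commutator_mem_commutator hx.1 hm))
  have tJ : T1 ≤ Ns J := fun k hk => ns_comm (n11 hk) (cs_le_ns (c12 hk))
  have tN0 : T1 ≤ Ns N0 := fun k hk => ns_sup (ns_inf (tJ hk) (n11 hk)) (ns_comm (tJ hk) (nM hk))
  -- `T1` centralises `C2 J` modulo `N0`
  have a1 : T1 ≤ Cm (C2 ⊔ J) N0 := fun k hk => by
    refine cm_sup (h2.trans nN0) (JM.trans nN0) (cm_of_cs (tN0 hk) (c12 hk)) (cm_anti gen ?_)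
    refine cm_sup ((inf_le_left.trans JM).trans nN0) ((inf_le_left.trans JM).trans nN0) ⟨tN0 hk, ?_⟩
      (cm_of_cs (tN0 hk) (cs_anti inf_le_right (c12 hk)))
    intro y hy
    exact mem_sup_left (comm_mem_left (ns_inf (tJ hk) (n11 hk)) hy)
  have a2 : C1 ≤ Ns (C2 ⊔ J) := fun x hx => ns_sup_of (nJ (h1 hx)) fun y hy =>
    mem_sup_right (commutator_mem_commutator hx hy)
  have a3 : ⁅T1, C1⁆ ≤ Cm (C2 ⊔ J) N0 := commutator_le.2 fun k hk x hx => by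
    have := mul_mem (a1 hk) (cj_mem_cm (a2 hx) (nN0 (h1 hx)) (inv_mem (a1 hk)))
    simpa only [commutatorElement_def, mul_assoc] using this
  have a4 : C1 ≤ ⁅T1, C1⁆ := fun x hx => by
    have le : ⁅T1, C1⁆ ≤ C1 := le_normalizer_iff_commutator_le_right.1 n11
    obtain ⟨y, hy, e⟩ := cop' (y := x) ((hM.to_le h1).to_le le) o1 (normalizer_commutator_ge_left _ _)
      fun k hk => commutator_mem_commutator hk hx
    have : y * x ∈ (⊥ : Subgroup G) := dj ▸ mem_inf.2 ⟨mul_mem (le hy) hx, e⟩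
    rw [eq_inv_of_mul_eq_one_right (mem_bot.1 this)]
    exact inv_mem hy
  have a5 : J ≤ N0 := commutator_le.2 fun x hx y hy => (a3 (a4 hx)).2 y (mem_sup_left hy)
  intro k hk
  refine cm_anti a5 (cm_sup ((inf_le_left.trans JM).trans nJ0) ((J0.trans JM).trans nJ0)
    (cm_of_cs (n2 hk) (cs_anti inf_le_right (c21 hk))) (cm_self (n2 hk)))

/-- the commutator argument -/
theorem main {U T1 T2 H : Subgroup G} (hU : IsPGroup 2 U) (o1 : Odd (Nat.card T1))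
    (o2 : Odd (Nat.card T2)) (oH : Odd (Nat.card H)) (n1 : T1 ≤ Ns U) (n2 : T2 ≤ Ns U)
    (n12 : T1 ≤ Ns T2) (n21 : T2 ≤ Ns T1) (hH : H ≤ T1 ⊔ T2) (fH : U ⊓ Cs H = ⊥)
    (gen : ∀ J ≤ U, T1 ≤ Ns J → T2 ≤ Ns J → J ≤ J ⊓ Cs T2 ⊔ J ⊓ Cs T1) :
    U ⊓ Cs T2 ≤ Cs (U ⊓ Cs T1) := by
  set C1 := U ⊓ Cs T2 with hC1
  set C2 := U ⊓ Cs T1 with hC2
  have dj : ∀ x ∈ U, x ∈ Cs T1 → x ∈ Cs T2 → x ∈ (⊥ : Subgroup G) := fun x hx h1 h2 =>
    fH ▸ mem_inf.2 ⟨hx, cs_anti hH (cs_sup h1 h2)⟩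
  have n11 : T1 ≤ Ns C1 := fun k hk => ns_inf (n1 hk) (ns_cs (n12 hk))
  have n22 : T2 ≤ Ns C2 := fun k hk => ns_inf (n2 hk) (ns_cs (n21 hk))
  have c12 : T1 ≤ Cs C2 := cs_symm inf_le_right
  have c21 : T2 ≤ Cs C1 := cs_symm inf_le_right
  have MU : C1 ⊔ C2 ≤ U := sup_le inf_le_left inf_le_left
  have hM : IsPGroup 2 (C1 ⊔ C2 : Subgroup G) := hU.to_le MU
  have nM1 : T1 ≤ Ns (C1 ⊔ C2) := fun k hk => ns_sup (n11 hk) (cs_le_ns (c12 hk))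
  have nM2 : T2 ≤ Ns (C1 ⊔ C2) := fun k hk => ns_sup (cs_le_ns (c21 hk)) (n22 hk)
  have nJ : C1 ⊔ C2 ≤ Ns ⁅C1, C2⁆ :=
    sup_le (normalizer_commutator_ge_left _ _) (normalizer_commutator_ge_right _ _)
  have t1 : T1 ≤ Ns ⁅C1, C2⁆ := fun k hk => ns_comm (n11 hk) (cs_le_ns (c12 hk))
  have t2 : T2 ≤ Ns ⁅C1, C2⁆ := fun k hk => ns_comm (cs_le_ns (c21 hk)) (n22 hk)
  have JM : ⁅C1, C2⁆ ≤ C1 ⊔ C2 := commutator_le_sup _ _
  have g : ⁅C1, C2⁆ ≤ ⁅C1, C2⁆ ⊓ C1 ⊔ ⁅C1, C2⁆ ⊓ C2 := (gen _ (JM.trans MU) t1 t2).trans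
    (sup_le_sup (fun x hx => ⟨hx.1, MU (JM hx.1), hx.2⟩) fun x hx => ⟨hx.1, MU (JM hx.1), hx.2⟩)
  have b2 := half hM le_sup_left le_sup_right o1 n11 c12 c21 nM1 nJ
    (eq_bot_iff.2 fun x hx => dj x hx.1.1 hx.2 hx.1.2) g fun k hk => ns_comm (t2 hk) (nM2 hk)
  have e : ⁅C2, C1⁆ = ⁅C1, C2⁆ := commutator_comm _ _
  have b1 := half (T2 := T1) hM le_sup_right le_sup_left o2 n22 c21 c12 nM2 (e ▸ nJ)
    (eq_bot_iff.2 fun x hx => dj x hx.1.1 hx.1.2 hx.2) (by rw [e, sup_comm]; exact g)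
    (by rw [e]; exact fun k hk => ns_comm (t1 hk) (nM1 hk))
  rw [e] at b1
  have b := hH.trans (sup_le b1 b2)
  have J0 : ⁅⁅C1, C2⁆, C1 ⊔ C2⁆ ≤ ⁅C1, C2⁆ := le_normalizer_iff_commutator_le_left.1 nJ
  have : ⁅C1, C2⁆ = ⊥ := eq_bot_of_le_comm hM JM fun x hx => by
    obtain ⟨y, hy, e⟩ := cop' (y := x) ((hM.to_le JM).to_le J0) oH (b.trans cm_le_ns)
      fun k hk => (b hk).2 x hx
    have : y * x ∈ (⊥ : Subgroup G) := fH ▸ mem_inf.2 ⟨MU (JM (mul_mem (J0 hy) hx)), e⟩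
    rw [eq_inv_of_mul_eq_one_right (mem_bot.1 this)]
    exact inv_mem hy
  exact commutator_eq_bot_iff_le_centralizer.1 this

/-- `Y = C_Y(T2) C_Y(T1)` -/
def Spl (T1 T2 Y : Subgroup G) : Prop := ∀ y ∈ Y, ∃ x ∈ Y ⊓ Cs T2, ∃ x' ∈ Y ⊓ Cs T1, y = x * x'

theorem Spl.cj {T1 T2 Y : Subgroup G} {g : G} (h : Spl T1 T2 Y) (h1 : g ∈ Ns T1) (h2 : g ∈ Ns T2) :
    Spl T1 T2 (cjs g Y) := by
  rintro _ ⟨y, hy, rfl⟩
  obtain ⟨x, hx, x', hx', rfl⟩ := h y hy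
  refine ⟨g * x * g⁻¹, ⟨cj_mem_cjs hx.1, cj_mem (ns_cs h2) hx.2⟩, g * x' * g⁻¹,
    ⟨cj_mem_cjs hx'.1, cj_mem (ns_cs h1) hx'.2⟩, ?_⟩
  change g * (x * x') * g⁻¹ = _
  group

theorem Spl.gen {T1 T2 Y J : Subgroup G} (h : Spl T1 T2 Y) (hJ : IsPGroup 2 J) (le : J ≤ Y)
    (o1 : Odd (Nat.card T1)) (n12 : T1 ≤ Ns T2) (nJ : T1 ≤ Ns J) : J ≤ J ⊓ Cs T2 ⊔ J ⊓ Cs T1 := by
  intro y hy
  obtain ⟨x, hx, x', hx', e⟩ := h y (le hy)
  obtain ⟨z, hz, e'⟩ := cop' (Y₀ := J ⊓ Cs T2) (y := y) hJ.to_inf_left o1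
    (fun k hk => ns_inf (nJ hk) (ns_cs (n12 hk))) fun k hk => ⟨comm_mem_left (nJ hk) hy, by
      rw [e, comm_mul_right, comm_eq_one_of_cs' hx'.2 hk, mul_one, mul_inv_cancel, mul_one]
      exact comm_mem_left (ns_cs (n12 hk)) hx.2⟩
  have := mul_mem_sup (inv_mem hz) (mem_inf.2 ⟨mul_mem hz.1 hy, e'⟩ : z * y ∈ J ⊓ Cs T1)
  rwa [inv_mul_cancel_left] at this

end Gen

section Main
variable {K : Type*} [Field K] [Fintype K] [CharP K 2] {T : TF K} {G : Type*} [Group G] [Finite G]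
  {A : AD T G} {t : G} {P : Par A t (K × K)} {π : G → K × K}

theorem wt_fst {a b : K × K} (ha : a.1 = 1) (hb : b.1 = 1) (i : ℕ) : (wt (th T false) a b i).1 = 1 := by
  unfold wt; split <;> simp [th_false, ha, hb]

theorem wt_snd {a b : K × K} (ha : a.2 = 1) (hb : b.2 = 1) (i : ℕ) : (wt (th T false) a b i).2 = 1 := by
  unfold wt; split <;> simp [th_false, ha, hb]

theorem mem_T2 (h : DW P false π) {k : G} : k ∈ T2 P false π ↔
    ∃ a b : (K × K)ˣ, Dg2 P false π k a b ∧ (a : K × K).1 = 1 ∧ (b : K × K).1 = 1 := by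
  refine ⟨fun hk => ?_, fun hk => subset_closure hk⟩
  have hi : ∀ a : (K × K)ˣ, (a : K × K).1 = 1 → ((a⁻¹ : (K × K)ˣ) : K × K).1 = 1 := fun a ha => by
    have := congrArg Prod.fst a.mul_inv
    rwa [Prod.fst_mul, ha, one_mul] at this
  induction hk using closure_induction with
  | mem x hx => exact hx
  | one => exact ⟨_, _, map_one A.h ▸ h.h 1, by simp, by simp⟩
  | mul x y _ _ ihx ihy =>
    obtain ⟨a, b, d, ha, hb⟩ := ihx
    obtain ⟨a', b', d', ha', hb'⟩ := ihy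
    exact ⟨_, _, h.mul d d', by simp [ha, ha'], by simp [hb, hb']⟩
  | inv x _ ih =>
    obtain ⟨a, b, d, ha, hb⟩ := ih
    exact ⟨_, _, h.inv d, hi a ha, hi b hb⟩

theorem mem_T1 (ht : Inv2 t) (h : DW P false π) {k : G} : k ∈ cjs t (T2 P false π) ↔
    ∃ a b : (K × K)ˣ, Dg2 P false π k a b ∧ (a : K × K).2 = 1 ∧ (b : K × K).2 = 1 := by
  rw [mem_cjs, Inv2.inv_eq ht, mem_T2 h]
  constructor
  · rintro ⟨a, b, d, ha, hb⟩
    have := h.tt d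
    rw [show t * (t * k * t) * t = (t * t) * k * (t * t) by group, ht.1, one_mul, mul_one] at this
    exact ⟨_, _, this, ha, hb⟩
  · rintro ⟨a, b, d, ha, hb⟩
    exact ⟨_, _, h.tt d, ha, hb⟩

theorem ns_T2 (h : DW P false π) {k : G} {a b : (K × K)ˣ} (d : Dg2 P false π k a b) :
    k ∈ Ns (T2 P false π) := mem_ns_of fun y hy => by
  obtain ⟨a', b', d', ha, hb⟩ := (mem_T2 h).1 hy
  have := h.mul (h.mul d d') (h.inv d)
  rw [mul_inv_cancel_comm, mul_inv_cancel_comm] at this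
  exact (mem_T2 h).2 ⟨_, _, this, ha, hb⟩

theorem ns_T1 (ht : Inv2 t) (h : DW P false π) {k : G} {a b : (K × K)ˣ} (d : Dg2 P false π k a b) :
    k ∈ Ns (cjs t (T2 P false π)) := mem_ns_of fun y hy => by
  obtain ⟨a', b', d', ha, hb⟩ := (mem_T1 ht h).1 hy
  have := h.mul (h.mul d d') (h.inv d)
  rw [mul_inv_cancel_comm, mul_inv_cancel_comm] at this
  exact (mem_T1 ht h).2 ⟨_, _, this, ha, hb⟩

theorem n1_T2 (h : DW P false π) : A.n1 ∈ Ns (T2 P false π) := mem_ns_of fun y hy => by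
  obtain ⟨a, b, d, ha, hb⟩ := (mem_T2 h).1 hy
  rw [n1_inv]
  refine (mem_T2 h).2 ⟨_, _, h.n1 d, ?_, by simp [ha, hb]⟩
  have := congrArg Prod.fst a.mul_inv
  rwa [Prod.fst_mul, ha, one_mul] at this

theorem n8_T2 (h : DW P false π) : A.n8 ∈ Ns (T2 P false π) := mem_ns_of fun y hy => by
  obtain ⟨a, b, d, ha, hb⟩ := (mem_T2 h).1 hy
  rw [n8_inv]
  refine (mem_T2 h).2 ⟨_, _, h.n8 d, by simp [ha, hb, th_false], ?_⟩
  have := congrArg Prod.fst b.mul_inv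
  rwa [Prod.fst_mul, hb, one_mul] at this

theorem ns_t {g : G} {X : Subgroup G} (hg : g ∈ Cz t) (h : g ∈ Ns X) : g ∈ Ns (cjs t X) := by
  have := mem_ns_cjs (g := t) h
  rwa [← H65.SR.mem_Cz.1 hg, mul_inv_cancel_right] at this

/-- the unit `(c, 1)` -/
def u1 (c : Kˣ) : (K × K)ˣ := ⟨(c, 1), ((c⁻¹ : Kˣ), 1), by ext <;> simp, by ext <;> simp⟩

theorem H_le (h : H10 P false π) : A.h.range ≤ cjs t (T2 P false π) ⊔ T2 P false π := by
  rintro _ ⟨p, rfl⟩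
  obtain ⟨k, d⟩ := h.tor (u1 p.1) (u1 p.2)
  have h1 : k ∈ cjs t (T2 P false π) := (mem_T1 h.cf.inv h.dw).2 ⟨_, _, d, rfl, rfl⟩
  have h2 : k⁻¹ * A.h p ∈ T2 P false π := (mem_T2 h.dw).2 ⟨_, _, h.dw.mul (h.dw.inv d) (h.dw.h p),
    by simp [u1], by simp [u1]⟩
  have := mul_mem_sup h1 h2
  rwa [mul_inv_cancel_left] at this

theorem fix_H (h : H7 A t) : Us A t ⊓ Cs A.h.range = ⊥ := by
  refine triv_of h.cf.inv h.su.fr.two.to_inf_left
    (ns_inf h.su.fr.tY (ns_cs (h.cf.t_ns (H65.SR.H_le A)))) fun y hy hc => ?_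
  have hS : y ∈ A.S := h.su.fr.mem hy.1 hc
  have h1 := h.la.memT (i := 1) hS (cs_anti (TT_le_H A 1) hy.2)
  have h8 := h.la.memT (i := 8) hS (cs_anti (TT_le_H A 8) hy.2)
  obtain ⟨c, hc1, rfl⟩ := h1
  rw [ι_mem_im] at h8
  have hc' : c ∈ sU1 T := hc1
  have h8' : c ∈ sU8 T := h8
  rw [ι_eq_one]
  ext <;> simp_all

theorem cs_of_cj {k x : G} (e : k * x * k⁻¹ = x) : k * x = x * k := by
  rw [← mul_inv_eq_iff_eq_mul, e]

theorem split5 (h : H10 P false π) : Spl (cjs t (T2 P false π)) (T2 P false π) (B5 A t) := by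
  intro y hy
  obtain ⟨r, rfl⟩ := (P.b_mem y).1 hy
  refine ⟨P.b (r.1, 0), ⟨(P.b_mem _).2 ⟨_, rfl⟩, H65.SR.mem_Cs.2 fun k hk => ?_⟩, P.b (0, r.2),
    ⟨(P.b_mem _).2 ⟨_, rfl⟩, H65.SR.mem_Cs.2 fun k hk => ?_⟩, by rw [← P.b_add]; simp⟩
  · obtain ⟨a, b, d, ha, hb⟩ := (mem_T2 h.dw).1 hk
    refine cs_of_cj ((d.1.d5 _).trans (congrArg P.b ?_))
    ext <;> simp [wt_fst ha hb]
  · obtain ⟨a, b, d, ha, hb⟩ := (mem_T1 h.cf.inv h.dw).1 hk
    refine cs_of_cj ((d.1.d5 _).trans (congrArg P.b ?_))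
    ext <;> simp [wt_snd ha hb]

theorem split4 (h : H10 P false π) : Spl (cjs t (T2 P false π)) (T2 P false π) (U4s A t) := by
  have le : A4 A t ≤ U4s A t := h.sq2.db4.le0
  have two : IsPGroup 2 (A4 A t) := h.sq2.fr4.two.to_le le
  have o2 : Odd (Nat.card (T2 P false π)) := odd_card fun k hk => by
    obtain ⟨a, b, d, -⟩ := (mem_T2 h.dw).1 hk
    exact h.dw.odd d
  have o1 : Odd (Nat.card (cjs t (T2 P false π))) := by rwa [card_cjs]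
  have p1 : π 1 = 0 := (h.rp.ker 1 (one_mem _)).2 (one_mem _)
  have pinv : ∀ y ∈ U4s A t, π y⁻¹ = -π y := fun y hy => by
    have := h.rp.mul y hy _ (inv_mem hy)
    rw [mul_inv_cancel, p1] at this
    exact (neg_eq_of_add_eq_zero_right this.symm).symm
  have nA : ∀ {k a b}, Dg2 P false π k a b → k ∈ Ns (A4 A t) := fun {k a b} d => mem_ns_of fun y hy => by
    obtain ⟨r, rfl⟩ := (P.a_mem y).1 hy
    exact (P.a_mem _).2 ⟨_, d.1.d4.1 r⟩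
  -- an element with given `π`, fixed by a group of diagonal elements
  have key : ∀ (X : Subgroup G) (s : K × K), Odd (Nat.card X) →
      (∀ k ∈ X, ∃ a b, Dg2 P false π k a b ∧ wt (th T false) (a : K × K) b 4 * s = s) →
      ∃ x ∈ U4s A t ⊓ Cs X, π x = s := fun X s o hX => by
    obtain ⟨y, hy, rfl⟩ := h.rp.onto s
    obtain ⟨z, hz, e⟩ := cop' (y := y) two o (fun k hk => by
      obtain ⟨a, b, d, -⟩ := hX k hk
      exact nA d) fun k hk => by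
        obtain ⟨a, b, d, e⟩ := hX k hk
        obtain ⟨y', hy', e1, e2⟩ := d.1.d4.2 y hy
        have e1' : k * y * k⁻¹ = y' := e1
        rw [commutatorElement_def, e1']
        refine (h.rp.ker _ (mul_mem hy' (inv_mem hy))).1 ?_
        rw [h.rp.mul _ hy' _ (inv_mem hy), pinv y hy, e2, e, add_neg_cancel]
    refine ⟨z * y, ⟨mul_mem (le hz) hy, e⟩, ?_⟩
    rw [h.rp.mul _ (le hz) _ hy, (h.rp.ker _ (le hz)).2 hz, zero_add]
  intro y hy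
  obtain ⟨x, hx, ex⟩ := key (T2 P false π) ((π y).1, 0) o2 fun k hk => by
    obtain ⟨a, b, d, ha, hb⟩ := (mem_T2 h.dw).1 hk
    exact ⟨a, b, d, by ext <;> simp [wt_fst ha hb]⟩
  obtain ⟨x', hx', ex'⟩ := key (cjs t (T2 P false π)) (0, (π y).2) o1 fun k hk => by
    obtain ⟨a, b, d, ha, hb⟩ := (mem_T1 h.cf.inv h.dw).1 hk
    exact ⟨a, b, d, by ext <;> simp [wt_snd ha hb]⟩
  have m : x⁻¹ * y * x'⁻¹ ∈ A4 A t := by
    refine (h.rp.ker _ (mul_mem (mul_mem (inv_mem hx.1) hy) (inv_mem hx'.1))).1 ?_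
    rw [h.rp.mul _ (mul_mem (inv_mem hx.1) hy) _ (inv_mem hx'.1), h.rp.mul _ (inv_mem hx.1) _ hy,
      pinv _ hx.1, pinv _ hx'.1, ex, ex']
    ext <;> simp
  obtain ⟨r, er⟩ := (P.a_mem _).1 m
  refine ⟨x * P.a (r.1, 0), mul_mem hx ⟨le ((P.a_mem _).2 ⟨_, rfl⟩), H65.SR.mem_Cs.2 fun k hk => ?_⟩,
    P.a (0, r.2) * x', mul_mem ⟨le ((P.a_mem _).2 ⟨_, rfl⟩), H65.SR.mem_Cs.2 fun k hk => ?_⟩ hx', ?_⟩
  · obtain ⟨a, b, d, ha, hb⟩ := (mem_T2 h.dw).1 hk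
    refine cs_of_cj ((d.1.d4.1 _).trans (congrArg P.a ?_))
    ext <;> simp [wt_fst ha hb, th_false]
  · obtain ⟨a, b, d, ha, hb⟩ := (mem_T1 h.cf.inv h.dw).1 hk
    refine cs_of_cj ((d.1.d4.1 _).trans (congrArg P.a ?_))
    ext <;> simp [wt_snd ha hb, th_false]
  · have : P.a (r.1, 0) * P.a (0, r.2) = x⁻¹ * y * x'⁻¹ := by rw [← P.a_add, er]; simp
    rw [mul_assoc, ← mul_assoc (P.a _), this]
    group

theorem splitU (h : H10 P false π) (i : ℕ) :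
    Spl (cjs t (T2 P false π)) (T2 P false π) (Ui A t i) := by
  have a2 := n1_T2 h.dw
  have b2 := n8_T2 h.dw
  have a1 := ns_t h.cf.n1t a2
  have b1 := ns_t h.cf.n8t b2
  have s5 := split5 h
  have s4 := split4 h
  have s3 : Spl _ _ (B3 A t) := s5.cj b1 b2
  have s7 : Spl _ _ (B7 A t) := s3.cj a1 a2
  have s1 : Spl _ _ (B1 A t) := s7.cj b1 b2
  have s6 : Spl _ _ (U6s A t) := s4.cj a1 a2
  have s2 : Spl _ _ (U2s A t) := s6.cj b1 b2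
  have s8 : Spl _ _ (U8s A t) := s2.cj a1 a2
  unfold Ui
  split <;> assumption

theorem sw (h : H10 P false π) : SW P π := by
  have o2 : Odd (Nat.card (T2 P false π)) := odd_card fun k hk => by
    obtain ⟨a, b, d, -⟩ := (mem_T2 h.dw).1 hk
    exact h.dw.odd d
  have o1 : Odd (Nat.card (cjs t (T2 P false π))) := by rwa [card_cjs]
  have n12 : cjs t (T2 P false π) ≤ Ns (T2 P false π) := fun k hk => by
    obtain ⟨a, b, d, -⟩ := (mem_T1 h.cf.inv h.dw).1 hk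
    exact ns_T2 h.dw d
  have n21 : T2 P false π ≤ Ns (cjs t (T2 P false π)) := fun k hk => by
    obtain ⟨a, b, d, -⟩ := (mem_T2 h.dw).1 hk
    exact ns_T1 h.cf.inv h.dw d
  have n1 : cjs t (T2 P false π) ≤ Ns (Us A t) := fun k hk => by
    obtain ⟨a, b, d, -⟩ := (mem_T1 h.cf.inv h.dw).1 hk
    exact h.dw.nUs d
  have n2 : T2 P false π ≤ Ns (Us A t) := fun k hk => by
    obtain ⟨a, b, d, -⟩ := (mem_T2 h.dw).1 hk
    exact h.dw.nUs d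
  have n1i : ∀ i, cjs t (T2 P false π) ≤ Ns (Ui A t i) := fun i k hk => by
    obtain ⟨a, b, d, -⟩ := (mem_T1 h.cf.inv h.dw).1 hk
    exact h.dw.nU d i
  have hH := H_le h
  have fH := fix_H h.toH7
  refine ⟨?_, fun i y hy => ?_, ?_, n1_T2 h.dw, n8_T2 h.dw⟩
  · rw [cjs_inf, cjs_eq h.su.fr.tY, cjs_cs]
    refine main h.su.fr.two o1 o2 h.la.oddH n1 n2 n12 n21 hH fH fun J hJ j1 j2 => ?_
    refine (h.su.hgen J hJ (hH.trans (sup_le j1 j2))).trans (iSup_le fun i => ?_)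
    refine ((splitU h i).gen (h.su.fr.two.to_le hJ).to_inf_left inf_le_right o1 n12
      fun k hk => ns_inf (j1 hk) (n1i i hk)).trans ?_
    exact sup_le_sup (inf_le_inf_right _ inf_le_left) (inf_le_inf_right _ inf_le_left)
  · obtain ⟨x, hx, x', hx', rfl⟩ := splitU h i y hy
    have ti := Inv2.inv_eq h.cf.inv
    refine ⟨x, hx, t * x' * t, ⟨?_, ?_⟩, ?_⟩
    · have := cj_mem (h.su.frU i).tY hx'.1
      rwa [ti] at this
    · have : x' ∈ Cs (cjs t (T2 P false π)) := hx'.2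
      rwa [← cjs_cs, mem_cjs, ti] at this
    · rw [show t * (t * x' * t) * t = (t * t) * x' * (t * t) by group, h.cf.inv.1, one_mul, mul_one]
  · rw [cjs_cs, eq_bot_iff, ← fH]
    exact fun x hx => ⟨hx.1.1, cs_anti hH (cs_sup hx.2 hx.1.2)⟩

end Main

theorem jobW1 : JobW1.{u, v} := fun kit K _ _ _ T G _ _ A t P π h => sw h

end H76.SRW1
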