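import Cfsg.Agent.H76.Sharp

/-! Tits' argument: a sharply 4-transitive group has degree at most 11, and not 8 or 10. -/

set_option autoImplicit false

namespace H76.Tits4

open MulAction

variable {G Ω : Type*} [Group G] [MulAction G Ω]

/-- four distinct points -/
def D4 (a b c d : Ω) : Prop := a ≠ b ∧ a ≠ c ∧ a ≠ d ∧ b ≠ c ∧ b ≠ d ∧ c ≠ d

/-- the embedding given by four distinct points -/
def emb {a b c d : Ω} (h : D4 a b c d) : Fin 4 ↪ Ω :=
  ⟨![a, b, c, d], by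
    obtain ⟨h1, h2, h3, h4, h5, h6⟩ := h
    intro i j hij
    fin_cases i <;> fin_cases j <;> simp_all [eq_comm]⟩

theorem ex4 (h : SharpT G Ω 4) {a b c d a' b' c' d' : Ω} (h1 : D4 a b c d) (h2 : D4 a' b' c' d') :
    ∃ g : G, g • a = a' ∧ g • b = b' ∧ g • c = c' ∧ g • d = d' := by
  have h' : IsPretransitive G (Fin 4 ↪ Ω) := h.1
  obtain ⟨g, hg⟩ := exists_smul_eq G (emb h1) (emb h2)
  have k : ∀ i, g • emb h1 i = emb h2 i := fun i => by
    have := congrArg (fun y : Fin 4 ↪ Ω => y i) hg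
    simpa using this
  exact ⟨g, k 0, k 1, k 2, k 3⟩

theorem one4 (h : SharpT G Ω 4) {a b c d : Ω} (h1 : D4 a b c d) {g : G} (ha : g • a = a)
    (hb : g • b = b) (hc : g • c = c) (hd : g • d = d) : g = 1 := by
  have : g ∈ stabilizer G (emb h1) := by
    rw [mem_stabilizer_emb_iff]
    intro i
    fin_cases i
    exacts [ha, hb, hc, hd]
  rw [h.2] at this
  exact this

theorem eq4 (h : SharpT G Ω 4) {a b c d : Ω} (h1 : D4 a b c d) {g k : G} (ha : g • a = k • a)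
    (hb : g • b = k • b) (hc : g • c = k • c) (hd : g • d = k • d) : g = k := by
  have : k⁻¹ * g = 1 := one4 h h1 (by rw [mul_smul, ha, inv_smul_smul])
    (by rw [mul_smul, hb, inv_smul_smul]) (by rw [mul_smul, hc, inv_smul_smul])
    (by rw [mul_smul, hd, inv_smul_smul])
  exact (inv_mul_eq_one.1 this).symm

/-- the configuration: a four-group `{1, t, u, t u}` with fixed points `p1 p2 | p3 p4 | p5 p6` -/
structure Cfg (t u : G) (p1 p2 p3 p4 p5 p6 : Ω) : Prop where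
  d : D4 p1 p2 p3 p4
  t1 : t • p1 = p1
  t2 : t • p2 = p2
  t3 : t • p3 = p4
  t4 : t • p4 = p3
  u1 : u • p1 = p2
  u2 : u • p2 = p1
  u3 : u • p3 = p3
  u4 : u • p4 = p4
  t5 : t • p5 = p6
  u5 : u • p5 = p6
  n56 : p5 ≠ p6

section
variable (h : SharpT G Ω 4) {t u : G} {p1 p2 p3 p4 p5 p6 : Ω} (c : Cfg t u p1 p2 p3 p4 p5 p6)
include h c

theorem Cfg.tt : t * t = 1 :=
  one4 h c.d (by simp [mul_smul, c.t1]) (by simp [mul_smul, c.t2]) (by simp [mul_smul, c.t3, c.t4])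
    (by simp [mul_smul, c.t3, c.t4])

theorem Cfg.uu : u * u = 1 :=
  one4 h c.d (by simp [mul_smul, c.u1, c.u2]) (by simp [mul_smul, c.u1, c.u2])
    (by simp [mul_smul, c.u3]) (by simp [mul_smul, c.u4])

theorem Cfg.tu : t * u = u * t :=
  eq4 h c.d (by simp [mul_smul, c.u1, c.t1, c.t2]) (by simp [mul_smul, c.u2, c.t1, c.t2])
    (by simp [mul_smul, c.u3, c.u4, c.t3]) (by simp [mul_smul, c.u3, c.u4, c.t4])

theorem Cfg.ttx (x : Ω) : t • t • x = x := by rw [← mul_smul, c.tt h, one_smul]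

theorem Cfg.uux (x : Ω) : u • u • x = x := by rw [← mul_smul, c.uu h, one_smul]

theorem Cfg.utx (x : Ω) : u • t • x = t • u • x := by rw [← mul_smul, ← c.tu h, mul_smul]

/-- a fixed point of `t` other than `p1 p2` is fixed by `u` -/
theorem Cfg.fix_t {x : Ω} (hx : t • x = x) (h1 : x ≠ p1) (h2 : x ≠ p2) : u • x = x := by
  by_contra hne
  have k1 : u • x ≠ p1 := fun e => h2 (by rw [← c.uux h x, e, c.u1])
  have k2 : u • x ≠ p2 := fun e => h1 (by rw [← c.uux h x, e, c.u2])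
  have := one4 h (a := p1) (b := p2) (c := x) (d := u • x)
    ⟨c.d.1, h1.symm, k1.symm, h2.symm, k2.symm, fun e => hne e.symm⟩ c.t1 c.t2 hx
    (by rw [← c.utx h, hx])
  have h3 := c.t3
  rw [this, one_smul] at h3
  exact c.d.2.2.2.2.2 h3

/-- a fixed point of `u` other than `p3 p4` is fixed by `t` -/
theorem Cfg.fix_u {x : Ω} (hx : u • x = x) (h1 : x ≠ p3) (h2 : x ≠ p4) : t • x = x := by
  by_contra hne
  have k1 : t • x ≠ p3 := fun e => h2 (by rw [← c.ttx h x, e, c.t3])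
  have k2 : t • x ≠ p4 := fun e => h1 (by rw [← c.ttx h x, e, c.t4])
  have := one4 h (a := p3) (b := p4) (c := x) (d := t • x)
    ⟨c.d.2.2.2.2.2, h1.symm, k1.symm, h2.symm, k2.symm, fun e => hne e.symm⟩ c.u3 c.u4 hx
    (by rw [c.utx h, hx])
  have h3 := c.u1
  rw [this, one_smul] at h3
  exact c.d.1 h3

/-- a fixed point of `t u` other than `p5 p6` is fixed by `t` -/
theorem Cfg.fix_w {x : Ω} (hx : t • u • x = x) (h1 : x ≠ p5) (h2 : x ≠ p6) : t • x = x := by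
  by_contra hne
  have t6 : t • p6 = p5 := by rw [← c.t5, c.ttx h]
  have u6 : u • p6 = p5 := by rw [← c.u5, c.uux h]
  have k1 : t • x ≠ p5 := fun e => h2 (by rw [← c.ttx h x, e, c.t5])
  have k2 : t • x ≠ p6 := fun e => h1 (by rw [← c.ttx h x, e, t6])
  have := one4 h (a := p5) (b := p6) (c := x) (d := t • x) (g := t * u)
    ⟨c.n56, h1.symm, k1.symm, h2.symm, k2.symm, fun e => hne e.symm⟩
    (by rw [mul_smul, c.u5, t6]) (by rw [mul_smul, u6, c.t5]) (by rw [mul_smul, hx])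
    (by rw [mul_smul, c.utx h, hx])
  have h3 : (t * u) • p1 = p2 := by rw [mul_smul, c.u1, c.t2]
  rw [this, one_smul] at h3
  exact c.d.1 h3

/-- at most one common fixed point -/
theorem Cfg.fix_uniq {x y : Ω} (hx : t • x = x) (hx' : u • x = x) (hy : t • y = y)
    (hy' : u • y = y) : x = y := by
  by_contra hne
  have k : ∀ z : Ω, u • z = z → p1 ≠ z ∧ p2 ≠ z := fun z hz =>
    ⟨fun e => c.d.1 (by rw [← c.u1, e, hz]), fun e => c.d.1 (by rw [← c.u2, e, hz])⟩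
  have := one4 h (a := p1) (b := p2) (c := x) (d := y)
    ⟨c.d.1, (k x hx').1, (k y hy').1, (k x hx').2, (k y hy').2, hne⟩ c.t1 c.t2 hx hy
  have h3 := c.t3
  rw [this, one_smul] at h3
  exact c.d.2.2.2.2.2 h3

/-- the transposition of a regular orbit, read on the six points -/
theorem Cfg.swap {x : Ω} (h1 : t • x ≠ x) (h2 : u • x ≠ x) (h3 : t • u • x ≠ x) :
    ∃ g : G, g • x = x ∧ g • t • x = t • x ∧ g • u • x = t • u • x ∧ g * t = t * g ∧
      g • p1 = p2 ∧ g • p2 = p1 ∧ (g • p3 = p5 ∨ g • p3 = p6) := by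
  have k1 : t • x ≠ u • x := fun e => h3 (by rw [← e, c.ttx h])
  have k2 : t • x ≠ t • u • x := fun e => h2 (MulAction.injective t e).symm
  have k3 : u • x ≠ t • u • x := fun e =>
    h1 (MulAction.injective u (show u • t • x = u • x by rw [c.utx h, ← e]))
  have d1 : D4 x (t • x) (u • x) (t • u • x) := ⟨h1.symm, h2.symm, h3.symm, k1, k2, k3⟩
  obtain ⟨g, g1, g2, g3, g4⟩ := ex4 h d1
    (⟨h1.symm, h3.symm, h2.symm, k2, k1, k3.symm⟩ : D4 x (t • x) (t • u • x) (u • x))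
  have gt : g * t = t * g := eq4 h d1 (by simp [mul_smul, g1, g2])
    (by simp [mul_smul, g1, g2, c.ttx h]) (by simp [mul_smul, g3, g4, c.ttx h])
    (by simp [mul_smul, g3, g4, c.ttx h])
  have gu : g * u = t * u * g := eq4 h d1 (by simp [mul_smul, g1, g3])
    (by simp [mul_smul, g2, g4, c.ttx h, c.utx h])
    (by simp [mul_smul, g1, g3, c.ttx h, c.utx h, c.uux h])
    (by simp [mul_smul, g2, g4, c.utx h, c.uux h])
  have gtx : ∀ y : Ω, t • g • y = g • t • y := fun y => by rw [← mul_smul, ← gt, mul_smul]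
  have gux : ∀ y : Ω, t • u • g • y = g • u • y := fun y => by
    rw [← mul_smul, ← mul_smul, ← gu, mul_smul]
  have k : ∀ y : Ω, t • y = y → u • y ≠ y → g • y = p1 ∨ g • y = p2 := fun y hy hy' => by
    by_contra hne
    push Not at hne
    have e1 : t • g • y = g • y := by rw [gtx, hy]
    have e2 := c.fix_t h e1 hne.1 hne.2
    have e3 := gux y
    rw [e2, e1] at e3
    exact hy' (MulAction.injective g e3).symm
  have a1 := k p1 c.t1 (by rw [c.u1]; exact c.d.1.symm)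
  have a2 := k p2 c.t2 (by rw [c.u2]; exact c.d.1)
  have x1 : ∀ y : Ω, t • y = y → x ≠ y ∧ t • x ≠ y := fun y hy =>
    ⟨fun e => h1 (by rw [e, hy]), fun e => h1 (by rw [← c.ttx h x, e, hy, hy])⟩
  have a3 : g • p1 = p2 ∧ g • p2 = p1 := by
    rcases a1 with a1 | a1 <;> rcases a2 with a2 | a2
    · exact absurd (MulAction.injective g (a1.trans a2.symm)) c.d.1
    · have := one4 h (a := x) (b := t • x) (c := p1) (d := p2)
        ⟨h1.symm, (x1 _ c.t1).1, (x1 _ c.t2).1, (x1 _ c.t1).2, (x1 _ c.t2).2, c.d.1⟩ g1 g2 a1 a2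
      rw [this, one_smul] at g3
      exact absurd g3 k3
    · exact ⟨a1, a2⟩
    · exact absurd (MulAction.injective g (a1.trans a2.symm)) c.d.1
  refine ⟨g, g1, g2, g3, gt, a3.1, a3.2, ?_⟩
  by_contra hne
  push Not at hne
  have e1 : t • u • g • p3 = g • p3 := by rw [gux, c.u3]
  have e2 := c.fix_w h e1 hne.1 hne.2
  rw [gtx, c.t3] at e2
  exact c.d.2.2.2.2.2 (MulAction.injective g e2).symm

theorem Cfg.swap' {x : Ω} (h1 : t • x ≠ x) (h2 : u • x ≠ x) (h3 : t • u • x ≠ x) :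
    ∃ (g : G) (y : Ω), (y = x ∨ y = u • x) ∧ g • y = y ∧ g • t • y = t • y ∧
      g • p1 = p2 ∧ g • p2 = p1 ∧ g • p3 = p5 ∧ g • p4 = p6 := by
  obtain ⟨g, g1, g2, g3, gt, a1, a2, a3⟩ := c.swap h h1 h2 h3
  have gtx : ∀ y : Ω, g • t • y = t • g • y := fun y => by rw [← mul_smul, gt, mul_smul]
  have t6 : t • p6 = p5 := by rw [← c.t5, c.ttx h]
  rcases a3 with a3 | a3
  · exact ⟨g, x, Or.inl rfl, g1, g2, a1, a2, a3, by rw [← c.t3, gtx, a3, c.t5]⟩
  · refine ⟨t * g, u • x, Or.inr rfl, ?_, ?_, ?_, ?_, ?_, ?_⟩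
    · rw [mul_smul, g3, c.ttx h]
    · rw [mul_smul, gtx, g3, c.ttx h]
    · rw [mul_smul, a1, c.t2]
    · rw [mul_smul, a2, c.t1]
    · rw [mul_smul, a3, t6]
    · rw [mul_smul, ← c.t3, gtx, a3, t6, c.t5]

theorem Cfg.false (hbig : ∀ s : Finset Ω, s.card ≤ 11 → ∃ x, x ∉ s) : False := by
  classical
  obtain ⟨p, hp⟩ : ∃ p : Ω, ∀ x : Ω, t • x = x → u • x = x → x = p := by
    by_cases hex : ∃ p : Ω, t • p = p ∧ u • p = p
    · obtain ⟨p, h1, h2⟩ := hex
      exact ⟨p, fun x hx hx' => c.fix_uniq h hx hx' h1 h2⟩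
    · exact ⟨p1, fun x hx hx' => absurd ⟨x, hx, hx'⟩ hex⟩
  have reg : ∀ x : Ω, x ∉ ({p1, p2, p3, p4, p5, p6, p} : Finset Ω) →
      t • x ≠ x ∧ u • x ≠ x ∧ t • u • x ≠ x := fun x hx => by
    simp only [Finset.mem_insert, Finset.mem_singleton, not_or] at hx
    obtain ⟨x1, x2, x3, x4, x5, x6, x7⟩ := hx
    have k1 : t • x ≠ x := fun e => x7 (hp x e (c.fix_t h e x1 x2))
    exact ⟨k1, fun e => k1 (c.fix_u h e x3 x4), fun e => k1 (c.fix_w h e x5 x6)⟩
  have hc : ({p1, p2, p3, p4, p5, p6, p} : Finset Ω).card ≤ 7 := by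
    simpa using List.toFinset_card_le [p1, p2, p3, p4, p5, p6, p]
  obtain ⟨x, hx⟩ := hbig _ (hc.trans (by norm_num))
  obtain ⟨y, hy⟩ := hbig ({p1, p2, p3, p4, p5, p6, p} ∪ {x, t • x, u • x, t • u • x})
    ((Finset.card_union_le _ _).trans (add_le_add hc Finset.card_le_four))
  rw [Finset.mem_union, not_or] at hy
  obtain ⟨x1, x2, x3⟩ := reg x hx
  obtain ⟨y1, y2, y3⟩ := reg y hy.1
  have hy2 := hy.2
  simp only [Finset.mem_insert, Finset.mem_singleton, not_or] at hy2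
  obtain ⟨z1, z2, z3, z4⟩ := hy2
  obtain ⟨g, x', hx', g1, g2, a1, a2, a3, a4⟩ := c.swap' h x1 x2 x3
  obtain ⟨k, y', hy', k1, k2, b1, b2, b3, b4⟩ := c.swap' h y1 y2 y3
  have e : k = g := eq4 h c.d (by rw [a1, b1]) (by rw [a2, b2]) (by rw [a3, b3]) (by rw [a4, b4])
  subst e
  have m1 : ∀ z : Ω, (z = x ∨ z = u • x) → t • z ≠ z := by
    rintro z (rfl | rfl)
    · exact x1
    · intro e
      rw [← c.utx h] at e
      exact x1 (MulAction.injective u e)
  have m2 : ∀ z : Ω, (z = y ∨ z = u • y) → t • z ≠ z := by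
    rintro z (rfl | rfl)
    · exact y1
    · intro e
      rw [← c.utx h] at e
      exact y1 (MulAction.injective u e)
  have m3 : x' ≠ y' ∧ t • x' ≠ y' := by
    rcases hx' with rfl | rfl <;> rcases hy' with rfl | rfl
    · exact ⟨fun e => z1 e.symm, fun e => z2 e.symm⟩
    · exact ⟨fun e => z3 (by rw [e, c.uux h]), fun e => z4 (by rw [← c.utx h, e, c.uux h])⟩
    · exact ⟨fun e => z3 e.symm, fun e => z4 e.symm⟩
    · exact ⟨fun e => z1 (MulAction.injective u e).symm,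
        fun e => z2 (MulAction.injective u (show u • y = u • t • x by rw [c.utx h, e]))⟩
  have := one4 h (a := x') (b := t • x') (c := y') (d := t • y')
    ⟨(m1 _ hx').symm, m3.1, fun e => m3.2 (by rw [e, c.ttx h]), m3.2,
      fun e => m3.1 (MulAction.injective t e), (m2 _ hy').symm⟩ g1 g2 k1 k2
  rw [this, one_smul] at a1
  exact c.d.1 a1

end

theorem not_big (h : SharpT G Ω 4) (hbig : ∀ s : Finset Ω, s.card ≤ 11 → ∃ x, x ∉ s) : False := by
  classical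
  obtain ⟨p1, -⟩ := hbig ∅ (by simp)
  obtain ⟨p2, h2⟩ := hbig {p1} (by simp)
  obtain ⟨p3, h3⟩ := hbig {p1, p2} (Finset.card_le_two.trans (by norm_num))
  obtain ⟨p4, h4⟩ := hbig {p1, p2, p3} (Finset.card_le_three.trans (by norm_num))
  obtain ⟨q1, h5⟩ := hbig {p1, p2, p3, p4} (Finset.card_le_four.trans (by norm_num))
  obtain ⟨q2, h6⟩ := hbig {p1, p2, p3, p4, q1} (Finset.card_le_five.trans (by norm_num))
  simp only [Finset.mem_insert, Finset.mem_singleton, not_or] at h2 h3 h4 h5 h6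
  have d : D4 p1 p2 p3 p4 := ⟨Ne.symm h2, Ne.symm h3.1, Ne.symm h4.1, Ne.symm h3.2, Ne.symm h4.2.1,
    Ne.symm h4.2.2⟩
  obtain ⟨d1, d2, d3, d4, d5, d6⟩ := id d
  obtain ⟨t, t1, t2, t3, t4⟩ := ex4 h d (⟨d1, d3, d2, d5, d4, d6.symm⟩ : D4 p1 p2 p4 p3)
  obtain ⟨u, u1, u2, u3, u4⟩ := ex4 h d (⟨d1.symm, d4, d5, d2, d3, d6⟩ : D4 p2 p1 p3 p4)
  have tt : t * t = 1 := one4 h d (by simp [mul_smul, t1]) (by simp [mul_smul, t2])
    (by simp [mul_smul, t3, t4]) (by simp [mul_smul, t3, t4])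
  have ttx : ∀ x : Ω, t • t • x = x := fun x => by rw [← mul_smul, tt, one_smul]
  obtain ⟨a, a1, a3, a4⟩ : ∃ a : Ω, t • a ≠ a ∧ a ≠ p3 ∧ a ≠ p4 := by
    by_contra hne
    push Not at hne
    have k1 : t • q1 = q1 := by_contra fun e => h5.2.2.2 (hne _ e h5.2.2.1)
    have k2 : t • q2 = q2 := by_contra fun e => h6.2.2.2.1 (hne _ e h6.2.2.1)
    have := one4 h (a := p1) (b := p2) (c := q1) (d := q2)
      ⟨d1, Ne.symm h5.1, Ne.symm h6.1, Ne.symm h5.2.1, Ne.symm h6.2.1, Ne.symm h6.2.2.2.2⟩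
      t1 t2 k1 k2
    rw [this, one_smul] at t3
    exact d6 t3
  have d' : D4 p3 p4 a (t • a) := ⟨d6, a3.symm, fun e => a4 (by rw [← ttx a, ← e, t3]), a4.symm,
    fun e => a3 (by rw [← ttx a, ← e, t4]), a1.symm⟩
  obtain ⟨g, g1, g2, g3, g4⟩ := ex4 h d' d
  have gt : g * t = t * u * g := eq4 h d' (by simp [mul_smul, t3, g1, g2, u1, t2])
    (by simp [mul_smul, t4, g1, g2, u2, t1]) (by simp [mul_smul, g3, g4, u3, t3])
    (by simp [mul_smul, g3, g4, u4, t4, ttx])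
  have w : ∀ y : Ω, t • y = y → t • u • g • y = g • y := fun y hy => by
    rw [← mul_smul, ← mul_smul, ← gt, mul_smul, hy]
  have key : ∀ y : Ω, t • u • y = y → t • y ≠ y → False := fun y hy hy' =>
    Cfg.false h (⟨d, t1, t2, t3, t4, u1, u2, u3, u4, rfl, by rw [← ttx (u • y), hy], hy'.symm⟩ :
      Cfg t u p1 p2 p3 p4 y (t • y)) hbig
  have f1 : t • g • p1 = g • p1 := by_contra fun e => key _ (w _ t1) e
  have f2 : t • g • p2 = g • p2 := by_contra fun e => key _ (w _ t2) e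
  have n : ∀ y : Ω, t • u • y = y → p1 ≠ y ∧ p2 ≠ y := fun y hy =>
    ⟨fun e => d1 (by rw [← e, u1, t2] at hy; exact hy.symm),
      fun e => d1 (by rw [← e, u2, t1] at hy; exact hy)⟩
  have := one4 h (a := p1) (b := p2) (c := g • p1) (d := g • p2)
    ⟨d1, (n _ (w _ t1)).1, (n _ (w _ t2)).1, (n _ (w _ t1)).2, (n _ (w _ t2)).2,
      fun e => d1 (MulAction.injective g e)⟩ t1 t2 f1 f2
  rw [this, one_smul] at t3
  exact d6 t3

theorem finite_le (h : SharpT G Ω 4) : Finite Ω ∧ Nat.card Ω ≤ 11 := by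
  classical
  have h1 : ∃ s : Finset Ω, s.card ≤ 11 ∧ ∀ x, x ∈ s := by
    by_contra hne
    push Not at hne
    exact not_big h hne
  obtain ⟨s, hs, hs'⟩ := h1
  letI : Fintype Ω := ⟨s, hs'⟩
  exact ⟨inferInstance, by rw [Nat.card_eq_fintype_card]; exact hs⟩

/-- the degree is not `p + 3` with `p ≥ 5` prime -/
theorem ne_prime [Finite Ω] (h : SharpT G Ω 4) {p : ℕ} (hp : p.Prime) (h5 : 5 ≤ p) :
    Nat.card Ω ≠ p + 3 := by
  intro hn
  have hk : 4 ≤ Nat.card Ω := by omega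
  have := h.finite hk
  obtain ⟨x⟩ : Nonempty (Fin 4 ↪ Ω) := exists_emb_fin hk
  have d : D4 (x 0) (x 1) (x 2) (x 3) := by
    refine ⟨?_, ?_, ?_, ?_, ?_, ?_⟩ <;> exact fun e => absurd (x.injective e) (by decide)
  obtain ⟨d1, d2, d3, d4, d5, d6⟩ := id d
  let y : Fin 3 ↪ Ω := (Fin.castSuccEmb).trans x
  have h4 := h.1
  have h3 := card_of_multTrans (G := G)
    (isMultiplyPretransitive_of_le (n := 4) (m := 3) (by omega) hk) y
  rw [h.card hk, Nat.descFactorial_succ _ 3, mul_comm] at h3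
  have hP : Nat.card (stabilizer G y) = p := by
    have := Nat.eq_of_mul_eq_mul_left (Nat.descFactorial_pos.2 (by omega)) h3
    omega
  have mem : ∀ g : G, g ∈ stabilizer G y ↔ g • x 0 = x 0 ∧ g • x 1 = x 1 ∧ g • x 2 = x 2 := by
    intro g
    rw [mem_stabilizer_emb_iff]
    refine ⟨fun k => ⟨k 0, k 1, k 2⟩, fun k i => ?_⟩
    fin_cases i
    exacts [k.1, k.2.1, k.2.2]
  haveI : Fact p.Prime := ⟨hp⟩
  haveI : IsCyclic (stabilizer G y) := isCyclic_of_prime_card hP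
  obtain ⟨⟨c, hc⟩, hcg⟩ := IsCyclic.exists_generator (α := stabilizer G y)
  have hco : orderOf c = p := by
    rw [← hP, ← orderOf_eq_card_of_forall_mem_zpowers hcg, Subgroup.orderOf_mk]
  obtain ⟨a, a1, a2, a3, a4⟩ := ex4 h d (⟨d1.symm, d4, d5, d2, d3, d6⟩ : D4 (x 1) (x 0) (x 2) (x 3))
  obtain ⟨b, b1, b2, b3, b4⟩ := ex4 h d (⟨d2, d1, d3, d4.symm, d6, d5⟩ : D4 (x 0) (x 2) (x 1) (x 3))
  obtain ⟨c1, c2, c3⟩ := (mem c).1 hc
  have pw : ∀ g : G, g⁻¹ * c * g ∈ stabilizer G y → ∃ i : ℤ, g⁻¹ * c * g = c ^ i := fun g hg => by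
    obtain ⟨i, hi⟩ := hcg ⟨_, hg⟩
    exact ⟨i, (congrArg Subtype.val hi).symm⟩
  obtain ⟨i, hi⟩ := pw a ((mem _).2 ⟨by rw [mul_smul, mul_smul, a1, c2, ← a1, inv_smul_smul],
    by rw [mul_smul, mul_smul, a2, c1, ← a2, inv_smul_smul],
    by rw [mul_smul, mul_smul, a3, c3, inv_smul_eq_iff, a3]⟩)
  obtain ⟨j, hj⟩ := pw b ((mem _).2 ⟨by rw [mul_smul, mul_smul, b1, c1, inv_smul_eq_iff, b1],
    by rw [mul_smul, mul_smul, b2, c3, ← b2, inv_smul_smul],
    by rw [mul_smul, mul_smul, b3, c2, ← b3, inv_smul_smul]⟩)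
  have e1 : (a * b)⁻¹ * c * (a * b) = c ^ (j * i) := by
    have : (a * b)⁻¹ * c * (a * b) = b⁻¹ * (a⁻¹ * c * a) * b := by group
    rw [this, hi, zpow_mul, ← hj]
    simpa using (conj_zpow (a := b⁻¹) (b := c) (i := i)).symm
  have e2 : (b * a)⁻¹ * c * (b * a) = c ^ (j * i) := by
    have : (b * a)⁻¹ * c * (b * a) = a⁻¹ * (b⁻¹ * c * b) * a := by group
    rw [this, hj, mul_comm j i, zpow_mul, ← hi]
    simpa using (conj_zpow (a := a⁻¹) (b := c) (i := j)).symm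
  have e3 : Commute (a * b * (b * a)⁻¹) c := by
    have : (a * b)⁻¹ * c * (a * b) = (b * a)⁻¹ * c * (b * a) := e1.trans e2.symm
    show _ = _
    calc a * b * (b * a)⁻¹ * c = a * b * ((b * a)⁻¹ * c * (b * a)) * (b * a)⁻¹ := by group
      _ = c * (a * b * (b * a)⁻¹) := by rw [← this]; group
  have e4 : (a * b * (b * a)⁻¹) • x 3 = x 3 := by
    rw [mul_smul, inv_smul_eq_iff.2 (by rw [mul_smul, a4, b4] : x 3 = (b * a) • x 3), mul_smul, b4, a4]
  have e5 : ∀ n : ℕ, (a * b * (b * a)⁻¹) • c ^ n • x 3 = c ^ n • x 3 := fun n => by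
    rw [← mul_smul, (e3.pow_right n).eq, mul_smul, e4]
  have e6 : ∀ m n : ℕ, m < n → n ≤ 3 → c ^ m • x 3 ≠ c ^ n • x 3 := fun m n hm hn e => by
    have f : ∀ z : Ω, c • z = z → ∀ k : ℕ, c ^ k • z = z := fun z hz k =>
      (stabilizer G z).pow_mem (show c ∈ stabilizer G z from hz) k
    have f2 : c ^ (n - m) = 1 := one4 h d (f _ c1 _) (f _ c2 _) (f _ c3 _) (by
      apply MulAction.injective (c ^ m)
      show c ^ m • _ = c ^ m • _
      rw [← mul_smul, ← pow_add, Nat.add_sub_cancel' hm.le, e])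
    have := Nat.le_of_dvd (by omega) (hco ▸ orderOf_dvd_of_pow_eq_one f2)
    omega
  have e7 := one4 h (a := c ^ 0 • x 3) (b := c ^ 1 • x 3) (c := c ^ 2 • x 3) (d := c ^ 3 • x 3)
    ⟨e6 _ _ (by omega) (by omega), e6 _ _ (by omega) (by omega), e6 _ _ (by omega) (by omega),
      e6 _ _ (by omega) (by omega), e6 _ _ (by omega) (by omega), e6 _ _ (by omega) (by omega)⟩
    (e5 0) (e5 1) (e5 2) (e5 3)
  have e8 : (a * b) • x 0 = (b * a) • x 0 := by rw [mul_inv_eq_one.1 e7]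
  rw [mul_smul, mul_smul, b1, a1, b2] at e8
  exact d4 e8

theorem tits (h : SharpT G Ω 4) :
    Finite Ω ∧ Nat.card Ω ≤ 11 ∧ (Even (Nat.card Ω) → Nat.card Ω ≤ 6) := by
  obtain ⟨h1, h2⟩ := finite_le h
  refine ⟨h1, h2, fun he => ?_⟩
  have h8 := ne_prime h (p := 5) (by norm_num) le_rfl
  have h10 := ne_prime h (p := 7) (by norm_num) (by norm_num)
  rw [Nat.even_iff] at he
  omega

theorem deg4 (h : SharpT G Ω 4) (hk : 4 ≤ Nat.card Ω) :
    Nat.card Ω = 4 ∨ Nat.card Ω = 5 ∨ Nat.card Ω = 6 ∨ Nat.card Ω = 11 := by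
  have := (tits h).1
  exact h.degree_four hk (tits h).2

theorem deg5 [Finite Ω] (h : SharpT G Ω 5) (hk : 5 ≤ Nat.card Ω) :
    Nat.card Ω = 5 ∨ Nat.card Ω = 6 ∨ Nat.card Ω = 7 ∨ Nat.card Ω = 12 := by
  have := h.degree_succ hk (fun n => n = 4 ∨ n = 5 ∨ n = 6 ∨ n = 11) fun a h1 h2 => deg4 h1 h2
  omega

theorem degk.{u, v} (k : ℕ) : ∀ (G : Type u) (Ω : Type v) [Group G] [MulAction G Ω] [Finite Ω],
    SharpT G Ω (k + 6) → k + 6 ≤ Nat.card Ω →
    Nat.card Ω = k + 6 ∨ Nat.card Ω = k + 6 + 1 ∨ Nat.card Ω = k + 6 + 2 := by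
  induction k with
  | zero =>
    intro G Ω _ _ _ h hk
    have := h.degree_succ hk (fun n => n = 5 ∨ n = 6 ∨ n = 7 ∨ n = 12) fun a h1 h2 => deg5 h1 h2
    have h13 := h.six_ne_thirteen
    omega
  | succ k ih =>
    intro G Ω _ _ _ h hk
    have := SharpT.degree_succ (k := k + 6) h hk
      (fun n => n = k + 6 ∨ n = k + 6 + 1 ∨ n = k + 6 + 2) fun a h1 h2 => ih _ _ h1 h2
    omega

end H76.Tits4
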