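import Cfsg.Agent.H76.U4Fam

/-! U4 tower: `JobOb`, `JobOc`. -/

set_option autoImplicit false

open Subgroup H90.RF H92 Cfsg H28.U4
open H90.U5 (BF)

universe v

namespace H76.U4O

variable {K : Type*} [Field K] [Finite K] {T : BF K} {p : ℕ} {Y : Subgroup (Equiv.Perm (Co T))}

theorem fam' (F : Fam T Y) {ι : Type*} [Finite ι] (f : ι → Equiv.Perm (Co T)) (I X : Subgroup (Co T))
    (r : ℕ) (hn : 2 ≤ Nat.card ι) (hY : ∀ i, f i ∈ Y)
    (hp : ∀ i j, i ≠ j → ¬ PZ T ⇑((f i)⁻¹ * f j) ∧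
      ∀ v, ((f i)⁻¹ v ∈ sZ T ∧ (f j)⁻¹ v ∈ sZ T) ↔ v ∈ I)
    (hX : ∀ i, ∀ w ∈ sD T, f i w ∈ X) (hr : r * Nat.card I = Nat.card T.κ)
    (hc : Nat.card X = r * Nat.card T.κ ^ 3) : Nat.card ι ≤ r * (Nat.card T.κ + 1) := by
  classical
  have := Fintype.ofFinite ι
  have inj : Function.Injective f := fun i j e => by_contra fun h =>
    (hp i j h).1 (by rw [e, inv_mul_cancel]; exact pz_one)
  have e : (Finset.univ.image f).card = Nat.card ι := by
    rw [Finset.card_image_of_injective _ inj, Nat.card_eq_fintype_card, Finset.card_univ]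
  rw [← e] at hn ⊢
  refine F _ I X r hn ?_ ?_ ?_ hr hc <;> simp only [Finset.forall_mem_image, Finset.mem_univ,
    forall_const]
  · exact hY
  · exact fun i j h => hp i j fun k => h (congrArg f k)
  · exact hX

theorem mover_ux {α : Equiv.Perm (Co T)} (m : ¬ PZ T α) (t : K) : ¬ PZ T ⇑(ux T t * α) :=
  fun k => m ((pz_ux t).of_mul_left k)

theorem ux_ux (α β : Equiv.Perm (Co T)) (s t : K) :
    (ux T s * α)⁻¹ * (ux T t * β) = α⁻¹ * ux T (-s + t) * β := by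
  rw [ux_add, ux_neg]; group

theorem mover_symm {g h : Equiv.Perm (Co T)} (m : ¬ PZ T ⇑(g⁻¹ * h)) : ¬ PZ T ⇑(h⁻¹ * g) :=
  fun k => m (by simpa using k.inv)

theorem ux_inv_Z (α : Equiv.Perm (Co T)) (t : K) {v : Co T} (hv : v ∈ sZ T) :
    (ux T t * α)⁻¹ v = α⁻¹ v := by
  rw [mul_inv_rev, Equiv.Perm.mul_apply, ← ux_neg, ux_Z _ hv]

theorem jobOb : JobOb.{v} := by
  intro p _ K _ _ _ T Y s ti o F β hβ
  have l := s.lg
  refine or_iff_not_imp_left.2 fun mβ => ?_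
  obtain ⟨⟨α, hα⟩, mα, hmax⟩ := Set.exists_max_image {α : Y | ¬ PZ T α.1}
    (fun α => Nat.card ↥(sZ T ⊓ im l α.2 Z_le_A)) (Set.toFinite _) ⟨⟨β, hβ⟩, mβ⟩
  replace mα : ¬ PZ T α := mα
  obtain ⟨r, hr⟩ := card_dvd_of_le (inf_le_left : sZ T ⊓ im l hα Z_le_A ≤ sZ T)
  rw [card_Z, mul_comm] at hr
  have hq := one_lt_κ (T := T)
  have hi : 0 < Nat.card ↥(sZ T ⊓ im l hα Z_le_A) := Nat.card_pos
  have cO : Nat.card (Option K) = Nat.card T.κ ^ 2 + 1 := by rw [Finite.card_option, card_K (T := T)]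
  have hY : ∀ t, ux T t * α ∈ Y := fun t => mul_mem (s.ux_mem t) hα
  have one : ∀ t v, (v ∈ sZ T ∧ (ux T t * α)⁻¹ v ∈ sZ T) ↔ v ∈ sZ T ⊓ im l hα Z_le_A := fun t v =>
    and_congr_right fun hv => by rw [ux_inv_Z α t hv]; rfl
  have hDX : sD T ≤ im l hα D_le_A ⊔ sZ T := (D_le l o hα).trans (sup_le_sup_right inf_le_right _)
  have key := fam' F (fun i : Option K => i.elim 1 fun t => ux T t * α) (sZ T ⊓ im l hα Z_le_A)
    (im l hα D_le_A ⊔ sZ T) r (by rw [cO]; nlinarith) ?_ ?_ ?_ hr.symm ?_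
  · have h1 : Nat.card ↥(sZ T ⊓ im l hα Z_le_A) ≤ 1 := by
      by_contra h2
      rw [cO] at key
      have : r * 2 ≤ Nat.card T.κ := hr ▸ Nat.mul_le_mul_left r (by omega)
      nlinarith
    have h2 := (card_le_one_iff_eq_bot _).1 ((hmax ⟨β, hβ⟩ mβ).trans h1)
    intro z hz hD
    have h3 : β z ∈ sZ T ⊓ im l hβ Z_le_A :=
      mem_inf.2 ⟨(o β hβ).1 z hz hD, by rw [mem_im, ia]; exact hz⟩
    rw [h2] at h3
    exact (l.au β hβ).inj z hz.1 h3
  · rintro (_ | t)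
    exacts [one_mem _, hY t]
  · rintro (_ | s') (_ | t) h
    · exact absurd rfl h
    · exact ⟨by simpa using mover_ux mα t, one t⟩
    · exact ⟨mover_symm (by simpa using mover_ux mα s'), fun v => and_comm.trans (one s' v)⟩
    · have m : ¬ PZ T ⇑((ux T s' * α)⁻¹ * (ux T t * α)) := by
        rw [ux_ux]
        exact ti.mover s hα mα fun e => h (congrArg some (neg_add_eq_zero.1 e))
      refine ⟨m, fun v => ?_⟩
      have e := eq_of_le_of_card_ge (H := sZ T ⊓ im l hα Z_le_A)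
        (K := im l (hY s') Z_le_A ⊓ im l (hY t) Z_le_A)
        (fun v hv => ⟨((one s' v).2 hv).2, ((one t v).2 hv).2⟩) (by
          rw [card_pair]; exact hmax ⟨_, mul_mem (inv_mem (hY s')) (hY t)⟩ m)
      rw [e]; rfl
  · rintro (_ | t) w hw
    · exact hDX hw
    · show ux T t (α w) ∈ _
      rw [ux_apply t ((l.au α hα).mem w hw.1), conj_eq_cm]
      exact mul_mem (mem_sup_left (by rw [mem_im, ia]; exact hw)) (hDX (cm_D _ _))
  · have e := card_sup (sZ T) (im l hα D_le_A)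
    rw [inf_eq l o hα, card_im, card_D, card_Z] at e
    refine Nat.eq_of_mul_eq_mul_right hi (e.trans ?_)
    nth_rewrite 1 [hr]
    ring

theorem jobOc : JobOc.{v} := by
  intro p _ K _ _ _ T Y s ti ob F α hα β hβ mα mβ
  by_contra hn
  push Not at hn
  have l := s.lg
  have hq := one_lt_κ (T := T)
  have cO : Nat.card (Option (K ⊕ K)) = Nat.card T.κ ^ 2 + Nat.card T.κ ^ 2 + 1 := by
    rw [Finite.card_option, Nat.card_sum, card_K (T := T)]
  let f : Option (K ⊕ K) → Equiv.Perm (Co T) := fun i =>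
    i.elim 1 (Sum.elim (fun t => ux T t * α) fun t => ux T t * β)
  have hY : ∀ i, f i ∈ Y := by
    rintro (_ | t | t)
    exacts [one_mem _, mul_mem (s.ux_mem t) hα, mul_mem (s.ux_mem t) hβ]
  have hm : ∀ i j, i ≠ j → ¬ PZ T ⇑((f i)⁻¹ * f j) := by
    have h1 : ∀ j, ¬ PZ T ⇑((f none)⁻¹ * f (some j)) := by
      rintro (t | t)
      exacts [by simpa [f] using mover_ux mα t, by simpa [f] using mover_ux mβ t]
    have h2 : ∀ s' t, ¬ PZ T ⇑((f (some (.inl s')))⁻¹ * f (some (.inr t))) := fun s' t => by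
      show ¬ PZ T ⇑((ux T s' * α)⁻¹ * (ux T t * β))
      rw [ux_ux]; exact hn _
    have h3 : ∀ γ ∈ Y, ¬ PZ T γ → ∀ s' t, s' ≠ t → ¬ PZ T ⇑((ux T s' * γ)⁻¹ * (ux T t * γ)) :=
      fun γ hγ m s' t h => by
        rw [ux_ux]; exact ti.mover s hγ m fun e => h (neg_add_eq_zero.1 e)
    rintro (_ | s' | s') (_ | t | t) h
    exacts [absurd rfl h, h1 _, h1 _, mover_symm (h1 _), h3 α hα mα _ _ fun e => h (by rw [e]), h2 _ _,
      mover_symm (h1 _), mover_symm (h2 _ _), h3 β hβ mβ _ _ fun e => h (by rw [e])]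
  have key := fam' F f ⊥ (sA T) (Nat.card T.κ) (by rw [cO]; nlinarith) hY
    (fun i j h => ⟨hm i j h, fun v => ⟨fun hv => ?_, fun hv => ?_⟩⟩)
    (fun i w hw => (l.au _ (hY i)).mem w hw.1) (by rw [card_bot, mul_one]) card_A
  · rw [cO] at key; nlinarith
  · have := (ob _ (mul_mem (inv_mem (hY i)) (hY j))).resolve_left (hm i j h) _ hv.2 (by
      rw [Equiv.Perm.mul_apply, ai]; exact Z_le hv.1)
    rw [mem_bot, ← ai (f j) v, this, (l.au _ (hY j)).one]
  · rw [mem_bot.1 hv, (l.au _ (inv_mem (hY i))).one, (l.au _ (inv_mem (hY j))).one]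
    exact ⟨one_mem _, one_mem _⟩

end H76.U4O
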