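import Cfsg.Agent.Base
import Cfsg.Agent.H91.VCSpec
import Cfsg.Agent.H33.SolvMain

/-! VC tower: the jobs IMD, ODC, KER. -/

set_option autoImplicit false

namespace H76.VC

open H33.Solv H91.VC Subgroup MulAction
open scoped commutatorElement

theorem jobIMD : JobIMD := by
  intro G V _ _ _ _ _ _ e H m
  classical
  have hfix : ∀ x : e.range, e x = x := by rintro ⟨_, v, rfl⟩; exact m.idem v
  refine ⟨?_, fun a b ha hb x hx v => ?_⟩
  · have := Fintype.ofFinite (G ⧸ H)
    have comp : ∀ (w : G ⧸ H → e.range) (ω : G ⧸ H),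
        e (ω.out⁻¹ • ∑ ω' : G ⧸ H, ω'.out • (w ω' : V)) = w ω := fun w ω => by
      rw [Finset.smul_sum, map_sum, Finset.sum_eq_single ω (fun ω' _ hne => ?_) (by simp),
        inv_smul_smul, hfix]
      rw [← mul_smul, ← hfix]
      refine m.orth _ (fun h => hne ?_) _
      rw [← ω.out_eq, ← ω'.out_eq]
      exact (QuotientGroup.eq.2 h).symm
    rw [index, ← Nat.card_fun]
    exact Nat.card_le_card_of_injective (fun w : G ⧸ H → e.range => ∑ ω : G ⧸ H, ω.out • (w ω : V))
      fun w w' h => funext fun ω => Subtype.ext (by rw [← comp, ← comp w']; exact congrArg _ (congrArg _ h))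
  rw [ds_add] at hx
  refine (closure_eq_top (U := fix V x) m.irr (B := e.range)
    (fun h => m.ne (AddMonoidHom.range_eq_bot_iff.1 h)) fun g w hw => ?_).ge (AddSubgroup.mem_top v)
  have h1 := mem_ds_conj (Y := H) g⁻¹
    (fun y hy => hb ((inferInstance : (ds (⊤ : Subgroup G) b).Normal).conj_mem y hy g⁻¹)) hx
  rw [← ds_sub] at h1
  obtain ⟨y, hy, h2⟩ := h1
  have h3 : (y : G) • w = w := congrArg Subtype.val (ha y hy ⟨w, hw⟩)
  change x • g • w = g • w
  rw [show (y : G) = g⁻¹ * x * g⁻¹⁻¹ from h2, inv_inv, mul_smul, mul_smul, inv_smul_eq_iff] at h3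
  exact h3

theorem jobODC : JobODC := by
  intro G _ _ H hs hH ho
  obtain ⟨χ, c1, c2, c3⟩ := col_of_aff hs hH (c := 2) fun K M _ _ _ _ _ _ _ hK e1 e2 _ hi =>
    aff_odd (ho.of_dvd_nat e1) (ho.of_dvd_nat e2) (base_odd hK (ho.of_dvd_nat e1) hi.cr)
  let ψ : G ⧸ H → ℕ := fun ω => χ ω.out
  have hψ : ∀ g : G, ψ g = χ g := fun g => by
    obtain ⟨h, e⟩ := QuotientGroup.mk_out_eq_mul H g
    exact (congrArg χ e).trans (c2 g h h.2)
  have h2 : ∀ x, ψ x < 2 := fun x => c1 _
  have ht : ∀ g : G, (∀ x, ψ (g • x) = ψ x) → ∀ x : G ⧸ H, g • x = x := fun g hg x => by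
    induction x using QuotientGroup.induction_on with | H x => ?_
    have h := c3 g (fun y => by rw [← hψ, ← hψ]; exact hg y) x
    exact (QuotientGroup.eq.2 (by simpa [mul_assoc] using h)).symm
  have hn : ∀ g : G, ¬ ∀ x, ψ (g • x) = 1 - ψ x := fun g hg => by
    have h3 := ht (g ^ 2) (fun x => by rw [pow_two, mul_smul, hg, hg]; have := h2 x; omega)
      ((1 : G) : G ⧸ H)
    have h4 : g ∈ stabilizer G ((1 : G) : G ⧸ H) := by
      obtain ⟨k, hk⟩ := ho
      have h5 := pow_card_eq_one' (x := g)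
      rw [hk, pow_succ, pow_mul, mul_eq_one_iff_inv_eq] at h5
      exact h5 ▸ inv_mem (pow_mem h3 k)
    have h5 := hg ((1 : G) : G ⧸ H)
    rw [h4] at h5
    omega
  refine ⟨fun j x => if j = 0 then ψ x else 1 - ψ x, fun j _ => ⟨fun x => ?_, fun g hg => ht g fun x => ?_⟩,
    fun j hj k hk g hg => ?_⟩
  · have := h2 x
    beta_reduce
    split_ifs <;> omega
  · have h3 := hg x
    have := h2 x
    have := h2 (g • x)
    beta_reduce at h3
    split_ifs at h3 <;> omega
  by_contra h
  refine hn g fun x => ?_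
  have h3 := hg x
  have := h2 x
  have := h2 (g • x)
  beta_reduce at h3
  split_ifs at h3 <;> omega

theorem jobKER : JobKER := by
  intro K G V W _ _ _ _ _ _ _ _ _ _ _ _ _ s N π c
  have := c.ns.zn
  have := c.ns.cyc
  refine ⟨commutator_le.2 fun a _ b _ z hz => ?_, fun X hX h g hg => c.ker (hX hg) (h g hg),
    eq_bot_iff.2 (commutator_le.2 fun a ha b hb => ?_), fun v hv => eq_bot_iff.2
      (commutator_le.2 fun a ha b hb => ?_)⟩
  · have e := IsCyclic.mulAutMulEquiv s.ι.range
    have h1 : MulAut.conjNormal (H := s.ι.range) ⁅a, b⁆ = 1 := by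
      rw [map_commutatorElement, ← e.map_eq_one_iff, map_commutatorElement,
        commutatorElement_eq_one_iff_mul_comm, mul_comm]
    have h2 := congrArg (fun f : MulAut s.ι.range => (f ⟨z, hz⟩ : G)) h1
    simp only [MulAut.conjNormal_apply, MulAut.one_apply] at h2
    exact (mul_inv_eq_iff_eq_mul.1 h2).symm
  · exact commutatorElement_eq_one_iff_mul_comm.2
      (c.ns.cent b (ds_le N 1 hb) a (commutator_le.2 c.ns.comm ha))
  · obtain ⟨z, hz⟩ := c.ns.comm a ha.1 b hb.1
    have h1 : ⁅a, b⁆ • v = v := (ds_le (N ⊓ stabilizer G v) 1 (commutator_mem_commutator ha hb)).2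
    rw [← hz, s.smul] at h1
    rw [← hz, show z = 1 from Units.ext (smul_left_injective K hv (h1.trans (one_smul K v).symm)),
      map_one]
    exact one_mem _

end H76.VC
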